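import Mathlib
import Cfsg.Agent.Helper16.D8Core
import Cfsg.Agent.Helper14.S3SC

/-!
# CALL S3716, piece SC: counting side of the class-multiplication formula for two involutions
-/

set_option autoImplicit false

open Cfsg Cfsg.Agent.Helper16 DihedralGroup
open scoped ComplexConjugate

namespace Cfsg.Agent.Helper66

theorem d8_star_count {G : Type*} [Group G] [Fintype G] {φ : WM →* G} (h : D8Cfg φ)
    (hTS : ∀ (v : Fin 5 → ℤ) (f : G → ℂ), IsClassFunction G f → classInner (cfW φ v) f =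
      (1 / 72 : ℂ) * ∑ m : WM, (if wCls m = 0 then 0 else (v (wCls m) : ℂ)) * conj (f (φ m)))
    (v : Fin 5 → ℤ) (u w : G) (hu : u ^ 2 = 1) (hw : w ^ 2 = 1) :
    ∑ x : G, ∑ y : G, cfW φ v (x * u * x⁻¹ * (y * w * y⁻¹)) =
      (Nat.card G : ℂ) / 72 * (Nat.card (Subgroup.centralizer ({u} : Set G)) : ℂ) *
        (Nat.card (Subgroup.centralizer ({w} : Set G)) : ℂ) *
        ∑ p : WM × WM, @ite ℂ (IsConj u (φ p.1) ∧ IsConj w (φ p.2)) (Classical.propDecidable _)
          (if wCls (p.1 * p.2) = 0 then 0 else (v (wCls (p.1 * p.2)) : ℂ)) 0 := by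
  classical
  obtain ⟨cu, hcu⟩ : ∃ c : ℂ, c = (Nat.card (Subgroup.centralizer ({u} : Set G)) : ℂ) := ⟨_, rfl⟩
  obtain ⟨cw, hcw⟩ : ∃ c : ℂ, c = (Nat.card (Subgroup.centralizer ({w} : Set G)) : ℂ) := ⟨_, rfl⟩
  rw [← hcu, ← hcw]
  have hA : ∑ x : G, ∑ y : G, cfW φ v (x * u * x⁻¹ * (y * w * y⁻¹))
      = cu * cw * ∑ a : G, ∑ b : G,
          (if IsConj u a ∧ IsConj w b then cfW φ v (a * b) else 0) := by
    have h1 : ∀ x : G, ∑ y : G, cfW φ v (x * u * x⁻¹ * (y * w * y⁻¹))
        = cw * ∑ b : G, (if IsConj w b then cfW φ v (x * u * x⁻¹ * b) else 0) := by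
      intro x
      rw [hcw]
      exact Cfsg.Agent.Helper14.s3_class_sum w (fun b => cfW φ v (x * u * x⁻¹ * b))
    rw [Finset.sum_congr rfl (fun x _ => h1 x), ← Finset.mul_sum]
    have h2 := Cfsg.Agent.Helper14.s3_class_sum u
      (fun a => ∑ b : G, (if IsConj w b then cfW φ v (a * b) else 0))
    rw [h2, ← hcu, ← mul_assoc, mul_comm cw cu]
    congr 1
    refine Finset.sum_congr rfl fun a _ => ?_
    by_cases ha : IsConj u a
    · rw [if_pos ha]
      refine Finset.sum_congr rfl fun b _ => ?_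
      exact if_congr ⟨fun hb => ⟨ha, hb⟩, fun hh => hh.2⟩ rfl rfl
    · rw [if_neg ha]
      symm
      apply Finset.sum_eq_zero
      intro b _
      rw [if_neg (fun hh => ha hh.1)]
  obtain ⟨F, hF⟩ : ∃ F : G → ℂ, F = fun g =>
      ∑ a : G, (if IsConj u a ∧ IsConj w (a⁻¹ * g) then (1 : ℂ) else 0) := ⟨_, rfl⟩
  have hFconj : ∀ g, conj (F g) = F g := by
    intro g
    rw [hF]
    simp only [map_sum]
    refine Finset.sum_congr rfl fun a _ => ?_
    split_ifs <;> simp
  have hFclass : IsClassFunction G F := by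
    intro g x
    rw [hF]
    simp only
    rw [← Equiv.sum_comp (MulAut.conj x).toEquiv]
    refine Finset.sum_congr rfl fun a _ => ?_
    have e1 : IsConj u ((MulAut.conj x).toEquiv a) ↔ IsConj u a :=
      Cfsg.Agent.Helper14.s3_isConj_conj u a x
    have e2 : IsConj w (((MulAut.conj x).toEquiv a)⁻¹ * (x * g * x⁻¹)) ↔
        IsConj w (a⁻¹ * g) := by
      have h3 : ((MulAut.conj x).toEquiv a)⁻¹ * (x * g * x⁻¹) = x * (a⁻¹ * g) * x⁻¹ := by
        show (x * a * x⁻¹)⁻¹ * (x * g * x⁻¹) = _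
        group
      rw [h3]
      exact Cfsg.Agent.Helper14.s3_isConj_conj w (a⁻¹ * g) x
    simp only [e1, e2]
  have hB : ∑ a : G, ∑ b : G, (if IsConj u a ∧ IsConj w b then cfW φ v (a * b) else 0)
      = ∑ g : G, cfW φ v g * F g := by
    have h1 : ∀ a : G, ∑ b : G, (if IsConj u a ∧ IsConj w b then cfW φ v (a * b) else 0)
        = ∑ g : G, (if IsConj u a ∧ IsConj w (a⁻¹ * g) then cfW φ v g else 0) := by
      intro a
      rw [← Equiv.sum_comp (Equiv.mulLeft a⁻¹)
        (fun b => if IsConj u a ∧ IsConj w b then cfW φ v (a * b) else 0)]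
      refine Finset.sum_congr rfl fun g _ => ?_
      simp only [Equiv.coe_mulLeft, mul_inv_cancel_left]
    rw [Finset.sum_congr rfl (fun a _ => h1 a), Finset.sum_comm]
    refine Finset.sum_congr rfl fun g _ => ?_
    rw [hF]
    simp only
    rw [Finset.mul_sum]
    refine Finset.sum_congr rfl fun a _ => ?_
    split_ifs <;> simp
  have hC : ∑ g : G, cfW φ v g * F g = (Nat.card G : ℂ) / 72 *
      ∑ m : WM, (if wCls m = 0 then 0 else (v (wCls m) : ℂ)) * F (φ m) := by
    have h1 := hTS v F hFclass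
    unfold classInner at h1
    simp only [hFconj] at h1
    have hne : (Nat.card G : ℂ) ≠ 0 := by
      rw [Nat.card_eq_fintype_card]
      exact_mod_cast Fintype.card_ne_zero
    calc ∑ g : G, cfW φ v g * F g
        = (Nat.card G : ℂ) * ((Nat.card G : ℂ)⁻¹ * ∑ g : G, cfW φ v g * F g) := by
          rw [← mul_assoc, mul_inv_cancel₀ hne, one_mul]
      _ = _ := by rw [h1]; ring
  have hD : ∑ m : WM, (if wCls m = 0 then 0 else (v (wCls m) : ℂ)) * F (φ m)
      = ∑ p : WM × WM, (if IsConj u (φ p.1) ∧ IsConj w (φ p.2) then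
          (if wCls (p.1 * p.2) = 0 then 0 else (v (wCls (p.1 * p.2)) : ℂ)) else 0) := by
    have h1 : ∀ m : WM, (if wCls m = 0 then 0 else (v (wCls m) : ℂ)) * F (φ m) = ∑ n₁ : WM,
        (if IsConj u (φ n₁) ∧ IsConj w (φ (n₁⁻¹ * m)) then
          (if wCls m = 0 then 0 else (v (wCls m) : ℂ)) else 0) := by
      intro m
      by_cases hm' : wCls m = 0
      · rw [if_pos hm', zero_mul]
        symm
        apply Finset.sum_eq_zero
        intro n₁ _
        split_ifs <;> rfl
      · have hm4 : m ^ 4 ≠ 1 := (wCls_ne_zero_iff m).mp hm'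
        rw [if_neg hm']
        have hFm : F (φ m) = ∑ n₁ : WM,
            (if IsConj u (φ n₁) ∧ IsConj w (φ (n₁⁻¹ * m)) then (1 : ℂ) else 0) := by
          rw [hF]
          symm
          apply Fintype.sum_of_injective φ h.inj
          · intro a ha
            rw [if_neg]
            rintro ⟨h1, h2⟩
            apply ha
            have ha2 : a ^ 2 = 1 := Cfsg.Agent.Helper14.s3_sq_of_isConj hu h1
            have hb2 : (a⁻¹ * φ m) ^ 2 = 1 := Cfsg.Agent.Helper14.s3_sq_of_isConj hw h2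
            exact (h.mem_range_of_mul ha2 hb2 hm4 (by group : a * (a⁻¹ * φ m) = φ m)).1
          · intro n₁
            simp only [map_mul, map_inv]
        rw [hFm, Finset.mul_sum]
        refine Finset.sum_congr rfl fun n₁ _ => ?_
        split_ifs <;> simp
    rw [Finset.sum_congr rfl (fun m _ => h1 m)]
    conv_rhs => rw [Fintype.sum_prod_type]
    conv_lhs => rw [Finset.sum_comm]
    refine Finset.sum_congr rfl fun n₁ _ => ?_
    rw [← Equiv.sum_comp (Equiv.mulLeft n₁)]
    refine Finset.sum_congr rfl fun n₂ _ => ?_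
    simp only [Equiv.coe_mulLeft, inv_mul_cancel_left]
    exact if_congr Iff.rfl rfl rfl
  have hE : ∑ p : WM × WM, (if IsConj u (φ p.1) ∧ IsConj w (φ p.2) then
          (if wCls (p.1 * p.2) = 0 then 0 else (v (wCls (p.1 * p.2)) : ℂ)) else 0)
      = ∑ p : WM × WM, @ite ℂ (IsConj u (φ p.1) ∧ IsConj w (φ p.2)) (Classical.propDecidable _)
          (if wCls (p.1 * p.2) = 0 then 0 else (v (wCls (p.1 * p.2)) : ℂ)) 0 := by
    refine Finset.sum_congr rfl fun p _ => ?_
    by_cases hp : IsConj u (φ p.1) ∧ IsConj w (φ p.2)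
    · rw [if_pos hp, if_pos hp]
    · rw [if_neg hp, if_neg hp]
  rw [hA, hB, hC, hD, hE]
  ring

end Cfsg.Agent.Helper66
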