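import Cfsg.Agent.Helper16.S4Defs2

/-! CALL S3702, piece CORE: the model facts about `J` (by `decide +kernel`). -/

set_option autoImplicit false

namespace Cfsg.Agent.Helper66

open Cfsg DihedralGroup Cfsg.Agent.Helper16

theorem s4c66_card : Fintype.card SM = 648 := by decide +kernel

theorem s4c66_J_one : sJ 1 := by decide +kernel

theorem s4c66_J_pow3 : ∀ a : SM, sJ a → a ^ 3 = 1 := by decide +kernel

theorem s4c66_J_inv : ∀ a : SM, sJ a → sJ a⁻¹ := by decide +kernel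

theorem s4c66_J_mul : ∀ a : SM, sJ a → ∀ b : SM, sJ b → sJ (a * b) := by decide +kernel

theorem s4c66_J_conj : ∀ a : SM, sJ a → ∀ s : SM, sJ (s * a * s⁻¹) := by decide +kernel

theorem s4c66_pcore : ∀ m : SM, ¬ sJ m → (((m ^ 3) ^ 3) ^ 3) ^ 3 ≠ 1 ∨
    ((((m⁻¹ * (sa * m * sa⁻¹)) ^ 3) ^ 3) ^ 3) ^ 3 ≠ 1 := by decide +kernel

end Cfsg.Agent.Helper66
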