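import Cfsg.Agent.Helper66.Schur
import Mathlib.GroupTheory.SpecificGroups.Quaternion
import Mathlib.Data.ZMod.QuotientGroup

set_option autoImplicit false

namespace Cfsg.Agent.Helper66

open Subgroup
open scoped commutatorElement

universe u

/-- If `Γ` is generated by `S` and `N` is a normal subgroup containing all commutators of
elements of `S`, then `N` contains the commutator subgroup. -/
theorem commutator_le_of_closure_eq_top {Γ : Type*} [Group Γ] (S : Set Γ)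
    (hS : closure S = ⊤) (N : Subgroup Γ) [hN : N.Normal]
    (h : ∀ s ∈ S, ∀ t ∈ S, ⁅s, t⁆ ∈ N) : commutator Γ ≤ N := by
  rw [_root_.commutator_def, Subgroup.commutator_le]
  have key : ∀ x ∈ closure S, ∀ y ∈ closure S, ⁅x, y⁆ ∈ N := by
    intro x hx y hy
    induction hx, hy using closure_induction₂ with
    | mem x y hx hy => exact h x hx y hy
    | one_left x hx => simp
    | one_right x hx => simp
    | mul_left x y z hx hy hz h1 h2 =>
        have : ⁅x * y, z⁆ = x * ⁅y, z⁆ * x⁻¹ * ⁅x, z⁆ := by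
          simp [commutatorElement_def, mul_assoc]
        rw [this]
        exact N.mul_mem (hN.conj_mem _ h2 x) h1
    | mul_right y z x hy hz hx h1 h2 =>
        have : ⁅x, y * z⁆ = ⁅x, y⁆ * (y * ⁅x, z⁆ * y⁻¹) := by
          simp [commutatorElement_def, mul_assoc]
        rw [this]
        exact N.mul_mem h1 (hN.conj_mem _ h2 y)
    | inv_left x y hx hy h1 =>
        rw [commutatorElement_inv_left]
        have h3 : ⁅y, x⁆ ∈ N := by rw [← commutatorElement_inv]; exact N.inv_mem h1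
        simpa using hN.conj_mem _ h3 x⁻¹
    | inv_right x y hx hy h1 =>
        rw [commutatorElement_inv_right]
        have h3 : ⁅y, x⁆ ∈ N := by rw [← commutatorElement_inv]; exact N.inv_mem h1
        simpa using hN.conj_mem _ h3 y⁻¹
  intro x _ y _
  exact key x (hS ▸ mem_top x) y (hS ▸ mem_top y)

/-- If `Γ` is generated by `S` and every element of `S` conjugates `c` to `c` or `c⁻¹`,
then the cyclic subgroup generated by `c` is normal. -/
theorem zpowers_normal_of_closure_eq_top {Γ : Type*} [Group Γ] (S : Set Γ)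
    (hS : closure S = ⊤) (c : Γ)
    (h : ∀ s ∈ S, s * c * s⁻¹ = c ∨ s * c * s⁻¹ = c⁻¹) : (zpowers c).Normal := by
  rw [← normalizer_eq_top_iff, eq_top_iff, ← hS, closure_le]
  intro s hs
  have h' : s⁻¹ * c * s = c ∨ s⁻¹ * c * s = c⁻¹ := by
    rcases h s hs with h1 | h1
    · left
      calc s⁻¹ * c * s = s⁻¹ * (s * c * s⁻¹) * s := by rw [h1]
        _ = c := by group
    · right
      calc s⁻¹ * c * s = (s⁻¹ * c⁻¹ * s)⁻¹ := by group
        _ = (s⁻¹ * (s * c * s⁻¹) * s)⁻¹ := by rw [h1]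
        _ = c⁻¹ := by group
  rw [SetLike.mem_coe, mem_set_normalizer_iff]
  intro x
  constructor
  · intro hx
    obtain ⟨k, rfl⟩ := mem_zpowers_iff.mp hx
    show s * c ^ k * s⁻¹ ∈ zpowers c
    rw [← conj_zpow]
    rcases h s hs with h1 | h1 <;> rw [h1]
    · exact zpow_mem_zpowers c k
    · exact zpow_mem (inv_mem (mem_zpowers c)) k
  · intro hx
    obtain ⟨k, hk⟩ := mem_zpowers_iff.mp hx
    have hx' : x = s⁻¹ * c ^ k * s := by rw [hk]; group
    have : x = (s⁻¹ * c * s) ^ k := by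
      rw [hx']
      have := conj_zpow (a := s⁻¹) (b := c) (i := k)
      rw [inv_inv] at this
      exact this.symm
    show x ∈ zpowers c
    rw [this]
    rcases h' with h1 | h1 <;> rw [h1]
    · exact zpow_mem_zpowers c k
    · exact zpow_mem (inv_mem (mem_zpowers c)) k

/-- Structure of a stem extension of a group generated by two elements, one inverting the other:
the kernel lies in the cyclic group generated by the commutator of the lifts. -/
theorem ker_le_zpowers_commutator {Γ : Type*} {G : Type*} [Group Γ] [Group G] (σ : Γ →* G)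
    (hσ : Cfsg.IsStemExtension σ) (α ξ : Γ)
    (hgen : closure ({σ α, σ ξ} : Set G) = ⊤)
    (hinv : σ ξ * σ α * (σ ξ)⁻¹ = (σ α)⁻¹) :
    σ.ker ≤ zpowers ⁅ξ, α⁆ := by
  obtain ⟨hsurj, hcen, hder⟩ := hσ
  set S : Set Γ := {α, ξ} ∪ (σ.ker : Set Γ) with hSdef
  -- S generates
  have hS : closure S = ⊤ := by
    rw [eq_top_iff]
    intro g _
    have hg : σ g ∈ closure ({σ α, σ ξ} : Set G) := hgen ▸ mem_top _
    have himg : ({σ α, σ ξ} : Set G) = σ '' ({α, ξ} : Set Γ) := by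
      simp [Set.image_pair]
    rw [himg, ← MonoidHom.map_closure] at hg
    obtain ⟨h, hh, hhg⟩ := hg
    have hk : g * h⁻¹ ∈ σ.ker := by
      rw [MonoidHom.mem_ker, map_mul, map_inv, hhg, mul_inv_cancel]
    have h1 : g * h⁻¹ ∈ closure S := subset_closure (Or.inr hk)
    have h2 : h ∈ closure S := closure_mono Set.subset_union_left hh
    have : g = g * h⁻¹ * h := by group
    rw [this]
    exact mul_mem h1 h2
  -- the central element z
  obtain ⟨z, hz⟩ : ∃ z : Γ, z = ξ * α * ξ⁻¹ * α := ⟨_, rfl⟩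
  have hzker : z ∈ σ.ker := by
    rw [MonoidHom.mem_ker, hz, map_mul, map_mul, map_mul, map_inv, hinv, inv_mul_cancel]
  have hzc : ∀ g : Γ, g * z = z * g := fun g => (Subgroup.mem_center_iff.mp (hcen hzker)) g
  have hcz : ⁅ξ, α⁆ = z * α⁻¹ * α⁻¹ := by
    rw [commutatorElement_def, hz]; group
  have hconj : ∀ s ∈ S, s * ⁅ξ, α⁆ * s⁻¹ = ⁅ξ, α⁆ ∨ s * ⁅ξ, α⁆ * s⁻¹ = ⁅ξ, α⁆⁻¹ := by
    intro s hs
    rcases hs with (hs | hs) | hs
    · left
      rw [hs, hcz]
      calc α * (z * α⁻¹ * α⁻¹) * α⁻¹ = (α * z) * α⁻¹ * α⁻¹ * α⁻¹ := by group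
        _ = (z * α) * α⁻¹ * α⁻¹ * α⁻¹ := by rw [hzc α]
        _ = z * α⁻¹ * α⁻¹ := by group
    · right
      rw [hs]
      have h1 : ξ * α⁻¹ * ξ⁻¹ = z⁻¹ * α := by
        have : ξ * α * ξ⁻¹ = z * α⁻¹ := by rw [hz]; group
        calc ξ * α⁻¹ * ξ⁻¹ = (ξ * α * ξ⁻¹)⁻¹ := by group
          _ = (z * α⁻¹)⁻¹ := by rw [this]
          _ = α * z⁻¹ := by group
          _ = z⁻¹ * (z * α) * z⁻¹ := by group
          _ = z⁻¹ * (α * z) * z⁻¹ := by rw [hzc α]
          _ = z⁻¹ * α := by group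
      have h2 : ξ * z * ξ⁻¹ = z := by rw [hzc ξ]; group
      rw [hcz]
      calc ξ * (z * α⁻¹ * α⁻¹) * ξ⁻¹ = (ξ * z * ξ⁻¹) * (ξ * α⁻¹ * ξ⁻¹) * (ξ * α⁻¹ * ξ⁻¹) := by group
        _ = z * (z⁻¹ * α) * (z⁻¹ * α) := by rw [h1, h2]
        _ = α * z⁻¹ * α := by group
        _ = α * (z⁻¹ * (α * z) * z⁻¹) := by group
        _ = α * (z⁻¹ * (z * α) * z⁻¹) := by rw [hzc α]
        _ = α * α * z⁻¹ := by simp [mul_assoc]
        _ = (z * α⁻¹ * α⁻¹)⁻¹ := by simp [mul_assoc]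
    · left
      have hsc : ∀ g : Γ, g * s = s * g := fun g => (Subgroup.mem_center_iff.mp (hcen hs)) g
      rw [← hsc]; group
  have hN : (zpowers ⁅ξ, α⁆).Normal := zpowers_normal_of_closure_eq_top S hS _ hconj
  refine hder.trans (commutator_le_of_closure_eq_top S hS _ ?_)
  intro s hs t ht
  have hcentral : ∀ w ∈ (σ.ker : Set Γ), ∀ g : Γ, ⁅w, g⁆ = 1 ∧ ⁅g, w⁆ = 1 := by
    intro w hw g
    have hwc : ∀ g : Γ, g * w = w * g := fun g => (Subgroup.mem_center_iff.mp (hcen hw)) g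
    constructor
    · rw [commutatorElement_eq_one_iff_mul_comm]; exact (hwc g).symm
    · rw [commutatorElement_eq_one_iff_mul_comm]; exact hwc g
  rcases hs with (hs | hs) | hs
  · rcases ht with (ht | ht) | ht
    · rw [hs, ht, commutatorElement_self]; exact one_mem _
    · rw [hs, ht, ← commutatorElement_inv ξ α]; exact inv_mem (mem_zpowers _)
    · rw [(hcentral t ht s).2]; exact one_mem _
  · rcases ht with (ht | ht) | ht
    · rw [hs, ht]; exact mem_zpowers _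
    · rw [hs, ht, commutatorElement_self]; exact one_mem _
    · rw [(hcentral t ht s).2]; exact one_mem _
  · rw [(hcentral s hs t).1]; exact one_mem _

/-- In the situation of `ker_le_zpowers_commutator`, if `ξ` commutes with `α ^ n` then the
commutator has order dividing `n`. -/
theorem commutator_pow_eq_one {Γ : Type*} {G : Type*} [Group Γ] [Group G] (σ : Γ →* G)
    (hσ : Cfsg.IsStemExtension σ) (α ξ : Γ)
    (hinv : σ ξ * σ α * (σ ξ)⁻¹ = (σ α)⁻¹) (n : ℕ) (hcomm : ξ * α ^ n = α ^ n * ξ) :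
    ⁅ξ, α⁆ ^ n = 1 := by
  obtain ⟨hsurj, hcen, hder⟩ := hσ
  obtain ⟨z, hz⟩ : ∃ z : Γ, z = ξ * α * ξ⁻¹ * α := ⟨_, rfl⟩
  have hzker : z ∈ σ.ker := by
    rw [MonoidHom.mem_ker, hz, map_mul, map_mul, map_mul, map_inv, hinv, inv_mul_cancel]
  have hzc : Commute z α := ((Subgroup.mem_center_iff.mp (hcen hzker)) α).symm
  have hcz : ⁅ξ, α⁆ = z * (α⁻¹ * α⁻¹) := by
    rw [commutatorElement_def, hz]; group
  have hc1 : Commute z (α⁻¹ * α⁻¹) := (hzc.inv_right).mul_right (hzc.inv_right)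
  have h1 : ξ * α ^ n * ξ⁻¹ = z ^ n * (α⁻¹) ^ n := by
    rw [← conj_pow]
    have : ξ * α * ξ⁻¹ = z * α⁻¹ := by rw [hz]; group
    rw [this, (hzc.inv_right).mul_pow]
  have h2 : ξ * α ^ n * ξ⁻¹ = α ^ n := by rw [hcomm]; group
  rw [hcz, hc1.mul_pow]
  have h3 : z ^ n = α ^ n * α ^ n := by
    have : z ^ n * (α⁻¹) ^ n = α ^ n := h1.symm.trans h2
    calc z ^ n = z ^ n * (α⁻¹) ^ n * α ^ n := by rw [inv_pow]; group
      _ = α ^ n * α ^ n := by rw [this]
  rw [h3, (Commute.refl α⁻¹).mul_pow, inv_pow]; group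

/-- A group with at most two elements is a quotient of `ZMod 2`. -/
theorem exists_surjective_zmod_two {K : Type*} [Group K] [Finite K] (hK : Nat.card K ≤ 2) :
    ∃ π : Multiplicative (ZMod 2) →* K, Function.Surjective π := by
  have hpos : 0 < Nat.card K := Nat.card_pos
  rcases (show Nat.card K = 1 ∨ Nat.card K = 2 by omega) with h1 | h2
  · have : Subsingleton K := (Nat.card_eq_one_iff_unique.mp h1).1
    exact ⟨1, fun y => ⟨1, Subsingleton.elim _ _⟩⟩
  · have : Fact (Nat.Prime 2) := ⟨Nat.prime_two⟩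
    have hcyc : IsCyclic K := isCyclic_of_prime_card h2
    obtain ⟨e⟩ : Nonempty (Multiplicative (ZMod 2) ≃* K) := by
      rw [← h2]; exact ⟨zmodCyclicMulEquiv hcyc⟩
    exact ⟨e.toMonoidHom, e.surjective⟩

/-- Main structural statement on stem extensions of dihedral-like groups: if `G` is generated by
`a` and `x` with `a * x * a = x` and (`a ^ n = 1` or `a ^ n = x ^ 2`), then the kernel of any
stem extension of `G` consists of powers `c ^ k` of an element `c` with `c ^ n = 1`, where the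
exponents `k` are multiples of the order of `a ^ 2`. -/
theorem stem_dihedral_like {Γ : Type*} {G : Type*} [Group Γ] [Group G] (σ : Γ →* G)
    (hσ : Cfsg.IsStemExtension σ) (a x : G) (hgen : closure ({a, x} : Set G) = ⊤)
    (hinv : a * x * a = x) (n : ℕ) (hn : a ^ n = 1 ∨ a ^ n = x ^ 2) :
    ∃ c : Γ, c ^ n = 1 ∧ ∀ y ∈ σ.ker, ∃ k : ℤ, y = c ^ k ∧ (orderOf (a ^ 2) : ℤ) ∣ k := by
  obtain ⟨α, rfl⟩ := hσ.1 a
  obtain ⟨ξ, rfl⟩ := hσ.1 x
  have hinv' : σ ξ * σ α * (σ ξ)⁻¹ = (σ α)⁻¹ := by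
    have h1 : σ ξ * σ α = (σ α)⁻¹ * σ ξ := by
      calc σ ξ * σ α = (σ α)⁻¹ * (σ α * σ ξ * σ α) := by group
        _ = (σ α)⁻¹ * σ ξ := by rw [hinv]
    rw [h1]; group
  have hle := ker_le_zpowers_commutator σ hσ α ξ hgen hinv'
  have hcomm : ξ * α ^ n = α ^ n * ξ := by
    rcases hn with hn | hn
    · have hk : α ^ n ∈ σ.ker := by rw [MonoidHom.mem_ker, map_pow, hn]
      exact (Subgroup.mem_center_iff.mp (hσ.2.1 hk)) ξ
    · have hw : ξ ^ 2 * (α ^ n)⁻¹ ∈ σ.ker := by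
        rw [MonoidHom.mem_ker, map_mul, map_inv, map_pow, map_pow, hn, mul_inv_cancel]
      have hwc : Commute ξ (ξ ^ 2 * (α ^ n)⁻¹) :=
        ((Subgroup.mem_center_iff.mp (hσ.2.1 hw)) ξ)
      have h2 : Commute ξ ((ξ ^ 2 * (α ^ n)⁻¹)⁻¹ * ξ ^ 2) :=
        (hwc.inv_right).mul_right ((Commute.refl ξ).pow_right 2)
      have h3 : (ξ ^ 2 * (α ^ n)⁻¹)⁻¹ * ξ ^ 2 = α ^ n := by group
      rw [h3] at h2
      exact h2
  refine ⟨⁅ξ, α⁆, commutator_pow_eq_one σ hσ α ξ hinv' n hcomm, ?_⟩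
  intro y hy
  obtain ⟨k, rfl⟩ := mem_zpowers_iff.mp (hle hy)
  refine ⟨k, rfl, ?_⟩
  have h1 : σ ⁅ξ, α⁆ = ((σ α) ^ 2)⁻¹ := by
    rw [map_commutatorElement, commutatorElement_def, hinv']; group
  have h2 : (σ ⁅ξ, α⁆) ^ k = 1 := by
    rw [← map_zpow]; exact MonoidHom.mem_ker.mp hy
  rw [h1, inv_zpow, inv_eq_one] at h2
  exact orderOf_dvd_iff_zpow_eq_one.mpr h2

/-- Dihedral-like stem extensions with `orderOf (a ^ 2) = n` are trivial. -/
theorem stem_dihedral_like_ker_eq_bot {Γ : Type*} {G : Type*} [Group Γ] [Group G] (σ : Γ →* G)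
    (hσ : Cfsg.IsStemExtension σ) (a x : G) (hgen : closure ({a, x} : Set G) = ⊤)
    (hinv : a * x * a = x) (n : ℕ) (hn : a ^ n = 1 ∨ a ^ n = x ^ 2)
    (hord : orderOf (a ^ 2) = n) : σ.ker = ⊥ := by
  obtain ⟨c, hc, h⟩ := stem_dihedral_like σ hσ a x hgen hinv n hn
  rw [eq_bot_iff]
  intro y hy
  obtain ⟨k, rfl, hk⟩ := h y hy
  rw [hord] at hk
  obtain ⟨j, rfl⟩ := hk
  rw [Subgroup.mem_bot, zpow_mul, zpow_natCast, hc, one_zpow]

/-- Dihedral-like stem extensions with `n = 2 * orderOf (a ^ 2)` have kernel of order at most 2. -/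
theorem stem_dihedral_like_card_ker_le {Γ : Type*} {G : Type*} [Group Γ] [Finite Γ] [Group G]
    (σ : Γ →* G)
    (hσ : Cfsg.IsStemExtension σ) (a x : G) (hgen : closure ({a, x} : Set G) = ⊤)
    (hinv : a * x * a = x) (n : ℕ) (hn : a ^ n = 1 ∨ a ^ n = x ^ 2)
    (hord : n = 2 * orderOf (a ^ 2)) : Nat.card σ.ker ≤ 2 := by
  obtain ⟨c, hc, h⟩ := stem_dihedral_like σ hσ a x hgen hinv n hn
  set m := orderOf (a ^ 2) with hm
  have hle : σ.ker ≤ zpowers (c ^ m) := by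
    intro y hy
    obtain ⟨k, rfl, hk⟩ := h y hy
    obtain ⟨j, rfl⟩ := hk
    rw [zpow_mul, zpow_natCast]
    exact zpow_mem (mem_zpowers _) j
  have h2 : (c ^ m) ^ 2 = 1 := by rw [← pow_mul, mul_comm, ← hord, hc]
  have h3 : orderOf (c ^ m) ≤ 2 := Nat.le_of_dvd (by norm_num) (orderOf_dvd_of_pow_eq_one h2)
  calc Nat.card σ.ker ≤ Nat.card (zpowers (c ^ m)) := Subgroup.card_le_of_le hle
    _ = orderOf (c ^ m) := Nat.card_zpowers _
    _ ≤ 2 := h3

end Cfsg.Agent.Helper66
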