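import Mathlib
import Cfsg.Prelude.Def_Characters
import Cfsg.Prelude.Def_Blocks
import Cfsg.Agent.Helper75.LatDefs
import Cfsg.Agent.Helper75.NilpPrincipal2
import Cfsg.Agent.Helper80.PrincipalLin
import Cfsg.Agent.Helper82.ExcHom

/-!
# Piece C1 of CALL S4441 (helper75): the case `e = 1`

If `N_G(P) = C_G(P)` for a Sylow `p`-subgroup `P` of order `p`, then `G` has a normal
`p`-complement (Burnside) and the principal block consists of the `p` linear characters
`f ∘ τ`, `τ : G → P` the transfer.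
-/

set_option autoImplicit false
open Cfsg
open scoped ComplexConjugate

namespace Cfsg.Agent.Helper66

universe u

theorem c1_block {G : Type u} [Group G] [Fintype G] (p : ℕ) [Fact p.Prime]
    (M : Ideal Cfsg.AlgInt) (hM : Cfsg.IsPModular p M) (P : Sylow p G) (hP : Nat.card P = p)
    (hNC : Subgroup.normalizer ((P : Subgroup G) : Set G) ≤
      Subgroup.centralizer ((P : Subgroup G) : Set G)) :
    ∃ Φ : Set (G →* ℂˣ), Nat.card Φ = p ∧ (1 : G →* ℂˣ) ∈ Φ ∧
      (∀ f ∈ Φ, ∀ g : G, ¬ p ∣ orderOf g → f g = 1) ∧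
      Cfsg.principalBlock M G = Helper80.homIrr '' Φ := by
  classical
  have hp : p.Prime := Fact.out
  have := hM.2.1.isPrime
  obtain ⟨τ, hτ⟩ : ∃ τ : G →* (P : Subgroup G), τ = MonoidHom.transferSylow P hNC := ⟨_, rfl⟩
  have hcompl : Subgroup.IsComplement' τ.ker (P : Subgroup G) := by
    rw [hτ]; exact MonoidHom.ker_transferSylow_isComplement' P hNC
  have hker : ¬ p ∣ Nat.card τ.ker := by
    rw [hτ]; exact MonoidHom.not_dvd_card_ker_transferSylow P hNC
  have hPcomm : ∀ x y : (P : Subgroup G), x * y = y * x := fun a b =>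
    Subtype.ext (hNC (Subgroup.le_normalizer b.2) a a.2)
  have hsurj : Function.Surjective τ := by
    rw [← MonoidHom.range_eq_top]
    apply Subgroup.eq_top_of_card_eq
    rw [← Subgroup.index_ker]
    exact hcompl.symm.index_eq_card
  have hreg : ∀ g : G, ¬ p ∣ orderOf g → τ g = 1 := by
    intro g hg
    have h1 : orderOf (τ g) ∣ orderOf g := orderOf_map_dvd τ g
    have h2 : orderOf (τ g) ∣ p := by
      have := orderOf_dvd_natCard (τ g)
      rwa [hP] at this
    have h3 : orderOf (τ g) = 1 := by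
      rcases (Nat.dvd_prime hp).mp h2 with h | h
      · exact h
      · exact absurd (h ▸ h1) hg
    exact orderOf_eq_one_iff.mp h3
  have hpow : ∀ y : (P : Subgroup G), y ^ p = 1 := fun y => by
    have := pow_card_eq_one' (x := y)
    rwa [hP] at this
  have : Finite ((P : Subgroup G) →* ℂˣ) := Helper80.finite_hom
  haveI : Fintype ((P : Subgroup G) →* ℂˣ) := Fintype.ofFinite _
  have hinj : Function.Injective (fun f : (P : Subgroup G) →* ℂˣ => f.comp τ) := by
    intro f f' h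
    ext y
    obtain ⟨g, rfl⟩ := hsurj y
    have h1 := DFunLike.congr_fun h g
    exact congrArg Units.val h1
  refine ⟨Set.range (fun f : (P : Subgroup G) →* ℂˣ => f.comp τ), ?_, ⟨1, rfl⟩, ?_, ?_⟩
  · rw [Nat.card_range_of_injective hinj, Helper82.excHom_card hPcomm, ← Nat.card_eq_fintype_card,
      hP]
  · rintro _ ⟨f, rfl⟩ g hg
    show f (τ g) = 1
    rw [hreg g hg, map_one]
  · apply Set.Subset.antisymm
    · intro χ hχ
      have hrank : Cfsg.blockRank p (Cfsg.principalBlock M G) = 1 :=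
        (Helper75.hasNormalPComplement_iff_blockRank hM).1 ⟨P, τ.ker, inferInstance, hcompl⟩
      have hconst : ∀ g : G, ¬ p ∣ orderOf g → (χ : G → ℂ) g = (χ : G → ℂ) 1 := fun g hg =>
        Helper75.irr_eq_one_of_pRegular_of_blockRank hM hrank hχ hg
      by_contra hne
      have hne' : ∀ f : (P : Subgroup G) →* ℂˣ, χ ≠ Helper80.homIrr (f.comp τ) := by
        intro f hf
        exact hne ⟨f.comp τ, ⟨f, rfl⟩, hf.symm⟩
      have hS : ∑ f : (P : Subgroup G) →* ℂˣ, ∑ g : G,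
          (χ : G → ℂ) g * conj ((Helper80.homIrr (f.comp τ) : G → ℂ) g) = 0 := by
        apply Finset.sum_eq_zero
        intro f _
        rw [Helper80.irr_orthogonality_conj, if_neg (hne' f)]
      rw [Finset.sum_comm] at hS
      have h1 : ∀ g : G, ∑ f : (P : Subgroup G) →* ℂˣ,
          (χ : G → ℂ) g * conj ((Helper80.homIrr (f.comp τ) : G → ℂ) g) =
          if τ g = 1 then (χ : G → ℂ) 1 * (Fintype.card (P : Subgroup G) : ℂ) else 0 := by
        intro g
        rw [← Finset.mul_sum]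
        have h2 : ∑ f : (P : Subgroup G) →* ℂˣ, conj ((Helper80.homIrr (f.comp τ) : G → ℂ) g) =
            conj (∑ f : (P : Subgroup G) →* ℂˣ, ((f (τ g) : ℂˣ) : ℂ)) := by
          rw [map_sum]; rfl
        rw [h2, Helper82.excHom_sum_dual hPcomm (τ g)]
        by_cases hg : τ g = 1
        · rw [if_pos hg, if_pos hg, map_natCast]
          rw [hconst g ?_]
          intro hdvd
          apply hker
          have hgk : g ∈ τ.ker := hg
          exact hdvd.trans (Subgroup.orderOf_dvd_natCard _ hgk)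
        · rw [if_neg hg, if_neg hg, map_zero, mul_zero]
      rw [Finset.sum_congr rfl (fun g _ => h1 g)] at hS
      rw [Finset.sum_ite, Finset.sum_const_zero, add_zero, Finset.sum_const, nsmul_eq_mul] at hS
      have h3 : ((Finset.univ.filter (fun g : G => τ g = 1)).card : ℂ) ≠ 0 := by
        have : 0 < (Finset.univ.filter (fun g : G => τ g = 1)).card :=
          Finset.card_pos.mpr ⟨1, by simp⟩
        exact_mod_cast this.ne'
      have h4 : (χ : G → ℂ) 1 ≠ 0 := Helper80.irr_one_ne_zero χ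
      have h5 : (Fintype.card (P : Subgroup G) : ℂ) ≠ 0 := by
        exact_mod_cast Fintype.card_ne_zero
      exact mul_ne_zero h3 (mul_ne_zero h4 h5) hS
    · rintro _ ⟨_, ⟨f, rfl⟩, rfl⟩
      rw [Helper80.homIrr_mem_principalBlock_iff]
      intro x
      have hz : (((f.comp τ) x : ℂˣ) : ℂ) ^ p ^ 1 = 1 := by
        rw [MonoidHom.comp_apply, pow_one, ← Units.val_pow_eq_pow_val, ← map_pow, hpow, map_one,
          Units.val_one]
      have h1 := Helper77.memLocalIdeal_neg (Helper77.memLocalIdeal_root_sub_one hM hz)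
      rw [neg_sub] at h1
      exact Helper77.memLocalIdeal_mul hM.2.1
        (Helper77.memLocalRing_of_isIntegral hM.2.1 (isIntegral_natCast _)) h1

/-- **Piece C1 of CALL S4441.** -/
theorem s4441_case_one {G : Type*} [Group G] [Fintype G] (p : ℕ) [Fact p.Prime] (M : Ideal Cfsg.AlgInt) (hM : Cfsg.IsPModular p M) (hodd : p ≠ 2) (P : Sylow p G) (hP : Nat.card P = p) (e : ℕ) (he : (Subgroup.centralizer ((P : Subgroup G) : Set G)).relIndex (Subgroup.normalizer ((P : Subgroup G) : Set G)) = e) (he1 : e = 1) : ∃ X Y : Set (Cfsg.IrrCharacter G), Cfsg.principalBlock M G = X ∪ Y ∧ Disjoint X Y ∧ Nat.card X = e ∧ Nat.card Y = (p - 1) / e ∧ ∃ (εX : Cfsg.IrrCharacter G → ℤ) (ε : ℤ), (∀ χ ∈ X, (εX χ = 1 ∨ εX χ = -1) ∧ (Cfsg.charDegree (χ : G → ℂ) : ℤ) ≡ εX χ [ZMOD p] ∧ ∀ x : G, x ∈ (P : Subgroup G) → x ≠ 1 → ∀ y : G, y ∈ Subgroup.centralizer ((P : Subgroup G) : Set G) → ¬ p ∣ orderOf y → (χ : G → ℂ) (x * y) = (εX χ : ℂ)) ∧ (ε = 1 ∨ ε = -1) ∧ (∀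 θ ∈ Y, (Cfsg.charDegree (θ : G → ℂ) : ℤ) ≡ ε * (e : ℤ) [ZMOD p]) ∧ (∀ θ ∈ Y, ∀ θ' ∈ Y, ∀ g : G, ¬ p ∣ orderOf g → (θ : G → ℂ) g = (θ' : G → ℂ) g) ∧ ∀ θ ∈ Y, ∀ g : G, ¬ p ∣ orderOf g → (ε : ℂ) * (θ : G → ℂ) g = ∑ᶠ χ ∈ X, (εX χ : ℂ) * (χ : G → ℂ) g := by
  classical
  subst he1
  have hNC : Subgroup.normalizer ((P : Subgroup G) : Set G) ≤
      Subgroup.centralizer ((P : Subgroup G) : Set G) := Subgroup.relIndex_eq_one.mp he
  obtain ⟨Φ, hΦcard, hΦ1, hΦreg, hΦ⟩ := c1_block p M hM P hP hNC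
  have hinj := Helper80.homIrr_injective (G := G)
  have hfin : Finite (G →* ℂˣ) := Helper80.finite_hom
  refine ⟨{Helper80.homIrr 1}, Helper80.homIrr '' (Φ \ {1}), ?_, ?_, ?_, ?_, fun _ => 1, 1, ?_,
    Or.inl rfl, ?_, ?_, ?_⟩
  · rw [hΦ]
    ext χ
    constructor
    · rintro ⟨f, hf, rfl⟩
      by_cases h1 : f = 1
      · left; rw [h1]; rfl
      · right; exact ⟨f, ⟨hf, h1⟩, rfl⟩
    · rintro (h | ⟨f, ⟨hf, -⟩, rfl⟩)
      · rw [Set.mem_singleton_iff] at h
        rw [h]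
        exact ⟨1, hΦ1, rfl⟩
      · exact ⟨f, hf, rfl⟩
  · rw [Set.disjoint_singleton_left]
    rintro ⟨f, ⟨-, hf1⟩, hf⟩
    exact hf1 (hinj hf)
  · rw [Nat.card_coe_set_eq, Set.ncard_singleton]
  · rw [Nat.div_one, Nat.card_coe_set_eq, Set.ncard_image_of_injective _ hinj,
      Set.ncard_sdiff_singleton_of_mem hΦ1, ← Nat.card_coe_set_eq, hΦcard]
  · intro χ hχ
    rw [Set.mem_singleton_iff] at hχ
    subst hχ
    refine ⟨Or.inl rfl, ?_, ?_⟩
    · rw [Helper80.charDegree_homIrr]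
      rfl
    · intro x _ _ y _ _
      rw [Helper80.homIrr_apply]
      simp
  · rintro _ ⟨f, -, rfl⟩
    rw [Helper80.charDegree_homIrr]
    rfl
  · rintro _ ⟨f, ⟨hf, -⟩, rfl⟩ _ ⟨f', ⟨hf', -⟩, rfl⟩ g hg
    rw [Helper80.homIrr_apply, Helper80.homIrr_apply, hΦreg f hf g hg, hΦreg f' hf' g hg]
  · rintro _ ⟨f, ⟨hf, -⟩, rfl⟩ g hg
    rw [finsum_mem_singleton, Helper80.homIrr_apply, Helper80.homIrr_apply, hΦreg f hf g hg]
    simp

end Cfsg.Agent.Helper66
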