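import Mathlib
import Cfsg.Agent.Helper40.KGLDefs
import Cfsg.Agent.Helper40.KSLDefs
import Cfsg.Agent.Helper40.KPSLDefs

/-!
# CALL S2480, piece Q1: Burnside count of the classes of a central quotient
-/

set_option autoImplicit false

namespace Cfsg.Agent.Helper66

open Polynomial Cfsg.Agent.Helper40.KGL Cfsg.Agent.Helper40.KSL Cfsg.Agent.Helper40.KPSL
open scoped DirectSum
open Classical

universe u v

/-- multiplication by a central element on conjugacy classes -/
def kpslSmul {G : Type u} [Group G] (Z : Subgroup G) (hZ : Z ≤ Subgroup.center G) (z : Z) :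
    ConjClasses G → ConjClasses G :=
  Quotient.map (fun g => (z : G) * g) (by
    intro a b hab
    obtain ⟨c, hc⟩ := isConj_iff.mp (hab : IsConj a b)
    refine isConj_iff.mpr ⟨c, ?_⟩
    have hz : (z : G) ∈ Subgroup.center G := hZ z.2
    have h1 := Subgroup.mem_center_iff.mp hz c
    rw [← hc]
    calc c * (↑z * a) * c⁻¹ = (c * ↑z) * a * c⁻¹ := by group
      _ = (↑z * c) * a * c⁻¹ := by rw [h1]
      _ = ↑z * (c * a * c⁻¹) := by group)

theorem kpslSmul_mk {G : Type u} [Group G] (Z : Subgroup G) (hZ : Z ≤ Subgroup.center G) (z : Z)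
    (g : G) : kpslSmul Z hZ z (ConjClasses.mk g) = ConjClasses.mk ((z : G) * g) := rfl

/-- the action of a central subgroup on the conjugacy classes -/
def kpslAction {G : Type u} [Group G] (Z : Subgroup G) (hZ : Z ≤ Subgroup.center G) :
    MulAction Z (ConjClasses G) where
  smul z C := kpslSmul Z hZ z C
  one_smul C := by
    obtain ⟨g, rfl⟩ := ConjClasses.exists_rep C
    show kpslSmul Z hZ 1 (ConjClasses.mk g) = ConjClasses.mk g
    rw [kpslSmul_mk]
    simp
  mul_smul z z' C := by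
    obtain ⟨g, rfl⟩ := ConjClasses.exists_rep C
    show kpslSmul Z hZ (z * z') (ConjClasses.mk g) =
      kpslSmul Z hZ z (kpslSmul Z hZ z' (ConjClasses.mk g))
    rw [kpslSmul_mk, kpslSmul_mk, kpslSmul_mk]
    simp [mul_assoc]

/-- PIECE Q1 -/
theorem card_mul_card_conjClasses_quotient {G : Type u} [Group G] [Finite G] (Z : Subgroup G)
    [Z.Normal] (hZ : Z ≤ Subgroup.center G) [Fintype Z] :
    Nat.card Z * Nat.card (ConjClasses (G ⧸ Z)) =
      ∑ z : Z, Nat.card {C : ConjClasses G // ∃ g, ConjClasses.mk g = C ∧ IsConj ((z : G) * g) g} := by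
  letI : MulAction Z (ConjClasses G) := kpslAction Z hZ
  have hsmul : ∀ (z : Z) (g : G), z • (ConjClasses.mk g) = ConjClasses.mk ((z : G) * g) :=
    fun z g => rfl
  haveI : Finite (ConjClasses G) := Quotient.finite _
  haveI : Fintype (ConjClasses G) := Fintype.ofFinite _
  haveI : Fintype (Quotient (MulAction.orbitRel Z (ConjClasses G))) := Fintype.ofFinite _
  haveI : ∀ z : Z, Fintype (MulAction.fixedBy (ConjClasses G) z) := fun z => Fintype.ofFinite _
  have hB := MulAction.sum_card_fixedBy_eq_card_orbits_mul_card_group Z (ConjClasses G)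
  -- fixed classes
  have h1 : ∀ z : Z, Nat.card {C : ConjClasses G // ∃ g, ConjClasses.mk g = C ∧
      IsConj ((z : G) * g) g} = Fintype.card (MulAction.fixedBy (ConjClasses G) z) := by
    intro z
    rw [← Nat.card_eq_fintype_card]
    apply Nat.card_congr
    refine Equiv.subtypeEquivRight ?_
    intro C
    rw [MulAction.mem_fixedBy]
    constructor
    · rintro ⟨g, rfl, hg⟩
      rw [hsmul]
      exact ConjClasses.mk_eq_mk_iff_isConj.mpr hg
    · intro hC
      obtain ⟨g, rfl⟩ := ConjClasses.exists_rep C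
      rw [hsmul] at hC
      exact ⟨g, rfl, ConjClasses.mk_eq_mk_iff_isConj.mp hC⟩
  -- orbits
  have hwd : ∀ a b : ConjClasses G, MulAction.orbitRel Z (ConjClasses G) a b →
      ConjClasses.map (QuotientGroup.mk' Z) a = ConjClasses.map (QuotientGroup.mk' Z) b := by
    intro a b hab
    obtain ⟨z, hz⟩ := (MulAction.orbitRel_apply.mp hab : a ∈ MulAction.orbit Z b)
    obtain ⟨g, rfl⟩ := ConjClasses.exists_rep b
    have hz' : z • ConjClasses.mk g = a := hz
    rw [← hz', hsmul]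
    show ConjClasses.mk ((QuotientGroup.mk' Z) ((z : G) * g)) =
      ConjClasses.mk ((QuotientGroup.mk' Z) g)
    congr 1
    rw [map_mul]
    have : (QuotientGroup.mk' Z) (z : G) = 1 := (QuotientGroup.eq_one_iff _).mpr z.2
    rw [this, one_mul]
  have h2 : Nat.card (ConjClasses (G ⧸ Z)) =
      Fintype.card (Quotient (MulAction.orbitRel Z (ConjClasses G))) := by
    rw [← Nat.card_eq_fintype_card]
    symm
    apply Nat.card_congr
    refine Equiv.ofBijective (Quotient.lift (ConjClasses.map (QuotientGroup.mk' Z)) hwd) ⟨?_, ?_⟩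
    · intro a b hab
      obtain ⟨a, rfl⟩ := Quotient.exists_rep a
      obtain ⟨b, rfl⟩ := Quotient.exists_rep b
      obtain ⟨g, rfl⟩ := ConjClasses.exists_rep a
      obtain ⟨k, rfl⟩ := ConjClasses.exists_rep b
      have hab' : ConjClasses.mk ((QuotientGroup.mk' Z) g) =
          ConjClasses.mk ((QuotientGroup.mk' Z) k) := hab
      obtain ⟨c, hc⟩ := isConj_iff.mp (ConjClasses.mk_eq_mk_iff_isConj.mp hab')
      obtain ⟨x, rfl⟩ := QuotientGroup.mk'_surjective Z c
      -- `k = (x g x⁻¹) z'`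
      have hmem : (x * g * x⁻¹)⁻¹ * k ∈ Z := by
        rw [← QuotientGroup.eq]
        have hc' : (x : G ⧸ Z) * (g : G ⧸ Z) * (x : G ⧸ Z)⁻¹ = (k : G ⧸ Z) := hc
        rw [QuotientGroup.mk_mul, QuotientGroup.mk_mul, QuotientGroup.mk_inv]
        exact hc'
      apply Quotient.sound
      show MulAction.orbitRel Z (ConjClasses G) (ConjClasses.mk g) (ConjClasses.mk k)
      rw [MulAction.orbitRel_apply]
      -- `mk g ∈ orbit (mk k)`: `mk g = z'⁻¹ • mk k`
      refine ⟨⟨(x * g * x⁻¹)⁻¹ * k, hmem⟩⁻¹, ?_⟩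
      show (⟨(x * g * x⁻¹)⁻¹ * k, hmem⟩⁻¹ : Z) • ConjClasses.mk k = ConjClasses.mk g
      rw [hsmul]
      apply ConjClasses.mk_eq_mk_iff_isConj.mpr
      have hcen : ((x * g * x⁻¹)⁻¹ * k)⁻¹ ∈ Subgroup.center G := (Subgroup.center G).inv_mem (hZ hmem)
      have hcomm := Subgroup.mem_center_iff.mp hcen x⁻¹
      -- `z'⁻¹ * k = x g x⁻¹`
      have e1 : ((⟨(x * g * x⁻¹)⁻¹ * k, hmem⟩ : Z)⁻¹ : Z) = (⟨((x * g * x⁻¹)⁻¹ * k)⁻¹, Z.inv_mem hmem⟩ : Z) := rfl
      rw [e1]
      show IsConj (((x * g * x⁻¹)⁻¹ * k)⁻¹ * k) g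
      have e2 : ((x * g * x⁻¹)⁻¹ * k)⁻¹ * k = k⁻¹ * (x * g * x⁻¹) * k := by group
      rw [e2]
      exact isConj_iff.mpr ⟨(k⁻¹ * x)⁻¹, by group⟩
    · intro C
      obtain ⟨c, rfl⟩ := ConjClasses.exists_rep C
      obtain ⟨g, rfl⟩ := QuotientGroup.mk'_surjective Z c
      exact ⟨Quotient.mk _ (ConjClasses.mk g), rfl⟩
  rw [Finset.sum_congr rfl (fun z _ => h1 z), hB, h2, Nat.card_eq_fintype_card, mul_comm]

end Cfsg.Agent.Helper66
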