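import Mathlib
import Cfsg.Agent.Helper57.G3Defs
import Cfsg.Agent.Helper57.SpCongr

/-!
# Piece P11 of CALL S2518 (helper66): the permutation representation of `G₂(3)` on 728 vectors
from the table checks
-/

set_option autoImplicit false

namespace Cfsg.Agent.Helper66

open Cfsg.Agent.Helper57 Cfsg.Lie Matrix

theorem g3_hom_of_checks (v : Fin 728 → (chevG2.Idx → ZMod 3)) (PiL : List ℕ)
    (hlen : PiL.length = 12)
    (hx0 : ∀ r : Fin 12, chevG2.xMat (ZMod 3) r 0 = 1)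
    (hx2 : ∀ r : Fin 12,
      chevG2.xMat (ZMod 3) r 2 = chevG2.xMat (ZMod 3) r 1 * chevG2.xMat (ZMod 3) r 1)
    (hx3 : ∀ r : Fin 12, chevG2.xMat (ZMod 3) r 2 * chevG2.xMat (ZMod 3) r 1 = 1)
    (hact : ∀ (r : Fin 12) (p : Fin 728), ∃ h : g3Ent (PiL.getD r.val 0) p.val < 728,
      (chevG2.xMat (ZMod 3) r 1).mulVec (v p) = v ⟨g3Ent (PiL.getD r.val 0) p.val, h⟩)
    (hinj : Function.Injective v)
    (hspan : ∀ k : chevG2.Idx, ∃ l : List (Fin 728), (l.map v).sum = Pi.single k 1) :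
    ∃ θ : ↥(chevG2.group (ZMod 3)) →* Equiv.Perm (Fin 728), Function.Injective θ ∧
      ∀ N ∈ PiL, g3Good θ.range N := by
  classical
  -- the permutations `a r`
  have hperm : ∀ r : Fin 12, ∃ a : Equiv.Perm (Fin 728),
      (∀ p : Fin 728, (a p).val = g3Ent (PiL.getD r.val 0) p.val) ∧
      ∀ p : Fin 728, (chevG2.xMat (ZMod 3) r 1).mulVec (v p) = v (a p) := by
    intro r
    have hf : ∀ p : Fin 728, ∃ q : Fin 728, q.val = g3Ent (PiL.getD r.val 0) p.val ∧
        (chevG2.xMat (ZMod 3) r 1).mulVec (v p) = v q := by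
      intro p
      obtain ⟨h, hh⟩ := hact r p
      exact ⟨⟨_, h⟩, rfl, hh⟩
    choose f hf1 hf2 using hf
    have hfinj : Function.Injective f := by
      intro p p' hpp
      apply hinj
      have h1 : (chevG2.xMat (ZMod 3) r 1).mulVec (v p)
          = (chevG2.xMat (ZMod 3) r 1).mulVec (v p') := by
        rw [hf2, hf2, hpp]
      have h2 := congrArg (fun w => (chevG2.xMat (ZMod 3) r 2).mulVec w) h1
      simp only [Matrix.mulVec_mulVec, hx3 r, Matrix.one_mulVec] at h2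
      exact h2
    have hfbij : Function.Bijective f := Finite.injective_iff_bijective.mp hfinj
    exact ⟨Equiv.ofBijective f hfbij, fun p => hf1 p, fun p => hf2 p⟩
  choose a ha1 ha2 using hperm
  have ht3 : ∀ t : ZMod 3, t = 0 ∨ t = 1 ∨ t = 2 := by decide
  obtain ⟨θ, hθ⟩ := hom_of_equivariant_family (M := GL chevG2.Idx (ZMod 3))
    (A := Equiv.Perm (Fin 728)) (V := chevG2.Idx → ZMod 3) (S := Fin 728)
    (fun m w => (m : Matrix chevG2.Idx chevG2.Idx (ZMod 3)).mulVec w)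
    (fun w => by simp)
    (fun m m' w => by simp [Matrix.mulVec_mulVec])
    (fun a s => a s) (fun s => rfl) (fun a a' s => rfl)
    v
    (fun a h => Equiv.ext fun s => hinj (h s))
    {g | ∃ (r : Fin 12) (t : ZMod 3),
      (g : Matrix chevG2.Idx chevG2.Idx (ZMod 3)) = chevG2.xMat (ZMod 3) r t}
    (by
      rintro m ⟨r, t, hm⟩
      rcases ht3 t with rfl | rfl | rfl
      · refine ⟨1, fun s => ?_⟩
        show (m : Matrix chevG2.Idx chevG2.Idx (ZMod 3)).mulVec (v s) = v s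
        rw [hm, hx0 r, Matrix.one_mulVec]
      · refine ⟨a r, fun s => ?_⟩
        show (m : Matrix chevG2.Idx chevG2.Idx (ZMod 3)).mulVec (v s) = v (a r s)
        rw [hm]
        exact ha2 r s
      · refine ⟨a r * a r, fun s => ?_⟩
        show (m : Matrix chevG2.Idx chevG2.Idx (ZMod 3)).mulVec (v s) = v (a r (a r s))
        rw [hm, hx2 r, ← Matrix.mulVec_mulVec, ha2, ha2])
  have hθinj : Function.Injective θ := by
    rw [injective_iff_map_eq_one]
    intro h hh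
    have h1 : ∀ s, (h.1 : Matrix chevG2.Idx chevG2.Idx (ZMod 3)).mulVec (v s) = v s :=
      (hθ h 1).mp hh
    have h2 : ∀ l : List (Fin 728),
        (h.1 : Matrix chevG2.Idx chevG2.Idx (ZMod 3)).mulVec (l.map v).sum = (l.map v).sum := by
      intro l
      induction l with
      | nil => simp
      | cons s l ih =>
        rw [List.map_cons, List.sum_cons, Matrix.mulVec_add, ih, h1 s]
    apply Subtype.ext
    apply Units.ext
    ext i k
    obtain ⟨l, hl⟩ := hspan k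
    have h3 := h2 l
    rw [hl] at h3
    have h4 := congrFun h3 i
    simpa [Matrix.one_apply, Pi.single_apply, eq_comm] using h4
  refine ⟨θ, hθinj, ?_⟩
  intro N hN
  obtain ⟨i, hi, rfl⟩ := List.mem_iff_getElem.mp hN
  have hi12 : i < 12 := hlen ▸ hi
  have hx3' : chevG2.xMat (ZMod 3) (⟨i, hi12⟩ : Fin 12) 1
      * chevG2.xMat (ZMod 3) (⟨i, hi12⟩ : Fin 12) 2 = 1 :=
    mul_eq_one_comm.mp (hx3 ⟨i, hi12⟩)
  obtain ⟨g, hg⟩ : ∃ g : GL chevG2.Idx (ZMod 3),
      (g : Matrix chevG2.Idx chevG2.Idx (ZMod 3)) = chevG2.xMat (ZMod 3) (⟨i, hi12⟩ : Fin 12) 1 :=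
    ⟨⟨_, _, hx3', hx3 ⟨i, hi12⟩⟩, rfl⟩
  have hgm : g ∈ chevG2.group (ZMod 3) := Subgroup.subset_closure ⟨⟨i, hi12⟩, 1, hg⟩
  refine ⟨a ⟨i, hi12⟩, ⟨⟨g, hgm⟩, ?_⟩, ?_⟩
  · refine (hθ ⟨g, hgm⟩ (a ⟨i, hi12⟩)).mpr (fun s => ?_)
    show (g : Matrix chevG2.Idx chevG2.Idx (ZMod 3)).mulVec (v s) = v (a ⟨i, hi12⟩ s)
    rw [hg]
    exact ha2 _ s
  · intro x
    rw [ha1]
    simp [hi]

end Cfsg.Agent.Helper66
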