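import Mathlib
import Cfsg.Agent.Helper6.JRSkel
import Cfsg.Agent.Helper83.JR3206RESTR
import Cfsg.Agent.Helper83.JR3206INV
import Cfsg.Agent.Helper83.JR3206SYLN

set_option autoImplicit false
set_option linter.style.haveILetI false

/-!
# CALL S3206, piece J2A (helper66): an automorphism of 2-power order fixing a Sylow 2-subgroup
`S ∋ t` elementwise is inner on `C_G(t)`, induced by an element of `S`
-/

namespace Cfsg.Agent.Helper66

open Cfsg.Agent.Helper6 Cfsg.Agent.Helper83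

/-- J2A (assembly piece: an automorphism of 2-power order fixing `S` elementwise is inner on
`C_G(t)`; uses SYLN, RESTR, INV and the set-up). -/
theorem jr_aut_on_centralizer {G : Type*} [Group G] [Finite G] {t : G} {N : Subgroup G}
    (h : JRSetup t N) (S : Sylow 2 G)
    (hS : ∀ a ∈ (S : Subgroup G), ∀ b ∈ (S : Subgroup G), a * b = b * a)
    (htS : t ∈ (S : Subgroup G)) (φ : G ≃* G) (k : ℕ) (hφ : φ ^ (2 ^ k) = 1)
    (hfix : ∀ s ∈ (S : Subgroup G), φ s = s) :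
    ∃ v ∈ (S : Subgroup G), ∀ x ∈ Subgroup.centralizer ({t} : Set G), φ x = v * x * v⁻¹ := by
  haveI : Fact (Nat.Prime 2) := ⟨Nat.prime_two⟩
  obtain ⟨M, hM⟩ : ∃ M : Subgroup G, M = Subgroup.centralizer ({t} : Set G) := ⟨_, rfl⟩
  have hmemM : ∀ x, x ∈ M ↔ t * x = x * t := by
    intro x
    rw [hM, Subgroup.mem_centralizer_iff]
    simp
  have hSM : (S : Subgroup G) ≤ M := fun s hs => (hmemM s).mpr (hS t htS s hs)
  have hφt : φ t = t := hfix t htS
  have hφM : ∀ x ∈ M, φ x ∈ M := by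
    intro x hx
    rw [hmemM] at hx ⊢
    have := congrArg φ hx
    rwa [map_mul, map_mul, hφt] at this
  have hNM : N ≤ M := hM ▸ h.hNM
  have hnorm : ∀ m ∈ M, ∀ n ∈ N, m * n * m⁻¹ ∈ N := by rw [hM]; exact h.hnorm
  have hcenM : ∀ x ∈ M, (∀ n ∈ N, x * n = n * x) → x ∈ Subgroup.zpowers t := by
    rw [hM]; exact h.hcen
  -- INV: `φ` preserves `N`
  have hφN : ∀ x ∈ N, φ x ∈ N := by
    refine jr_simple_normal_invariant M N hNM hnorm h.hsimp h.hnab ?_ φ hφM
    intro x hx y hy hxN hyN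
    obtain ⟨i, rfl⟩ := Subgroup.mem_zpowers_iff.mp (hcenM x hx hxN)
    obtain ⟨j, rfl⟩ := Subgroup.mem_zpowers_iff.mp (hcenM y hy hyN)
    rw [← zpow_add, ← zpow_add, add_comm]
  -- RESTR: the restriction of `φ` to `N`
  obtain ⟨α, hα1, hα2⟩ := jr_restrict_aut N φ hφN (2 ^ k) hφ
  -- SYLN: `S ∩ N` is a Sylow 2-subgroup of `N`
  obtain ⟨V, hV⟩ := jr_sylow_inf_normal 2 S M N hSM hNM hnorm
  have hVab : ∀ a ∈ (V : Subgroup ↥N), ∀ b ∈ (V : Subgroup ↥N), a * b = b * a := by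
    intro a ha b hb
    apply Subtype.ext
    exact hS a ((hV a).mp ha) b ((hV b).mp hb)
  have hVfix : ∀ v ∈ (V : Subgroup ↥N), α v = v := by
    intro v hv
    apply Subtype.ext
    rw [hα1]
    exact hfix v ((hV v).mp hv)
  obtain ⟨v, hvV, hv⟩ := h.haut V hVab α k hα2 hVfix
  have hvS : (v : G) ∈ (S : Subgroup G) := (hV v).mp hvV
  refine ⟨(v : G), hvS, ?_⟩
  -- `β x := v⁻¹ * φ x * v` fixes `N` and `S` elementwise
  have hβN : ∀ n ∈ N, (v : G)⁻¹ * φ n * (v : G) = n := by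
    intro n hn
    have h1 := congrArg Subtype.val (hv ⟨n, hn⟩)
    rw [hα1] at h1
    simp only [Subgroup.coe_mul, Subgroup.coe_inv] at h1
    rw [h1]
    group
  have hβS : ∀ s ∈ (S : Subgroup G), (v : G)⁻¹ * φ s * (v : G) = s := by
    intro s hs
    rw [hfix s hs, mul_assoc, hS s hs v hvS, ← mul_assoc, inv_mul_cancel, one_mul]
  have hβM : ∀ x ∈ M, (v : G)⁻¹ * φ x * (v : G) ∈ M := fun x hx =>
    M.mul_mem (M.mul_mem (M.inv_mem (hSM hvS)) (hφM x hx)) (hSM hvS)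
  -- `c x := x⁻¹ * β x` lies in `⟨t⟩`
  have hc : ∀ x ∈ M, x⁻¹ * ((v : G)⁻¹ * φ x * (v : G)) ∈ Subgroup.zpowers t := by
    intro x hx
    apply hcenM _ (M.mul_mem (M.inv_mem hx) (hβM x hx))
    intro n hn
    have h1 := hβN (x * n * x⁻¹) (hnorm x hx n hn)
    rw [map_mul, map_mul, map_inv] at h1
    have h2 : φ n = (v : G) * n * (v : G)⁻¹ := by
      calc φ n = (v : G) * ((v : G)⁻¹ * φ n * (v : G)) * (v : G)⁻¹ := by group
        _ = (v : G) * n * (v : G)⁻¹ := by rw [hβN n hn]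
    obtain ⟨B, hB⟩ : ∃ B : G, B = (v : G)⁻¹ * φ x * (v : G) := ⟨_, rfl⟩
    have h3 : B * n * B⁻¹ = x * n * x⁻¹ := by
      rw [← h1, h2, hB]
      group
    rw [← hB]
    calc x⁻¹ * B * n = x⁻¹ * (B * n * B⁻¹) * B := by group
      _ = x⁻¹ * (x * n * x⁻¹) * B := by rw [h3]
      _ = n * (x⁻¹ * B) := by group
  -- `c` is a homomorphism `M → ⟨t⟩`
  let c' : ↥M →* ↥(Subgroup.zpowers t) := MonoidHom.mk'
    (fun x => ⟨(x : G)⁻¹ * ((v : G)⁻¹ * φ (x : G) * (v : G)), hc x x.2⟩) (by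
      intro x y
      apply Subtype.ext
      simp only [Subgroup.coe_mul, map_mul]
      obtain ⟨i, hi⟩ := Subgroup.mem_zpowers_iff.mp (hc x x.2)
      have hty : Commute t (y : G) := (hmemM y).mp y.2
      have hcomm : Commute ((x : G)⁻¹ * ((v : G)⁻¹ * φ (x : G) * (v : G))) (y : G)⁻¹ := by
        rw [← hi]
        exact (hty.zpow_left i).inv_right
      calc ((x : G) * (y : G))⁻¹ * ((v : G)⁻¹ * (φ (x : G) * φ (y : G)) * (v : G))
          = (y : G)⁻¹ * ((x : G)⁻¹ * ((v : G)⁻¹ * φ (x : G) * (v : G))) *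
              ((v : G)⁻¹ * φ (y : G) * (v : G)) := by group
        _ = ((x : G)⁻¹ * ((v : G)⁻¹ * φ (x : G) * (v : G))) * (y : G)⁻¹ *
              ((v : G)⁻¹ * φ (y : G) * (v : G)) := by rw [hcomm.eq]
        _ = (x : G)⁻¹ * ((v : G)⁻¹ * φ (x : G) * (v : G)) *
              ((y : G)⁻¹ * ((v : G)⁻¹ * φ (y : G) * (v : G))) := by group)
  have hc'val : ∀ x : ↥M, ((c' x : ↥(Subgroup.zpowers t)) : G) =
      (x : G)⁻¹ * ((v : G)⁻¹ * φ (x : G) * (v : G)) := fun x => rfl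
  -- its kernel contains `S`, of odd index
  have hker : c'.ker = ⊤ := by
    have h1 : c'.ker.index ∣ 2 := by
      rw [Subgroup.index_ker]
      have h2 : Nat.card c'.range ∣ Nat.card ↥(Subgroup.zpowers t) :=
        Subgroup.card_subgroup_dvd_card _
      rwa [Nat.card_zpowers, h.ht] at h2
    have h3 : ((S : Subgroup G).subgroupOf M) ≤ c'.ker := by
      intro x hx
      rw [MonoidHom.mem_ker]
      apply Subtype.ext
      rw [hc'val, hβS x (Subgroup.mem_subgroupOf.mp hx), inv_mul_cancel]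
      rfl
    have h4 : c'.ker.index ∣ ((S : Subgroup G).subgroupOf M).index := Subgroup.index_dvd_of_le h3
    have h5 : ((S : Subgroup G).subgroupOf M).index ∣ (S : Subgroup G).index :=
      Subgroup.relIndex_dvd_index_of_le hSM
    have h6 : ¬ 2 ∣ (S : Subgroup G).index := Sylow.not_dvd_index S
    have h7 : c'.ker.index = 1 := by
      rcases (Nat.dvd_prime Nat.prime_two).mp h1 with h' | h'
      · exact h'
      · rw [h'] at h4
        exact absurd (h4.trans h5) h6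
    exact Subgroup.index_eq_one.mp h7
  intro x hx
  have hxM : x ∈ M := hM ▸ hx
  have h1 : c' ⟨x, hxM⟩ = 1 := by
    have h2 : (⟨x, hxM⟩ : ↥M) ∈ c'.ker := by rw [hker]; exact Subgroup.mem_top _
    exact h2
  have h3 : x⁻¹ * ((v : G)⁻¹ * φ x * (v : G)) = 1 := by
    have h2 := congrArg Subtype.val h1
    rw [hc'val] at h2
    exact h2
  have h4 : (v : G)⁻¹ * φ x * (v : G) = x := by
    rw [inv_mul_eq_one] at h3
    exact h3.symm
  calc φ x = (v : G) * ((v : G)⁻¹ * φ x * (v : G)) * (v : G)⁻¹ := by group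
    _ = (v : G) * x * (v : G)⁻¹ := by rw [h4]

end Cfsg.Agent.Helper66
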