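import Mathlib

/-!
# CALL S2343, piece KL2 (helper66): a four-group inside an elementary abelian group of order 8
-/

set_option autoImplicit false

namespace Cfsg.Agent.Helper66

/-- PIECE KL2 -/
theorem rmd43_kl2 {G : Type*} [Group G] (S : Subgroup G) (hS : Nat.card S = 8)
    (hexp : ∀ x ∈ S, x * x = 1) :
    ∃ a b : G, a ≠ 1 ∧ b ≠ 1 ∧ a ≠ b ∧ a * a = 1 ∧ b * b = 1 ∧ a * b = b * a := by
  classical
  haveI : Finite S := Nat.finite_of_card_ne_zero (by rw [hS]; norm_num)
  haveI := Fintype.ofFinite S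
  have h8 : Fintype.card S = 8 := by rw [← Nat.card_eq_fintype_card]; exact hS
  obtain ⟨a, ha⟩ : ∃ a : S, a ≠ 1 := by
    by_contra hcon
    push Not at hcon
    have : Fintype.card S ≤ 1 := Fintype.card_le_one_iff.mpr (fun x y => by rw [hcon x, hcon y])
    omega
  obtain ⟨b, hb1, hba⟩ : ∃ b : S, b ≠ 1 ∧ b ≠ a := by
    by_contra hcon
    push Not at hcon
    have hsub : (Finset.univ : Finset S) ⊆ {1, a} := by
      intro x _
      by_cases hx : x = 1
      · simp [hx]
      · simp [hcon x hx]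
    have h1 := Finset.card_le_card hsub
    have h2 : ({1, a} : Finset S).card ≤ 2 := Finset.card_le_two
    rw [Finset.card_univ] at h1
    omega
  have hsq : ∀ y : S, (y : G) * (y : G) = 1 := fun y => hexp y y.2
  have hab := hexp ((a : G) * b) (S.mul_mem a.2 b.2)
  have ha' : (a : G)⁻¹ = a := (eq_inv_of_mul_eq_one_left (hsq a)).symm
  have hb' : (b : G)⁻¹ = b := (eq_inv_of_mul_eq_one_left (hsq b)).symm
  have hab' : ((a : G) * b)⁻¹ = a * b := (eq_inv_of_mul_eq_one_left hab).symm
  refine ⟨a, b, fun h => ha (Subtype.ext h), fun h => hb1 (Subtype.ext h),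
    fun h => hba (Subtype.ext h.symm), hsq a, hsq b, ?_⟩
  calc (a : G) * b = ((a : G) * b)⁻¹ := hab'.symm
    _ = (b : G)⁻¹ * (a : G)⁻¹ := mul_inv_rev _ _
    _ = b * a := by rw [ha', hb']

end Cfsg.Agent.Helper66
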