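import Mathlib
import Cfsg.Agent.Helper90.MDSLDefs

/-!
# CALL S2332, piece MSNORM: normalising and centraliser counts for transvection subgroups
-/

set_option autoImplicit false

namespace Cfsg.Agent.Helper66

open Module Cfsg.Agent.Helper90.MD Cfsg.Agent.Helper60.MinIdx

section
variable {F V0 : Type*} [Field F] [AddCommGroup V0] [Module F V0]

theorem msnorm_cg_tv {η φ : Dual F V0} {c : V0} (hη : η c = 0) (hφ : φ c = 0) :
    cg (tv η c) φ = φ := by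
  ext x
  rw [cg_apply, tv_inv, tv_apply (by rw [map_neg, hη, neg_zero]), map_add, map_smul, map_neg, hφ]
  simp

theorem msnorm_conj {η φ : Dual F V0} {c : V0} (hη : η c = 0) (hφ : φ c = 0) (a : V0) :
    tv η c * tv φ a * (tv η c)⁻¹ = tv φ (a + η a • c) := by
  rw [tv_conj, msnorm_cg_tv hη hφ, tv_apply hη]

theorem msnorm_conj' {η φ : Dual F V0} {c : V0} (hη : η c = 0) (hφ : φ c = 0) (a : V0) :
    (tv η c)⁻¹ * tv φ a * tv η c = tv φ (a + η a • (-c)) := by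
  have h := msnorm_conj (η := η) (φ := φ) (c := -c) (by rw [map_neg, hη, neg_zero])
    (by rw [map_neg, hφ, neg_zero]) a
  rwa [← tv_inv, inv_inv] at h

theorem msnorm_comm_gen {ψ ψ' : Dual F V0} {b c : V0} (hψc : ψ c = 0) (hψb : ψ b = 0)
    (hψ'b : ψ' b = 0) :
    tv ψ c * tv ψ' b * (tv ψ c)⁻¹ * (tv ψ' b)⁻¹ = tv ψ (-(ψ' c • b)) := by
  have h1 : tv ψ c * tv ψ' b * (tv ψ c)⁻¹ * (tv ψ' b)⁻¹ =
      tv ψ c * (tv ψ' b * tv ψ c * (tv ψ' b)⁻¹)⁻¹ := by group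
  have h2 : ψ (c + ψ' c • b) = 0 := by rw [map_add, map_smul, hψc, hψb, smul_zero, add_zero]
  rw [h1, msnorm_conj hψ'b hψb, tv_inv, tv_add_left hψc (by rw [map_neg, h2, neg_zero])]
  congr 1
  abel

theorem msnorm_comm_iff {η ψ : Dual F V0} {b : V0} (hψ : ψ ≠ 0) (hηb : η b = 0) (hψb : ψ b = 0)
    (hb : b ≠ 0) {a : V0} (ha : ψ a = 0) :
    tv η b * tv ψ a = tv ψ a * tv η b ↔ η a = 0 := by
  rw [← mul_inv_eq_iff_eq_mul, msnorm_conj hηb hψb]
  constructor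
  · intro h
    have h2 := tv_left_injective hψ
      (by rw [map_add, map_smul, ha, hψb, smul_zero, add_zero]) ha h
    have h3 : η a • b = 0 := by simpa using h2
    rcases smul_eq_zero.mp h3 with h4 | h4
    · exact h4
    · exact absurd h4 hb
  · intro h
    rw [h, zero_smul, add_zero]

/-- the centraliser count as a count of vectors -/
theorem msnorm_cent_card {η ψ : Dual F V0} {b : V0} (hψ : ψ ≠ 0) (hηb : η b = 0) (hψb : ψ b = 0)
    (hb : b ≠ 0) (A : Subgroup (SpecialLinearGroup F V0)) (S : Set V0)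
    (hS : ∀ a ∈ S, ψ a = 0) (hA : ∀ x, x ∈ A ↔ ∃ a ∈ S, x = tv ψ a) :
    cent A (tv η b) = Nat.card {a : V0 // a ∈ S ∧ η a = 0} := by
  unfold cent
  symm
  refine Nat.card_congr (Equiv.ofBijective
    (fun a : {a : V0 // a ∈ S ∧ η a = 0} =>
      (⟨tv ψ a.1, (hA _).mpr ⟨a.1, a.2.1, rfl⟩,
        (msnorm_comm_iff hψ hηb hψb hb (hS _ a.2.1)).mpr a.2.2⟩ :
        {x : SpecialLinearGroup F V0 // x ∈ A ∧ tv η b * x = x * tv η b})) ⟨?_, ?_⟩)
  · rintro ⟨a, ha, ha'⟩ ⟨a', ha2, ha2'⟩ h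
    have h1 : tv ψ a = tv ψ a' := congrArg Subtype.val h
    exact Subtype.ext (tv_left_injective hψ (hS _ ha) (hS _ ha2) h1)
  · rintro ⟨x, hxA, hx⟩
    obtain ⟨a, ha, rfl⟩ := (hA x).mp hxA
    exact ⟨⟨a, ha, (msnorm_comm_iff hψ hηb hψb hb (hS _ ha)).mp hx⟩, rfl⟩

end

section
variable {F V0 : Type*} [Field F] [Finite F] [AddCommGroup V0] [Module F V0] [Module.Finite F V0]

/-- the number of common zeros of linearly independent covectors -/
theorem msnorm_card_coann {ι : Type*} [Fintype ι] (v : ι → Dual F V0)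
    (hli : LinearIndependent F v) :
    Nat.card {a : V0 // ∀ i, v i a = 0} = Nat.card F ^ (finrank F V0 - Fintype.card ι) := by
  obtain ⟨W, hW⟩ : ∃ W : Subspace F (Dual F V0), W = Submodule.span F (Set.range v) := ⟨_, rfl⟩
  have h1 : finrank F W = Fintype.card ι := by rw [hW]; exact finrank_span_eq_card hli
  have h2 := Subspace.finrank_add_finrank_dualCoannihilator_eq W
  have h3 : finrank F W.dualCoannihilator = finrank F V0 - Fintype.card ι := by omega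
  have h4 : Nat.card W.dualCoannihilator = Nat.card F ^ (finrank F V0 - Fintype.card ι) := by
    rw [← h3]; exact Module.natCard_eq_pow_finrank
  rw [← h4]
  apply Nat.card_congr
  refine Equiv.subtypeEquivRight ?_
  intro a
  rw [Submodule.mem_dualCoannihilator]
  constructor
  · intro h f hf
    have hle : W ≤ LinearMap.ker (Module.Dual.eval F V0 a) := by
      rw [hW]
      refine Submodule.span_le.mpr ?_
      rintro _ ⟨i, rfl⟩
      exact h i
    exact hle hf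
  · intro h i
    exact h _ (by rw [hW]; exact Submodule.subset_span ⟨i, rfl⟩)

theorem msnorm_card2 {φ ψ : Dual F V0} (hli : LinearIndependent F ![φ, ψ]) :
    Nat.card {a : V0 // φ a = 0 ∧ ψ a = 0} = Nat.card F ^ (finrank F V0 - 2) := by
  have h := msnorm_card_coann ![φ, ψ] hli
  rw [Fintype.card_fin] at h
  rw [← h]
  exact Nat.card_congr (Equiv.subtypeEquivRight (fun a => by simp [Fin.forall_fin_two]))

theorem msnorm_card3 {φ ψ ψ' : Dual F V0} (hli : LinearIndependent F ![φ, ψ, ψ']) :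
    Nat.card {a : V0 // (φ a = 0 ∧ ψ a = 0) ∧ ψ' a = 0} = Nat.card F ^ (finrank F V0 - 3) := by
  have h := msnorm_card_coann ![φ, ψ, ψ'] hli
  rw [Fintype.card_fin] at h
  rw [← h]
  exact Nat.card_congr (Equiv.subtypeEquivRight (fun a => by
    simp [Fin.forall_fin_succ, and_assoc]))

/-! ## PIECE MSNORM (normalising and centraliser counts, level one and two) -/

theorem tv_normBy_qsub {φ ψ : Dual F V0} {b : V0} (hφb : φ b = 0) (hψb : ψ b = 0) :
    NormBy (tv ψ b) (Qsub φ) := by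
  refine ⟨?_, ?_⟩
  · rintro _ ⟨a, ha, rfl⟩
    rw [msnorm_conj hψb hφb]
    exact ⟨_, by rw [map_add, map_smul, ha, hφb, smul_zero, add_zero], rfl⟩
  · rintro _ ⟨a, ha, rfl⟩
    rw [msnorm_conj' hψb hφb]
    exact ⟨_, by rw [map_add, map_smul, map_neg, ha, hφb, neg_zero, smul_zero, add_zero], rfl⟩

theorem cent_qsub_tv {φ ψ : Dual F V0} {b : V0} (hli : LinearIndependent F ![φ, ψ])
    (hφb : φ b = 0) (hψb : ψ b = 0) (hb : b ≠ 0) :
    cent (Qsub φ) (tv ψ b) = Nat.card F ^ (finrank F V0 - 2) := by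
  have hφ : φ ≠ 0 := hli.ne_zero 0
  rw [msnorm_cent_card hφ hψb hφb hb (Qsub φ) {a | φ a = 0} (fun a ha => ha)
    (fun x => Iff.rfl)]
  exact msnorm_card2 hli

theorem tv_normBy_xsub {φ ψ ψ' : Dual F V0} {b : V0} (hφb : φ b = 0) (hψb : ψ b = 0)
    (hψ'b : ψ' b = 0) : NormBy (tv ψ' b) (Xsub φ ψ) := by
  refine ⟨?_, ?_⟩
  · rintro _ ⟨a, ha, ha', rfl⟩
    rw [msnorm_conj hψ'b hψb]
    exact ⟨_, by rw [map_add, map_smul, ha, hφb, smul_zero, add_zero],
      by rw [map_add, map_smul, ha', hψb, smul_zero, add_zero], rfl⟩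
  · rintro _ ⟨a, ha, ha', rfl⟩
    rw [msnorm_conj' hψ'b hψb]
    exact ⟨_, by rw [map_add, map_smul, map_neg, ha, hφb, neg_zero, smul_zero, add_zero],
      by rw [map_add, map_smul, map_neg, ha', hψb, neg_zero, smul_zero, add_zero], rfl⟩

theorem bsub_le_csub_xsub {φ ψ ψ' : Dual F V0} {b : V0} (hφb : φ b = 0) (hψb : ψ b = 0)
    (hψ'b : ψ' b = 0) : bsub (Xsub φ ψ) (tv ψ' b) ≤ csub (Xsub φ ψ) (tv ψ' b) := by
  unfold bsub
  rw [Subgroup.closure_le]
  rintro _ ⟨y, ⟨c, hc, hc', rfl⟩, rfl⟩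
  rw [msnorm_comm_gen hc' hψb hψ'b]
  have e1 : φ (-(ψ' c • b)) = 0 := by rw [map_neg, map_smul, hφb, smul_zero, neg_zero]
  have e2 : ψ (-(ψ' c • b)) = 0 := by rw [map_neg, map_smul, hψb, smul_zero, neg_zero]
  have e3 : ψ' (-(ψ' c • b)) = 0 := by rw [map_neg, map_smul, hψ'b, smul_zero, neg_zero]
  refine ⟨⟨_, e1, e2, rfl⟩, ?_⟩
  rw [← mul_inv_eq_iff_eq_mul, msnorm_conj hψ'b hψb, e3, zero_smul, add_zero]

theorem cent_xsub_tv {φ ψ ψ' : Dual F V0} {b : V0} (hli : LinearIndependent F ![φ, ψ, ψ'])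
    (hφb : φ b = 0) (hψb : ψ b = 0) (hψ'b : ψ' b = 0) (hb : b ≠ 0) :
    cent (Xsub φ ψ) (tv ψ' b) = Nat.card F ^ (finrank F V0 - 3) := by
  have hψ : ψ ≠ 0 := hli.ne_zero 1
  rw [msnorm_cent_card hψ hψ'b hψb hb (Xsub φ ψ) {a | φ a = 0 ∧ ψ a = 0} (fun a ha => ha.2)
    (fun x => ⟨fun ⟨a, h1, h2, h3⟩ => ⟨a, ⟨h1, h2⟩, h3⟩, fun ⟨a, ⟨h1, h2⟩, h3⟩ => ⟨a, h1, h2, h3⟩⟩)]
  exact msnorm_card3 hli

theorem csub_le_bsub_four (hn : finrank F V0 = 4) {φ ψ ψ' : Dual F V0} {b : V0}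
    (hli : LinearIndependent F ![φ, ψ, ψ']) (hφb : φ b = 0) (hψb : ψ b = 0) (hψ'b : ψ' b = 0)
    (hb : b ≠ 0) : csub (Xsub φ ψ) (tv ψ' b) ≤ bsub (Xsub φ ψ) (tv ψ' b) := by
  have hψ : ψ ≠ 0 := hli.ne_zero 1
  have hq : 1 < Nat.card F := Finite.one_lt_card
  have hli2 : LinearIndependent F ![φ, ψ] := by
    have h := hli.comp Fin.castSucc (Fin.castSucc_injective 2)
    have e : (![φ, ψ, ψ'] : Fin 3 → Dual F V0) ∘ Fin.castSucc = ![φ, ψ] := by
      funext i; fin_cases i <;> rfl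
    rwa [e] at h
  have hc3 : Nat.card {a : V0 // (φ a = 0 ∧ ψ a = 0) ∧ ψ' a = 0} = Nat.card F := by
    have h := msnorm_card3 hli
    rw [hn] at h
    rw [h]; norm_num
  have hc2 : Nat.card {a : V0 // φ a = 0 ∧ ψ a = 0} = Nat.card F ^ 2 := by
    have h := msnorm_card2 hli2
    rw [hn] at h
    rw [h]
  haveI : Finite V0 := Module.finite_of_finite F
  -- every common zero is a multiple of `b`
  have hline : ∀ c : V0, φ c = 0 → ψ c = 0 → ψ' c = 0 → ∃ t : F, c = t • b := by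
    intro c h1 h2 h3
    have hinj : Function.Injective (fun t : F =>
        (⟨t • b, ⟨by rw [map_smul, hφb, smul_zero], by rw [map_smul, hψb, smul_zero]⟩,
          by rw [map_smul, hψ'b, smul_zero]⟩ : {a : V0 // (φ a = 0 ∧ ψ a = 0) ∧ ψ' a = 0})) := by
      intro t t' h
      have h' : t • b = t' • b := congrArg Subtype.val h
      exact smul_left_injective F hb h'
    have hbij := hinj.bijective_of_nat_card_le (by rw [hc3])
    obtain ⟨t, ht⟩ := hbij.2 ⟨c, ⟨h1, h2⟩, h3⟩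
    exact ⟨t, (congrArg Subtype.val ht).symm⟩
  -- a vector of `ker φ ∩ ker ψ` with `ψ' c₀ = 1`
  obtain ⟨c₀, hc₀1, hc₀2, hc₀3⟩ : ∃ c₀ : V0, φ c₀ = 0 ∧ ψ c₀ = 0 ∧ ψ' c₀ = 1 := by
    obtain ⟨c₁, h1, h2, h3⟩ : ∃ c₁ : V0, φ c₁ = 0 ∧ ψ c₁ = 0 ∧ ψ' c₁ ≠ 0 := by
      by_contra hcon
      push Not at hcon
      have hinj : Function.Injective (fun a : {a : V0 // φ a = 0 ∧ ψ a = 0} =>
          (⟨a.1, a.2, hcon a.1 a.2.1 a.2.2⟩ : {a : V0 // (φ a = 0 ∧ ψ a = 0) ∧ ψ' a = 0})) := by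
        intro a a' h
        have h' : a.1 = a'.1 :=
          congrArg (fun s : {a : V0 // (φ a = 0 ∧ ψ a = 0) ∧ ψ' a = 0} => (s : V0)) h
        exact Subtype.ext h'
      have hle := Nat.card_le_card_of_injective _ hinj
      rw [hc2, hc3] at hle
      have : Nat.card F ^ 1 < Nat.card F ^ 2 := Nat.pow_lt_pow_right hq (by norm_num)
      rw [pow_one] at this
      omega
    refine ⟨(ψ' c₁)⁻¹ • c₁, by rw [map_smul, h1, smul_zero], by rw [map_smul, h2, smul_zero], ?_⟩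
    rw [map_smul, smul_eq_mul, inv_mul_cancel₀ h3]
  rintro x ⟨⟨c, hc1, hc2', rfl⟩, hx⟩
  have hc3' : ψ' c = 0 := (msnorm_comm_iff hψ hψ'b hψb hb hc2').mp hx
  obtain ⟨t, rfl⟩ := hline c hc1 hc2' hc3'
  unfold bsub
  apply Subgroup.subset_closure
  refine ⟨tv ψ ((-t) • c₀), ⟨_, by rw [map_smul, hc₀1, smul_zero],
    by rw [map_smul, hc₀2, smul_zero], rfl⟩, ?_⟩
  rw [msnorm_comm_gen (by rw [map_smul, hc₀2, smul_zero]) hψb hψ'b, map_smul, hc₀3]
  congr 1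
  simp

end

end Cfsg.Agent.Helper66
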