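import Mathlib
import Cfsg.Agent.Helper21.FieldOfReg

set_option autoImplicit false
set_option linter.style.haveILetI false

/-!
# A field from an abelian irreducible group of automorphisms (helper66)

`A` a finite commutative group, `c : D →* MulAut A` with `D` commutative and `A` irreducible
(no proper nontrivial `D`-invariant subgroup).  Then the commutant of `D` in `End A` is a finite
field `F` (Schur + Wedderburn), `A` is one-dimensional over it (`ev : F ≃ A`, `φ ↦ φ e`), and
`D` acts through multiplication by `μ d ∈ Fˣ`.  The field is returned in `Type` (via `Shrink`).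
Builds on helper21's `FieldOfReg` definitions (which treat the regular case).
-/

namespace Cfsg.Agent.Helper66

open Cfsg.Agent.Helper21.FieldOfReg

universe u v

section Defs

variable {A : Type u} [CommGroup A] {D : Type v} [Group D] {c : D →* MulAut A}

/-- The kernel of an element of the commutant, as a subgroup of `A`. -/
def ffKer (φ : FF c) : Subgroup A where
  carrier := {a | φ.1 (Additive.ofMul a) = 0}
  mul_mem' := by
    intro a b ha hb
    show φ.1 (Additive.ofMul (a * b)) = 0
    rw [ofMul_mul, map_add]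
    rw [show φ.1 (Additive.ofMul a) = 0 from ha, show φ.1 (Additive.ofMul b) = 0 from hb, add_zero]
  one_mem' := by
    show φ.1 (Additive.ofMul (1 : A)) = 0
    rw [ofMul_one, map_zero]
  inv_mem' := by
    intro a ha
    show φ.1 (Additive.ofMul a⁻¹) = 0
    rw [ofMul_inv, map_neg, show φ.1 (Additive.ofMul a) = 0 from ha, neg_zero]

theorem mem_ffKer {φ : FF c} {a : A} : a ∈ ffKer φ ↔ φ.1 (Additive.ofMul a) = 0 := Iff.rfl

theorem ffKer_invariant (φ : FF c) (d : D) {x : A} (hx : x ∈ ffKer φ) : c d x ∈ ffKer φ := by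
  rw [mem_ffKer] at hx ⊢
  have h := comm_apply c φ d (Additive.ofMul x)
  rw [hx, map_zero] at h
  exact h

theorem ff_eq_zero_of_ker_top {φ : FF c} (h : ffKer φ = ⊤) : φ = 0 := by
  apply Subtype.ext
  refine DFunLike.ext _ _ (fun a => ?_)
  have : Additive.toMul a ∈ ffKer φ := by rw [h]; trivial
  exact this

variable (hirr : ∀ B : Subgroup A, (∀ (d : D) (x : A), x ∈ B → c d x ∈ B) → B = ⊥ ∨ B = ⊤)
include hirr

theorem ffKer_eq_bot {φ : FF c} (hφ : φ ≠ 0) : ffKer φ = ⊥ :=
  (hirr _ (fun d _ hx => ffKer_invariant φ d hx)).resolve_right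
    (fun h => hφ (ff_eq_zero_of_ker_top h))

theorem ffi_ev_injective {e : A} (he : e ≠ 1) : Function.Injective (ev c e) := by
  intro φ ψ h
  by_contra hne
  have hne' : φ - ψ ≠ 0 := sub_ne_zero.mpr hne
  have hk := ffKer_eq_bot hirr hne'
  have hmem : e ∈ ffKer (φ - ψ) := by
    rw [mem_ffKer]
    show φ.1 (Additive.ofMul e) - ψ.1 (Additive.ofMul e) = 0
    rw [sub_eq_zero]
    exact congrArg Additive.ofMul h
  rw [hk, Subgroup.mem_bot] at hmem
  exact he hmem

theorem ffi_eq_zero_or (φ ψ : FF c) (h : φ * ψ = 0) : φ = 0 ∨ ψ = 0 := by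
  by_cases hφ : φ = 0
  · exact Or.inl hφ
  right
  have hk := ffKer_eq_bot hirr hφ
  apply Subtype.ext
  refine DFunLike.ext _ _ (fun a => ?_)
  have hmem : Additive.toMul (ψ.1 a) ∈ ffKer φ := by
    rw [mem_ffKer]
    have := congrArg (fun χ : FF c => χ.1 a) h
    exact this
  rw [hk, Subgroup.mem_bot] at hmem
  exact hmem

theorem ffi_ev_surjective (hcomm : ∀ d d' : D, d * d' = d' * d) {e : A} (he : e ≠ 1) :
    Function.Surjective (ev c e) := by
  let B : Subgroup A :=
    { carrier := Set.range (ev c e)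
      mul_mem' := by
        rintro _ _ ⟨φ, rfl⟩ ⟨ψ, rfl⟩
        exact ⟨φ + ψ, ev_add c e φ ψ⟩
      one_mem' := ⟨0, ev_zero c e⟩
      inv_mem' := by
        rintro _ ⟨φ, rfl⟩
        exact ⟨-φ, rfl⟩ }
  have hB : ∀ (d : D) (x : A), x ∈ B → c d x ∈ B := by
    rintro d _ ⟨φ, rfl⟩
    exact ⟨mkF c hcomm d * φ, ev_mkF_mul c hcomm e d φ⟩
  have hne : B ≠ ⊥ := by
    intro h
    have : e ∈ B := ⟨1, ev_one c e⟩
    rw [h, Subgroup.mem_bot] at this
    exact he this
  have htop := (hirr B hB).resolve_left hne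
  intro a
  have : a ∈ B := by rw [htop]; trivial
  exact this

end Defs

/-- **The field of an abelian irreducible automorphism group.** -/
theorem exists_field_irred {A : Type u} [Group A] [Finite A] (hc : ∀ a b : A, a * b = b * a)
    {D : Type v} [Group D] (c : D →* MulAut A) (hcomm : ∀ d d' : D, d * d' = d' * d)
    (hirr : ∀ B : Subgroup A, (∀ (d : D) (x : A), x ∈ B → c d x ∈ B) → B = ⊥ ∨ B = ⊤)
    (e : A) (he : e ≠ 1) :
    ∃ (F : Type) (_ : Field F) (_ : Fintype F) (ev : F → A) (μ : D → F),
      Function.Bijective ev ∧ ev 0 = 1 ∧ ev 1 = e ∧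
      (∀ x y, ev (x + y) = ev x * ev y) ∧ (∀ d x, ev (μ d * x) = c d (ev x)) ∧
      (∀ d d', μ (d * d') = μ d * μ d') ∧ μ 1 = 1 ∧ (∀ d, μ d ≠ 0) := by
  classical
  letI instCG : CommGroup A := { (inferInstance : Group A) with mul_comm := hc }
  have hinj : Function.Injective (ev c e) := ffi_ev_injective hirr he
  have hsurj : Function.Surjective (ev c e) := ffi_ev_surjective hirr hcomm he
  have hfin : Finite (FF c) := Finite.of_injective (ev c e) hinj
  letI instFT : Fintype (FF c) := Fintype.ofFinite _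
  have hnt : Nontrivial (FF c) := by
    refine ⟨⟨0, 1, ?_⟩⟩
    intro h01
    apply he
    have := congrArg (ev c e) h01
    rw [ev_zero, ev_one] at this
    exact this.symm
  have hnzd : NoZeroDivisors (FF c) := ⟨fun {a b} h => ffi_eq_zero_or hirr a b h⟩
  have hdom : IsDomain (FF c) := NoZeroDivisors.to_isDomain _
  letI instDR : DivisionRing (FF c) := Fintype.divisionRingOfIsDomain (FF c)
  letI instFld : Field (FF c) := littleWedderburn (FF c)
  let r : Shrink.{0} (FF c) ≃+* FF c := Shrink.ringEquiv.{0} (FF c)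
  have hfin' : Finite (Shrink.{0} (FF c)) := Finite.of_equiv _ r.symm.toEquiv
  refine ⟨Shrink.{0} (FF c), inferInstance, Fintype.ofFinite _, fun x => ev c e (r x),
    fun d => r.symm (mkF c hcomm d), ⟨hinj.comp r.injective, hsurj.comp r.surjective⟩, ?_, ?_,
    ?_, ?_, ?_, ?_, ?_⟩
  · show ev c e (r 0) = 1
    rw [map_zero, ev_zero]
  · show ev c e (r 1) = e
    rw [map_one, ev_one]
  · intro x y
    show ev c e (r (x + y)) = ev c e (r x) * ev c e (r y)
    rw [map_add, ev_add]
  · intro d x
    show ev c e (r (r.symm (mkF c hcomm d) * x)) = c d (ev c e (r x))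
    rw [map_mul, RingEquiv.apply_symm_apply, ev_mkF_mul]
  · intro d d'
    show r.symm (mkF c hcomm (d * d')) = r.symm (mkF c hcomm d) * r.symm (mkF c hcomm d')
    rw [mkF_mul, map_mul]
  · show r.symm (mkF c hcomm 1) = 1
    have h1 : mkF c hcomm 1 = 1 := by
      apply Subtype.ext
      refine DFunLike.ext _ _ (fun a => ?_)
      show Additive.ofMul (c 1 (Additive.toMul a)) = a
      rw [map_one]; rfl
    rw [h1, map_one]
  · intro d h
    have h0 : mkF c hcomm d = 0 := by
      have := congrArg r h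
      rwa [RingEquiv.apply_symm_apply, map_zero] at this
    exact mkF_ne_zero hcomm he d h0

end Cfsg.Agent.Helper66
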