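import Mathlib
import Cfsg.Agent.Helper5.SLCard
import Cfsg.Agent.S0265

set_option autoImplicit false

/-!
# Recognising `PSL₂(K)` and `PGL₂(K)` from a Moebius action (helper66)

`ι : OnePoint K ≃ Ω` a parametrisation of a `G`-set by the projective line.  If `G` is faithful
on `Ω`, contains elements acting as all translations `x ↦ x + b` and as `x ↦ -1/x`, and is not
larger than `PSL₂(K)`, then `G ≃* PSL₂(K)` (`psl2_of_moebius`).  With all `x ↦ a x` as well and
`|G| ≤ |PGL₂(K)|` we get `G ≃* PGL₂(K)` (`pgl2_of_moebius`).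
-/

namespace Cfsg.Agent.Helper66

open Matrix OnePoint

section Mats

variable {K : Type*} [Field K]

/-- `x ↦ x + b`. -/
noncomputable def mbT (b : K) : GL (Fin 2) K :=
  Matrix.GeneralLinearGroup.mkOfDetNeZero !![1, b; 0, 1] (by simp [Matrix.det_fin_two_of])

/-- `x ↦ -1/x`. -/
noncomputable def mbW : GL (Fin 2) K :=
  Matrix.GeneralLinearGroup.mkOfDetNeZero !![0, -1; 1, 0] (by simp [Matrix.det_fin_two_of])

/-- `x ↦ a x`. -/
noncomputable def mbD (a : K) (ha : a ≠ 0) : GL (Fin 2) K :=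
  Matrix.GeneralLinearGroup.mkOfDetNeZero !![a, 0; 0, 1] (by simp [Matrix.det_fin_two_of, ha])

/-- lower unipotent -/
noncomputable def mbL (c : K) : GL (Fin 2) K :=
  Matrix.GeneralLinearGroup.mkOfDetNeZero !![1, 0; c, 1] (by simp [Matrix.det_fin_two_of])

/-- `diag(a, a⁻¹)` -/
noncomputable def mbS (a : K) (ha : a ≠ 0) : GL (Fin 2) K :=
  Matrix.GeneralLinearGroup.mkOfDetNeZero !![a, 0; 0, a⁻¹] (by simp [Matrix.det_fin_two_of, ha])

theorem mbT_val (b : K) : ((mbT b : GL (Fin 2) K) : Matrix (Fin 2) (Fin 2) K) = !![1, b; 0, 1] := rfl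
theorem mbW_val : ((mbW : GL (Fin 2) K) : Matrix (Fin 2) (Fin 2) K) = !![0, -1; 1, 0] := rfl
theorem mbD_val (a : K) (ha : a ≠ 0) :
    ((mbD a ha : GL (Fin 2) K) : Matrix (Fin 2) (Fin 2) K) = !![a, 0; 0, 1] := rfl
theorem mbL_val (c : K) : ((mbL c : GL (Fin 2) K) : Matrix (Fin 2) (Fin 2) K) = !![1, 0; c, 1] := rfl
theorem mbS_val (a : K) (ha : a ≠ 0) :
    ((mbS a ha : GL (Fin 2) K) : Matrix (Fin 2) (Fin 2) K) = !![a, 0; 0, a⁻¹] := rfl

theorem gl_ext {A B : GL (Fin 2) K}
    (h : (A : Matrix (Fin 2) (Fin 2) K) = (B : Matrix (Fin 2) (Fin 2) K)) : A = B :=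
  Units.ext h

theorem mbW_mul_mbL (c : K) : mbW * mbL c = mbT (-c) * mbW := by
  apply gl_ext
  rw [Units.val_mul, Units.val_mul, mbW_val, mbL_val, mbT_val]
  ext i j
  fin_cases i <;> fin_cases j <;> simp [Matrix.mul_apply, Fin.sum_univ_two]

theorem mbS_eq (a : K) (ha : a ≠ 0) : mbS a ha = mbT a * mbL (-a⁻¹) * mbT a * mbW := by
  apply gl_ext
  rw [Units.val_mul, Units.val_mul, Units.val_mul, mbW_val, mbL_val, mbT_val, mbS_val]
  ext i j
  fin_cases i <;> fin_cases j <;> simp [Matrix.mul_apply, Fin.sum_univ_two, ha]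

variable [DecidableEq K]

theorem mbT_smul_infty (b : K) : mbT b • (∞ : OnePoint K) = ∞ := by
  rw [OnePoint.smul_infty_eq_self_iff, mbT_val]; simp

theorem mbT_smul_coe (b x : K) : mbT b • (x : OnePoint K) = ((x + b : K) : OnePoint K) := by
  rw [OnePoint.smul_some_eq_ite, mbT_val]; simp

theorem mbW_smul_infty : (mbW : GL (Fin 2) K) • (∞ : OnePoint K) = ((0 : K) : OnePoint K) := by
  rw [OnePoint.smul_infty_eq_ite, mbW_val]; simp

theorem mbW_smul_zero : (mbW : GL (Fin 2) K) • ((0 : K) : OnePoint K) = ∞ := by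
  rw [OnePoint.smul_some_eq_ite, mbW_val]; simp

theorem mbW_smul_coe {x : K} (hx : x ≠ 0) :
    (mbW : GL (Fin 2) K) • (x : OnePoint K) = ((-x⁻¹ : K) : OnePoint K) := by
  rw [OnePoint.smul_some_eq_ite, mbW_val]; simp [hx, neg_div]

theorem mbD_smul_infty (a : K) (ha : a ≠ 0) : mbD a ha • (∞ : OnePoint K) = ∞ := by
  rw [OnePoint.smul_infty_eq_self_iff, mbD_val]; simp

theorem mbD_smul_coe (a : K) (ha : a ≠ 0) (x : K) :
    mbD a ha • (x : OnePoint K) = ((a * x : K) : OnePoint K) := by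
  rw [OnePoint.smul_some_eq_ite, mbD_val]; simp

omit [DecidableEq K] in
/-- Bruhat-type decomposition of `SL₂(K)` inside `GL₂(K)`, case `c = 0`. -/
theorem sl_decomp_zero (m : SpecialLinearGroup (Fin 2) K) (hc : m 1 0 = 0) :
    ∃ (a b : K) (ha : a ≠ 0), SpecialLinearGroup.toGL m = mbS a ha * mbT b := by
  have hdet : m 0 0 * m 1 1 - m 0 1 * m 1 0 = 1 := by
    have := m.det_coe
    rwa [Matrix.det_fin_two] at this
  rw [hc, mul_zero, sub_zero] at hdet
  have ha : m 0 0 ≠ 0 := by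
    intro h
    rw [h, zero_mul] at hdet
    exact zero_ne_one hdet
  refine ⟨m 0 0, m 0 1 / m 0 0, ha, ?_⟩
  apply gl_ext
  rw [Units.val_mul, mbS_val, mbT_val]
  have h11 : m 1 1 = (m 0 0)⁻¹ := eq_inv_of_mul_eq_one_right hdet
  ext i j
  fin_cases i <;> fin_cases j <;>
    simp [Matrix.mul_apply, Fin.sum_univ_two, hc, h11, mul_div_cancel₀, ha]

omit [DecidableEq K] in
/-- Bruhat-type decomposition of `SL₂(K)` inside `GL₂(K)`, case `c ≠ 0`. -/
theorem sl_decomp_ne (m : SpecialLinearGroup (Fin 2) K) (hc : m 1 0 ≠ 0) :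
    ∃ (a b c : K) (hc : c ≠ 0), SpecialLinearGroup.toGL m = mbT a * mbS c hc * mbW * mbT b := by
  have hdet : m 0 0 * m 1 1 - m 0 1 * m 1 0 = 1 := by
    have := m.det_coe
    rwa [Matrix.det_fin_two] at this
  refine ⟨m 0 0 / m 1 0, m 1 1 / m 1 0, (m 1 0)⁻¹, inv_ne_zero hc, ?_⟩
  apply gl_ext
  rw [Units.val_mul, Units.val_mul, Units.val_mul, mbS_val, mbT_val, mbT_val, mbW_val]
  ext i j
  fin_cases i <;> fin_cases j <;>
    simp [Matrix.mul_apply, Fin.sum_univ_two, hc]
  · field_simp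
    linear_combination (-1 : K) * hdet
  · field_simp

end Mats

section Match

variable {K : Type*} [Field K] [DecidableEq K] (G : Type*) {Ω : Type*} [Group G] [MulAction G Ω]

/-- `g` acts on `Ω` as the matrix `m` acts on the projective line. -/
def MoebMatch {G : Type*} [Group G] [MulAction G Ω] (ι : OnePoint K ≃ Ω) (g : G)
    (m : GL (Fin 2) K) : Prop :=
  ∀ y : OnePoint K, g • ι y = ι (m • y)

/-- The matrices whose Moebius action is realised by an element of `G`. -/
def moebSub (ι : OnePoint K ≃ Ω) : Subgroup (GL (Fin 2) K) where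
  carrier := {m | ∃ g : G, MoebMatch ι g m}
  mul_mem' := by
    rintro m m' ⟨g, hg⟩ ⟨g', hg'⟩
    exact ⟨g * g', fun y => by rw [mul_smul, hg', hg, mul_smul]⟩
  one_mem' := ⟨1, fun y => by rw [one_smul, one_smul]⟩
  inv_mem' := by
    rintro m ⟨g, hg⟩
    refine ⟨g⁻¹, fun y => ?_⟩
    rw [inv_smul_eq_iff, hg, smul_inv_smul]

theorem mem_moebSub {ι : OnePoint K ≃ Ω} {m : GL (Fin 2) K} :
    m ∈ moebSub G ι ↔ ∃ g : G, MoebMatch ι g m := Iff.rfl

variable {G}

theorem sl_mem_moebSub (ι : OnePoint K ≃ Ω) (hT : ∀ b : K, ∃ g : G, MoebMatch ι g (mbT b))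
    (hW : ∃ g : G, MoebMatch ι g (mbW : GL (Fin 2) K)) (m : SpecialLinearGroup (Fin 2) K) :
    SpecialLinearGroup.toGL m ∈ moebSub G ι := by
  have hT' : ∀ b : K, mbT b ∈ moebSub G ι := hT
  have hW' : (mbW : GL (Fin 2) K) ∈ moebSub G ι := hW
  have hL : ∀ c : K, mbL c ∈ moebSub G ι := by
    intro c
    have h : mbL c = mbW⁻¹ * (mbT (-c) * mbW) := by
      rw [eq_inv_mul_iff_mul_eq]; exact mbW_mul_mbL c
    rw [h]
    exact mul_mem (inv_mem hW') (mul_mem (hT' _) hW')
  have hS : ∀ (a : K) (ha : a ≠ 0), mbS a ha ∈ moebSub G ι := by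
    intro a ha
    rw [mbS_eq]
    exact mul_mem (mul_mem (mul_mem (hT' _) (hL _)) (hT' _)) hW'
  by_cases hc : m 1 0 = 0
  · obtain ⟨a, b, ha, h⟩ := sl_decomp_zero m hc
    rw [h]
    exact mul_mem (hS a ha) (hT' b)
  · obtain ⟨a, b, c, hc', h⟩ := sl_decomp_ne m hc
    rw [h]
    exact mul_mem (mul_mem (mul_mem (hT' a) (hS c hc')) hW') (hT' b)

/-- The permutation representation of `GL₂(K)` on `Ω` through the parametrisation `ι`. -/
noncomputable def moebHom (ι : OnePoint K ≃ Ω) : GL (Fin 2) K →* Equiv.Perm Ω :=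
  (ι.permCongrHom : Equiv.Perm (OnePoint K) ≃* Equiv.Perm Ω).toMonoidHom.comp
    (MulAction.toPermHom (GL (Fin 2) K) (OnePoint K))

theorem moebHom_apply (ι : OnePoint K ≃ Ω) (m : GL (Fin 2) K) (ω : Ω) :
    moebHom ι m ω = ι (m • ι.symm ω) := rfl

theorem moebHom_eq_of_match {ι : OnePoint K ≃ Ω} {g : G} {m : GL (Fin 2) K}
    (h : MoebMatch ι g m) : MulAction.toPermHom G Ω g = moebHom ι m := by
  ext ω
  rw [moebHom_apply, MulAction.toPermHom_apply, MulAction.toPerm_apply, ← h, Equiv.apply_symm_apply]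

/-- A matrix acting trivially on the projective line is scalar. -/
theorem scalar_of_smul_eq (m : GL (Fin 2) K) (h : ∀ y : OnePoint K, m • y = y) :
    m 1 0 = 0 ∧ m 0 1 = 0 ∧ m 0 0 = m 1 1 := by
  have h10 : m 1 0 = 0 := OnePoint.smul_infty_eq_self_iff.mp (h ∞)
  have h0 := h ((0 : K) : OnePoint K)
  rw [OnePoint.smul_some_eq_ite, h10] at h0
  simp only [mul_zero, zero_add] at h0
  have h11 : m 1 1 ≠ 0 := by
    intro h11
    rw [if_pos h11] at h0
    exact OnePoint.infty_ne_coe _ h0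
  rw [if_neg h11, OnePoint.coe_eq_coe, div_eq_zero_iff] at h0
  have h01 : m 0 1 = 0 := h0.resolve_right h11
  have h1 := h ((1 : K) : OnePoint K)
  rw [OnePoint.smul_some_eq_ite, h10, h01] at h1
  simp only [mul_one, zero_add, add_zero] at h1
  rw [if_neg h11, OnePoint.coe_eq_coe, div_eq_one_iff_eq h11] at h1
  exact ⟨h10, h01, h1⟩

theorem smul_eq_of_scalar (m : GL (Fin 2) K) (h10 : m 1 0 = 0) (h01 : m 0 1 = 0)
    (h : m 0 0 = m 1 1) (y : OnePoint K) : m • y = y := by
  have h11 : m 1 1 ≠ 0 := by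
    intro h11
    have := m.det_ne_zero
    rw [Matrix.det_fin_two, h10, h11] at this
    simp at this
  cases y with
  | infty => exact OnePoint.smul_infty_eq_self_iff.mpr h10
  | coe x =>
    rw [OnePoint.smul_some_eq_ite, h10, h01, h]
    simp only [zero_mul, zero_add, add_zero]
    rw [if_neg h11, mul_div_cancel_left₀ _ h11]

theorem moebHom_sl_ker (ι : OnePoint K ≃ Ω) :
    ((moebHom ι).comp SpecialLinearGroup.toGL).ker =
      Subgroup.center (SpecialLinearGroup (Fin 2) K) := by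
  ext m
  rw [MonoidHom.mem_ker, Matrix.SpecialLinearGroup.mem_center_iff]
  constructor
  · intro hm
    have hy : ∀ y : OnePoint K, SpecialLinearGroup.toGL m • y = y := by
      intro y
      have := congrArg (fun σ : Equiv.Perm Ω => σ (ι y)) hm
      simp only [MonoidHom.comp_apply, moebHom_apply, Equiv.symm_apply_apply,
        Equiv.Perm.one_apply] at this
      exact ι.injective this
    obtain ⟨h10, h01, h00⟩ := scalar_of_smul_eq _ hy
    have h10' : m 1 0 = 0 := h10
    have h01' : m 0 1 = 0 := h01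
    have h00' : m 0 0 = m 1 1 := h00
    have hdet : m 0 0 * m 1 1 - m 0 1 * m 1 0 = 1 := by
      have := m.det_coe
      rwa [Matrix.det_fin_two] at this
    refine ⟨m 0 0, ?_, ?_⟩
    · rw [Fintype.card_fin, pow_two]
      rw [h10', mul_zero, sub_zero, ← h00'] at hdet
      exact hdet
    · ext i j
      fin_cases i <;> fin_cases j <;> simp [h10', h01', h00']
  · rintro ⟨r, hr, hrm⟩
    ext ω
    rw [MonoidHom.comp_apply, moebHom_apply, Equiv.Perm.one_apply]
    have h10 : m 1 0 = 0 := by rw [← hrm]; simp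
    have h01 : m 0 1 = 0 := by rw [← hrm]; simp
    have h00 : m 0 0 = m 1 1 := by rw [← hrm]; simp
    rw [smul_eq_of_scalar _ h10 h01 h00, Equiv.apply_symm_apply]

/-- **Recognition of `PSL₂(K)`** (odd characteristic) from a Moebius action. -/
theorem psl2_of_moebius [Fintype K] [Finite G] [FaithfulSMul G Ω] (ι : OnePoint K ≃ Ω)
    (h2 : (2 : K) ≠ 0)
    (hT : ∀ b : K, ∃ g : G, MoebMatch ι g (mbT b))
    (hW : ∃ g : G, MoebMatch ι g (mbW : GL (Fin 2) K))
    (hcard : 2 * Nat.card G ≤ Fintype.card K * (Fintype.card K ^ 2 - 1)) :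
    Nonempty (G ≃* ProjectiveSpecialLinearGroup (Fin 2) K) := by
  classical
  have hα : Function.Injective (MulAction.toPermHom G Ω) := MulAction.toPerm_injective
  set β : SpecialLinearGroup (Fin 2) K →* Equiv.Perm Ω :=
    (moebHom ι).comp SpecialLinearGroup.toGL with hβ
  have hle : β.range ≤ (MulAction.toPermHom G Ω).range := by
    rintro _ ⟨m, rfl⟩
    obtain ⟨g, hg⟩ := sl_mem_moebSub ι hT hW m
    exact ⟨g, moebHom_eq_of_match hg⟩
  have hker : β.ker = Subgroup.center (SpecialLinearGroup (Fin 2) K) := moebHom_sl_ker ι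
  have e1 : ProjectiveSpecialLinearGroup (Fin 2) K ≃* β.range :=
    (QuotientGroup.quotientMulEquivOfEq hker.symm).trans (QuotientGroup.quotientKerEquivRange β)
  have hc1 : Nat.card β.range = Nat.card (ProjectiveSpecialLinearGroup (Fin 2) K) :=
    Nat.card_congr e1.symm.toEquiv
  have hc2 : Nat.card (MulAction.toPermHom G Ω).range = Nat.card G :=
    Nat.card_congr (MonoidHom.ofInjective hα).symm.toEquiv
  have hc3 : Nat.card (ProjectiveSpecialLinearGroup (Fin 2) K) * 2 =
      Fintype.card K * (Fintype.card K ^ 2 - 1) := by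
    rw [← Cfsg.Agent.Helper5.card_PSL2_mul, Cfsg.Agent.Helper5.card_center_SL2 h2]
  have hfin : Finite (MulAction.toPermHom G Ω).range :=
    Finite.of_equiv G (MonoidHom.ofInjective hα).toEquiv
  have heq : β.range = (MulAction.toPermHom G Ω).range := by
    apply Subgroup.eq_of_le_of_card_ge hle
    rw [hc1, hc2]
    omega
  exact ⟨(MonoidHom.ofInjective hα).trans ((MulEquiv.subgroupCongr heq.symm).trans e1.symm)⟩

theorem moebHom_ker (ι : OnePoint K ≃ Ω) :
    (moebHom ι).ker = Subgroup.center (GL (Fin 2) K) := by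
  ext m
  rw [MonoidHom.mem_ker, Matrix.GeneralLinearGroup.mem_center_iff_val_mem_range_scalar]
  constructor
  · intro hm
    have hy : ∀ y : OnePoint K, m • y = y := by
      intro y
      have := congrArg (fun σ : Equiv.Perm Ω => σ (ι y)) hm
      simp only [moebHom_apply, Equiv.symm_apply_apply, Equiv.Perm.one_apply] at this
      exact ι.injective this
    obtain ⟨h10, h01, h00⟩ := scalar_of_smul_eq _ hy
    refine ⟨m 0 0, ?_⟩
    ext i j
    fin_cases i <;> fin_cases j <;> simp [h10, h01, h00]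
  · rintro ⟨r, hrm⟩
    ext ω
    rw [moebHom_apply, Equiv.Perm.one_apply]
    have h10 : m 1 0 = 0 := by rw [← hrm]; simp
    have h01 : m 0 1 = 0 := by rw [← hrm]; simp
    have h00 : m 0 0 = m 1 1 := by rw [← hrm]; simp
    rw [smul_eq_of_scalar _ h10 h01 h00, Equiv.apply_symm_apply]

theorem gl_mem_moebSub (ι : OnePoint K ≃ Ω) (hT : ∀ b : K, ∃ g : G, MoebMatch ι g (mbT b))
    (hW : ∃ g : G, MoebMatch ι g (mbW : GL (Fin 2) K))
    (hD : ∀ (a : K) (ha : a ≠ 0), ∃ g : G, MoebMatch ι g (mbD a ha)) (m : GL (Fin 2) K) :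
    m ∈ moebSub G ι := by
  set δu : Kˣ := Matrix.GeneralLinearGroup.det m with hδu
  have hδ : (δu : K) ≠ 0 := δu.ne_zero
  have hdet : Matrix.GeneralLinearGroup.det (mbD (δu : K) hδ) = δu := by
    apply Units.ext
    rw [Matrix.GeneralLinearGroup.val_det_apply, mbD_val, Matrix.det_fin_two_of]
    simp
  have hm' : (mbD (δu : K) hδ)⁻¹ * m ∈
      (Matrix.GeneralLinearGroup.det : GL (Fin 2) K →* Kˣ).ker := by
    rw [MonoidHom.mem_ker, map_mul, map_inv, hdet, inv_mul_cancel]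
  rw [← Cfsg.Agent.Helper5.toGL_range_eq_ker_det] at hm'
  obtain ⟨sl, hsl⟩ := hm'
  have h1 : (mbD (δu : K) hδ)⁻¹ * m ∈ moebSub G ι := by
    rw [← hsl]; exact sl_mem_moebSub ι hT hW sl
  have h2 : mbD (δu : K) hδ ∈ moebSub G ι := hD _ hδ
  have := mul_mem h2 h1
  rwa [mul_inv_cancel_left] at this

/-- **Recognition of `PGL₂(K)`** from a Moebius action. -/
theorem pgl2_of_moebius [Fintype K] [Finite G] [FaithfulSMul G Ω] (ι : OnePoint K ≃ Ω)
    (hT : ∀ b : K, ∃ g : G, MoebMatch ι g (mbT b))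
    (hW : ∃ g : G, MoebMatch ι g (mbW : GL (Fin 2) K))
    (hD : ∀ (a : K) (ha : a ≠ 0), ∃ g : G, MoebMatch ι g (mbD a ha))
    (hcard : Nat.card G ≤ Fintype.card K * (Fintype.card K ^ 2 - 1)) :
    Nonempty (G ≃* ProjGenLinGroup (Fin 2) K) := by
  classical
  have hα : Function.Injective (MulAction.toPermHom G Ω) := MulAction.toPerm_injective
  set β : GL (Fin 2) K →* Equiv.Perm Ω := moebHom ι with hβ
  have hle : β.range ≤ (MulAction.toPermHom G Ω).range := by
    rintro _ ⟨m, rfl⟩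
    obtain ⟨g, hg⟩ := gl_mem_moebSub ι hT hW hD m
    exact ⟨g, moebHom_eq_of_match hg⟩
  have hker : β.ker = Subgroup.center (GL (Fin 2) K) := moebHom_ker ι
  have e1 : ProjGenLinGroup (Fin 2) K ≃* β.range :=
    (QuotientGroup.quotientMulEquivOfEq hker.symm).trans (QuotientGroup.quotientKerEquivRange β)
  have hc1 : Nat.card β.range = Nat.card (ProjGenLinGroup (Fin 2) K) :=
    Nat.card_congr e1.symm.toEquiv
  have hc2 : Nat.card (MulAction.toPermHom G Ω).range = Nat.card G :=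
    Nat.card_congr (MonoidHom.ofInjective hα).symm.toEquiv
  have hc3 : Nat.card (ProjGenLinGroup (Fin 2) K) =
      Fintype.card K * (Fintype.card K ^ 2 - 1) := by
    rw [Cfsg.Agent.S0265.result 2, Cfsg.Agent.Helper5.card_SL2]
  have hfin : Finite (MulAction.toPermHom G Ω).range :=
    Finite.of_equiv G (MonoidHom.ofInjective hα).toEquiv
  have heq : β.range = (MulAction.toPermHom G Ω).range := by
    apply Subgroup.eq_of_le_of_card_ge hle
    rw [hc1, hc2, hc3]
    exact hcard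
  exact ⟨(MonoidHom.ofInjective hα).trans ((MulEquiv.subgroupCongr heq.symm).trans e1.symm)⟩

end Match

end Cfsg.Agent.Helper66
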