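import Mathlib
import Cfsg.Agent.Helper66.Moebius
import Cfsg.Agent.Helper66.FieldIrr

set_option autoImplicit false

/-!
# Coordinatising a point stabiliser by a field (helper66)

`G` acts on `Ω`; `T ≤ G_a` is abelian and regular on `Ω ∖ {a}`; `D ≤ G_{a,b}` is abelian,
normalises `T`, only its identity fixes a third point, and `|T| ≤ 2|D| + 1`.  Then there are a
finite field `K` (in `Type`), a parametrisation `ι : OnePoint K ≃ Ω` with `ι ∞ = a`, `ι 0 = b`,
`ι 1 = c₁` (any prescribed third point) such that `T` acts as the translations `x ↦ x + r` and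
`D` acts as multiplications by `μ h ∈ Kˣ` (`exists_coord`).
-/

namespace Cfsg.Agent.Helper66

open OnePoint Matrix

section Coord

/-- A group of automorphisms acting freely on the non-identity elements of `A`, of order at least
`(|A| - 1)/2`, leaves no proper nontrivial subgroup invariant. -/
theorem irred_of_free {A : Type*} [Group A] [Finite A] {D : Type*} [Group D] [Finite D]
    (c : D →* MulAut A) (hfree : ∀ (d : D) (x : A), x ≠ 1 → c d x = x → d = 1)
    (hcard : Nat.card A ≤ 2 * Nat.card D + 1)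
    (B : Subgroup A) (hB : ∀ (d : D) (x : A), x ∈ B → c d x ∈ B) : B = ⊥ ∨ B = ⊤ := by
  by_cases hB0 : B = ⊥
  · exact Or.inl hB0
  right
  obtain ⟨x₀, hx₀B, hx₀⟩ := (Subgroup.ne_bot_iff_exists_ne_one.mp hB0 |>.imp fun x hx => hx) |>
    fun ⟨x, hx⟩ => (⟨(x : A), x.2, fun h => hx (Subtype.ext h)⟩ : ∃ x₀ : A, x₀ ∈ B ∧ x₀ ≠ 1)
  let f : Option D → B := fun o => o.elim 1 (fun d => ⟨c d x₀, hB d x₀ hx₀B⟩)
  have hf : Function.Injective f := by
    intro o o' h
    cases o with
    | none =>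
      cases o' with
      | none => rfl
      | some d' =>
        exfalso
        have h1 : (1 : A) = c d' x₀ := congrArg Subtype.val h
        have h2 : c d' x₀ = c d' 1 := by rw [map_one]; exact h1.symm
        exact hx₀ ((c d').injective h2)
    | some d =>
      cases o' with
      | none =>
        exfalso
        have h1 : c d x₀ = (1 : A) := congrArg Subtype.val h
        have h2 : c d x₀ = c d 1 := by rw [map_one]; exact h1
        exact hx₀ ((c d).injective h2)
      | some d' =>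
        have h1 : c d x₀ = c d' x₀ := congrArg Subtype.val h
        have h2 : c (d'⁻¹ * d) x₀ = x₀ := by
          rw [map_mul, MulAut.mul_apply, h1, ← MulAut.mul_apply, ← map_mul, inv_mul_cancel,
            map_one, MulAut.one_apply]
        have h3 := hfree _ _ hx₀ h2
        rw [inv_mul_eq_one] at h3
        rw [h3]
  have h1 : Nat.card D + 1 ≤ Nat.card B := by
    rw [← Finite.card_option]
    exact Nat.card_le_card_of_injective f hf
  obtain ⟨k, hk⟩ := Subgroup.card_subgroup_dvd_card B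
  have hk1 : k = 1 := by
    rcases Nat.lt_or_ge k 2 with h | h
    · interval_cases k
      · rw [mul_zero] at hk
        have : 0 < Nat.card A := Nat.card_pos
        omega
      · rfl
    · exfalso
      have : Nat.card B * 2 ≤ Nat.card B * k := Nat.mul_le_mul_left _ h
      omega
  rw [hk1, mul_one] at hk
  exact (Subgroup.card_eq_iff_eq_top B).mp hk.symm

variable {G Ω : Type*} [Group G] [MulAction G Ω]

/-- Conjugation action of a subgroup `D` normalising `T`. -/
def conjOn (T D : Subgroup G) (hDn : ∀ h ∈ D, ∀ t ∈ T, h * t * h⁻¹ ∈ T) : D →* MulAut T where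
  toFun h :=
    { toFun := fun t => ⟨h * t * (h : G)⁻¹, hDn h h.2 t t.2⟩
      invFun := fun t => ⟨(h : G)⁻¹ * t * h, by
        have := hDn (h : G)⁻¹ (inv_mem h.2) t t.2
        rwa [inv_inv] at this⟩
      left_inv := fun t => Subtype.ext (by simp [mul_assoc])
      right_inv := fun t => Subtype.ext (by simp [mul_assoc])
      map_mul' := fun t t' => Subtype.ext (by simp [mul_assoc]) }
  map_one' := by
    ext t
    simp
  map_mul' := fun h h' => by
    ext t
    simp [mul_assoc]

theorem conjOn_apply (T D : Subgroup G) (hDn : ∀ h ∈ D, ∀ t ∈ T, h * t * h⁻¹ ∈ T) (h : D) (t : T) :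
    ((conjOn T D hDn h t : T) : G) = h * t * (h : G)⁻¹ := rfl

/-- **Coordinatisation.** -/
theorem exists_coord [Finite G] (a b c₁ : Ω) (hab : a ≠ b) (hca : c₁ ≠ a) (hcb : c₁ ≠ b)
    (T : Subgroup G) (hT1 : ∀ t ∈ T, t • a = a)
    (hT3 : ∀ t ∈ T, t ≠ 1 → ∀ c : Ω, c ≠ a → t • c ≠ c)
    (hT4 : ∀ c d : Ω, c ≠ a → d ≠ a → ∃ t ∈ T, t • c = d)
    (hTc : ∀ t ∈ T, ∀ t' ∈ T, t * t' = t' * t)
    (D : Subgroup G) (hDb : ∀ h ∈ D, h • b = b)
    (hDn : ∀ h ∈ D, ∀ t ∈ T, h * t * h⁻¹ ∈ T)
    (hDc : ∀ h ∈ D, ∀ h' ∈ D, h * h' = h' * h)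
    (hfix : ∀ h ∈ D, ∀ c : Ω, c ≠ a → c ≠ b → h • c = c → h = 1)
    (hcard : Nat.card T ≤ 2 * Nat.card D + 1) :
    ∃ (K : Type) (_ : Field K) (_ : Fintype K) (_ : DecidableEq K) (ι : OnePoint K ≃ Ω)
      (μ : D → K),
      ι ∞ = a ∧ ι ((0 : K) : OnePoint K) = b ∧ ι ((1 : K) : OnePoint K) = c₁ ∧
      (∀ r : K, ∃ t ∈ T, MoebMatch ι t (mbT r)) ∧
      (∀ (h : D) (x : K), (h : G) • ι (x : OnePoint K) = ι ((μ h * x : K) : OnePoint K)) ∧
      (∀ h h' : D, μ (h * h') = μ h * μ h') ∧ μ 1 = 1 ∧ (∀ h, μ h ≠ 0) ∧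
      Function.Injective μ ∧ Fintype.card K = Nat.card T ∧
      ((2 : K) = 0 → ∃ t ∈ T, t ≠ 1 ∧ t * t = 1) := by
  classical
  obtain ⟨t₁, ht₁T, ht₁⟩ := hT4 b c₁ hab.symm hca
  have ht₁ne : t₁ ≠ 1 := by
    rintro rfl
    rw [one_smul] at ht₁
    exact hcb ht₁.symm
  set c := conjOn T D hDn with hc
  have hmove : ∀ x : T, x ≠ 1 → (x : G) • b ≠ a ∧ (x : G) • b ≠ b := by
    intro x hx
    refine ⟨?_, hT3 x x.2 (fun h => hx (Subtype.ext h)) b hab.symm⟩
    intro h
    have := hT1 x x.2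
    exact hab.symm (smul_left_cancel (x : G) (h.trans this.symm))
  have hfree : ∀ (d : D) (x : T), x ≠ 1 → c d x = x → d = 1 := by
    intro d x hx hdx
    have h1 : (d : G) * x * (d : G)⁻¹ = x := congrArg Subtype.val hdx
    obtain ⟨hxa, hxb⟩ := hmove x hx
    have hfixed : (d : G) • ((x : G) • b) = (x : G) • b := by
      calc (d : G) • ((x : G) • b) = ((d : G) * x * (d : G)⁻¹) • ((d : G) • b) := by
            rw [mul_smul, mul_smul, inv_smul_smul]
        _ = (x : G) • b := by rw [h1, hDb d d.2]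
    exact Subtype.ext (hfix d d.2 _ hxa hxb hfixed)
  have hirr := irred_of_free c hfree hcard
  obtain ⟨K, iF, iFT, ev, μ, hbij, hev0, hev1, hevadd, hevμ, hμmul, hμ1, hμ0⟩ :=
    exists_field_irred (A := T) (fun x y => Subtype.ext (hTc x x.2 y y.2)) c
      (fun d d' => Subtype.ext (hDc d d.2 d' d'.2)) hirr ⟨t₁, ht₁T⟩
      (fun h => ht₁ne (congrArg Subtype.val h))
  let f : OnePoint K → Ω := fun y => OnePoint.elim y a (fun x => (ev x : G) • b)
  have hf_coe : ∀ x : K, f (x : OnePoint K) = (ev x : G) • b := fun x => rfl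
  have hev_ne : ∀ x : K, (ev x : G) • b ≠ a := by
    intro x h
    have := hT1 (ev x) (ev x).2
    exact hab.symm (smul_left_cancel (ev x : G) (h.trans this.symm))
  have hev_inj : ∀ x x' : K, (ev x : G) • b = (ev x' : G) • b → x = x' := by
    intro x x' h
    apply hbij.1
    by_contra hne
    have h1 : ((ev x')⁻¹ * ev x : T) ≠ 1 := by
      intro h1
      exact hne (inv_mul_eq_one.mp h1).symm
    have h2 := (hmove _ h1).2
    apply h2
    show ((ev x' : G)⁻¹ * (ev x : G)) • b = b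
    rw [mul_smul, h, inv_smul_smul]
  have hfbij : Function.Bijective f := by
    constructor
    · intro y y' hyy
      cases y with
      | infty =>
        cases y' with
        | infty => rfl
        | coe x' => exact absurd hyy.symm (hev_ne x')
      | coe x =>
        cases y' with
        | infty => exact absurd hyy (hev_ne x)
        | coe x' => rw [hev_inj x x' hyy]
    · intro ω
      by_cases hω : ω = a
      · exact ⟨∞, hω.symm⟩
      · obtain ⟨t, htT, ht⟩ := hT4 b ω hab.symm hω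
        obtain ⟨x, hx⟩ := hbij.2 ⟨t, htT⟩
        refine ⟨(x : OnePoint K), ?_⟩
        rw [hf_coe, hx]
        exact ht
  let ι : OnePoint K ≃ Ω := Equiv.ofBijective f hfbij
  have hι_coe : ∀ x : K, ι (x : OnePoint K) = (ev x : G) • b := fun x => rfl
  refine ⟨K, iF, iFT, Classical.decEq K, ι, μ, rfl, ?_, ?_, ?_, ?_, hμmul, hμ1, hμ0, ?_, ?_, ?_⟩
  · rw [hι_coe, hev0]
    exact one_smul _ _
  · rw [hι_coe, hev1]
    exact ht₁
  · intro r
    refine ⟨ev r, (ev r).2, ?_⟩
    intro y
    cases y with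
    | infty =>
      rw [mbT_smul_infty]
      exact hT1 _ (ev r).2
    | coe x =>
      rw [mbT_smul_coe, hι_coe, hι_coe, hevadd, ← mul_smul]
      have : (ev r : G) * (ev x : G) = ((ev x * ev r : T) : G) :=
        hTc _ (ev r).2 _ (ev x).2
      rw [this]
  · intro h x
    rw [hι_coe, hι_coe, hevμ]
    have h1 : ((c h (ev x) : T) : G) = (h : G) * (ev x : G) * (h : G)⁻¹ := rfl
    rw [h1, mul_smul, mul_smul, inv_smul_eq_iff.mpr (hDb h h.2).symm]
  · intro h h' hh
    have h1 : c h ⟨t₁, ht₁T⟩ = c h' ⟨t₁, ht₁T⟩ := by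
      have e1 := hevμ h 1
      have e2 := hevμ h' 1
      rw [mul_one, hev1] at e1 e2
      rw [← e1, ← e2, hh]
    have h2 : c (h'⁻¹ * h) ⟨t₁, ht₁T⟩ = ⟨t₁, ht₁T⟩ := by
      rw [map_mul, MulAut.mul_apply, h1, ← MulAut.mul_apply, ← map_mul, inv_mul_cancel,
        map_one, MulAut.one_apply]
    have h3 := hfree _ _ (fun h => ht₁ne (congrArg Subtype.val h)) h2
    rw [inv_mul_eq_one] at h3
    exact h3.symm
  · rw [← Nat.card_eq_fintype_card]
    exact Nat.card_congr (Equiv.ofBijective ev hbij)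
  · intro h2
    refine ⟨t₁, ht₁T, ht₁ne, ?_⟩
    have h3 : ev (1 + 1) = ev 1 * ev 1 := hevadd 1 1
    rw [one_add_one_eq_two, h2, hev0, hev1] at h3
    exact (congrArg Subtype.val h3).symm

end Coord

end Cfsg.Agent.Helper66
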