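import Mathlib
import Cfsg.Agent.Helper66.ZassCoord
import Cfsg.Agent.Helper6.Zass
import Cfsg.Agent.S0738

set_option autoImplicit false

/-!
# Zassenhaus groups with two-point stabiliser of even order `(q-1)/2` are `PSL₂(q)` (helper66)

* `inv_of_kt`: a map `j` on a field of odd characteristic which is "inversion up to the index two
  subgroup `S`" and satisfies the order-three identity `(x ↦ 1 - j x)³ = id` is inversion.
* `zass_psl`: a Zassenhaus group of degree `2d + 2` whose two-point stabilisers have even order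
  `d` is `PSL₂(K)`, `|K| = 2d + 1`.
-/

namespace Cfsg.Agent.Helper66

open OnePoint Matrix MulAction

theorem inv_of_kt {K : Type*} [Field K] (h2 : (2 : K) ≠ 0) (S : Subgroup Kˣ) (hS : S.index = 2)
    (hneg : (-1 : Kˣ) ∈ S) (j : K → K) (hj0 : ∀ x, x ≠ 0 → j x ≠ 0)
    (hjj : ∀ x, x ≠ 0 → j (j x) = x)
    (hjS : ∀ u : Kˣ, u ∈ S → ∀ x : K, x ≠ 0 → j ((u : K) * x) = (u : K)⁻¹ * j x)
    (hj1 : j 1 = 1)
    (hω : ∀ x, x ≠ 0 → x ≠ 1 → 1 - j (1 - j (1 - j x)) = x) :
    ∀ x, x ≠ 0 → j x = x⁻¹ := by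
  have hS1 : ∀ u : Kˣ, u ∈ S → j (u : K) = (u : K)⁻¹ := by
    intro u hu
    have := hjS u hu 1 one_ne_zero
    rwa [mul_one, hj1, mul_one] at this
  obtain ⟨x₀, hx₀⟩ : ∃ x₀ : Kˣ, x₀ ∉ S := by
    by_contra h
    push Not at h
    have : S = ⊤ := (Subgroup.eq_top_iff' S).mpr h
    rw [this, Subgroup.index_top] at hS
    omega
  obtain ⟨m, hm⟩ : ∃ m : K, m = (x₀ : K) * j x₀ := ⟨_, rfl⟩
  have hm0 : m ≠ 0 := by
    rw [hm]
    exact mul_ne_zero x₀.ne_zero (hj0 _ x₀.ne_zero)
  have hoff : ∀ y : Kˣ, y ∉ S → j (y : K) = m / y := by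
    intro y hy
    have h1 : y * x₀⁻¹ ∈ S := by
      rw [Subgroup.mul_mem_iff_of_index_two hS]
      constructor
      · intro h
        exact absurd h hy
      · intro h
        exact absurd (inv_mem_iff.mp h) hx₀
    have h2 := hjS _ h1 (x₀ : K) x₀.ne_zero
    have h3 : ((y * x₀⁻¹ : Kˣ) : K) * (x₀ : K) = y := by
      rw [Units.val_mul, Units.val_inv_eq_inv_val, mul_assoc, inv_mul_cancel₀ x₀.ne_zero, mul_one]
    rw [h3] at h2
    rw [h2, hm, Units.val_mul, Units.val_inv_eq_inv_val, mul_inv, inv_inv]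
    field_simp
  have hcase : ∀ y : K, y ≠ 0 → j y = y⁻¹ ∨ j y = m / y := by
    intro y hy
    by_cases h : Units.mk0 y hy ∈ S
    · left
      exact hS1 _ h
    · right
      exact hoff _ h
  by_cases hm1 : m = 1
  · intro x hx
    rcases hcase x hx with h | h
    · exact h
    · rw [h, hm1, one_div]
  exfalso
  have hm1' : 1 - m ≠ 0 := sub_ne_zero.mpr (Ne.symm hm1)
  have key : ∀ x : Kˣ, x ∉ S → (x : K) ^ 2 - x + m = 0 := by
    intro x hxS
    have hx0 : (x : K) ≠ 0 := x.ne_zero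
    have hx1 : (x : K) ≠ 1 := by
      intro h
      apply hxS
      have : x = 1 := Units.ext h
      rw [this]
      exact one_mem S
    have hjx : j (x : K) = m / x := hoff x hxS
    obtain ⟨y, hy⟩ : ∃ y : K, y = 1 - j x := ⟨_, rfl⟩
    have hy0 : y ≠ 0 := by
      intro h
      have h1 : j (x : K) = 1 := by
        rw [hy] at h
        linear_combination -h
      have h2 := hjj x hx0
      rw [h1, hj1] at h2
      exact hx1 h2.symm
    have hy1 : y ≠ 1 := by
      intro h
      have h1 : j (x : K) = 0 := by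
        rw [hy] at h
        linear_combination -h
      exact hj0 _ hx0 h1
    obtain ⟨z, hz⟩ : ∃ z : K, z = 1 - j y := ⟨_, rfl⟩
    have hz0 : z ≠ 0 := by
      intro h
      have h1 : j y = 1 := by
        rw [hz] at h
        linear_combination -h
      have h2 := hjj y hy0
      rw [h1, hj1] at h2
      exact hy1 h2.symm
    have hxz : 1 - j z = x := by
      have := hω x hx0 hx1
      rw [← hy, ← hz] at this
      exact this
    have h1x : 1 - (x : K) = j z := by linear_combination hxz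
    have e1 : y * x = x - m := by
      rw [hy, hjx]
      field_simp
    obtain ⟨ε₂, hε₂, e2⟩ : ∃ ε₂ : K, (ε₂ = 1 ∨ ε₂ = m) ∧ y * z = y - ε₂ := by
      rcases hcase y hy0 with h | h
      · refine ⟨1, Or.inl rfl, ?_⟩
        rw [hz, h]
        field_simp
      · refine ⟨m, Or.inr rfl, ?_⟩
        rw [hz, h]
        field_simp
    obtain ⟨ε₃, hε₃, e3⟩ : ∃ ε₃ : K, (ε₃ = 1 ∨ ε₃ = m) ∧ z * (1 - x) = ε₃ := by
      rcases hcase z hz0 with h | h
      · refine ⟨1, Or.inl rfl, ?_⟩
        rw [h1x, h]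
        field_simp
      · refine ⟨m, Or.inr rfl, ?_⟩
        rw [h1x, h]
        field_simp
    have e4 : ε₃ * (x - m) = (1 - x) * (x - m) - ε₂ * x * (1 - x) := by
      linear_combination ((x : K) * (1 - x)) * e2 - (z * (1 - x) - (1 - x)) * e1 -
        ((x : K) - m) * e3
    rcases hε₂ with h2' | h2' <;> rcases hε₃ with h3' | h3'
    · exfalso
      rw [h2', h3'] at e4
      have : (1 - m) * (x : K) = 0 := by linear_combination e4
      rcases mul_eq_zero.mp this with h | h
      · exact hm1' h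
      · exact hx0 h
    · exfalso
      rw [h2', h3'] at e4
      have : m * (1 - m) = 0 := by linear_combination e4
      rcases mul_eq_zero.mp this with h | h
      · exact hm0 h
      · exact hm1' h
    · exfalso
      rw [h2', h3'] at e4
      have : (1 - m) * ((x : K) * x) = 0 := by linear_combination e4
      rcases mul_eq_zero.mp this with h | h
      · exact hm1' h
      · exact hx0 (mul_self_eq_zero.mp h)
    · rw [h2', h3'] at e4
      have : (1 - m) * ((x : K) ^ 2 - x + m) = 0 := by linear_combination e4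
      rcases mul_eq_zero.mp this with h | h
      · exact absurd h hm1'
      · exact h
  have k1 := key x₀ hx₀
  have hneg' : -x₀ ∉ S := by
    intro h
    have : (-1 : Kˣ) * (-x₀) ∈ S := mul_mem hneg h
    rw [neg_one_mul, neg_neg] at this
    exact hx₀ this
  have k2 := key (-x₀) hneg'
  rw [Units.val_neg] at k2
  have : (2 : K) * x₀ = 0 := by linear_combination k2 - k1
  rcases mul_eq_zero.mp this with h | h
  · exact h2 h
  · exact x₀.ne_zero h

section ZP

variable {G Ω : Type*} [Group G] [MulAction G Ω]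

/-- An involution of the two point stabiliser inverts the (abelian) kernel. -/
theorem zass_inv_kernel (hZ : Cfsg.IsZassenhausGroup G Ω) {a b : Ω} (hab : a ≠ b)
    (T : Subgroup G) (hT1 : ∀ t ∈ T, t • a = a)
    (hT2 : ∀ g : G, g • a = a → ∀ t ∈ T, g * t * g⁻¹ ∈ T)
    (hT3 : ∀ t ∈ T, t ≠ 1 → ∀ c : Ω, c ≠ a → t • c ≠ c)
    (hTc : ∀ t ∈ T, ∀ t' ∈ T, t * t' = t' * t)
    (z : G) (hz1 : z ≠ 1) (hzz : z * z = 1) (hza : z • a = a) (hzb : z • b = b) :
    ∀ t ∈ T, z * t * z⁻¹ = t⁻¹ := by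
  intro t ht
  have hzinv : z⁻¹ = z := inv_eq_of_mul_eq_one_left hzz
  have ht' : z * t * z⁻¹ ∈ T := hT2 z hza t ht
  obtain ⟨u, hu⟩ : ∃ u : G, u = t * (z * t * z⁻¹) := ⟨_, rfl⟩
  have huT : u ∈ T := by rw [hu]; exact T.mul_mem ht ht'
  have hzu : z * u = u * z := by
    have h1 : z * u * z⁻¹ = u := by
      calc z * u * z⁻¹ = (z * t * z⁻¹) * (z * (z * t * z⁻¹) * z⁻¹) := by rw [hu]; group
        _ = (z * t * z⁻¹) * t := by
            congr 1
            rw [hzinv]
            calc z * (z * t * z) * z = (z * z) * t * (z * z) := by group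
              _ = t := by rw [hzz, one_mul, mul_one]
        _ = u := by rw [hu]; exact hTc _ ht' _ ht
    calc z * u = z * u * z⁻¹ * z := by group
      _ = u * z := by rw [h1]
  by_cases hu1 : u = 1
  · rw [hu] at hu1
    exact eq_inv_of_mul_eq_one_right hu1
  · exfalso
    have hub : u • b ≠ b := hT3 u huT hu1 b hab.symm
    have hua : u • b ≠ a := by
      intro h
      have : u • b = u • a := by rw [hT1 u huT]; exact h
      exact hab (MulAction.injective u this).symm
    have hzub : z • (u • b) = u • b := by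
      rw [← mul_smul, hzu, mul_smul, hzb]
    exact hz1 (Cfsg.Agent.Helper15.zass_eq_one_of_fix_three hZ hab (Ne.symm hub) (Ne.symm hua)
      hza hzb hzub)

/-- Involutions act "transitively with a prescribed fixed point". -/
theorem zass_invol_trans (hZ : Cfsg.IsZassenhausGroup G Ω) {a : Ω}
    (T : Subgroup G) (hT1 : ∀ t ∈ T, t • a = a)
    (hT4 : ∀ c d : Ω, c ≠ a → d ≠ a → ∃ t ∈ T, t • c = d)
    (z : G) (hzz : z * z = 1) (hza : z • a = a)
    (hzT : ∀ t ∈ T, z * t * z⁻¹ = t⁻¹) :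
    ∀ c x y : Ω, x ≠ c → y ≠ c → ∃ g : G, g * g = 1 ∧ g • x = y ∧ g • c = c := by
  have key : ∀ x y : Ω, x ≠ a → y ≠ a → ∃ g : G, g * g = 1 ∧ g • x = y ∧ g • a = a := by
    intro x y hx hy
    have hzy : z • y ≠ a := by
      intro h
      have : z • y = z • a := by rw [hza]; exact h
      exact hy (MulAction.injective z this)
    obtain ⟨u, huT, hu⟩ := hT4 x (z • y) hx hzy
    refine ⟨z * u, ?_, ?_, ?_⟩
    · have h1 := hzT u huT
      calc z * u * (z * u) = (z * u * z⁻¹) * (z * z) * u := by group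
        _ = 1 := by rw [h1, hzz, mul_one, inv_mul_cancel]
    · rw [mul_smul, hu, ← mul_smul, hzz, one_smul]
    · rw [mul_smul, hT1 u huT, hza]
  have := Cfsg.Agent.Helper15.zass_pretrans hZ
  intro c x y hx hy
  obtain ⟨k, hk⟩ := MulAction.exists_smul_eq G a c
  have hx' : k⁻¹ • x ≠ a := by
    intro h
    apply hx
    rw [← hk, ← h, smul_inv_smul]
  have hy' : k⁻¹ • y ≠ a := by
    intro h
    apply hy
    rw [← hk, ← h, smul_inv_smul]
  obtain ⟨g, hgg, hgx, hga⟩ := key _ _ hx' hy'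
  refine ⟨k * g * k⁻¹, ?_, ?_, ?_⟩
  · calc k * g * k⁻¹ * (k * g * k⁻¹) = k * (g * g) * k⁻¹ := by group
      _ = 1 := by rw [hgg, mul_one, mul_inv_cancel]
  · rw [mul_smul, mul_smul, hgx, smul_inv_smul]
  · rw [← hk, mul_smul, mul_smul, inv_smul_smul, hga]

/-- When `|Ω| = 2d + 2`, every element interchanging `a` and `b` is an involution. -/
theorem zass_swap_invol [Finite G] [Fintype Ω] (hZ : Cfsg.IsZassenhausGroup G Ω) {a b : Ω}
    (hab : a ≠ b)
    (hd : 2 * Nat.card ↥(stabilizer G a ⊓ stabilizer G b) + 2 = Fintype.card Ω)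
    (hstar : ∀ c x y : Ω, x ≠ c → y ≠ c → ∃ g : G, g * g = 1 ∧ g • x = y ∧ g • c = c)
    (g : G) (hga : g • a = b) (hgb : g • b = a) : g * g = 1 := by
  classical
  have := Fintype.ofFinite G
  have hγ : ∀ c : Ω, ∃ γ : G, c ≠ a → c ≠ b →
      (γ * γ = 1 ∧ γ • a = b ∧ γ • b = a ∧ γ • c = c) := by
    intro c
    by_cases h : c ≠ a ∧ c ≠ b
    · obtain ⟨γ, h1, h2, h3⟩ := hstar c a b (Ne.symm h.1) (Ne.symm h.2)
      refine ⟨γ, fun _ _ => ⟨h1, h2, ?_, h3⟩⟩
      rw [← h2, ← mul_smul, h1, one_smul]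
    · exact ⟨1, fun h1 h2 => absurd ⟨h1, h2⟩ h⟩
  choose γ hγ using hγ
  by_contra hgg
  have hne : ∀ c : Ω, c ≠ a → c ≠ b → g⁻¹ * γ c ≠ 1 := by
    intro c hca hcb h
    have h1 : γ c = g := by
      rw [inv_mul_eq_one] at h
      exact h.symm
    exact hgg (by rw [← h1]; exact (hγ c hca hcb).1)
  obtain ⟨s, hs⟩ : ∃ s : Finset Ω, s = Finset.univ \ {a, b} := ⟨_, rfl⟩
  obtain ⟨t, ht⟩ : ∃ t : Finset G,
    t = Finset.univ.filter (fun h : G => h • a = a ∧ h • b = b ∧ h ≠ 1) := ⟨_, rfl⟩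
  have hsmem : ∀ c : Ω, c ∈ s ↔ c ≠ a ∧ c ≠ b := by
    intro c
    rw [hs, Finset.mem_sdiff, Finset.mem_insert, Finset.mem_singleton]
    constructor
    · intro h
      push Not at h
      exact h.2
    · intro h
      refine ⟨Finset.mem_univ _, ?_⟩
      push Not
      exact h
  have hmaps : ∀ c ∈ s, g⁻¹ * γ c ∈ t := by
    intro c hc
    obtain ⟨hca, hcb⟩ := (hsmem c).mp hc
    obtain ⟨h1, h2, h3, h4⟩ := hγ c hca hcb
    rw [ht, Finset.mem_filter]
    refine ⟨Finset.mem_univ _, ?_, ?_, hne c hca hcb⟩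
    · rw [mul_smul, h2, ← hga, inv_smul_smul]
    · rw [mul_smul, h3, ← hgb, inv_smul_smul]
  have hfib : ∀ h ∈ t, (s.filter (fun c => g⁻¹ * γ c = h)).card ≤ 2 := by
    intro h _
    by_contra hcon
    push Not at hcon
    rw [Finset.two_lt_card] at hcon
    obtain ⟨x, hx, y, hy, w, hw, hxy, hxw, hyw⟩ := hcon
    rw [Finset.mem_filter] at hx hy hw
    have hxab := (hsmem x).mp hx.1
    have hyab := (hsmem y).mp hy.1
    have hwab := (hsmem w).mp hw.1
    have e1 : γ y = γ x := mul_left_cancel (hy.2.trans hx.2.symm)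
    have e2 : γ w = γ x := mul_left_cancel (hw.2.trans hx.2.symm)
    have f1 := (hγ x hxab.1 hxab.2).2.2.2
    have f2 := (hγ y hyab.1 hyab.2).2.2.2
    have f3 := (hγ w hwab.1 hwab.2).2.2.2
    rw [e1] at f2
    rw [e2] at f3
    have h1 := Cfsg.Agent.Helper15.zass_eq_one_of_fix_three hZ hxy hyw hxw f1 f2 f3
    have h2 := (hγ x hxab.1 hxab.2).2.1
    rw [h1, one_smul] at h2
    exact hab h2
  have hcard := Finset.card_le_mul_card_image_of_maps_to hmaps 2 hfib
  have hscard : s.card = Fintype.card Ω - 2 := by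
    rw [hs, Finset.card_univ_sdiff, Finset.card_pair hab]
  have hcH : Nat.card ↥(stabilizer G a ⊓ stabilizer G b) =
      (Finset.univ.filter (fun h : G => h • a = a ∧ h • b = b)).card := by
    rw [Nat.card_eq_fintype_card]
    exact Fintype.card_of_subtype _ (fun x => by
      simp [Subgroup.mem_inf, MulAction.mem_stabilizer_iff])
  have htcard : t.card + 1 ≤ (Finset.univ.filter (fun h : G => h • a = a ∧ h • b = b)).card := by
    have h1 : insert (1 : G) t ⊆ Finset.univ.filter (fun h : G => h • a = a ∧ h • b = b) := by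
      intro x hx
      rw [Finset.mem_insert] at hx
      rw [Finset.mem_filter]
      rcases hx with rfl | hx
      · exact ⟨Finset.mem_univ _, one_smul _ _, one_smul _ _⟩
      · rw [ht, Finset.mem_filter] at hx
        exact ⟨Finset.mem_univ _, hx.2.1, hx.2.2.1⟩
    have h2 : (1 : G) ∉ t := by
      rw [ht, Finset.mem_filter]
      intro h
      exact h.2.2.2 rfl
    have := Finset.card_le_card h1
    rwa [Finset.card_insert_of_notMem h2] at this
  omega

/-- **Zassenhaus.** A Zassenhaus group of degree `2d + 2` whose two point stabilisers have even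
order `d` is `PSL₂(K)` with `|K| = 2d + 1`. -/
theorem zass_psl [Finite G] [Fintype Ω] (hZ : Cfsg.IsZassenhausGroup G Ω) {a b : Ω}
    (hab : a ≠ b)
    (heven : Even (Nat.card ↥(stabilizer G a ⊓ stabilizer G b)))
    (hd : 2 * Nat.card ↥(stabilizer G a ⊓ stabilizer G b) + 2 = Fintype.card Ω) :
    ∃ (p f : ℕ) (K : Type) (_ : Field K) (_ : Fintype K), p.Prime ∧ p ≠ 2 ∧
      Fintype.card K = p ^ f ∧ Fintype.card Ω = p ^ f + 1 ∧
      Nonempty (G ≃* Matrix.ProjectiveSpecialLinearGroup (Fin 2) K) := by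
  classical
  obtain ⟨T, hT1, hT2, hT3, hT4⟩ := Cfsg.Agent.Helper6.zs_kernel hZ a
  obtain ⟨H, hH⟩ : ∃ H : Subgroup G, H = stabilizer G a ⊓ stabilizer G b := ⟨_, rfl⟩
  rw [← hH] at heven hd
  have hHmem : ∀ h : G, h ∈ H ↔ h • a = a ∧ h • b = b := by
    intro h
    rw [hH, Subgroup.mem_inf, mem_stabilizer_iff, mem_stabilizer_iff]
  -- regularity of `T`
  have hTle : T ≤ stabilizer G a := fun t ht => mem_stabilizer_iff.mpr (hT1 t ht)
  have hTn : (T.subgroupOf (stabilizer G a)).Normal := by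
    constructor
    intro n hn g
    rw [Subgroup.mem_subgroupOf] at hn ⊢
    exact hT2 g (mem_stabilizer_iff.mp g.2) n hn
  have hreg : ∀ y z : Ω, y ≠ a → z ≠ a → ∃! u : T, (u : G) • y = z := by
    intro y z hy hz
    obtain ⟨t, ht, hty⟩ := hT4 y z hy hz
    refine ⟨⟨t, ht⟩, hty, ?_⟩
    intro u hu
    by_contra hne
    have h1 : (u : G)⁻¹ * t ≠ 1 := by
      intro h
      apply hne
      apply Subtype.ext
      show (u : G) = t
      exact (inv_mul_eq_one.mp h)
    have h2 : ((u : G)⁻¹ * t) • y = y := by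
      rw [mul_smul, hty, ← hu, inv_smul_smul]
    exact hT3 _ (T.mul_mem (T.inv_mem u.2) ht) h1 y hy h2
  have hd' : Fintype.card Ω - 2 ≤ 2 * Nat.card ↥(stabilizer G a ⊓ stabilizer G b) := by
    rw [← hH]; omega
  obtain ⟨hTcomm, p, f, hp, hexp, hΩ⟩ := Cfsg.Agent.S0738.result hZ hab hd' T hTle hTn hreg
  have hTc : ∀ t ∈ T, ∀ t' ∈ T, t * t' = t' * t := by
    intro t ht t' ht'
    have := hTcomm.is_comm.comm (⟨t, ht⟩ : T) ⟨t', ht'⟩
    exact congrArg Subtype.val this
  -- `|T| = |Ω| - 1`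
  have hcardT : Nat.card T = Fintype.card Ω - 1 := by
    have hub_ne_a : ∀ u : T, (u : G) • b ≠ a := by
      intro u h
      have : (u : G) • b = (u : G) • a := by rw [hT1 u u.2]; exact h
      exact hab ((MulAction.injective (u : G)) this).symm
    have h1 : Nat.card T = Nat.card {y : Ω // y ≠ a} := by
      apply Nat.card_congr
      refine Equiv.ofBijective (fun u => ⟨(u : G) • b, hub_ne_a u⟩) ⟨?_, ?_⟩
      · intro u u' h
        have h' : (u : G) • b = (u' : G) • b := congrArg Subtype.val h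
        obtain ⟨w, hw, hwu⟩ := hreg b ((u' : G) • b) (Ne.symm hab) (hub_ne_a u')
        exact (hwu u h').trans (hwu u' rfl).symm
      · rintro ⟨z, hz⟩
        obtain ⟨w, hw, _⟩ := hreg b z (Ne.symm hab) hz
        exact ⟨w, Subtype.ext hw⟩
    rw [h1, Nat.card_eq_fintype_card, Fintype.card_subtype_compl, Fintype.card_subtype_eq]
  have hcardT' : Nat.card T = 2 * Nat.card H + 1 := by omega
  -- an involution of `H`
  obtain ⟨zH, hzH⟩ := exists_prime_orderOf_dvd_card' (G := H) 2 heven.two_dvd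
  obtain ⟨z, hzeq⟩ : ∃ z : G, z = (zH : G) := ⟨_, rfl⟩
  have hz1 : z ≠ 1 := by
    intro h
    rw [hzeq] at h
    have : zH = 1 := Subtype.ext h
    rw [this, orderOf_one] at hzH
    omega
  have hzz : z * z = 1 := by
    have h1 : zH ^ 2 = 1 := by rw [← hzH]; exact pow_orderOf_eq_one zH
    have h2 : ((zH ^ 2 : H) : G) = 1 := by rw [h1]; rfl
    rw [hzeq, ← h2, pow_two]; rfl
  have hza : z • a = a := by rw [hzeq]; exact ((hHmem _).mp zH.2).1
  have hzb : z • b = b := by rw [hzeq]; exact ((hHmem _).mp zH.2).2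
  have hzT := zass_inv_kernel hZ hab T hT1 hT2 hT3 hTc z hz1 hzz hza hzb
  have hstar := zass_invol_trans hZ T hT1 hT4 z hzz hza hzT
  have hswap : ∀ g : G, g • a = b → g • b = a → g * g = 1 :=
    fun g => zass_swap_invol hZ hab (by rw [← hH]; exact hd) hstar g
  -- `H` is inverted by every swapper, and is abelian
  have hsH : ∀ s : G, s • a = b → s • b = a → ∀ h ∈ H, s * h * s⁻¹ = h⁻¹ := by
    intro s hsa hsb h hh
    obtain ⟨hha, hhb⟩ := (hHmem h).mp hh
    have h1 : (s * h) * (s * h) = 1 :=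
      hswap (s * h) (by rw [mul_smul, hha, hsa]) (by rw [mul_smul, hhb, hsb])
    have h2 : s * s = 1 := hswap s hsa hsb
    have h3 : s⁻¹ = s := inv_eq_of_mul_eq_one_left h2
    rw [h3]
    exact eq_inv_of_mul_eq_one_left (by rw [← h1]; group)
  obtain ⟨c₁, hca, hcb⟩ := Cfsg.Agent.Helper6.zs_exists_ne₂ hZ a b
  obtain ⟨s₀, hs₀s₀, hs₀a, hs₀c⟩ := hstar c₁ a b (Ne.symm hca) (Ne.symm hcb)
  have hs₀b : s₀ • b = a := by rw [← hs₀a, ← mul_smul, hs₀s₀, one_smul]
  have hs₀inv : s₀⁻¹ = s₀ := inv_eq_of_mul_eq_one_left hs₀s₀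
  have hHc : ∀ h ∈ H, ∀ h' ∈ H, h * h' = h' * h := by
    intro h hh h' hh'
    have e1 := hsH s₀ hs₀a hs₀b h hh
    have e2 := hsH s₀ hs₀a hs₀b h' hh'
    have e3 := hsH s₀ hs₀a hs₀b (h * h') (H.mul_mem hh hh')
    have e4 : s₀ * (h * h') * s₀⁻¹ = (s₀ * h * s₀⁻¹) * (s₀ * h' * s₀⁻¹) := by group
    rw [e3, e1, e2] at e4
    have := congrArg (fun x => x⁻¹) e4
    simpa [_root_.mul_inv_rev] using this
  have hHb : ∀ h ∈ H, h • b = b := fun h hh => ((hHmem h).mp hh).2
  have hHn : ∀ h ∈ H, ∀ t ∈ T, h * t * h⁻¹ ∈ T :=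
    fun h hh t ht => hT2 h ((hHmem h).mp hh).1 t ht
  have hfix : ∀ h ∈ H, ∀ c : Ω, c ≠ a → c ≠ b → h • c = c → h = 1 := by
    intro h hh c hca hcb hc
    obtain ⟨hha, hhb⟩ := (hHmem h).mp hh
    exact Cfsg.Agent.Helper15.zass_eq_one_of_fix_three hZ hab (Ne.symm hcb) (Ne.symm hca)
      hha hhb hc
  obtain ⟨K, instF, instFt, instD, ι, μ, hιinf, hι0, hι1, hTm, hμact, hμmul, hμ1, hμ0, hμinj, hKT,
    h2K⟩ := exists_coord a b c₁ hab hca hcb T hT1 hT3 hT4 hTc H hHb hHn hHc hfix (le_of_eq hcardT')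
  have hKcard : Fintype.card K = 2 * Nat.card H + 1 := by rw [hKT, hcardT']
  have h2K' : (2 : K) ≠ 0 := by
    intro h
    obtain ⟨t, ht, ht1, htt⟩ := h2K h
    have ho : orderOf (⟨t, ht⟩ : T) = 2 := by
      apply orderOf_eq_prime
      · apply Subtype.ext
        show t ^ 2 = 1
        rw [pow_two]; exact htt
      · intro h'
        exact ht1 (congrArg Subtype.val h')
    have := orderOf_dvd_natCard (⟨t, ht⟩ : T)
    rw [ho, hcardT'] at this
    omega
  -- `μ z = -1`
  have hμz : μ zH = -1 := by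
    have h1 : μ zH * μ zH = 1 := by
      rw [← hμmul, ← hμ1]
      congr 1
      apply Subtype.ext
      show (zH : G) * (zH : G) = 1
      rw [← hzeq]; exact hzz
    have h2 : μ zH ≠ 1 := by
      intro h
      rw [← hμ1] at h
      apply hz1
      rw [hzeq]
      exact congrArg Subtype.val (hμinj h)
    have h3 : (μ zH - 1) * (μ zH + 1) = 0 := by linear_combination h1
    rcases mul_eq_zero.mp h3 with h | h
    · exact absurd (sub_eq_zero.mp h) h2
    · exact eq_neg_of_add_eq_zero_left h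
  have hμinv : ∀ h : H, μ h⁻¹ = (μ h)⁻¹ := by
    intro h
    exact eq_inv_of_mul_eq_one_left (by rw [← hμmul, inv_mul_cancel, hμ1])
  have hzact : ∀ x : K, z • ι (x : OnePoint K) = ι ((-x : K) : OnePoint K) := by
    intro x
    rw [hzeq, hμact zH x, hμz, neg_one_mul]
  -- the map `j`
  have hιinj := ι.injective
  have hcoe_ne_a : ∀ x : K, ι (x : OnePoint K) ≠ a := by
    intro x h
    rw [← hιinf] at h
    exact OnePoint.coe_ne_infty x (hιinj h)
  have hcoe_eq_b : ∀ x : K, ι (x : OnePoint K) = b → x = 0 := by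
    intro x h
    rw [← hι0] at h
    exact OnePoint.coe_injective (hιinj h)
  have hcoe_inj : ∀ x y : K, ι (x : OnePoint K) = ι (y : OnePoint K) → x = y :=
    fun x y h => OnePoint.coe_injective (hιinj h)
  have hj : ∀ x : K, ∃ y : K, x ≠ 0 →
      (s₀ • ι (x : OnePoint K) = ι (y : OnePoint K) ∧ y ≠ 0) := by
    intro x
    by_cases hx : x = 0
    · exact ⟨0, fun h => absurd hx h⟩
    · obtain ⟨w, hw⟩ := ι.surjective (s₀ • ι (x : OnePoint K))
      cases w with
      | infty =>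
        exfalso
        apply hx
        apply hcoe_eq_b
        rw [hιinf] at hw
        rw [← hs₀a, hw, ← mul_smul, hs₀s₀, one_smul]
      | coe y =>
        refine ⟨y, fun _ => ⟨hw.symm, ?_⟩⟩
        intro hy
        rw [hy, hι0] at hw
        apply hcoe_ne_a x
        rw [← hs₀b, hw, ← mul_smul, hs₀s₀, one_smul]
  choose j hj using hj
  have hjact : ∀ x : K, x ≠ 0 → s₀ • ι (x : OnePoint K) = ι ((j x : K) : OnePoint K) :=
    fun x hx => (hj x hx).1
  have hj0 : ∀ x : K, x ≠ 0 → j x ≠ 0 := fun x hx => (hj x hx).2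
  have hjj : ∀ x : K, x ≠ 0 → j (j x) = x := by
    intro x hx
    apply hcoe_inj
    rw [← hjact (j x) (hj0 x hx), ← hjact x hx, ← mul_smul, hs₀s₀, one_smul]
  have hj1 : j 1 = 1 := by
    apply hcoe_inj
    rw [← hjact 1 one_ne_zero, hι1, hs₀c]
  -- the subgroup of squares
  let μ' : H →* Kˣ :=
    { toFun := fun h => Units.mk0 (μ h) (hμ0 h)
      map_one' := Units.ext hμ1
      map_mul' := fun h h' => Units.ext (hμmul h h') }
  have hμ'inj : Function.Injective μ' := by
    intro h h' e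
    apply hμinj
    exact congrArg Units.val e
  have hSidx : μ'.range.index = 2 := by
    have h1 : Nat.card μ'.range = Nat.card H :=
      (Nat.card_congr (MonoidHom.ofInjective hμ'inj).toEquiv).symm
    have h2 := Subgroup.index_mul_card μ'.range
    rw [h1, Nat.card_units, Nat.card_eq_fintype_card (α := K), hKcard] at h2
    have hpos : 0 < Nat.card H := Nat.card_pos
    have h3 : μ'.range.index * Nat.card H = 2 * Nat.card H := by omega
    exact Nat.eq_of_mul_eq_mul_right hpos h3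
  have hSneg : (-1 : Kˣ) ∈ μ'.range := ⟨zH, Units.ext hμz⟩
  have hjS : ∀ u : Kˣ, u ∈ μ'.range → ∀ x : K, x ≠ 0 → j ((u : K) * x) = (u : K)⁻¹ * j x := by
    rintro u ⟨h, rfl⟩ x hx
    show j (μ h * x) = (μ h)⁻¹ * j x
    have hne : μ h * x ≠ 0 := mul_ne_zero (hμ0 h) hx
    apply hcoe_inj
    rw [← hjact _ hne, ← hμact h x, ← mul_smul, ← hμinv, ← hμact h⁻¹ (j x), ← hjact x hx,
      ← mul_smul]
    congr 1
    have := hsH s₀ hs₀a hs₀b h h.2
    rw [hs₀inv] at this
    show s₀ * (h : G) = (h : G)⁻¹ * s₀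
    rw [← this, mul_assoc (s₀ * (h : G)), hs₀s₀, mul_one]
  -- the element of order three
  obtain ⟨t₁, ht₁T, ht₁m⟩ := hTm 1
  have ht₁act : ∀ x : K, t₁ • ι (x : OnePoint K) = ι ((x + 1 : K) : OnePoint K) := by
    intro x
    rw [ht₁m (x : OnePoint K), mbT_smul_coe]
  obtain ⟨w, hw⟩ : ∃ w : G, w = t₁ * z * s₀ := ⟨_, rfl⟩
  have hwact : ∀ x : K, x ≠ 0 → w • ι (x : OnePoint K) = ι ((1 - j x : K) : OnePoint K) := by
    intro x hx
    rw [hw, mul_smul, mul_smul, hjact x hx, hzact, ht₁act, show (-j x + 1 : K) = 1 - j x by ring]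
  have hwa : w • a = c₁ := by
    rw [hw, mul_smul, mul_smul, hs₀a, hzb, ← hι0, ht₁act, zero_add, hι1]
  have hwc : w • c₁ = b := by
    rw [hw, mul_smul, mul_smul, hs₀c, ← hι1, hzact, ht₁act, neg_add_cancel, hι0]
  have hwb : w • b = a := by
    rw [hw, mul_smul, mul_smul, hs₀b, hza, hT1 t₁ ht₁T]
  have hwww : w * w * w = 1 := by
    apply Cfsg.Agent.Helper15.zass_eq_one_of_fix_three hZ hab (Ne.symm hcb) (Ne.symm hca)
    · rw [mul_smul, mul_smul, hwa, hwc, hwb]
    · rw [mul_smul, mul_smul, hwb, hwa, hwc]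
    · rw [mul_smul, mul_smul, hwc, hwb, hwa]
  have hω : ∀ x : K, x ≠ 0 → x ≠ 1 → 1 - j (1 - j (1 - j x)) = x := by
    intro x hx0 hx1
    have hy0 : 1 - j x ≠ 0 := by
      intro h
      have h1 : j x = 1 := by linear_combination -h
      have h2 := hjj x hx0
      rw [h1, hj1] at h2
      exact hx1 h2.symm
    have hz0 : 1 - j (1 - j x) ≠ 0 := by
      intro h
      have h1 : j (1 - j x) = 1 := by linear_combination -h
      have h2 := hjj _ hy0
      rw [h1, hj1] at h2
      have h3 : j x = 0 := by linear_combination h2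
      exact hj0 x hx0 h3
    apply hcoe_inj
    rw [← hwact _ hz0, ← hwact _ hy0, ← hwact x hx0, ← mul_smul, ← mul_smul, hwww, one_smul]
  have hjinv := inv_of_kt h2K' μ'.range hSidx hSneg j hj0 hjj hjS hj1 hω
  -- the Moebius generators
  have hW : ∃ g : G, MoebMatch ι g (mbW : GL (Fin 2) K) := by
    refine ⟨z * s₀, ?_⟩
    intro y
    cases y with
    | infty =>
      rw [mbW_smul_infty, hιinf, mul_smul, hs₀a, hzb, hι0]
    | coe x =>
      by_cases hx : x = 0
      · subst hx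
        rw [mbW_smul_zero, hι0, mul_smul, hs₀b, hza, hιinf]
      · rw [mbW_smul_coe hx, mul_smul, hjact x hx, hzact, hjinv x hx]
  have hT : ∀ r : K, ∃ g : G, MoebMatch ι g (mbT r) := fun r => by
    obtain ⟨t, _, ht⟩ := hTm r
    exact ⟨t, ht⟩
  -- the order of `G`
  have hGa : Nat.card (stabilizer G a) ≤ Nat.card T * Nat.card H := by
    rw [← Nat.card_prod]
    let φ : T × H → stabilizer G a := fun q => ⟨(q.1 : G) * (q.2 : G), by
      rw [mem_stabilizer_iff, mul_smul, ((hHmem _).mp q.2.2).1, hT1 _ q.1.2]⟩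
    apply Nat.card_le_card_of_surjective φ
    rintro ⟨g, hg⟩
    rw [mem_stabilizer_iff] at hg
    have hgb : g • b ≠ a := by
      intro h
      have : g • b = g • a := by rw [hg]; exact h
      exact hab (MulAction.injective g this).symm
    obtain ⟨t, ht, htb⟩ := hT4 b (g • b) hab.symm hgb
    refine ⟨(⟨t, ht⟩, ⟨t⁻¹ * g, (hHmem _).mpr ⟨?_, ?_⟩⟩), ?_⟩
    · rw [mul_smul, hg, inv_smul_eq_iff, hT1 t ht]
    · rw [mul_smul, ← htb, inv_smul_smul]
    · apply Subtype.ext
      show t * (t⁻¹ * g) = g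
      rw [mul_inv_cancel_left]
  have hGcard : Nat.card G = Fintype.card Ω * Nat.card (stabilizer G a) := by
    have := Cfsg.Agent.Helper15.zass_pretrans hZ
    rw [← Subgroup.index_mul_card (stabilizer G a), MulAction.index_stabilizer_of_transitive,
      Nat.card_eq_fintype_card]
  have hcard : 2 * Nat.card G ≤ Fintype.card K * (Fintype.card K ^ 2 - 1) := by
    rw [hKcard, hGcard, ← hd]
    have e1 : (2 * Nat.card H + 1) ^ 2 - 1 = 4 * Nat.card H * Nat.card H + 4 * Nat.card H := by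
      have : (2 * Nat.card H + 1) ^ 2 = 4 * Nat.card H * Nat.card H + 4 * Nat.card H + 1 := by
        ring
      omega
    rw [e1]
    rw [hcardT'] at hGa
    calc 2 * ((2 * Nat.card H + 2) * Nat.card (stabilizer G a))
        ≤ 2 * ((2 * Nat.card H + 2) * ((2 * Nat.card H + 1) * Nat.card H)) := by
          apply Nat.mul_le_mul_left
          apply Nat.mul_le_mul_left
          exact hGa
      _ = (2 * Nat.card H + 1) * (4 * Nat.card H * Nat.card H + 4 * Nat.card H) := by ring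
  have hfaith := hZ.1
  have hres := psl2_of_moebius (G := G) ι h2K' hT hW hcard
  have hKpf : Fintype.card K = p ^ f := by omega
  refine ⟨p, f, K, instF, instFt, hp, ?_, hKpf, hΩ, hres⟩
  rintro rfl
  cases f with
  | zero =>
    rw [pow_zero] at hKpf
    have := Fintype.one_lt_card (α := K)
    omega
  | succ n =>
    rw [pow_succ] at hKpf
    omega

end ZP

end Cfsg.Agent.Helper66
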