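import Mathlib
import Cfsg.Prelude.Def_LieExceptional
import Cfsg.Agent.Helper66.ZassPSL
import Cfsg.Agent.Helper71.ZassOdd

/-!
# Piece Zg of CALL S0999 (helper66): the Zassenhaus endgame of Brauer-Reynolds, general version

A group without nontrivial normal `p'`-subgroups of order `p (p + 1) (p - 1) / 2` with `p + 1` Sylow `p`-subgroups of order `p`, each
self-centralizing, is a Zassenhaus group on its Sylow `p`-subgroups, hence `PSL₂(p)`.
-/

set_option autoImplicit false
open Cfsg
open scoped ComplexConjugate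

universe u

namespace Cfsg.Agent.Helper66

theorem br_zassenhaus_gen {G : Type u} [Group G] [Finite G] {p : ℕ} [Fact p.Prime]
    (hOp : ∀ K : Subgroup G, K.Normal → (Nat.card K).Coprime p → K = ⊥)
    (h5 : 5 ≤ p) (P : Sylow p G) (hP : Nat.card (P : Subgroup G) = p)
    (hC : Nat.card (Subgroup.centralizer ((P : Subgroup G) : Set G)) = p)
    (hSyl : Nat.card (Sylow p G) = p + 1) (hcard : 2 * Nat.card G = p * (p + 1) * (p - 1)) :
    ∃ (F : Type) (_ : Field F) (_ : Fintype F), Fintype.card F = p ∧
      Nonempty (G ≃* Matrix.ProjectiveSpecialLinearGroup (Fin 2) F) := by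
  classical
  have hp : p.Prime := Fact.out
  haveI : Fintype (Sylow p G) := Fintype.ofFinite _
  have hΩ : Fintype.card (Sylow p G) = p + 1 := by rw [← Nat.card_eq_fintype_card, hSyl]
  -- `P = zpowers x`
  have hzp : ∀ x ∈ (P : Subgroup G), x ≠ 1 → Subgroup.zpowers x = (P : Subgroup G) := by
    intro x hx hx1
    apply Subgroup.eq_of_le_of_card_ge (Subgroup.zpowers_le.mpr hx)
    rw [hP, Nat.card_zpowers]
    have h1 : orderOf x ∣ p := hP ▸ Subgroup.orderOf_dvd_natCard _ hx
    rcases (Nat.dvd_prime hp).mp h1 with h | h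
    · exact absurd (orderOf_eq_one_iff.mp h) hx1
    · rw [h]
  have hPcomm : (P : Subgroup G) ≤ Subgroup.centralizer ((P : Subgroup G) : Set G) := by
    intro y hy
    rw [Subgroup.mem_centralizer_iff]
    intro z hz
    by_cases hz1 : z = 1
    · rw [hz1, one_mul, mul_one]
    · have h1 := hzp z hz hz1
      rw [← h1] at hy
      obtain ⟨k, rfl⟩ := Subgroup.mem_zpowers_iff.mp hy
      exact ((Commute.refl z).zpow_right k).eq
  have hCP : Subgroup.centralizer ((P : Subgroup G) : Set G) = (P : Subgroup G) :=
    (Subgroup.eq_of_le_of_card_ge hPcomm (by rw [hC, hP])).symm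
  have hPfix : ∀ x ∈ (P : Subgroup G), x • P = P := fun x hx =>
    Sylow.smul_eq_iff_mem_normalizer.mpr (Subgroup.le_normalizer hx)
  -- an element `≠ 1` of `P` fixes no other Sylow subgroup
  have K1 : ∀ x ∈ (P : Subgroup G), x ≠ 1 → ∀ R : Sylow p G, x • R = R → R = P := by
    intro x hx hx1 R hR
    have hxN : x ∈ Subgroup.normalizer ((R : Subgroup G) : Set G) :=
      Sylow.smul_eq_iff_mem_normalizer.mp hR
    have hxR : x ∈ (P : Subgroup G) ⊓ (R : Subgroup G) := by
      rw [← P.2.inf_normalizer_sylow R]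
      exact ⟨hx, hxN⟩
    have hle : (P : Subgroup G) ≤ (R : Subgroup G) := by
      rw [← hzp x hx hx1, Subgroup.zpowers_le]
      exact hxR.2
    exact Sylow.ext (P.3 R.2 hle)
  have K1' : ∀ x ∈ (P : Subgroup G), ∀ R : Sylow p G, R ≠ P → x • R = R → x = 1 := by
    intro x hx R hR h
    by_contra hx1
    exact hR (K1 x hx hx1 R h)
  -- `P` is regular on the other Sylow subgroups
  have hcompl : Nat.card {S : Sylow p G // S ≠ P} = p := by
    have h1 := Fintype.card_congr (Equiv.optionSubtypeNe P)
    rw [Fintype.card_option, hΩ] at h1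
    rw [Nat.card_eq_fintype_card]
    omega
  have K2 : ∀ R R' : Sylow p G, R ≠ P → R' ≠ P → ∃ x ∈ (P : Subgroup G), x • R = R' := by
    intro R R' hR hR'
    have hφ : ∀ x : (P : Subgroup G), (x : G) • R ≠ P := by
      intro x h
      apply hR
      have h1 : R = (x : G)⁻¹ • P := (inv_smul_eq_iff.mpr h.symm).symm
      rw [h1]
      exact hPfix _ (inv_mem x.2)
    have hinj : Function.Injective
        (fun x : (P : Subgroup G) => (⟨(x : G) • R, hφ x⟩ : {S : Sylow p G // S ≠ P})) := by
      intro x y hxy
      have h1 : (x : G) • R = (y : G) • R := congrArg Subtype.val hxy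
      have h2 : ((y : G)⁻¹ * (x : G)) • R = R := by
        rw [mul_smul, h1, inv_smul_smul]
      have h3 := K1' _ (mul_mem (inv_mem y.2) x.2) R hR h2
      apply Subtype.ext
      calc (x : G) = (y : G) * ((y : G)⁻¹ * (x : G)) := by group
        _ = (y : G) := by rw [h3, mul_one]
    have hbij := hinj.bijective_of_nat_card_le (by rw [hcompl, hP])
    obtain ⟨x, hx⟩ := hbij.2 ⟨R', hR'⟩
    exact ⟨x, x.2, congrArg Subtype.val hx⟩
  obtain ⟨x0, hx0, hx01⟩ : ∃ x ∈ (P : Subgroup G), x ≠ 1 := by
    by_contra hcon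
    push Not at hcon
    have h1 : (P : Subgroup G) = ⊥ := (Subgroup.eq_bot_iff_forall _).mpr hcon
    rw [h1, Subgroup.card_bot] at hP
    omega
  obtain ⟨R0, hR0⟩ : ∃ R : Sylow p G, R ≠ P := by
    by_contra hcon
    push Not at hcon
    have h1 : Fintype.card (Sylow p G) ≤ 1 :=
      Fintype.card_le_one_iff.mpr fun a b => by rw [hcon a, hcon b]
    omega
  -- the two point stabiliser
  have hstabP : ∀ g : G, g • P = P → g ∈ Subgroup.normalizer ((P : Subgroup G) : Set G) :=
    fun g hg => Sylow.smul_eq_iff_mem_normalizer.mp hg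
  have hN : 2 * Nat.card (MulAction.stabilizer G P) = p * (p - 1) := by
    have h1 := Subgroup.card_mul_index (MulAction.stabilizer G P)
    rw [Sylow.stabilizer_eq_normalizer, ← Sylow.card_eq_index_normalizer, hSyl] at h1
    rw [Sylow.stabilizer_eq_normalizer]
    have h2 : 2 * Nat.card (Subgroup.normalizer ((P : Subgroup G) : Set G)) * (p + 1)
        = p * (p - 1) * (p + 1) := by
      calc 2 * Nat.card (Subgroup.normalizer ((P : Subgroup G) : Set G)) * (p + 1)
          = 2 * (Nat.card (Subgroup.normalizer ((P : Subgroup G) : Set G)) * (p + 1)) := by ring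
        _ = 2 * Nat.card G := congrArg (fun n => 2 * n) h1
        _ = p * (p - 1) * (p + 1) := by rw [hcard]; ring
    exact Nat.eq_of_mul_eq_mul_right (Nat.succ_pos p) h2
  have hNH : ∀ R : Sylow p G, R ≠ P → Nat.card (MulAction.stabilizer G P)
      = p * Nat.card ↥(MulAction.stabilizer G P ⊓ MulAction.stabilizer G R) := by
    intro R hR
    have hmem : ∀ (x : (P : Subgroup G))
        (h : ↥(MulAction.stabilizer G P ⊓ MulAction.stabilizer G R)),
        (x : G) * (h : G) ∈ MulAction.stabilizer G P := by
      intro x h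
      exact mul_mem (MulAction.mem_stabilizer_iff.mpr (hPfix _ x.2)) h.2.1
    have hbij : Function.Bijective
        (fun xh : ↥(P : Subgroup G) × ↥(MulAction.stabilizer G P ⊓ MulAction.stabilizer G R) =>
          (⟨(xh.1 : G) * (xh.2 : G), hmem xh.1 xh.2⟩ : MulAction.stabilizer G P)) := by
      constructor
      · rintro ⟨x, h⟩ ⟨x', h'⟩ hxy
        have h1 : (x : G) * (h : G) = (x' : G) * (h' : G) := congrArg Subtype.val hxy
        have h2 : (x' : G)⁻¹ * (x : G) = (h' : G) * (h : G)⁻¹ := by
          calc (x' : G)⁻¹ * (x : G) = (x' : G)⁻¹ * ((x : G) * (h : G)) * (h : G)⁻¹ := by group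
            _ = (h' : G) * (h : G)⁻¹ := by rw [h1]; group
        have h3 : ((x' : G)⁻¹ * (x : G)) • R = R := by
          rw [h2]
          exact MulAction.mem_stabilizer_iff.mp (mul_mem h'.2.2 (inv_mem h.2.2))
        have h4 := K1' _ (mul_mem (inv_mem x'.2) x.2) R hR h3
        have hx : x = x' := by
          apply Subtype.ext
          calc (x : G) = (x' : G) * ((x' : G)⁻¹ * (x : G)) := by group
            _ = (x' : G) := by rw [h4, mul_one]
        have hh : h = h' := by
          apply Subtype.ext
          rw [h4] at h2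
          calc (h : G) = ((h' : G) * (h : G)⁻¹)⁻¹ * (h' : G) := by group
            _ = (h' : G) := by rw [← h2, inv_one, one_mul]
        rw [hx, hh]
      · rintro ⟨g, hg⟩
        have hgP : g • P = P := MulAction.mem_stabilizer_iff.mp hg
        have hgR : g • R ≠ P := by
          intro h
          apply hR
          have h1 : R = g⁻¹ • P := by rw [← h, inv_smul_smul]
          rw [h1, inv_smul_eq_iff, hgP]
        obtain ⟨x, hx, hxR⟩ := K2 R (g • R) hR hgR
        refine ⟨(⟨x, hx⟩, ⟨x⁻¹ * g, ?_, ?_⟩), ?_⟩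
        · show (x⁻¹ * g) • P = P
          rw [mul_smul, hgP]
          exact hPfix _ (inv_mem hx)
        · show (x⁻¹ * g) • R = R
          rw [mul_smul, ← hxR, inv_smul_smul]
        · apply Subtype.ext
          show x * (x⁻¹ * g) = g
          group
    rw [← Nat.card_eq_of_bijective _ hbij, Nat.card_prod, hP]
  have hH2 : ∀ R : Sylow p G, R ≠ P →
      2 * Nat.card ↥(MulAction.stabilizer G P ⊓ MulAction.stabilizer G R) + 2 = p + 1 := by
    intro R hR
    have h1 := hNH R hR
    rw [h1] at hN
    have h2 : p * (2 * Nat.card ↥(MulAction.stabilizer G P ⊓ MulAction.stabilizer G R))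
        = p * (p - 1) := by rw [← hN]; ring
    have h3 := Nat.eq_of_mul_eq_mul_left hp.pos h2
    omega
  -- the Zassenhaus property
  have hZ : IsZassenhausGroup G (Sylow p G) := by
    refine ⟨?_, ?_, ?_, ?_, ?_⟩
    · constructor
      intro g₁ g₂ h
      have hker : (MulAction.toPermHom G (Sylow p G)).ker = ⊥ := by
        apply hOp _ (MonoidHom.normal_ker (MulAction.toPermHom G (Sylow p G)))
        rw [Nat.coprime_comm, Nat.Prime.coprime_iff_not_dvd hp]
        intro hdvd
        obtain ⟨x, hx⟩ := exists_prime_orderOf_dvd_card'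
          (G := (MulAction.toPermHom G (Sylow p G)).ker) p hdvd
        have hxG : orderOf (x : G) = p := by rw [Subgroup.orderOf_coe]; exact hx
        have hx1 : (x : G) ≠ 1 := by
          intro h
          rw [h, orderOf_one] at hxG
          exact hp.one_lt.ne hxG
        have h3 : MulAction.toPermHom G (Sylow p G) (x : G) = 1 := MonoidHom.mem_ker.mp x.2
        have hfix : ∀ R : Sylow p G, (x : G) • R = R := by
          intro R
          have := congrArg (fun σ : Equiv.Perm (Sylow p G) => σ R) h3
          exact this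
        have hxN : (x : G) ∈ Subgroup.normalizer ((P : Subgroup G) : Set G) :=
          Sylow.smul_eq_iff_mem_normalizer.mp (hfix P)
        have hpg : IsPGroup p (Subgroup.zpowers (x : G)) := by
          apply IsPGroup.of_card (n := 1)
          rw [Nat.card_zpowers, hxG, pow_one]
        have hxP : (x : G) ∈ Subgroup.zpowers (x : G) ⊓ (P : Subgroup G) := by
          rw [← hpg.inf_normalizer_sylow P]
          exact ⟨Subgroup.mem_zpowers _, hxN⟩
        exact hx1 (K1' _ hxP.2 R0 hR0 (hfix R0))
      have hinj := (MonoidHom.ker_eq_bot_iff _).mp hker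
      apply hinj
      apply Equiv.ext
      intro a
      exact h a
    · rw [MulAction.is_two_pretransitive_iff]
      intro a b c d hab hcd
      obtain ⟨g₁, hg₁⟩ := MulAction.exists_smul_eq G a P
      obtain ⟨g₂, hg₂⟩ := MulAction.exists_smul_eq G c P
      have hb' : g₁ • b ≠ P := by
        intro h
        apply hab
        rw [← hg₁] at h
        exact (smul_left_cancel g₁ h).symm
      have hd' : g₂ • d ≠ P := by
        intro h
        apply hcd
        rw [← hg₂] at h
        exact (smul_left_cancel g₂ h).symm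
      obtain ⟨x, hx, hxb⟩ := K2 _ _ hb' hd'
      refine ⟨g₂⁻¹ * x * g₁, ?_, ?_⟩
      · rw [mul_smul, mul_smul, hg₁, hPfix x hx, inv_smul_eq_iff, hg₂]
      · rw [mul_smul, mul_smul, hxb, inv_smul_smul]
    · intro g a b c hab hbc hac ha hb hc
      obtain ⟨g₁, hg₁⟩ := MulAction.exists_smul_eq G a P
      obtain ⟨g', hg'⟩ : ∃ g' : G, g' = g₁ * g * g₁⁻¹ := ⟨_, rfl⟩
      have hfix : ∀ e : Sylow p G, g • e = e → g' • (g₁ • e) = g₁ • e := by
        intro e he
        rw [hg', mul_smul, mul_smul, inv_smul_smul, he]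
      have hgP : g' • P = P := by
        have := hfix a ha
        rwa [hg₁] at this
      have hgb := hfix b hb
      have hgc := hfix c hc
      have hb' : g₁ • b ≠ P := by
        intro h
        apply hab
        rw [← hg₁] at h
        exact (smul_left_cancel g₁ h).symm
      have hc' : g₁ • c ≠ P := by
        intro h
        apply hac
        rw [← hg₁] at h
        exact (smul_left_cancel g₁ h).symm
      have hbc' : g₁ • b ≠ g₁ • c := fun h => hbc (smul_left_cancel g₁ h)
      obtain ⟨x, hx, hxb⟩ := K2 _ _ hb' hc'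
      have hx1 : x ≠ 1 := by
        rintro rfl
        rw [one_smul] at hxb
        exact hbc' hxb
      have hgN := hstabP g' hgP
      have he : g' * x⁻¹ * g'⁻¹ * x ∈ (P : Subgroup G) :=
        mul_mem ((Subgroup.mem_normalizer_iff.mp hgN x⁻¹).mp (inv_mem hx)) hx
      have heb : (g' * x⁻¹ * g'⁻¹ * x) • (g₁ • b) = g₁ • b := by
        rw [mul_smul, mul_smul, mul_smul, hxb, inv_smul_eq_iff.mpr hgc.symm,
          inv_smul_eq_iff.mpr hxb.symm, hgb]
      have he1 := K1' _ he _ hb' heb
      have hcomm : g' * x = x * g' := by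
        calc g' * x = x * (g' * x⁻¹ * g'⁻¹ * x)⁻¹ * g' := by group
          _ = x * g' := by rw [he1, inv_one, mul_one]
      have hg'P : g' ∈ (P : Subgroup G) := by
        rw [← hCP, Subgroup.mem_centralizer_iff]
        intro z hz
        have hz' : z ∈ Subgroup.zpowers x := by rw [hzp x hx hx1]; exact hz
        obtain ⟨k, rfl⟩ := Subgroup.mem_zpowers_iff.mp hz'
        exact ((Commute.zpow_left (show Commute x g' from hcomm.symm) k)).eq
      have hg'1 := K1' g' hg'P _ hb' hgb
      rw [hg'] at hg'1
      calc g = g₁⁻¹ * (g₁ * g * g₁⁻¹) * g₁ := by group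
        _ = 1 := by rw [hg'1]; group
    · have h1 := hH2 R0 hR0
      have h2 : (MulAction.stabilizer G P ⊓ MulAction.stabilizer G R0) ≠ ⊥ := by
        intro h
        rw [h, Subgroup.card_bot] at h1
        omega
      obtain ⟨⟨g, hg⟩, hg1⟩ := (Subgroup.ne_bot_iff_exists_ne_one).mp h2
      exact ⟨g, fun h => hg1 (Subtype.ext h), P, R0, hR0.symm,
        MulAction.mem_stabilizer_iff.mp hg.1, MulAction.mem_stabilizer_iff.mp hg.2⟩
    · intro N hN hNt
      by_cases hdvd : p ∣ Nat.card N
      · obtain ⟨x, hx⟩ := exists_prime_orderOf_dvd_card' (G := N) p hdvd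
        have hxG : orderOf (x : G) = p := by rw [Subgroup.orderOf_coe]; exact hx
        have hx1 : x ≠ 1 := by
          intro h
          rw [h, orderOf_one] at hx
          exact hp.one_lt.ne hx
        have hpg : IsPGroup p (Subgroup.zpowers (x : G)) := by
          apply IsPGroup.of_card (n := 1)
          rw [Nat.card_zpowers, hxG, pow_one]
        obtain ⟨R, hR⟩ := hpg.exists_le_sylow
        have hxR : (x : G) ∈ (R : Subgroup G) := hR (Subgroup.mem_zpowers _)
        have hfix : (x : G) • R = R :=
          Sylow.smul_eq_iff_mem_normalizer.mpr (Subgroup.le_normalizer hxR)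
        refine ⟨R, fun hbot => ?_⟩
        have h1 : x ∈ MulAction.stabilizer N R := MulAction.mem_stabilizer_iff.mpr hfix
        rw [hbot, Subgroup.mem_bot] at h1
        exact hx1 h1
      · exfalso
        have hNbot : N = ⊥ := hOp N hN (by
          rw [Nat.coprime_comm, Nat.Prime.coprime_iff_not_dvd hp]; exact hdvd)
        subst hNbot
        obtain ⟨n, hn⟩ := MulAction.exists_smul_eq (⊥ : Subgroup G) P R0
        have h1 : (n : G) = 1 := Subgroup.mem_bot.mp n.2
        have h2 : (n : G) • P = R0 := hn
        rw [h1, one_smul] at h2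
        exact hR0 h2.symm
  -- apply the classification
  have hd := hH2 R0 hR0
  rw [← hΩ] at hd
  have key : ∃ (p' f : ℕ) (K : Type) (_ : Field K) (_ : Fintype K), p'.Prime ∧ p' ≠ 2 ∧
      Fintype.card K = p' ^ f ∧ Fintype.card (Sylow p G) = p' ^ f + 1 ∧
      Nonempty (G ≃* Matrix.ProjectiveSpecialLinearGroup (Fin 2) K) := by
    rcases Nat.even_or_odd (Nat.card ↥(MulAction.stabilizer G P ⊓ MulAction.stabilizer G R0))
      with he | ho
    · exact zass_psl hZ hR0.symm he hd
    · exact Cfsg.Agent.Helper71.ZassOdd.zass_psl_odd hZ hR0.symm ho hd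
  obtain ⟨p', f, K, iF, iK, -, -, hK, hΩ', hiso⟩ := key
  refine ⟨K, iF, iK, ?_, hiso⟩
  rw [hK]
  omega

end Cfsg.Agent.Helper66
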