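import Cfsg.Agent.Helper63.N14Defs

/-!
# CALL S4414, piece B1b (helper66): the hyperplane projections are pairwise orthogonal
-/

set_option autoImplicit false

namespace Cfsg.Agent.Helper66.N14

open Cfsg.Agent.Helper63.N14

/-- B1b. The hyperplane projections are pairwise orthogonal. -/
theorem eH_orth {S : Type*} [Group S] [Finite S] {E : Type*} [AddCommGroup E] [Module (ZMod 2) E]
    (ρ : Representation (ZMod 2) S E) (p : ℕ) (hp : p.Prime) (hp2 : p ≠ 2)
    (A : Subgroup S) (hAab : ∀ a ∈ A, ∀ b ∈ A, a * b = b * a) (hAexp : ∀ a ∈ A, a ^ p = 1)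
    (hAcard : Nat.card A = p ∨ Nat.card A = p ^ 2)
    (hfixA : ∀ v : E, (∀ a ∈ A, ρ a v = v) → v = 0) :
    ∀ K K' : Subgroup S, K ≠ K' → eH ρ A p K * eH ρ A p K' = 0 := by
  classical
  intro K K' hne
  unfold eH
  by_cases hK : IsHyp A p K
  swap
  · rw [if_neg hK, zero_mul]
  by_cases hK' : IsHyp A p K'
  swap
  · rw [if_neg hK', mul_zero]
  rw [if_pos hK, if_pos hK']
  have hp0 : 0 < p := hp.pos
  have : Fact p.Prime := ⟨hp⟩
  rcases hAcard with hc | hc
  · exfalso
    have h1 : Nat.card K = 1 := by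
      have h := hK.2
      rw [hc] at h
      exact Nat.eq_of_mul_eq_mul_right hp0 (by rw [h, one_mul])
    have h2 : Nat.card K' = 1 := by
      have h := hK'.2
      rw [hc] at h
      exact Nat.eq_of_mul_eq_mul_right hp0 (by rw [h, one_mul])
    exact hne ((Subgroup.card_eq_one.mp h1).trans (Subgroup.card_eq_one.mp h2).symm)
  · have hcK : Nat.card K = p := by
      have h := hK.2
      rw [hc, pow_two] at h
      exact Nat.eq_of_mul_eq_mul_right hp0 h
    have hcK' : Nat.card K' = p := by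
      have h := hK'.2
      rw [hc, pow_two] at h
      exact Nat.eq_of_mul_eq_mul_right hp0 h
    have hinf : ∀ x, x ∈ K → x ∈ K' → x = 1 := by
      intro x hxK hxK'
      by_contra hx1
      have hord : orderOf x = p := orderOf_eq_prime (hAexp x (hK.1 hxK)) hx1
      have hz : Nat.card (Subgroup.zpowers x) = p := by rw [Nat.card_zpowers, hord]
      have e1 : Subgroup.zpowers x = K :=
        Subgroup.eq_of_le_of_card_ge ((Subgroup.zpowers_le).mpr hxK) (by rw [hz, hcK])
      have e2 : Subgroup.zpowers x = K' :=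
        Subgroup.eq_of_le_of_card_ge ((Subgroup.zpowers_le).mpr hxK') (by rw [hz, hcK'])
      exact hne (e1.symm.trans e2)
    have := Fintype.ofFinite K
    have := Fintype.ofFinite K'
    have := Fintype.ofFinite A
    obtain ⟨f, hf⟩ : ∃ f : K × K' → A, ∀ x, ((f x : A) : S) = (x.1 : S) * (x.2 : S) :=
      ⟨fun x => ⟨(x.1 : S) * (x.2 : S), A.mul_mem (hK.1 x.1.2) (hK'.1 x.2.2)⟩, fun _ => rfl⟩
    have hinj : Function.Injective f := by
      rintro ⟨k₁, k₁'⟩ ⟨k₂, k₂'⟩ hxy
      have h1 : (k₁ : S) * (k₁' : S) = (k₂ : S) * (k₂' : S) := by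
        have := congrArg (fun a : A => (a : S)) hxy
        simpa [hf] using this
      have h2 : (k₂ : S)⁻¹ * (k₁ : S) = (k₂' : S) * (k₁' : S)⁻¹ := by
        calc (k₂ : S)⁻¹ * (k₁ : S) = (k₂ : S)⁻¹ * ((k₁ : S) * (k₁' : S)) * (k₁' : S)⁻¹ := by group
          _ = (k₂ : S)⁻¹ * ((k₂ : S) * (k₂' : S)) * (k₁' : S)⁻¹ := by rw [h1]
          _ = (k₂' : S) * (k₁' : S)⁻¹ := by group
      have h3 : (k₂ : S)⁻¹ * (k₁ : S) = 1 :=
        hinf _ (K.mul_mem (K.inv_mem k₂.2) k₁.2) (by rw [h2]; exact K'.mul_mem k₂'.2 (K'.inv_mem k₁'.2))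
      have h4 : (k₂' : S) * (k₁' : S)⁻¹ = 1 := by rw [← h2, h3]
      have e1 : k₁ = k₂ := Subtype.ext (inv_mul_eq_one.mp h3).symm
      have e2 : k₁' = k₂' := Subtype.ext (mul_inv_eq_one.mp h4).symm
      rw [e1, e2]
    have hbij : Function.Bijective f := by
      apply hinj.bijective_of_nat_card_le
      rw [Nat.card_prod, hcK, hcK', hc, pow_two]
    have hT : ∀ v : E, (∑ a : A, ρ (a : S)) v = 0 := by
      intro v
      apply hfixA
      intro b hb
      rw [LinearMap.sum_apply, map_sum]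
      have h1 : ∀ a : A, ρ b (ρ (a : S) v) = ρ (((⟨b, hb⟩ : A) * a : A) : S) v := by
        intro a
        rw [Subgroup.coe_mul, map_mul]
        rfl
      rw [Finset.sum_congr rfl (fun a _ => h1 a)]
      exact Equiv.sum_comp (Equiv.mulLeft (⟨b, hb⟩ : A)) (fun a : A => ρ (a : S) v)
    have hTz : (∑ a : A, ρ (a : S)) = 0 := LinearMap.ext hT
    calc eK ρ K * eK ρ K' = ∑ x : K × K', ρ ((f x : A) : S) := by
          unfold eK
          rw [finsum_eq_sum_of_fintype, finsum_eq_sum_of_fintype, Finset.sum_mul_sum,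
            ← Finset.sum_product', Finset.univ_product_univ]
          refine Finset.sum_congr rfl (fun x _ => ?_)
          rw [hf, map_mul]
      _ = ∑ a : A, ρ (a : S) := hbij.sum_comp (fun a : A => ρ (a : S))
      _ = 0 := hTz

end Cfsg.Agent.Helper66.N14
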