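import Cfsg.Agent.Helper63.N14Defs

/-!
# CALL S4414, piece D4 (helper66): a Sylow `q`-subgroup fixes a point of an orbit of a Sylow
`2`-subgroup
-/

set_option autoImplicit false

namespace Cfsg.Agent.Helper66.N14

open Cfsg.Agent.Helper63.N14

/-- D4. If the Sylow `2`-subgroup is transitive on an invariant set, a Sylow `q`-subgroup
(`q` odd) fixes a point of it. -/
theorem exists_fixed_of_transitive {S : Type*} [Group S] [Finite S] {ι : Type*}
    (act : S → ι → ι)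
    (hact1 : ∀ i, act 1 i = i) (hactmul : ∀ s t i, act (s * t) i = act s (act t i))
    (Ω : Set ι) (hΩ : ∀ s i, i ∈ Ω → act s i ∈ Ω) (i₁ : ι) (hi₁ : i₁ ∈ Ω)
    (P : Sylow 2 S) (hP : ∀ j ∈ Ω, ∃ s ∈ (P : Subgroup S), act s i₁ = j)
    (q : ℕ) (hq : q.Prime) (hq2 : q ≠ 2) (Q : Sylow q S) :
    ∃ j ∈ Ω, ∀ x ∈ (Q : Subgroup S), act x j = j := by
  classical
  let actS : MulAction S ι := { smul := act, one_smul := hact1, mul_smul := hactmul }
  have hΩorb : Ω = MulAction.orbit (↥(P : Subgroup S)) i₁ := by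
    ext j
    constructor
    · intro hj
      obtain ⟨s, hs, hsj⟩ := hP j hj
      exact ⟨⟨s, hs⟩, hsj⟩
    · rintro ⟨⟨s, hs⟩, rfl⟩
      exact hΩ s i₁ hi₁
  have hfinorb : Finite (MulAction.orbit (↥(P : Subgroup S)) i₁) :=
    (Set.finite_range (fun m : ↥(P : Subgroup S) => m • i₁)).to_subtype
  have hfinΩ : Finite Ω := by rw [hΩorb]; exact hfinorb
  obtain ⟨n, hn⟩ : ∃ n, Nat.card Ω = 2 ^ n := by
    rw [hΩorb]; exact P.isPGroup'.card_orbit i₁
  let actQ : MulAction (↥(Q : Subgroup S)) Ω :=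
    { smul := fun x j => ⟨act x j, hΩ x j j.2⟩
      one_smul := fun j => Subtype.ext (hact1 j)
      mul_smul := fun x y j => Subtype.ext (hactmul x y j) }
  have : Fact q.Prime := ⟨hq⟩
  have hmod := Q.isPGroup'.card_modEq_card_fixedPoints Ω
  have hne : Nat.card (MulAction.fixedPoints (↥(Q : Subgroup S)) Ω) ≠ 0 := by
    intro h0
    rw [h0, hn] at hmod
    have hdvd : q ∣ 2 ^ n := (Nat.modEq_zero_iff_dvd).mp hmod
    exact hq2 ((Nat.prime_dvd_prime_iff_eq hq Nat.prime_two).mp (hq.dvd_of_dvd_pow hdvd))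
  have hnonempty : Nonempty (MulAction.fixedPoints (↥(Q : Subgroup S)) Ω) := by
    by_contra hcon
    rw [not_nonempty_iff] at hcon
    exact hne Nat.card_of_isEmpty
  obtain ⟨⟨⟨j, hj⟩, hfix⟩⟩ := hnonempty
  refine ⟨j, hj, fun x hx => ?_⟩
  exact congrArg Subtype.val (hfix ⟨x, hx⟩)

end Cfsg.Agent.Helper66.N14
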