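import Cfsg.Prelude.Def_Transfer
import Cfsg.Prelude.Def_Solvable
import Cfsg.Agent.Helper63.N15Defs

/-! CALL S4415 (helper63), piece p2c: the weight vectors `v₁, v₂, v₃`. -/

set_option autoImplicit false

namespace Cfsg.Agent.Helper66.N15

open Cfsg.Agent.Helper63.N15

variable {S : Type*} [Group S] [Finite S] {E : Type*} [AddCommGroup E] [Module (ZMod 3) E]
  [Finite E]

/-- P2c. The weight vectors. -/
theorem p2c (ρ : Representation (ZMod 3) S E) (hfaith : Function.Injective ρ)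
    (b q₁ q₂ q₃ : S) (hb3 : b ^ 3 = 1) (hq1 : q₁ ≠ 1) (h11 : q₁ * q₁ = 1) (h22 : q₂ * q₂ = 1)
    (h33 : q₃ * q₃ = 1) (h12 : q₁ * q₂ = q₃) (h21 : q₂ * q₁ = q₃) (hb1 : b * q₁ * b⁻¹ = q₂)
    (hb2 : b * q₂ * b⁻¹ = q₃) (hb3' : b * q₃ * b⁻¹ = q₁)
    (hN : ∃ w₀ : E, ∀ v : E, ∃ k : ZMod 3, v + ρ b v + ρ b (ρ b v) = k • w₀)
    (hrk : ∃ a₁ a₂ : E, ∀ v : E, ∃ k₁ k₂ : ZMod 3, ρ b v - v = k₁ • a₁ + k₂ • a₂)
    (hdec : ∀ v : E, ∃ u a₁ a₂ a₃ : E, v = u + a₁ + a₂ + a₃ ∧ (ρ q₁ u = u ∧ ρ q₂ u = u) ∧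
      (ρ q₁ a₁ = a₁ ∧ ρ q₂ a₁ = -a₁) ∧ (ρ q₁ a₂ = -a₂ ∧ ρ q₂ a₂ = a₂) ∧
      (ρ q₁ a₃ = -a₃ ∧ ρ q₂ a₃ = -a₃)) :
    ∃ v₁ v₂ v₃ : E, v₁ ≠ 0 ∧ ρ b v₁ = v₂ ∧ ρ b v₂ = v₃ ∧ ρ b v₃ = v₁ ∧
      ρ q₁ v₁ = v₁ ∧ ρ q₁ v₂ = -v₂ ∧ ρ q₁ v₃ = -v₃ ∧
      ρ q₂ v₁ = -v₁ ∧ ρ q₂ v₂ = v₂ ∧ ρ q₂ v₃ = -v₃ ∧
      ρ q₃ v₁ = -v₁ ∧ ρ q₃ v₂ = -v₂ ∧ ρ q₃ v₃ = v₃ ∧
      ∀ v : E, ∃ u : E, ∃ c₁ c₂ c₃ : ZMod 3, v = u + c₁ • v₁ + c₂ • v₂ + c₃ • v₃ ∧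
        ρ q₁ u = u ∧ ρ q₂ u = u ∧ ρ q₃ u = u ∧ ρ b u = u := by
  -- relations
  have R1 : ∀ x, ρ b (ρ q₁ x) = ρ q₂ (ρ b x) := by
    intro x
    have h : b * q₁ = q₂ * b := mul_inv_eq_iff_eq_mul.1 hb1
    have h' := congrArg (fun g => ρ g x) h
    simpa [map_mul] using h'
  have R2 : ∀ x, ρ b (ρ q₂ x) = ρ q₃ (ρ b x) := by
    intro x
    have h : b * q₂ = q₃ * b := mul_inv_eq_iff_eq_mul.1 hb2
    have h' := congrArg (fun g => ρ g x) h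
    simpa [map_mul] using h'
  have Q3 : ∀ x, ρ q₃ x = ρ q₁ (ρ q₂ x) := by
    intro x
    rw [← h12, map_mul]
    rfl
  have B3 : ∀ x, ρ b (ρ b (ρ b x)) = x := by
    intro x
    have h' := congrArg (fun g => ρ g x) hb3
    simpa [pow_succ, map_mul] using h'
  have Binj : ∀ x, ρ b x = 0 → x = 0 := by
    intro x hx
    have h := B3 x
    rw [hx, map_zero, map_zero] at h
    exact h.symm
  have four : ∀ y : E, y + y + y + y = 0 → y = 0 := by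
    intro y hy
    have h3 : y + y + y = 0 := by
      have h : (3 : ZMod 3) • y = 0 := by
        have h0 : (3 : ZMod 3) = 0 := by decide
        rw [h0, zero_smul]
      rw [← h]
      module
    have e : y = (y + y + y + y) - (y + y + y) := by abel
    rw [e, hy, h3, sub_zero]
  -- the action of `b` on the weight spaces
  have W12 : ∀ a, ρ q₁ a = a → ρ q₂ a = -a →
      ρ q₁ (ρ b a) = -ρ b a ∧ ρ q₂ (ρ b a) = ρ b a := by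
    intro a ha1 ha2
    have e2 : ρ q₂ (ρ b a) = ρ b a := by rw [← R1, ha1]
    have e3 : ρ q₃ (ρ b a) = -ρ b a := by rw [← R2, ha2, map_neg]
    refine ⟨?_, e2⟩
    rw [Q3, e2] at e3
    exact e3
  have W23 : ∀ a, ρ q₁ a = -a → ρ q₂ a = a →
      ρ q₁ (ρ b a) = -ρ b a ∧ ρ q₂ (ρ b a) = -ρ b a := by
    intro a ha1 ha2
    have e2 : ρ q₂ (ρ b a) = -ρ b a := by rw [← R1, ha1, map_neg]
    have e3 : ρ q₃ (ρ b a) = ρ b a := by rw [← R2, ha2]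
    refine ⟨?_, e2⟩
    rw [Q3, e2, map_neg] at e3
    exact neg_eq_iff_eq_neg.1 e3
  have W31 : ∀ a, ρ q₁ a = -a → ρ q₂ a = -a →
      ρ q₁ (ρ b a) = ρ b a ∧ ρ q₂ (ρ b a) = -ρ b a := by
    intro a ha1 ha2
    have e2 : ρ q₂ (ρ b a) = -ρ b a := by rw [← R1, ha1, map_neg]
    have e3 : ρ q₃ (ρ b a) = -ρ b a := by rw [← R2, ha2, map_neg]
    refine ⟨?_, e2⟩
    rw [Q3, e2, map_neg] at e3
    exact neg_injective e3
  have WC : ∀ u, ρ q₁ u = u → ρ q₂ u = u → ρ q₁ (ρ b u) = ρ b u ∧ ρ q₂ (ρ b u) = ρ b u := by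
    intro u hu1 hu2
    have e2 : ρ q₂ (ρ b u) = ρ b u := by rw [← R1, hu1]
    have e3 : ρ q₃ (ρ b u) = ρ b u := by rw [← R2, hu2]
    refine ⟨?_, e2⟩
    rw [Q3, e2] at e3
    exact e3
  -- independence of the weight spaces
  have L : ∀ u x₁ x₂ x₃ : E, ρ q₁ u = u → ρ q₂ u = u → ρ q₁ x₁ = x₁ → ρ q₂ x₁ = -x₁ →
      ρ q₁ x₂ = -x₂ → ρ q₂ x₂ = x₂ → ρ q₁ x₃ = -x₃ → ρ q₂ x₃ = -x₃ →
      u + x₁ + x₂ + x₃ = 0 → u = 0 ∧ x₁ = 0 ∧ x₂ = 0 ∧ x₃ = 0 := by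
    intro u x₁ x₂ x₃ hu1 hu2 h11' h12' h21' h22' h31' h32' h0
    have e1 : u + x₁ + -x₂ + -x₃ = 0 := by
      have h := congrArg (ρ q₁) h0
      rw [map_add, map_add, map_add, hu1, h11', h21', h31', map_zero] at h
      exact h
    have e2 : u + -x₁ + x₂ + -x₃ = 0 := by
      have h := congrArg (ρ q₂) h0
      rw [map_add, map_add, map_add, hu2, h12', h22', h32', map_zero] at h
      exact h
    have e3 : u + -x₁ + -x₂ + x₃ = 0 := by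
      have h := congrArg (ρ q₁) e2
      rw [map_add, map_add, map_add, map_neg, map_neg, hu1, h11', h21', h31', map_zero,
        neg_neg] at h
      exact h
    refine ⟨four u ?_, four x₁ ?_, four x₂ ?_, four x₃ ?_⟩
    · calc u + u + u + u = (u + x₁ + x₂ + x₃) + (u + x₁ + -x₂ + -x₃) + (u + -x₁ + x₂ + -x₃) +
            (u + -x₁ + -x₂ + x₃) := by abel
        _ = 0 := by rw [h0, e1, e2, e3]; simp
    · calc x₁ + x₁ + x₁ + x₁ = (u + x₁ + x₂ + x₃) + (u + x₁ + -x₂ + -x₃) -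
            (u + -x₁ + x₂ + -x₃) - (u + -x₁ + -x₂ + x₃) := by abel
        _ = 0 := by rw [h0, e1, e2, e3]; simp
    · calc x₂ + x₂ + x₂ + x₂ = (u + x₁ + x₂ + x₃) - (u + x₁ + -x₂ + -x₃) +
            (u + -x₁ + x₂ + -x₃) - (u + -x₁ + -x₂ + x₃) := by abel
        _ = 0 := by rw [h0, e1, e2, e3]; simp
    · calc x₃ + x₃ + x₃ + x₃ = (u + x₁ + x₂ + x₃) - (u + x₁ + -x₂ + -x₃) -
            (u + -x₁ + x₂ + -x₃) + (u + -x₁ + -x₂ + x₃) := by abel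
        _ = 0 := by rw [h0, e1, e2, e3]; simp
  -- a nonzero vector of weight (+, -)
  obtain ⟨v₁, hv1, h1a, h1b⟩ : ∃ v₁ : E, v₁ ≠ 0 ∧ ρ q₁ v₁ = v₁ ∧ ρ q₂ v₁ = -v₁ := by
    by_contra hcon
    have hz1 : ∀ a, ρ q₁ a = a → ρ q₂ a = -a → a = 0 := by
      intro a h1 h2
      by_contra ha
      exact hcon ⟨a, ha, h1, h2⟩
    have hz2 : ∀ a, ρ q₁ a = -a → ρ q₂ a = a → a = 0 := by
      intro a h1 h2
      have w := W23 a h1 h2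
      have w' := W31 _ w.1 w.2
      exact Binj _ (Binj _ (hz1 _ w'.1 w'.2))
    have hz3 : ∀ a, ρ q₁ a = -a → ρ q₂ a = -a → a = 0 := by
      intro a h1 h2
      have w := W31 a h1 h2
      exact Binj _ (hz1 _ w.1 w.2)
    apply hq1
    apply hfaith
    rw [map_one]
    ext v
    obtain ⟨u, a₁, a₂, a₃, hv, ⟨hu1, hu2⟩, ⟨h11', h12'⟩, ⟨h21', h22'⟩, ⟨h31', h32'⟩⟩ := hdec v
    rw [hz1 a₁ h11' h12', hz2 a₂ h21' h22', hz3 a₃ h31' h32'] at hv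
    simp only [add_zero] at hv
    rw [hv]
    simpa using hu1
  have w2 := W12 v₁ h1a h1b
  have w3 := W23 _ w2.1 w2.2
  have hv2 : ρ b v₁ ≠ 0 := fun h => hv1 (Binj _ h)
  have hv3 : ρ b (ρ b v₁) ≠ 0 := fun h => hv2 (Binj _ h)
  -- the weight spaces are lines
  obtain ⟨w₀, hw₀⟩ := hN
  have span1 : ∀ a, ρ q₁ a = a → ρ q₂ a = -a → ∃ c : ZMod 3, a = c • v₁ := by
    intro a ha1 ha2
    obtain ⟨k, hk⟩ := hw₀ a
    obtain ⟨k₁, hk₁⟩ := hw₀ v₁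
    have hk10 : k₁ ≠ 0 := by
      intro h0
      rw [h0, zero_smul] at hk₁
      have h := L 0 v₁ (ρ b v₁) (ρ b (ρ b v₁)) (map_zero _) (map_zero _) h1a h1b w2.1 w2.2
        w3.1 w3.2 (by rw [zero_add]; exact hk₁)
      exact hv1 h.2.1
    have hx1 : ρ q₁ (k₁ • a - k • v₁) = k₁ • a - k • v₁ := by
      rw [map_sub, map_smul, map_smul, ha1, h1a]
    have hx2 : ρ q₂ (k₁ • a - k • v₁) = -(k₁ • a - k • v₁) := by
      rw [map_sub, map_smul, map_smul, ha2, h1b]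
      module
    have hxN : (k₁ • a - k • v₁) + ρ b (k₁ • a - k • v₁) + ρ b (ρ b (k₁ • a - k • v₁)) = 0 := by
      have e : (k₁ • a - k • v₁) + ρ b (k₁ • a - k • v₁) + ρ b (ρ b (k₁ • a - k • v₁)) =
          k₁ • (a + ρ b a + ρ b (ρ b a)) - k • (v₁ + ρ b v₁ + ρ b (ρ b v₁)) := by
        simp only [map_sub, map_smul]
        module
      rw [e, hk, hk₁, smul_smul, smul_smul, mul_comm k₁ k, sub_self]
    have wx2 := W12 _ hx1 hx2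
    have wx3 := W23 _ wx2.1 wx2.2
    have hx0 := (L 0 _ _ _ (map_zero _) (map_zero _) hx1 hx2 wx2.1 wx2.2 wx3.1 wx3.2
      (by rw [zero_add]; exact hxN)).2.1
    refine ⟨k₁⁻¹ * k, ?_⟩
    have h : k₁ • a = k • v₁ := sub_eq_zero.1 hx0
    rw [mul_smul, ← h, smul_smul, inv_mul_cancel₀ hk10, one_smul]
  have span2 : ∀ a, ρ q₁ a = -a → ρ q₂ a = a → ∃ c : ZMod 3, a = c • ρ b v₁ := by
    intro a h1 h2
    have w := W23 a h1 h2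
    have w' := W31 _ w.1 w.2
    obtain ⟨c, hc⟩ := span1 _ w'.1 w'.2
    have h := B3 a
    rw [hc, map_smul] at h
    exact ⟨c, h.symm⟩
  have span3 : ∀ a, ρ q₁ a = -a → ρ q₂ a = -a → ∃ c : ZMod 3, a = c • ρ b (ρ b v₁) := by
    intro a h1 h2
    have w := W31 a h1 h2
    obtain ⟨c, hc⟩ := span1 _ w.1 w.2
    have h := B3 a
    rw [hc, map_smul, map_smul] at h
    exact ⟨c, h.symm⟩
  -- `b` fixes the common fixed points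
  have indep : ∀ α β γ : ZMod 3, α • v₁ + β • ρ b v₁ + γ • ρ b (ρ b v₁) = 0 →
      α = 0 ∧ β = 0 ∧ γ = 0 := by
    intro α β γ h0
    have h := L 0 (α • v₁) (β • ρ b v₁) (γ • ρ b (ρ b v₁)) (map_zero _) (map_zero _)
      (by rw [map_smul, h1a]) (by rw [map_smul, h1b, smul_neg])
      (by rw [map_smul, w2.1, smul_neg]) (by rw [map_smul, w2.2])
      (by rw [map_smul, w3.1, smul_neg]) (by rw [map_smul, w3.2, smul_neg])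
      (by rw [zero_add]; exact h0)
    exact ⟨(smul_eq_zero.1 h.2.1).resolve_right hv1, (smul_eq_zero.1 h.2.2.1).resolve_right hv2,
      (smul_eq_zero.1 h.2.2.2).resolve_right hv3⟩
  obtain ⟨a₁, a₂, hrk'⟩ := hrk
  obtain ⟨k₁, k₂, hw1⟩ := hrk' v₁
  obtain ⟨l₁, l₂, hw2⟩ := hrk' (ρ b v₁)
  have hdet : k₁ * l₂ - k₂ * l₁ ≠ 0 := by
    intro hd
    have e1 : l₂ • (ρ b v₁ - v₁) - k₂ • (ρ b (ρ b v₁) - ρ b v₁) = 0 := by
      rw [hw1, hw2]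
      have h : l₂ • (k₁ • a₁ + k₂ • a₂) - k₂ • (l₁ • a₁ + l₂ • a₂) =
          (k₁ * l₂ - k₂ * l₁) • a₁ := by module
      rw [h, hd, zero_smul]
    have e2 : k₁ • (ρ b (ρ b v₁) - ρ b v₁) - l₁ • (ρ b v₁ - v₁) = 0 := by
      rw [hw1, hw2]
      have h : k₁ • (l₁ • a₁ + l₂ • a₂) - l₁ • (k₁ • a₁ + k₂ • a₂) =
          (k₁ * l₂ - k₂ * l₁) • a₂ := by module
      rw [h, hd, zero_smul]
    have i1 := indep (-l₂) (l₂ + k₂) (-k₂) (by rw [← e1]; module)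
    have i2 := indep l₁ (-k₁ - l₁) k₁ (by rw [← e2]; module)
    have hk1 : k₁ = 0 := i2.2.2
    have hk2 : k₂ = 0 := neg_eq_zero.1 i1.2.2
    rw [hk1, hk2, zero_smul, zero_smul, add_zero] at hw1
    have i3 := indep (-1) 1 0 (by rw [← hw1]; module)
    exact one_ne_zero i3.2.1
  have fixC : ∀ u, ρ q₁ u = u → ρ q₂ u = u → ρ b u = u := by
    intro u hu1 hu2
    obtain ⟨m₁, m₂, hm⟩ := hrk' u
    have wc := WC u hu1 hu2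
    have hx1 : ρ q₁ (ρ b u - u) = ρ b u - u := by rw [map_sub, wc.1, hu1]
    have hx2 : ρ q₂ (ρ b u - u) = ρ b u - u := by rw [map_sub, wc.2, hu2]
    have hcomb : (k₁ * l₂ - k₂ * l₁) • (ρ b u - u) =
        (-(m₁ * l₂) + m₂ * l₁) • v₁ + (m₁ * l₂ + m₁ * k₂ - m₂ * l₁ - m₂ * k₁) • ρ b v₁ +
          (-(m₁ * k₂) + m₂ * k₁) • ρ b (ρ b v₁) := by
      have e : (k₁ * l₂ - k₂ * l₁) • (m₁ • a₁ + m₂ • a₂) =
          m₁ • (l₂ • (k₁ • a₁ + k₂ • a₂) - k₂ • (l₁ • a₁ + l₂ • a₂)) +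
            m₂ • (k₁ • (l₁ • a₁ + l₂ • a₂) - l₁ • (k₁ • a₁ + k₂ • a₂)) := by module
      rw [hm, e, ← hw1, ← hw2]
      module
    have h := L ((k₁ * l₂ - k₂ * l₁) • (ρ b u - u)) (-((-(m₁ * l₂) + m₂ * l₁) • v₁))
      (-((m₁ * l₂ + m₁ * k₂ - m₂ * l₁ - m₂ * k₁) • ρ b v₁))
      (-((-(m₁ * k₂) + m₂ * k₁) • ρ b (ρ b v₁)))
      (by rw [map_smul, hx1]) (by rw [map_smul, hx2])
      (by rw [map_neg, map_smul, h1a]) (by rw [map_neg, map_smul, h1b, smul_neg])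
      (by rw [map_neg, map_smul, w2.1, smul_neg]) (by rw [map_neg, map_smul, w2.2])
      (by rw [map_neg, map_smul, w3.1, smul_neg]) (by rw [map_neg, map_smul, w3.2, smul_neg])
      (by rw [hcomb]; abel)
    have hx0 : ρ b u - u = 0 := (smul_eq_zero.1 h.1).resolve_left hdet
    exact sub_eq_zero.1 hx0
  refine ⟨v₁, ρ b v₁, ρ b (ρ b v₁), hv1, rfl, rfl, B3 v₁, h1a, w2.1, w3.1, h1b, w2.2, w3.2,
    ?_, ?_, ?_, ?_⟩
  · rw [Q3, h1b, map_neg, h1a]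
  · rw [Q3, w2.2, w2.1]
  · rw [Q3, w3.2, map_neg, w3.1, neg_neg]
  · intro v
    obtain ⟨u, x₁, x₂, x₃, hv, ⟨hu1, hu2⟩, ⟨h11', h12'⟩, ⟨h21', h22'⟩, ⟨h31', h32'⟩⟩ := hdec v
    obtain ⟨c₁, hc₁⟩ := span1 x₁ h11' h12'
    obtain ⟨c₂, hc₂⟩ := span2 x₂ h21' h22'
    obtain ⟨c₃, hc₃⟩ := span3 x₃ h31' h32'
    exact ⟨u, c₁, c₂, c₃, by rw [hv, hc₁, hc₂, hc₃], hu1, hu2, by rw [Q3, hu2, hu1],
      fixC u hu1 hu2⟩

end Cfsg.Agent.Helper66.N15
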