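import Cfsg.Prelude.Def_Transfer
import Cfsg.Prelude.Def_Solvable
import Cfsg.Agent.Helper63.N15Defs

/-! CALL S4415 (helper63), piece p4: the configuration `Cfg` for `G = ↥(R ⊔ B)` on `↥F₀`. -/

set_option autoImplicit false

namespace Cfsg.Agent.Helper66.N15

open Cfsg.Agent.Helper63.N15

variable {S : Type*} [Group S] [Finite S] {E : Type*} [AddCommGroup E] [Module (ZMod 3) E]
  [Finite E]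

/-- P4 (plumbing). The configuration `Cfg` for `G = ↥(R ⊔ B)` acting on `↥F₀`. -/
theorem p4 (ρ : Representation (ZMod 3) S E) (R B : Subgroup S) (b q₁ q₂ q₃ : S)
    (v₁ v₂ v₃ : E) (F₀ : Submodule (ZMod 3) E) (hinv : ∀ g ∈ R ⊔ B, ∀ v ∈ F₀, ρ g v ∈ F₀)
    (hbG : b ∈ R ⊔ B) (hq1G : q₁ ∈ R ⊔ B) (hq2G : q₂ ∈ R ⊔ B) (hq3G : q₃ ∈ R ⊔ B)
    (hv1F : v₁ ∈ F₀) (hv2F : v₂ ∈ F₀) (hv3F : v₃ ∈ F₀)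
    (hg : (R.subgroupOf (R ⊔ B)).Normal ∧ (Nat.card ↥(R.subgroupOf (R ⊔ B))).Coprime 3 ∧
      Group.IsSolvable ↥(R.subgroupOf (R ⊔ B)) ∧
      R.subgroupOf (R ⊔ B) ⊔ Subgroup.zpowers (⟨b, hbG⟩ : ↥(R ⊔ B)) = ⊤ ∧
      ⁅R.subgroupOf (R ⊔ B), Subgroup.zpowers (⟨b, hbG⟩ : ↥(R ⊔ B))⁆ =
        R.subgroupOf (R ⊔ B))
    (hm : (∀ g : ↥(R ⊔ B), (∀ v : ↥F₀, resRep ρ (R ⊔ B) F₀ hinv g v = v) → g = 1) ∧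
      (∀ N : Submodule (ZMod 3) ↥F₀,
        (∀ g : ↥(R ⊔ B), ∀ v ∈ N, resRep ρ (R ⊔ B) F₀ hinv g v ∈ N) → N = ⊥ ∨ N = ⊤) ∧
      (∀ v : ↥F₀, ∃ u : ↥F₀, ∃ c₁ c₂ c₃ : ZMod 3,
        v = u + c₁ • (⟨v₁, hv1F⟩ : ↥F₀) + c₂ • (⟨v₂, hv2F⟩ : ↥F₀) + c₃ • (⟨v₃, hv3F⟩ : ↥F₀) ∧
        resRep ρ (R ⊔ B) F₀ hinv ⟨q₁, hq1G⟩ u = u ∧
        resRep ρ (R ⊔ B) F₀ hinv ⟨q₂, hq2G⟩ u = u ∧
        resRep ρ (R ⊔ B) F₀ hinv ⟨q₃, hq3G⟩ u = u ∧ resRep ρ (R ⊔ B) F₀ hinv ⟨b, hbG⟩ u = u))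
    (hb3 : b ^ 3 = 1) (hq1 : q₁ ∈ R) (hq2 : q₂ ∈ R) (hq3 : q₃ ∈ R) (h11 : q₁ * q₁ = 1)
    (h22 : q₂ * q₂ = 1) (h33 : q₃ * q₃ = 1) (h12 : q₁ * q₂ = q₃) (h21 : q₂ * q₁ = q₃)
    (hb1 : b * q₁ * b⁻¹ = q₂) (hb2 : b * q₂ * b⁻¹ = q₃) (hb3' : b * q₃ * b⁻¹ = q₁)
    (hv1 : v₁ ≠ 0) (hbv1 : ρ b v₁ = v₂) (hbv2 : ρ b v₂ = v₃) (hbv3 : ρ b v₃ = v₁)
    (s11 : ρ q₁ v₁ = v₁) (s12 : ρ q₁ v₂ = -v₂) (s13 : ρ q₁ v₃ = -v₃)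
    (s21 : ρ q₂ v₁ = -v₁) (s22 : ρ q₂ v₂ = v₂) (s23 : ρ q₂ v₃ = -v₃)
    (s31 : ρ q₃ v₁ = -v₁) (s32 : ρ q₃ v₂ = -v₂) (s33 : ρ q₃ v₃ = v₃) :
    Cfg (resRep ρ (R ⊔ B) F₀ hinv) (R.subgroupOf (R ⊔ B)) ⟨b, hbG⟩ ⟨q₁, hq1G⟩ ⟨q₂, hq2G⟩
      ⟨q₃, hq3G⟩ (⟨v₁, hv1F⟩ : ↥F₀) ⟨v₂, hv2F⟩ ⟨v₃, hv3F⟩ := by
  obtain ⟨hg1, hg2, hg3, hg4, hg5⟩ := hg
  obtain ⟨hm1, hm2, hm3⟩ := hm
  exact
    { faith := hm1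
      irr := hm2
      Rn := hg1
      R3 := hg2
      sol := hg3
      b3 := Subtype.ext hb3
      gen := hg4
      comm := hg5
      q1R := Subgroup.mem_subgroupOf.2 hq1
      q2R := Subgroup.mem_subgroupOf.2 hq2
      q3R := Subgroup.mem_subgroupOf.2 hq3
      q11 := Subtype.ext h11
      q22 := Subtype.ext h22
      q33 := Subtype.ext h33
      q12 := Subtype.ext h12
      q21 := Subtype.ext h21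
      bq1 := Subtype.ext hb1
      bq2 := Subtype.ext hb2
      bq3 := Subtype.ext hb3'
      v1 := fun h => hv1 (congrArg Subtype.val h)
      bv1 := Subtype.ext hbv1
      bv2 := Subtype.ext hbv2
      bv3 := Subtype.ext hbv3
      s11 := Subtype.ext s11
      s12 := Subtype.ext s12
      s13 := Subtype.ext s13
      s21 := Subtype.ext s21
      s22 := Subtype.ext s22
      s23 := Subtype.ext s23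
      s31 := Subtype.ext s31
      s32 := Subtype.ext s32
      s33 := Subtype.ext s33
      dec := hm3 }

end Cfsg.Agent.Helper66.N15
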