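import Cfsg.Prelude.Def_Transfer
import Cfsg.Prelude.Def_Solvable
import Cfsg.Agent.Helper63.N15Defs

/-! CALL S4415 (helper63), piece p4g: the group-level fields of `Cfg` for `G = ↥(R ⊔ B)`. -/

set_option autoImplicit false

namespace Cfsg.Agent.Helper66.N15

open Cfsg.Agent.Helper63.N15

variable {S : Type*} [Group S] [Finite S] {E : Type*} [AddCommGroup E] [Module (ZMod 3) E]
  [Finite E]

/-- P4g (plumbing). The group-level fields of `Cfg` for `G = ↥(R ⊔ B)`. -/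
theorem p4g [Group.IsSolvable S] (R B : Subgroup S) (b : S) (hb : Subgroup.zpowers b = B)
    (hR3 : (Nat.card ↥R).Coprime 3) (hnorm : ∀ x ∈ B, ∀ r ∈ R, x * r * x⁻¹ ∈ R)
    (hcomm : ⁅R, B⁆ = R) (hbG : b ∈ R ⊔ B) :
    (R.subgroupOf (R ⊔ B)).Normal ∧ (Nat.card ↥(R.subgroupOf (R ⊔ B))).Coprime 3 ∧
      Group.IsSolvable ↥(R.subgroupOf (R ⊔ B)) ∧
      R.subgroupOf (R ⊔ B) ⊔ Subgroup.zpowers (⟨b, hbG⟩ : ↥(R ⊔ B)) = ⊤ ∧
      ⁅R.subgroupOf (R ⊔ B), Subgroup.zpowers (⟨b, hbG⟩ : ↥(R ⊔ B))⁆ =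
        R.subgroupOf (R ⊔ B) := by
  obtain ⟨T, hT⟩ : ∃ T : Subgroup S, ∀ g, g ∈ T ↔
      ∀ r ∈ R, g * r * g⁻¹ ∈ R ∧ g⁻¹ * r * g ∈ R :=
    ⟨{ carrier := {g | ∀ r ∈ R, g * r * g⁻¹ ∈ R ∧ g⁻¹ * r * g ∈ R}
       one_mem' := fun r hr => by simpa using hr
       mul_mem' := fun {a c} ha hc r hr => by
         refine ⟨?_, ?_⟩
         · have h1 := (ha _ (hc r hr).1).1
           have e : a * c * r * (a * c)⁻¹ = a * (c * r * c⁻¹) * a⁻¹ := by group
           rw [e]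
           exact h1
         · have h1 := (hc _ (ha r hr).2).2
           have e : (a * c)⁻¹ * r * (a * c) = c⁻¹ * (a⁻¹ * r * a) * c := by group
           rw [e]
           exact h1
       inv_mem' := fun {a} ha r hr => by
         refine ⟨?_, ?_⟩
         · simpa using (ha r hr).2
         · simpa using (ha r hr).1 }, fun g => Iff.rfl⟩
  have hTle : R ⊔ B ≤ T := by
    apply sup_le
    · intro g hg
      rw [hT]
      intro r hr
      exact ⟨R.mul_mem (R.mul_mem hg hr) (R.inv_mem hg),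
        R.mul_mem (R.mul_mem (R.inv_mem hg) hr) hg⟩
    · intro g hg
      rw [hT]
      intro r hr
      refine ⟨hnorm g hg r hr, ?_⟩
      have h1 := hnorm g⁻¹ (B.inv_mem hg) r hr
      simpa using h1
  have hconj : ∀ g ∈ R ⊔ B, ∀ r ∈ R, g * r * g⁻¹ ∈ R := fun g hg r hr =>
    (((hT g).1 (hTle hg)) r hr).1
  have hsub : Function.Injective (R ⊔ B).subtype := (R ⊔ B).subtype_injective
  refine ⟨⟨fun n hn g => ?_⟩, ?_, inferInstance, ?_, ?_⟩
  · rw [Subgroup.mem_subgroupOf] at hn ⊢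
    exact hconj g.1 g.2 n.1 hn
  · rw [Nat.card_congr (Subgroup.subgroupOfEquivOfLe (le_sup_left : R ≤ R ⊔ B)).toEquiv]
    exact hR3
  · apply Subgroup.map_injective hsub
    rw [Subgroup.map_sup, Subgroup.map_subgroupOf_eq_of_le le_sup_left, MonoidHom.map_zpowers,
      ← MonoidHom.range_eq_map, Subgroup.range_subtype]
    show R ⊔ Subgroup.zpowers b = R ⊔ B
    rw [hb]
  · apply Subgroup.map_injective hsub
    rw [Subgroup.map_commutator, Subgroup.map_subgroupOf_eq_of_le le_sup_left,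
      MonoidHom.map_zpowers]
    show ⁅R, Subgroup.zpowers b⁆ = R
    rw [hb, hcomm]

end Cfsg.Agent.Helper66.N15
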