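import Cfsg.Prelude.Def_Transfer
import Cfsg.Prelude.Def_Solvable
import Cfsg.Agent.Helper63.N15Defs

/-! CALL S4415 (helper63), piece p4m: the module-level fields of `Cfg` for the restricted
representation. -/

set_option autoImplicit false

namespace Cfsg.Agent.Helper66.N15

open Cfsg.Agent.Helper63.N15

variable {S : Type*} [Group S] [Finite S] {E : Type*} [AddCommGroup E] [Module (ZMod 3) E]
  [Finite E]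

/-- P4m (plumbing). The module-level fields of `Cfg` for the restricted representation
`resRep ρ (R ⊔ B) F₀ hinv`. -/
theorem p4m (ρ : Representation (ZMod 3) S E) (R B : Subgroup S) (b q₁ q₂ q₃ : S)
    (v₁ v₂ v₃ : E) (F₀ : Submodule (ZMod 3) E) (hinv : ∀ g ∈ R ⊔ B, ∀ v ∈ F₀, ρ g v ∈ F₀)
    (hfaithF : ∀ g ∈ R ⊔ B, (∀ v ∈ F₀, ρ g v = v) → g = 1)
    (hirrF : ∀ N : Submodule (ZMod 3) E, N ≤ F₀ → (∀ g ∈ R ⊔ B, ∀ v ∈ N, ρ g v ∈ N) →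
      N = ⊥ ∨ N = F₀)
    (hdec : ∀ v : E, ∃ u : E, ∃ c₁ c₂ c₃ : ZMod 3, v = u + c₁ • v₁ + c₂ • v₂ + c₃ • v₃ ∧
      ρ q₁ u = u ∧ ρ q₂ u = u ∧ ρ q₃ u = u ∧ ρ b u = u)
    (hbG : b ∈ R ⊔ B) (hq1G : q₁ ∈ R ⊔ B) (hq2G : q₂ ∈ R ⊔ B) (hq3G : q₃ ∈ R ⊔ B)
    (hv1F : v₁ ∈ F₀) (hv2F : v₂ ∈ F₀) (hv3F : v₃ ∈ F₀) :
    (∀ g : ↥(R ⊔ B), (∀ v : ↥F₀, resRep ρ (R ⊔ B) F₀ hinv g v = v) → g = 1) ∧
    (∀ N : Submodule (ZMod 3) ↥F₀,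
      (∀ g : ↥(R ⊔ B), ∀ v ∈ N, resRep ρ (R ⊔ B) F₀ hinv g v ∈ N) → N = ⊥ ∨ N = ⊤) ∧
    (∀ v : ↥F₀, ∃ u : ↥F₀, ∃ c₁ c₂ c₃ : ZMod 3,
      v = u + c₁ • (⟨v₁, hv1F⟩ : ↥F₀) + c₂ • (⟨v₂, hv2F⟩ : ↥F₀) + c₃ • (⟨v₃, hv3F⟩ : ↥F₀) ∧
      resRep ρ (R ⊔ B) F₀ hinv ⟨q₁, hq1G⟩ u = u ∧ resRep ρ (R ⊔ B) F₀ hinv ⟨q₂, hq2G⟩ u = u ∧
      resRep ρ (R ⊔ B) F₀ hinv ⟨q₃, hq3G⟩ u = u ∧ resRep ρ (R ⊔ B) F₀ hinv ⟨b, hbG⟩ u = u) := by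
  refine ⟨?_, ?_, ?_⟩
  · intro g hg
    apply Subtype.ext
    apply hfaithF g.1 g.2
    intro v hv
    exact congrArg Subtype.val (hg ⟨v, hv⟩)
  · intro N hN
    have hle : N.map F₀.subtype ≤ F₀ := by
      rintro _ ⟨w, _, rfl⟩
      exact w.2
    have hinvN : ∀ g ∈ R ⊔ B, ∀ v ∈ N.map F₀.subtype, ρ g v ∈ N.map F₀.subtype := by
      rintro g hg _ ⟨w, hw, rfl⟩
      exact ⟨resRep ρ (R ⊔ B) F₀ hinv ⟨g, hg⟩ w, hN ⟨g, hg⟩ w hw, rfl⟩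
    rcases hirrF _ hle hinvN with h | h
    · left
      rw [eq_bot_iff]
      intro w hw
      have h1 : (w : E) ∈ N.map F₀.subtype := ⟨w, hw, rfl⟩
      rw [h] at h1
      rw [Submodule.mem_bot] at h1 ⊢
      exact Subtype.ext h1
    · right
      rw [eq_top_iff]
      intro w _
      have h1 : (w : E) ∈ N.map F₀.subtype := by
        rw [h]
        exact w.2
      obtain ⟨w', hw', hww'⟩ := h1
      have : w' = w := Subtype.ext hww'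
      rw [← this]
      exact hw'
  · intro v
    obtain ⟨u, c₁, c₂, c₃, hv, h1, h2, h3, h4⟩ := hdec v.1
    have hu : u ∈ F₀ := by
      have e : u = v.1 - c₁ • v₁ - c₂ • v₂ - c₃ • v₃ := by
        rw [hv]
        abel
      rw [e]
      exact F₀.sub_mem (F₀.sub_mem (F₀.sub_mem v.2 (F₀.smul_mem _ hv1F)) (F₀.smul_mem _ hv2F))
        (F₀.smul_mem _ hv3F)
    refine ⟨⟨u, hu⟩, c₁, c₂, c₃, Subtype.ext hv, Subtype.ext h1, Subtype.ext h2, Subtype.ext h3,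
      Subtype.ext h4⟩

end Cfsg.Agent.Helper66.N15
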