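import Cfsg.Prelude.Def_Transfer
import Cfsg.Prelude.Def_Solvable
import Cfsg.Agent.Helper63.N15Defs

/-! CALL S4415 (helper63), piece p5a: transport of the elementwise conclusions. -/

set_option autoImplicit false

namespace Cfsg.Agent.Helper66.N15

open Cfsg.Agent.Helper63.N15

variable {S : Type*} [Group S] [Finite S] {E : Type*} [AddCommGroup E] [Module (ZMod 3) E]
  [Finite E]

/-- P5a (plumbing). Transport the elementwise conclusions from `R.subgroupOf H ≤ ↥H` to
`R ≤ S`. -/
theorem p5a (H R : Subgroup S) (hRH : R ≤ H) :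
    (IsV4 (R.subgroupOf H) → IsV4 R) ∧ (IsES32 (R.subgroupOf H) → IsES32 R) := by
  have hcard : Nat.card ↥(R.subgroupOf H) = Nat.card ↥R :=
    Nat.card_congr (Subgroup.subgroupOfEquivOfLe hRH).toEquiv
  have hmem : ∀ x (hx : x ∈ R), (⟨x, hRH hx⟩ : ↥H) ∈ R.subgroupOf H := fun x hx => by
    rw [Subgroup.mem_subgroupOf]
    exact hx
  constructor
  · rintro ⟨h1, h2, h3⟩
    refine ⟨fun x hx y hy => ?_, fun x hx => ?_, by rw [← hcard]; exact h3⟩
    · exact congrArg Subtype.val (h1 _ (hmem x hx) _ (hmem y hy))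
    · exact congrArg Subtype.val (h2 _ (hmem x hx))
  · rintro ⟨h32, ⟨z, hz, hz1, hz2, hzc, hzcen, hsq, hcomm⟩, A, hA, hAc, hA2, hA8⟩
    refine ⟨by rw [← hcard]; exact h32, ⟨z.1, Subgroup.mem_subgroupOf.1 hz, ?_, ?_, ?_, ?_, ?_, ?_⟩,
      A.map H.subtype, ?_, ?_, ?_, ?_⟩
    · intro h
      exact hz1 (Subtype.ext h)
    · exact congrArg Subtype.val hz2
    · intro x hx
      exact congrArg Subtype.val (hzc _ (hmem x hx))
    · intro x hx hxc
      have h := hzcen _ (hmem x hx)
        (fun y hy => Subtype.ext (hxc y.1 (Subgroup.mem_subgroupOf.1 hy)))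
      rcases h with h | h
      · left
        exact congrArg Subtype.val h
      · right
        exact congrArg Subtype.val h
    · intro x hx
      rcases hsq _ (hmem x hx) with h | h
      · left
        exact congrArg Subtype.val h
      · right
        exact congrArg Subtype.val h
    · intro x hx y hy
      rcases hcomm _ (hmem x hx) _ (hmem y hy) with h | h
      · left
        exact congrArg Subtype.val h
      · right
        exact congrArg Subtype.val h
    · rintro _ ⟨a, ha, rfl⟩
      exact Subgroup.mem_subgroupOf.1 (hA ha)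
    · rintro _ ⟨a, ha, rfl⟩ _ ⟨a', ha', rfl⟩
      exact congrArg Subtype.val (hAc a ha a' ha')
    · rintro _ ⟨a, ha, rfl⟩
      exact congrArg Subtype.val (hA2 a ha)
    · rw [← hA8]
      exact (Nat.card_congr (A.equivMapOfInjective H.subtype H.subtype_injective).toEquiv).symm

end Cfsg.Agent.Helper66.N15
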