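import Mathlib

/-!
# Piece NA2 of CALL S0977 (helper66): an element inverting `Z × Z'`
-/

set_option autoImplicit false

namespace Cfsg.Agent.Helper66

/-- The normalised case: `v` acts as `(i, j) ↦ (i + j, j)` and `v'` as `(i, j) ↦ (i, j - i)`. -/
theorem o4320_invert_core {G : Type*} [Group G] (z z' v v' : G)
    (hzz' : z * z' = z' * z) (h1 : v * z * v⁻¹ = z) (h3 : v' * z' * v'⁻¹ = z')
    (h2 : v * z' * v⁻¹ = z * z') (h4 : v' * z * v'⁻¹ = z'⁻¹ * z) :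
    (v * v' * v * (v * v' * v)) * z * (v * v' * v * (v * v' * v))⁻¹ = z⁻¹ ∧
    (v * v' * v * (v * v' * v)) * z' * (v * v' * v * (v * v' * v))⁻¹ = z'⁻¹ := by
  have hA : (v * v' * v) * z * (v * v' * v)⁻¹ = z'⁻¹ := by
    calc (v * v' * v) * z * (v * v' * v)⁻¹
        = v * (v' * (v * z * v⁻¹) * v'⁻¹) * v⁻¹ := by group
      _ = v * (v' * z * v'⁻¹) * v⁻¹ := by rw [h1]
      _ = v * (z'⁻¹ * z) * v⁻¹ := by rw [h4]
      _ = (v * z' * v⁻¹)⁻¹ * (v * z * v⁻¹) := by group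
      _ = (z * z')⁻¹ * z := by rw [h2, h1]
      _ = z'⁻¹ := by group
  have hc : z'⁻¹ * z * z' = z := by
    calc z'⁻¹ * z * z' = z'⁻¹ * (z * z') := by group
      _ = z'⁻¹ * (z' * z) := by rw [hzz']
      _ = z := by group
  have hB : (v * v' * v) * z' * (v * v' * v)⁻¹ = z := by
    calc (v * v' * v) * z' * (v * v' * v)⁻¹
        = v * (v' * (v * z' * v⁻¹) * v'⁻¹) * v⁻¹ := by group
      _ = v * (v' * (z * z') * v'⁻¹) * v⁻¹ := by rw [h2]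
      _ = v * ((v' * z * v'⁻¹) * (v' * z' * v'⁻¹)) * v⁻¹ := by group
      _ = v * (z'⁻¹ * z * z') * v⁻¹ := by rw [h4, h3]
      _ = v * z * v⁻¹ := by rw [hc]
      _ = z := h1
  constructor
  · calc (v * v' * v * (v * v' * v)) * z * (v * v' * v * (v * v' * v))⁻¹
        = (v * v' * v) * ((v * v' * v) * z * (v * v' * v)⁻¹) * (v * v' * v)⁻¹ := by group
      _ = (v * v' * v) * z'⁻¹ * (v * v' * v)⁻¹ := by rw [hA]
      _ = ((v * v' * v) * z' * (v * v' * v)⁻¹)⁻¹ := by group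
      _ = z⁻¹ := by rw [hB]
  · calc (v * v' * v * (v * v' * v)) * z' * (v * v' * v * (v * v' * v))⁻¹
        = (v * v' * v) * ((v * v' * v) * z' * (v * v' * v)⁻¹) * (v * v' * v)⁻¹ := by group
      _ = (v * v' * v) * z * (v * v' * v)⁻¹ := by rw [hB]
      _ = z'⁻¹ := hA

theorem o4320_invert {G : Type*} [Group G] (z z' u u' : G) (hz : z ^ 3 = 1) (hz' : z' ^ 3 = 1)
    (hzz' : z * z' = z' * z) (hu : u * z = z * u) (hu' : u' * z' = z' * u')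
    (huz' : u * z' * u⁻¹ = z * z' ∨ u * z' * u⁻¹ = z⁻¹ * z')
    (hu'z : u' * z * u'⁻¹ = z' * z ∨ u' * z * u'⁻¹ = z'⁻¹ * z) :
    ∃ n ∈ Subgroup.closure ({u, u'} : Set G), n * z * n⁻¹ = z⁻¹ ∧ n * z' * n⁻¹ = z'⁻¹ := by
  have hum : u ∈ Subgroup.closure ({u, u'} : Set G) := Subgroup.subset_closure (by simp)
  have hum' : u' ∈ Subgroup.closure ({u, u'} : Set G) := Subgroup.subset_closure (by simp)
  have h1 : u * z * u⁻¹ = z := by rw [hu]; group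
  have h1i : u⁻¹ * z * u⁻¹⁻¹ = z := by
    calc u⁻¹ * z * u⁻¹⁻¹ = u⁻¹ * (z * u) := by group
      _ = u⁻¹ * (u * z) := by rw [hu]
      _ = z := by group
  have h3 : u' * z' * u'⁻¹ = z' := by rw [hu']; group
  have h3i : u'⁻¹ * z' * u'⁻¹⁻¹ = z' := by
    calc u'⁻¹ * z' * u'⁻¹⁻¹ = u'⁻¹ * (z' * u') := by group
      _ = u'⁻¹ * (u' * z') := by rw [hu']
      _ = z' := by group
  -- the good generator `v ∈ {u, u⁻¹}`
  obtain ⟨v, hv, hv1, hv2⟩ : ∃ v ∈ Subgroup.closure ({u, u'} : Set G),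
      v * z * v⁻¹ = z ∧ v * z' * v⁻¹ = z * z' := by
    rcases huz' with h | h
    · exact ⟨u, hum, h1, h⟩
    · refine ⟨u⁻¹, inv_mem hum, h1i, ?_⟩
      calc u⁻¹ * z' * u⁻¹⁻¹ = u⁻¹ * (z * (z⁻¹ * z')) * u := by group
        _ = u⁻¹ * (z * (u * z' * u⁻¹)) * u := by rw [h]
        _ = (u⁻¹ * z * u⁻¹⁻¹) * z' := by group
        _ = z * z' := by rw [h1i]
  obtain ⟨v', hv', hv3, hv4⟩ : ∃ v' ∈ Subgroup.closure ({u, u'} : Set G),
      v' * z' * v'⁻¹ = z' ∧ v' * z * v'⁻¹ = z'⁻¹ * z := by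
    rcases hu'z with h | h
    · refine ⟨u'⁻¹, inv_mem hum', h3i, ?_⟩
      calc u'⁻¹ * z * u'⁻¹⁻¹ = u'⁻¹ * (z'⁻¹ * (z' * z)) * u' := by group
        _ = u'⁻¹ * (z'⁻¹ * (u' * z * u'⁻¹)) * u' := by rw [h]
        _ = (u'⁻¹ * z' * u'⁻¹⁻¹)⁻¹ * z := by group
        _ = z'⁻¹ * z := by rw [h3i]
    · exact ⟨u', hum', h3, h⟩
  exact ⟨v * v' * v * (v * v' * v),
    mul_mem (mul_mem (mul_mem hv hv') hv) (mul_mem (mul_mem hv hv') hv),
    o4320_invert_core z z' v v' hzz' hv1 hv3 hv2 hv4⟩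

end Cfsg.Agent.Helper66
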