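import Mathlib
import Cfsg.Agent.Helper9.OrdTools
import Cfsg.Agent.Helper8.SylFix

/-!
# Piece PAR of CALL S0977 (helper66): no involution of a simple group of order 4320 fixes exactly
four cosets of a subgroup of index 10
-/

set_option autoImplicit false

namespace Cfsg.Agent.Helper66

variable {G : Type*} [Group G] [Finite G]

theorem o4320_invol_parity [IsSimpleGroup G] (hG : Nat.card G = 4320)
    (M : Subgroup G) (hM : M.index = 10) (g : G) (hg : g * g = 1) :
    Nat.card (MulAction.fixedBy (G ⧸ M) g) ≠ 4 := by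
  classical
  intro h4
  -- `G` is not abelian
  have hna : ∃ a b : G, a * b ≠ b * a := by
    by_contra hcon
    push Not at hcon
    obtain ⟨x, hx⟩ := exists_prime_orderOf_dvd_card' (G := G) 2 (by rw [hG]; norm_num)
    have hn : (Subgroup.zpowers x).Normal :=
      ⟨fun n hn y => by rw [hcon y n, mul_inv_cancel_right]; exact hn⟩
    have hc : Nat.card (Subgroup.zpowers x) = 2 := by rw [Nat.card_zpowers, hx]
    rcases hn.eq_bot_or_eq_top with h | h
    · rw [h, Subgroup.card_bot] at hc; omega
    · rw [h, Subgroup.card_top, hG] at hc; omega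
  haveI : Finite (G ⧸ M) := Subgroup.finite_quotient_of_finiteIndex
  haveI : Fintype (G ⧸ M) := Fintype.ofFinite _
  have hcard : Fintype.card (G ⧸ M) = 10 := by
    rw [← Nat.card_eq_fintype_card, ← Subgroup.index_eq_card, hM]
  obtain ⟨σ, hσ⟩ : ∃ σ : Equiv.Perm (G ⧸ M), σ = MulAction.toPermHom G (G ⧸ M) g := ⟨_, rfl⟩
  have hσ2 : σ ^ 2 = 1 := by
    rw [hσ, ← map_pow, pow_two, hg, map_one]
  have hfp : Function.fixedPoints σ = MulAction.fixedBy (G ⧸ M) g := by
    ext a
    rw [Function.mem_fixedPoints, MulAction.mem_fixedBy, hσ]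
    rfl
  have hfix : Fintype.card (Function.fixedPoints σ) + 2 * 3 = Fintype.card (G ⧸ M) := by
    rw [hcard, ← Nat.card_eq_fintype_card, hfp, h4]
  have hsign := Cfsg.Agent.Helper8.SylFix.sign_of_involution σ hσ2 3 hfix (by decide)
  have htriv := Cfsg.Agent.Helper9.OrdTools.hom_trivial hna
    (Equiv.Perm.sign.comp (MulAction.toPermHom G (G ⧸ M))) g
  rw [MonoidHom.comp_apply, ← hσ, hsign] at htriv
  exact absurd htriv (by decide)

end Cfsg.Agent.Helper66
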