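import Mathlib
import Cfsg.Agent.Helper72.O983Aux

/-!
# CALL S0983, piece B5460 (helper66)

A simple group of order `5460 = 2² · 3 · 5 · 7 · 13` in which every involution has a centralizer
of order `52` does not exist: the Sylow numbers are forced to be `n_13 = 105`, `n_7 ≥ 78`,
`n_3 = 910`, `n_5 = 546`, and the elements of orders `13`, `7`, `3`, `5` are too many.
-/

set_option autoImplicit false
set_option linter.style.haveILetI false
set_option maxHeartbeats 1000000

namespace Cfsg.Agent.Helper66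

open Subgroup

variable {G : Type*} [Group G] [Finite G] [IsSimpleGroup G]

theorem o5460_arith13 : ∀ n e c : ℕ, n ∣ 420 → n % 13 = 1 → n ≠ 1 → e ∣ 12 → 1 < e →
    e * c * n = 420 → (n = 14 ∧ 5 ∣ c) ∨ (n = 105 ∧ (c = 1 ∨ c = 2)) := by
  intro n e c hn hmod hne he he1 hec
  have hle : n ≤ 420 := Nat.le_of_dvd (by norm_num) hn
  have hele : e ≤ 12 := Nat.le_of_dvd (by norm_num) he
  have key : ∀ n ≤ 420, n ∣ 420 → n % 13 = 1 → n = 1 ∨ n = 14 ∨ n = 105 := by
    decide +kernel
  rcases key n hle hn hmod with h | h | h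
  · exact absurd h hne
  · subst h
    interval_cases e <;> omega
  · subst h
    interval_cases e <;> omega

theorem o5460_arith7 : ∀ n e c : ℕ, n ∣ 780 → n % 7 = 1 → n ≠ 1 → e ∣ 6 → 1 < e →
    e * c * n = 780 → (n = 15 ∧ 13 ∣ c) ∨ (n = 78 ∧ c = 5) ∨ (n = 260 ∧ c = 1) := by
  intro n e c hn hmod hne he he1 hec
  have hle : n ≤ 780 := Nat.le_of_dvd (by norm_num) hn
  have hele : e ≤ 6 := Nat.le_of_dvd (by norm_num) he
  have key : ∀ n ≤ 780, n ∣ 780 → n % 7 = 1 → n = 1 ∨ n = 15 ∨ n = 78 ∨ n = 260 := by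
    decide +kernel
  rcases key n hle hn hmod with h | h | h | h
  · exact absurd h hne
  · subst h
    interval_cases e <;> omega
  · subst h
    interval_cases e <;> omega
  · subst h
    interval_cases e <;> omega

theorem o5460_arith3 : ∀ n e c : ℕ, n ∣ 1820 → n % 3 = 1 → n ≠ 1 → e ∣ 2 → 1 < e →
    e * c * n = 1820 → (n = 7 ∧ 5 ∣ c) ∨ (n = 10 ∧ 7 ∣ c) ∨ (n = 13 ∧ 5 ∣ c) ∨
      (n = 70 ∧ 13 ∣ c) ∨ (n = 91 ∧ 2 ∣ c) ∨ (n = 130 ∧ 7 ∣ c) ∨ (n = 910 ∧ c = 1) := by
  intro n e c hn hmod hne he he1 hec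
  have hele : e ≤ 2 := Nat.le_of_dvd (by norm_num) he
  have he2 : e = 2 := by omega
  subst he2
  have hcn : c * n = 910 := by
    have h2 : 2 * (c * n) = 1820 := by rw [← hec]; ring
    omega
  have hn' : n ∣ 910 := Dvd.intro_left c hcn
  have hle : n ≤ 910 := Nat.le_of_dvd (by norm_num) hn'
  have key : ∀ n ≤ 910, n ∣ 910 → n % 3 = 1 → n ∈ [1, 7, 10, 13, 70, 91, 130, 910] := by
    decide +kernel
  have hk := key n hle hn' hmod
  simp only [List.mem_cons, List.mem_nil_iff, or_false] at hk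
  rcases hk with h | h | h | h | h | h | h | h <;> subst h <;> omega

theorem o5460_arith5 : ∀ n e c : ℕ, n ∣ 1092 → n % 5 = 1 → n ≠ 1 → e ∣ 4 → 1 < e →
    e * c * n = 1092 → (n = 6 ∧ 7 ∣ c) ∨ (n = 21 ∧ 13 ∣ c) ∨ (n = 26 ∧ 7 ∣ c) ∨
      (n = 91 ∧ 3 ∣ c) ∨ n = 546 := by
  intro n e c hn hmod hne he he1 hec
  have hle : n ≤ 1092 := Nat.le_of_dvd (by norm_num) hn
  have hele : e ≤ 4 := Nat.le_of_dvd (by norm_num) he
  have key : ∀ n ≤ 1092, n ∣ 1092 → n % 5 = 1 →
      n = 1 ∨ n = 6 ∨ n = 21 ∨ n = 26 ∨ n = 91 ∨ n = 156 ∨ n = 546 := by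
    decide +kernel
  rcases key n hle hn hmod with h | h | h | h | h | h | h
  · exact absurd h hne
  · subst h
    interval_cases e <;> omega
  · subst h
    interval_cases e <;> omega
  · subst h
    interval_cases e <;> omega
  · subst h
    interval_cases e <;> omega
  · subst h
    interval_cases e <;> omega
  · right; right; right; right; exact h

/-- piece B5460 -/
theorem o5460_b (h : Nat.card G = 5460)
    (hc : ∀ t : G, orderOf t = 2 → Nat.card (centralizer ({t} : Set G)) = 52) : False := by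
  haveI : Fact (Nat.Prime 13) := ⟨by norm_num⟩
  haveI : Fact (Nat.Prime 7) := ⟨by norm_num⟩
  haveI : Fact (Nat.Prime 5) := ⟨by norm_num⟩
  haveI : Fact (Nat.Prime 3) := ⟨by norm_num⟩
  haveI : Fact (Nat.Prime 2) := ⟨by norm_num⟩
  have hS13 : ∀ P : Sylow 13 G, Nat.card (P : Subgroup G) = 13 := fun P =>
    (Cfsg.Agent.Helper72.o983_data 420 (h.trans (by norm_num)) (by norm_num) (by norm_num) P).1
  have hS7 : ∀ P : Sylow 7 G, Nat.card (P : Subgroup G) = 7 := fun P =>
    (Cfsg.Agent.Helper72.o983_data 780 (h.trans (by norm_num)) (by norm_num) (by norm_num) P).1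
  have hS5 : ∀ P : Sylow 5 G, Nat.card (P : Subgroup G) = 5 := fun P =>
    (Cfsg.Agent.Helper72.o983_data 1092 (h.trans (by norm_num)) (by norm_num) (by norm_num) P).1
  have hS3 : ∀ P : Sylow 3 G, Nat.card (P : Subgroup G) = 3 := fun P =>
    (Cfsg.Agent.Helper72.o983_data 1820 (h.trans (by norm_num)) (by norm_num) (by norm_num) P).1
  -- `n_13 = 105` and `3 ∤ |C(P_13)|`
  have hn13 : Nat.card (Sylow 13 G) = 105 ∧
      ∀ P : Sylow 13 G, ¬ 3 ∣ Nat.card (centralizer ((P : Subgroup G) : Set G)) := by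
    have key : ∀ P : Sylow 13 G, Nat.card (Sylow 13 G) = 105 ∧
        ¬ 3 ∣ Nat.card (centralizer ((P : Subgroup G) : Set G)) := by
      intro P
      obtain ⟨-, e, c, hd, hmod, hne, he, he1, hec, hC, -⟩ :=
        Cfsg.Agent.Helper72.o983_data 420 (h.trans (by norm_num)) (by norm_num) (by norm_num) P
      rcases o5460_arith13 _ e c hd hmod hne he he1 hec with ⟨h1, h3⟩ | ⟨h1, h3⟩
      · exfalso
        have hT := Cfsg.Agent.Helper72.o983_ruleT (p := 13) (r := 5) (by norm_num) P
          (by rw [hC]; exact Dvd.dvd.mul_left h3 13) hne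
        omega
      · refine ⟨h1, ?_⟩
        rw [hC]
        rcases h3 with h3 | h3 <;> subst h3 <;> norm_num
    obtain ⟨P⟩ : Nonempty (Sylow 13 G) := inferInstance
    exact ⟨(key P).1, fun Q => (key Q).2⟩
  -- `n_7 ≥ 78` and `3 ∤ |C(P_7)|`
  have hn7 : 78 ≤ Nat.card (Sylow 7 G) ∧
      ∀ P : Sylow 7 G, ¬ 3 ∣ Nat.card (centralizer ((P : Subgroup G) : Set G)) := by
    have key : ∀ P : Sylow 7 G, 78 ≤ Nat.card (Sylow 7 G) ∧
        ¬ 3 ∣ Nat.card (centralizer ((P : Subgroup G) : Set G)) := by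
      intro P
      obtain ⟨-, e, c, hd, hmod, hne, he, he1, hec, hC, -⟩ :=
        Cfsg.Agent.Helper72.o983_data 780 (h.trans (by norm_num)) (by norm_num) (by norm_num) P
      rcases o5460_arith7 _ e c hd hmod hne he he1 hec with ⟨h1, h3⟩ | ⟨h1, h3⟩ | ⟨h1, h3⟩
      · exfalso
        have hT := Cfsg.Agent.Helper72.o983_ruleT (p := 7) (r := 13) (by norm_num) P
          (by rw [hC]; exact Dvd.dvd.mul_left h3 7) hne
        omega
      · refine ⟨by omega, ?_⟩
        rw [hC, h3]
        norm_num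
      · refine ⟨by omega, ?_⟩
        rw [hC, h3]
        norm_num
    obtain ⟨P⟩ : Nonempty (Sylow 7 G) := inferInstance
    exact ⟨(key P).1, fun Q => (key Q).2⟩
  -- `n_3 = 910` and `|C(P_3)| = 3`
  have hn3 : Nat.card (Sylow 3 G) = 910 ∧
      ∀ P : Sylow 3 G, Nat.card (centralizer ((P : Subgroup G) : Set G)) = 3 := by
    have key : ∀ P : Sylow 3 G, Nat.card (Sylow 3 G) = 910 ∧
        Nat.card (centralizer ((P : Subgroup G) : Set G)) = 3 := by
      intro P
      obtain ⟨-, e, c, hd, hmod, hne, he, he1, hec, hC, -⟩ :=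
        Cfsg.Agent.Helper72.o983_data 1820 (h.trans (by norm_num)) (by norm_num) (by norm_num) P
      rcases o5460_arith3 _ e c hd hmod hne he he1 hec with
        ⟨h1, h3⟩ | ⟨h1, h3⟩ | ⟨h1, h3⟩ | ⟨h1, h3⟩ | ⟨h1, h3⟩ | ⟨h1, h3⟩ | ⟨h1, h3⟩
      · exfalso
        have hT := Cfsg.Agent.Helper72.o983_ruleT (p := 3) (r := 5) (by norm_num) P
          (by rw [hC]; exact Dvd.dvd.mul_left h3 3) hne
        omega
      · exfalso
        have hT := Cfsg.Agent.Helper72.o983_ruleT (p := 3) (r := 7) (by norm_num) P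
          (by rw [hC]; exact Dvd.dvd.mul_left h3 3) hne
        omega
      · exfalso
        have hT := Cfsg.Agent.Helper72.o983_ruleT (p := 3) (r := 5) (by norm_num) P
          (by rw [hC]; exact Dvd.dvd.mul_left h3 3) hne
        omega
      · exfalso
        obtain ⟨Q⟩ : Nonempty (Sylow 13 G) := inferInstance
        have := Cfsg.Agent.Helper72.o983_swap hS13 P
          (by rw [hC]; exact Dvd.dvd.mul_left h3 3) Q
        rw [hS3 P] at this
        exact hn13.2 Q this
      · exfalso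
        -- an involution centralizing `P`
        have h2 : 2 ∣ Nat.card (centralizer ((P : Subgroup G) : Set G)) := by
          rw [hC]; exact Dvd.dvd.mul_left h3 3
        obtain ⟨y, hy⟩ := exists_prime_orderOf_dvd_card'
          (G := centralizer ((P : Subgroup G) : Set G)) 2 h2
        have hyo : orderOf (y : G) = 2 := by rw [Subgroup.orderOf_coe]; exact hy
        have hle : (P : Subgroup G) ≤ centralizer ({(y : G)} : Set G) := by
          intro x hx
          rw [Subgroup.mem_centralizer_iff]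
          intro w hw
          rw [Set.mem_singleton_iff] at hw
          subst hw
          exact (Subgroup.mem_centralizer_iff.mp y.2 x hx).symm
        have hdvd := Subgroup.card_dvd_of_le hle
        rw [hS3 P, hc _ hyo] at hdvd
        omega
      · exfalso
        obtain ⟨Q⟩ : Nonempty (Sylow 7 G) := inferInstance
        have := Cfsg.Agent.Helper72.o983_swap hS7 P
          (by rw [hC]; exact Dvd.dvd.mul_left h3 3) Q
        rw [hS3 P] at this
        exact hn7.2 Q this
      · exact ⟨h1, by rw [hC, h3]⟩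
    obtain ⟨P⟩ : Nonempty (Sylow 3 G) := inferInstance
    exact ⟨(key P).1, fun Q => (key Q).2⟩
  -- `n_5 = 546`
  have hn5 : Nat.card (Sylow 5 G) = 546 := by
    obtain ⟨P⟩ : Nonempty (Sylow 5 G) := inferInstance
    obtain ⟨-, e, c, hd, hmod, hne, he, he1, hec, hC, -⟩ :=
      Cfsg.Agent.Helper72.o983_data 1092 (h.trans (by norm_num)) (by norm_num) (by norm_num) P
    rcases o5460_arith5 _ e c hd hmod hne he he1 hec with
      ⟨h1, h3⟩ | ⟨h1, h3⟩ | ⟨h1, h3⟩ | ⟨h1, h3⟩ | h1
    · exfalso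
      have hT := Cfsg.Agent.Helper72.o983_ruleT (p := 5) (r := 7) (by norm_num) P
        (by rw [hC]; exact Dvd.dvd.mul_left h3 5) hne
      omega
    · exfalso
      have hT := Cfsg.Agent.Helper72.o983_ruleT (p := 5) (r := 13) (by norm_num) P
        (by rw [hC]; exact Dvd.dvd.mul_left h3 5) hne
      omega
    · exfalso
      have hT := Cfsg.Agent.Helper72.o983_ruleT (p := 5) (r := 7) (by norm_num) P
        (by rw [hC]; exact Dvd.dvd.mul_left h3 5) hne
      omega
    · exfalso
      obtain ⟨Q⟩ : Nonempty (Sylow 3 G) := inferInstance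
      have := Cfsg.Agent.Helper72.o983_swap hS3 P
        (by rw [hC]; exact Dvd.dvd.mul_left h3 5) Q
      rw [hS5 P, hn3.2 Q] at this
      omega
    · exact h1
  -- count the elements of orders `13`, `7`, `5`, `3`
  have c13 := Cfsg.Agent.Helper72.o983_count hS13
  have c7 := Cfsg.Agent.Helper72.o983_count hS7
  have c5 := Cfsg.Agent.Helper72.o983_count hS5
  have c3 := Cfsg.Agent.Helper72.o983_count hS3
  rw [hn13.1] at c13
  rw [hn5] at c5
  rw [hn3.1] at c3
  have c7' : 78 * (7 - 1) ≤ Nat.card {g : G // orderOf g = 7} :=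
    (Nat.mul_le_mul_right _ hn7.1).trans c7
  have hsum := Cfsg.Agent.Helper72.o983_sum_le (G := G) {13, 7, 5, 3}
  rw [Finset.sum_insert (by decide), Finset.sum_insert (by decide), Finset.sum_insert (by decide),
    Finset.sum_singleton, h] at hsum
  omega

end Cfsg.Agent.Helper66
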