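import Mathlib
import Cfsg.Prelude.Def_Characters
import Cfsg.Prelude.Def_Blocks
import Cfsg.Agent.Helper82.InvCount

/-!
# Counting products of two conjugates of `z` (helper66, piece C4 of CALL S0980)

* `class_pair_count`: the number of ways to write `x⁻¹` as a product of two conjugates of `z`,
  in terms of the irreducible characters.
-/

set_option autoImplicit false
open Cfsg

namespace Cfsg.Agent.Helper66

universe u

/-- The number of pairs of conjugates of `z` with product `x⁻¹`, via characters. -/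
theorem class_pair_count {G : Type u} [Group G] [Fintype G] [Fintype (IrrCharacter G)] (z x : G) :
    ∃ N k : ℕ, k * Nat.card (Subgroup.centralizer ({z} : Set G)) = Nat.card G ∧
      (N : ℂ) * (Nat.card G : ℂ)
        = ∑ χ : IrrCharacter G, ((k : ℂ) * (χ : G → ℂ) z) ^ 2 * (χ : G → ℂ) x / (χ : G → ℂ) 1 := by
  classical
  refine ⟨Nat.card {s : G // IsConj z s ∧ IsConj z (s⁻¹ * x⁻¹)},
    (Subgroup.centralizer ({z} : Set G)).index, Subgroup.index_mul_card _, ?_⟩
  obtain ⟨u, hu⟩ : ∃ u : G → ℂ, u = Helper81.classInd z := ⟨_, rfl⟩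
  have huc : IsClassFunction G u := by
    rw [hu]; exact Helper81.classInd_isClassFunction z
  have hS : ∀ χ : IrrCharacter G,
      (((Subgroup.centralizer ({z} : Set G)).index : ℕ) : ℂ) * (χ : G → ℂ) z
        = ∑ g : G, u g * (χ : G → ℂ) g := by
    intro χ
    rw [hu, ← Helper81.card_classFinset]
    simp only [Helper81.classInd, ite_mul, one_mul, zero_mul]
    rw [← Finset.sum_filter]
    have : ∀ y ∈ Finset.univ.filter (fun y => IsConj z y), (χ : G → ℂ) y = (χ : G → ℂ) z := by
      intro y hy
      rw [Finset.mem_filter] at hy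
      obtain ⟨c, hc⟩ := isConj_iff.mp hy.2
      rw [← hc, Helper81.irr_conj]
    rw [Finset.sum_congr rfl this, Finset.sum_const, nsmul_eq_mul]
    congr 2
  -- the right side through `omega`
  have hR : ∀ χ : IrrCharacter G,
      ((((Subgroup.centralizer ({z} : Set G)).index : ℕ) : ℂ) * (χ : G → ℂ) z) ^ 2
          * (χ : G → ℂ) x / (χ : G → ℂ) 1
      = (χ : G → ℂ) 1 * ∑ s : G, u s * ∑ t : G, u t * (χ : G → ℂ) (s * t * x) := by
    intro χ
    have hne := Helper81.irr_one_ne_zero χ
    have h1 : ∀ s : G, ∑ t : G, u t * (χ : G → ℂ) (s * t * x)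
        = Helper81.omega (χ : G → ℂ) u * (χ : G → ℂ) (x * s) := by
      intro s
      rw [← Helper77.sum_mul_irr_mul χ huc (x * s)]
      refine Finset.sum_congr rfl fun t _ => ?_
      have e : s * t * x = s * (t * x) := by group
      rw [e, Helper81.irr_mul_comm χ s (t * x)]
      congr 2
      group
    simp only [h1]
    have h2 : ∑ s : G, u s * (Helper81.omega (χ : G → ℂ) u * (χ : G → ℂ) (x * s))
        = Helper81.omega (χ : G → ℂ) u * (Helper81.omega (χ : G → ℂ) u * (χ : G → ℂ) x) := by
      rw [← Helper77.sum_mul_irr_mul χ huc x, Finset.mul_sum]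
      refine Finset.sum_congr rfl fun s _ => ?_
      rw [Helper81.irr_mul_comm χ x s]
      ring
    rw [h2, hS χ, Helper81.omega]
    field_simp
  rw [Finset.sum_congr rfl (fun χ _ => hR χ)]
  -- interchange and use the regular character
  have hreg : ∀ g : G, ∑ χ : IrrCharacter G, (χ : G → ℂ) 1 * (χ : G → ℂ) g
      = if g = 1 then (Nat.card G : ℂ) else 0 := fun g => Helper81.sum_irr_one_mul g
  have h3 : ∑ χ : IrrCharacter G,
      (χ : G → ℂ) 1 * ∑ s : G, u s * ∑ t : G, u t * (χ : G → ℂ) (s * t * x)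
      = ∑ s : G, ∑ t : G, u s * u t * (if s * t * x = 1 then (Nat.card G : ℂ) else 0) := by
    simp only [Finset.mul_sum]
    rw [Finset.sum_comm]
    refine Finset.sum_congr rfl fun s _ => ?_
    rw [Finset.sum_comm]
    refine Finset.sum_congr rfl fun t _ => ?_
    rw [← hreg (s * t * x), Finset.mul_sum]
    refine Finset.sum_congr rfl fun χ _ => ?_
    ring
  rw [h3]
  have h4 : ∀ s : G, ∑ t : G, u s * u t * (if s * t * x = 1 then (Nat.card G : ℂ) else 0)
      = (if IsConj z s ∧ IsConj z (s⁻¹ * x⁻¹) then (1 : ℂ) else 0) * (Nat.card G : ℂ) := by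
    intro s
    rw [Finset.sum_eq_single (s⁻¹ * x⁻¹)]
    · rw [if_pos (by group), hu]
      simp only [Helper81.classInd]
      by_cases h1 : IsConj z s
      · by_cases h2 : IsConj z (s⁻¹ * x⁻¹)
        · rw [if_pos h1, if_pos h2, if_pos ⟨h1, h2⟩]; ring
        · rw [if_pos h1, if_neg h2, if_neg (fun h => h2 h.2)]; ring
      · rw [if_neg h1, if_neg (fun h : IsConj z s ∧ IsConj z (s⁻¹ * x⁻¹) => h1 h.1)]; ring
    · intro t _ ht
      rw [if_neg, mul_zero]
      intro h
      apply ht
      have : t = s⁻¹ * (s * t * x) * x⁻¹ := by group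
      rw [this, h]; group
    · intro h; exact absurd (Finset.mem_univ _) h
  rw [Finset.sum_congr rfl (fun s _ => h4 s), ← Finset.sum_mul]
  congr 1
  rw [Nat.card_eq_fintype_card, Fintype.card_subtype, Finset.card_filter]
  push_cast
  rfl

end Cfsg.Agent.Helper66
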