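import Cfsg.Agent.Helper85.PiDefs
import Cfsg.Agent.Helper84.FusionSat2

/-!
# CALL S5113, piece HFAB (helper66): the generators of the hyperfocal property of automizers
-/

set_option autoImplicit false

namespace Cfsg.Agent.Helper66.PiHFAB

open Cfsg Cfsg.FusionSystem Cfsg.Agent.Helper85 Cfsg.Agent.Helper88

variable {Ω : Type*} [Group Ω] {S : Subgroup Ω}

/-- An element whose conjugation on `R` is an automorphism of `R` normalizes `R`. -/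
theorem hfab_norm {R : Subgroup Ω} {u : Ω} (α : MulAut R) (h : ∀ x ∈ R, autFun α x = u * x * u⁻¹) :
    u ∈ Subgroup.normalizer (R : Set Ω) := by
  rw [Subgroup.mem_normalizer_iff]
  intro w
  constructor
  · intro hw
    rw [← h w hw]
    exact autFun_mem α hw
  · intro hz
    have hx : autFun α⁻¹ (u * w * u⁻¹) ∈ R := autFun_mem _ hz
    have h1 := h _ hx
    rw [autFun_apply_inv α hz] at h1
    have h2 : autFun α⁻¹ (u * w * u⁻¹) = w := (mul_left_cancel (mul_right_cancel h1)).symm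
    rw [← h2]; exact hx

/-- If `α` is conjugation by `v` on `R`, then `α⁻¹` is conjugation by `v⁻¹`. -/
theorem hfab_inv {R : Subgroup Ω} {v : Ω} (α : MulAut R) (h : ∀ x ∈ R, autFun α x = v * x * v⁻¹)
    {x : Ω} (hx : x ∈ R) : autFun α⁻¹ x = v⁻¹ * x * v := by
  have hw : autFun α⁻¹ x ∈ R := autFun_mem _ hx
  have h1 := h _ hw
  rw [autFun_apply_inv _ hx] at h1
  calc autFun α⁻¹ x = v⁻¹ * (v * autFun α⁻¹ x * v⁻¹) * v := by group
    _ = v⁻¹ * x * v := by rw [← h1]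

/-- The elements of `S` inducing on `R` an element of `Y`. -/
def hfabN (F : FusionSystem S) (R : Subgroup Ω) (Y : Subgroup (F.autGroup R)) : Subgroup Ω where
  carrier := {v | v ∈ S ∧ ∃ y' ∈ Y, ∀ x ∈ R, autFun ((y' : F.autGroup R) : MulAut R) x = v * x * v⁻¹}
  one_mem' := ⟨S.one_mem, 1, Y.one_mem, fun x hx => by
    show autFun (1 : MulAut R) x = _
    rw [autFun_one hx]; simp⟩
  mul_mem' := by
    rintro a b ⟨ha, ya, hya, hae⟩ ⟨hb, yb, hyb, hbe⟩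
    refine ⟨S.mul_mem ha hb, ya * yb, Y.mul_mem hya hyb, fun x hx => ?_⟩
    show autFun ((ya : MulAut R) * (yb : MulAut R)) x = _
    rw [autFun_mul _ _ hx, hae _ (autFun_mem _ hx), hbe x hx]
    group
  inv_mem' := by
    rintro a ⟨ha, ya, hya, hae⟩
    refine ⟨S.inv_mem ha, ya⁻¹, Y.inv_mem hya, fun x hx => ?_⟩
    show autFun ((ya : MulAut R)⁻¹) x = _
    rw [hfab_inv _ hae hx, inv_inv]

theorem mem_hfabN {F : FusionSystem S} {R : Subgroup Ω} {Y : Subgroup (F.autGroup R)} {v : Ω} :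
    v ∈ hfabN F R Y ↔
      v ∈ S ∧ ∃ y' ∈ Y, ∀ x ∈ R, autFun ((y' : F.autGroup R) : MulAut R) x = v * x * v⁻¹ :=
  Iff.rfl

/-- A power `N ≡ 1 (mod m)` of `α` of order prime to `p`. -/
theorem hfab_pprime_pow {G : Type*} [Group G] [Finite G] (p : ℕ) [Fact p.Prime] (α : G) {m : ℕ}
    (hm : m.Coprime p) :
    ∃ N : ℕ, (orderOf (α ^ N)).Coprime p ∧ N ≡ 1 [MOD m] := by
  have hp : p.Prime := Fact.out
  have ho : orderOf α ≠ 0 := (orderOf_pos α).ne'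
  obtain ⟨a, b, hb, hab⟩ := Nat.exists_eq_pow_mul_and_not_dvd ho p hp.ne_one
  have hbp : b.Coprime p := ((Nat.Prime.coprime_iff_not_dvd hp).2 hb).symm
  have hco : (p ^ a).Coprime m := Nat.Coprime.pow_left a hm.symm
  obtain ⟨N, hN1, hN2⟩ := Nat.chineseRemainder hco 0 1
  refine ⟨N, ?_, hN2⟩
  have h1 : (α ^ N) ^ b = 1 := by
    rw [← pow_mul]
    apply orderOf_dvd_iff_pow_eq_one.1
    rw [hab]
    exact Nat.mul_dvd_mul_right ((Nat.modEq_zero_iff_dvd).1 hN1) b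
  exact Nat.Coprime.coprime_dvd_left (orderOf_dvd_of_pow_eq_one h1) hbp

/-- If `g ^ k` centralizes `Y` and `N ≡ 1 (mod k)`, then `g ^ N` and `g` act in the same way on `Y`. -/
theorem hfab_conj_pow {G : Type*} [Group G] (Y : Subgroup G) (g y : G) (k N : ℕ) (hy : y ∈ Y)
    (hgk : ∀ y' ∈ Y, g ^ k * y' * (g ^ k)⁻¹ = y') (hN : N ≡ 1 [MOD k]) :
    g ^ N * y * (g ^ N)⁻¹ = g * y * g⁻¹ := by
  have hC : g ^ k ∈ Subgroup.centralizer (Y : Set G) := by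
    rw [Subgroup.mem_centralizer_iff]
    intro y' hy'
    have := hgk y' hy'
    calc y' * g ^ k = (g ^ k * y' * (g ^ k)⁻¹) * g ^ k := by rw [this]
      _ = g ^ k * y' := by group
  have hd : (k : ℤ) ∣ 1 - (N : ℤ) := by
    have := (Int.natCast_modEq_iff.2 hN).dvd
    simpa using this
  obtain ⟨c, hc⟩ := hd
  have hz : (g ^ k) ^ c ∈ Subgroup.centralizer (Y : Set G) := Subgroup.zpow_mem _ hC c
  have hgN : g = g ^ N * (g ^ k) ^ c := by
    rw [← zpow_natCast g N, ← zpow_natCast g k, ← zpow_mul, ← zpow_add, ← hc]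
    simp
  have hcomm : y * (g ^ k) ^ c = (g ^ k) ^ c * y := Subgroup.mem_centralizer_iff.mp hz y hy
  have e1 : g ^ N * y * (g ^ N)⁻¹ = g ^ N * (y * (g ^ k) ^ c) * ((g ^ k) ^ c)⁻¹ * (g ^ N)⁻¹ := by
    group
  have e2 : g ^ N * ((g ^ k) ^ c * y) * ((g ^ k) ^ c)⁻¹ * (g ^ N)⁻¹
      = (g ^ N * (g ^ k) ^ c) * y * (g ^ N * (g ^ k) ^ c)⁻¹ := by
    rw [mul_inv_rev]; simp only [mul_assoc]
  rw [e1, hcomm, e2, ← hgN]

theorem pi_hfa_gen [Finite S] {p : ℕ} [Fact p.Prime] (hS : IsPGroup p S) {F : FusionSystem S}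
    (hF : F.IsSaturated p) {R : Subgroup Ω} (hR : F.IsFullyNormalized R) (Y : Subgroup (F.autGroup R))
    (hY : Y ≤ (autInducedBy S R).subgroupOf (F.autGroup R)) (y g : F.autGroup R) (k : ℕ) (hy : y ∈ Y)
    (hg : g ∈ Subgroup.normalizer (Y : Set (F.autGroup R))) (hk : k.Coprime p)
    (hgk : ∀ y' ∈ Y, g ^ k * y' * (g ^ k)⁻¹ = y') :
    ∃ h ∈ F.hyperfocalSubgroup p, h ∈ normalizerIn S R ∧
      ∀ x ∈ R, autFun ((y⁻¹ * (g * y * g⁻¹) : F.autGroup R) : MulAut R) x = h * x * h⁻¹ := by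
  classical
  have hRS : R ≤ S := hR.1
  obtain ⟨hRa, hRr⟩ := Helper84.saturated_fullyNormalized hS F hF hR
  -- elements of `Y` are conjugations by elements of `S`
  have hYc : ∀ y' ∈ Y, ∃ v ∈ S, ∀ x ∈ R, autFun ((y' : F.autGroup R) : MulAut R) x = v * x * v⁻¹ := by
    intro y' hy'
    have h1 : (y' : MulAut R) ∈ autInducedBy S R := Subgroup.mem_subgroupOf.mp (hY hy')
    obtain ⟨v, hv, hvx⟩ := (mem_autInducedBy_iff S R _).mp h1
    exact ⟨v, hv, fun x hx => by rw [autFun_apply' _ hx]; exact hvx ⟨x, hx⟩⟩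
  have hgY : ∀ y' ∈ Y, g * y' * g⁻¹ ∈ Y := fun y' hy' => (Subgroup.mem_normalizer_iff.mp hg y').mp hy'
  have hgmap : IsMap F R (autFun (g : MulAut R)) := IsMap.of_mem_autGroup hRS g.2
  -- the extension of `g`
  have hN₁ : ∀ v ∈ hfabN F R Y, v ∈ S ∧ v ∈ Subgroup.normalizer (R : Set Ω) ∧
      ∃ h ∈ S, ∀ x ∈ R, autFun (g : MulAut R) (v * x * v⁻¹) = h * autFun (g : MulAut R) x * h⁻¹ := by
    rintro v ⟨hvS, y', hy', hvy⟩
    refine ⟨hvS, hfab_norm _ hvy, ?_⟩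
    obtain ⟨h, hhS, hh⟩ := hYc _ (hgY y' hy')
    refine ⟨h, hhS, fun x hx => ?_⟩
    rw [← hh _ (autFun_mem _ hx), ← hvy x hx, ← autFun_mul _ _ hx, ← autFun_mul _ _ hx]
    congr 1
    show (g : MulAut R) * y' = (g : MulAut R) * y' * (g : MulAut R)⁻¹ * g
    group
  obtain ⟨f', hf', hf'R⟩ := receptive_extend (N := hfabN F R Y) hRr hgmap (img_autFun _) hN₁
  have hRQ : R ≤ hfabN F R Y ⊔ R := le_sup_right
  have hNQ : hfabN F R Y ≤ hfabN F R Y ⊔ R := le_sup_left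
  have hQS : hfabN F R Y ⊔ R ≤ S := hf'.le
  -- `f'` acts on `hfabN` as `g` acts on `Y`
  have hf'N : ∀ v ∈ hfabN F R Y, ∀ y' ∈ Y,
      (∀ x ∈ R, autFun ((y' : F.autGroup R) : MulAut R) x = v * x * v⁻¹) →
      ∀ x ∈ R, autFun ((g * y' * g⁻¹ : F.autGroup R) : MulAut R) x = f' v * x * (f' v)⁻¹ := by
    intro v hv y' hy' hvy x hx
    have hx₀ : autFun (g : MulAut R)⁻¹ x ∈ R := autFun_mem _ hx
    have e1 : f' (autFun (g : MulAut R)⁻¹ x) = x := by rw [hf'R _ hx₀, autFun_apply_inv _ hx]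
    have e2 := hf'.map_conj (hNQ hv) (hRQ hx₀)
    rw [e1] at e2
    rw [← e2, ← hvy _ hx₀, hf'R _ (autFun_mem _ hx₀), ← autFun_mul _ _ hx₀, ← autFun_mul _ _ hx]
    rfl
  have hf'N₁ : ∀ v ∈ hfabN F R Y, f' v ∈ hfabN F R Y := by
    rintro v hv
    obtain ⟨hvS, y', hy', hvy⟩ := hv
    exact ⟨hf'.mem (hNQ ⟨hvS, y', hy', hvy⟩), g * y' * g⁻¹, hgY y' hy',
      hf'N v ⟨hvS, y', hy', hvy⟩ y' hy' hvy⟩
  -- `f'` maps its domain into itself
  have hf'Q : ∀ x ∈ hfabN F R Y ⊔ R, f' x ∈ hfabN F R Y ⊔ R := by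
    let K : Subgroup Ω :=
      { carrier := {x | x ∈ hfabN F R Y ⊔ R ∧ f' x ∈ hfabN F R Y ⊔ R}
        one_mem' := ⟨Subgroup.one_mem _, by rw [hf'.map_one]; exact Subgroup.one_mem _⟩
        mul_mem' := by
          rintro a b ⟨ha, ha'⟩ ⟨hb, hb'⟩
          exact ⟨Subgroup.mul_mem _ ha hb, by rw [hf'.map_mul ha hb]; exact Subgroup.mul_mem _ ha' hb'⟩
        inv_mem' := by
          rintro a ⟨ha, ha'⟩
          exact ⟨Subgroup.inv_mem _ ha, by rw [hf'.map_inv ha]; exact Subgroup.inv_mem _ ha'⟩ }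
    have hK : hfabN F R Y ⊔ R ≤ K := by
      refine sup_le (fun v hv => ⟨hNQ hv, hNQ (hf'N₁ v hv)⟩) (fun x hx => ⟨hRQ hx, ?_⟩)
      rw [hf'R x hx]
      exact hRQ (autFun_mem _ hx)
    exact fun x hx => (hK hx).2
  have himg : img (hfabN F R Y ⊔ R) f' = hfabN F R Y ⊔ R := hf'.img_eq_of_mapsTo hf'Q
  obtain ⟨δ, hδ, hδf⟩ := hf'.exists_aut himg
  -- powers of `δ`
  have hpow : ∀ n : ℕ, ∀ v ∈ hfabN F R Y, ∀ y' ∈ Y,
      (∀ x ∈ R, autFun ((y' : F.autGroup R) : MulAut R) x = v * x * v⁻¹) →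
      ∀ x ∈ R, autFun ((g ^ n * y' * (g ^ n)⁻¹ : F.autGroup R) : MulAut R) x
        = autFun (δ ^ n) v * x * (autFun (δ ^ n) v)⁻¹ := by
    intro n
    induction n with
    | zero =>
      intro v hv y' hy' hvy x hx
      rw [pow_zero, pow_zero, autFun_one (hNQ hv), one_mul, inv_one, mul_one]
      exact hvy x hx
    | succ n ih =>
      intro v hv y' hy' hvy x hx
      have h1 := ih (f' v) (hf'N₁ v hv) (g * y' * g⁻¹) (hgY y' hy') (hf'N v hv y' hy' hvy) x hx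
      rw [pow_succ δ, autFun_mul _ _ (hNQ hv), hδf v (hNQ hv), ← h1]
      congr 2
  -- the `p'`-power of `δ`
  have hfinQ : Finite (hfabN F R Y ⊔ R : Subgroup Ω) := Helper88.finite_of_le hQS
  have hfinM : Finite (MulAut (hfabN F R Y ⊔ R : Subgroup Ω)) := inferInstance
  obtain ⟨N, hNord, hNk⟩ := hfab_pprime_pow p (⟨δ, hδ⟩ : F.autGroup (hfabN F R Y ⊔ R)) hk
  have hres : (⟨δ, hδ⟩ : F.autGroup (hfabN F R Y ⊔ R)) ^ N ∈ pResidual p (F.autGroup (hfabN F R Y ⊔ R)) :=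
    Subgroup.subset_closure hNord
  have hgN := hfab_conj_pow Y g y k N hy hgk hNk
  obtain ⟨v, hvS, hvy⟩ := hYc y hy
  have hv : v ∈ hfabN F R Y := ⟨hvS, y, hy, hvy⟩
  have hd := hpow N v hv y hy hvy
  rw [hgN] at hd
  have hdQ : autFun (δ ^ N) v ∈ hfabN F R Y ⊔ R := autFun_mem _ (hNQ hv)
  refine ⟨v⁻¹ * autFun (δ ^ N) v, ?_, ?_, ?_⟩
  · apply Subgroup.subset_closure
    refine ⟨hfabN F R Y ⊔ R, (⟨δ, hδ⟩ : F.autGroup (hfabN F R Y ⊔ R)) ^ N, ⟨v, hNQ hv⟩, hQS, hres, ?_⟩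
    rw [autFun_apply' _ (hNQ hv)]
    rfl
  · rw [mem_normalizerIn_iff]
    refine ⟨S.mul_mem (S.inv_mem hvS) (hQS hdQ), ?_⟩
    exact Subgroup.mul_mem _ (Subgroup.inv_mem _ (hfab_norm _ hvy)) (hfab_norm _ hd)
  · intro x hx
    show autFun ((y : MulAut R)⁻¹ * ((g * y * g⁻¹ : F.autGroup R) : MulAut R)) x = _
    rw [autFun_mul _ _ hx, hfab_inv _ hvy (autFun_mem _ hx), hd x hx]
    group

end Cfsg.Agent.Helper66.PiHFAB
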