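import Cfsg.Agent.Helper66.S4COREModel
import Cfsg.Prelude.Def_Solvable

/-! CALL S3702, piece CORE: `sJ` is the 3-core of the model. -/

set_option autoImplicit false

namespace Cfsg.Agent.Helper66

open Cfsg DihedralGroup Cfsg.Agent.Helper16

/-- the subgroup `J` of the model -/
def s4c66JS : Subgroup SM where
  carrier := {a | sJ a}
  one_mem' := s4c66_J_one
  mul_mem' := fun {a b} ha hb => s4c66_J_mul a ha b hb
  inv_mem' := fun {a} ha => s4c66_J_inv a ha

theorem s4c66_mem_JS (a : SM) : a ∈ s4c66JS ↔ sJ a := Iff.rfl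

theorem s4c66_pow81 {H' : Type*} [Group H'] (ψ : SM ≃* H') (N : Subgroup H')
    (hN : IsPGroup 3 N) (x : H') (hx : x ∈ N) : x ^ 81 = 1 := by
  haveI : Finite H' := Finite.of_equiv SM ψ.toEquiv
  have hcard : Nat.card H' = 648 := by
    rw [← Nat.card_congr ψ.toEquiv, Nat.card_eq_fintype_card, s4c66_card]
  obtain ⟨k, hk⟩ := hN ⟨x, hx⟩
  have hk' : x ^ (3 ^ k) = 1 := by
    have := congrArg (Subtype.val) hk
    simpa using this
  have h1 : orderOf x ∣ 3 ^ k := orderOf_dvd_of_pow_eq_one hk'
  obtain ⟨i, -, hi⟩ := (Nat.dvd_prime_pow Nat.prime_three).1 h1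
  have h2 : orderOf x ∣ 648 := hcard ▸ orderOf_dvd_natCard x
  rw [hi] at h2
  have h3 : 3 ^ i ∣ 81 := by
    have hcop : Nat.Coprime (3 ^ i) 8 := by
      apply Nat.Coprime.pow_left
      decide
    exact hcop.dvd_of_dvd_mul_left (by simpa using h2)
  rw [← hi] at h3
  exact orderOf_dvd_iff_pow_eq_one.1 h3

theorem s4_pcore {H' : Type*} [Group H'] (ψ : SM ≃* H') (j : SM) :
    sJ j ↔ ψ j ∈ Cfsg.pCore 3 H' := by
  have hJn : (s4c66JS.map ψ.toMonoidHom).Normal := by
    haveI : s4c66JS.Normal := ⟨fun a ha s => s4c66_J_conj a ha s⟩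
    exact Subgroup.Normal.map inferInstance _ ψ.surjective
  have hJp : IsPGroup 3 (s4c66JS.map ψ.toMonoidHom) := by
    have h0 : IsPGroup 3 s4c66JS := by
      intro a
      refine ⟨1, ?_⟩
      apply Subtype.ext
      simpa using s4c66_J_pow3 a.1 a.2
    exact h0.map _
  constructor
  · intro hj
    have hle : s4c66JS.map ψ.toMonoidHom ≤ Cfsg.pCore 3 H' := le_sSup ⟨hJn, hJp⟩
    exact hle (Subgroup.mem_map_of_mem _ hj)
  · intro hj
    have hle : Cfsg.pCore 3 H' ≤ s4c66JS.map ψ.toMonoidHom := by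
      apply sSup_le
      rintro N ⟨hNn, hNp⟩ n hn
      obtain ⟨m, rfl⟩ := ψ.surjective n
      have hm : sJ m := by
        by_contra hm
        have hcube : ∀ x : SM, x ^ 81 = 1 → (((x ^ 3) ^ 3) ^ 3) ^ 3 = 1 := by
          intro x hx
          rw [← pow_mul, ← pow_mul, ← pow_mul]
          exact hx
        rcases s4c66_pcore m hm with h81 | h81
        · apply h81
          apply hcube
          apply ψ.injective
          rw [map_pow, map_one]
          exact s4c66_pow81 ψ N hNp _ hn
        · apply h81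
          apply hcube
          apply ψ.injective
          rw [map_pow, map_one]
          apply s4c66_pow81 ψ N hNp
          rw [map_mul, map_inv, map_mul, map_mul, map_inv]
          exact N.mul_mem (N.inv_mem hn) (hNn.conj_mem _ hn _)
      exact Subgroup.mem_map_of_mem _ hm
    obtain ⟨a, ha, hae⟩ := Subgroup.mem_map.1 (hle hj)
    have : a = j := ψ.injective hae
    rw [← this]
    exact ha

end Cfsg.Agent.Helper66
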