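import Cfsg.Agent.Helper66.SuzFive
import Cfsg.Agent.S0345
import Cfsg.Agent.S1137
import Cfsg.Agent.S1138

/-!
# Suzuki's order theorem for ZT-groups: assembly

From a simple Zassenhaus group with a non-abelian normal `2`-subgroup `U` of a point stabiliser,
regular on the remaining points, we derive `|Ω| = q² + 1`, `|E| = q - 1`, `q = 2^n`, `n` odd.
-/

set_option autoImplicit false

namespace Cfsg.Agent.Helper66.SuzOrd

open MulAction

section Generic

variable {G : Type*} [Group G]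

/-- A fixed point free involutory automorphism (here: conjugation) inverts. -/
theorem inverts_of_fpf (U : Subgroup G) [Finite U] {h : G} (hh2 : h * h = 1)
    (hnorm : ∀ u ∈ U, h * u * h⁻¹ ∈ U) (hfpf : ∀ u ∈ U, h * u * h⁻¹ = u → u = 1) :
    ∀ w ∈ U, h * w * h⁻¹ = w⁻¹ := by
  have hinv : h⁻¹ = h := by
    rw [inv_eq_iff_mul_eq_one]
    exact hh2
  let f : U → U := fun u => ⟨(u : G)⁻¹ * (h * u * h⁻¹), U.mul_mem (U.inv_mem u.2) (hnorm u u.2)⟩
  have hf : Function.Injective f := by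
    intro u v e
    have e1 : (u : G)⁻¹ * (h * u * h⁻¹) = (v : G)⁻¹ * (h * v * h⁻¹) := congrArg Subtype.val e
    have e2 : h * ((v : G) * (u : G)⁻¹) * h⁻¹ = (v : G) * (u : G)⁻¹ := by
      have e3 : h * (u : G) * h⁻¹ = (u : G) * ((v : G)⁻¹ * (h * v * h⁻¹)) := by
        rw [← e1]
        group
      calc h * ((v : G) * (u : G)⁻¹) * h⁻¹ = (h * v * h⁻¹) * (h * u * h⁻¹)⁻¹ := by group
        _ = (h * v * h⁻¹) * ((u : G) * ((v : G)⁻¹ * (h * v * h⁻¹)))⁻¹ := by rw [e3]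
        _ = (v : G) * (u : G)⁻¹ := by group
    have e4 := hfpf _ (U.mul_mem v.2 (U.inv_mem u.2)) e2
    rw [mul_inv_eq_one] at e4
    exact Subtype.ext e4.symm
  have hsurj := Finite.surjective_of_injective hf
  intro w hw
  obtain ⟨u, hu⟩ := hsurj ⟨w, hw⟩
  have e : w = (u : G)⁻¹ * (h * u * h⁻¹) := (congrArg Subtype.val hu).symm
  rw [e]
  calc h * ((u : G)⁻¹ * (h * u * h⁻¹)) * h⁻¹
      = (h * (u : G)⁻¹ * h⁻¹) * (h * h) * u * (h⁻¹ * h⁻¹) := by group
    _ = (h * (u : G)⁻¹ * h⁻¹) * u := by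
        rw [hinv, hh2, mul_one, mul_one]
    _ = ((u : G)⁻¹ * (h * u * h⁻¹))⁻¹ := by group

theorem abelian_of_fpf_inv (U : Subgroup G) [Finite U] {h : G} (hh2 : h * h = 1)
    (hnorm : ∀ u ∈ U, h * u * h⁻¹ ∈ U) (hfpf : ∀ u ∈ U, h * u * h⁻¹ = u → u = 1) :
    ∀ u ∈ U, ∀ v ∈ U, u * v = v * u := by
  have key := inverts_of_fpf U hh2 hnorm hfpf
  intro u hu v hv
  have h1 := key (u * v) (U.mul_mem hu hv)
  have h2 := key u hu
  have h3 := key v hv
  have h4 : (u * v)⁻¹ = u⁻¹ * v⁻¹ := by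
    rw [← h1, ← h2, ← h3]
    group
  have h5 : (u * v)⁻¹ = (v * u)⁻¹ := by
    rw [h4]
    group
  exact inv_injective h5

/-- Conjugation by the elements of a subgroup `N` normalising `U`, as automorphisms of `U`. -/
def conjAut (U N : Subgroup G) (hN : ∀ h ∈ N, ∀ u ∈ U, h * u * h⁻¹ ∈ U) : N →* MulAut U where
  toFun h :=
    { toFun := fun u => ⟨h * u * (h : G)⁻¹, hN h h.2 u u.2⟩
      invFun := fun u => ⟨(h : G)⁻¹ * u * h, by
        have h1 := hN (h : G)⁻¹ (N.inv_mem h.2) u u.2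
        rwa [inv_inv] at h1⟩
      left_inv := fun u => Subtype.ext (by
        show (h : G)⁻¹ * (h * u * (h : G)⁻¹) * h = u
        group)
      right_inv := fun u => Subtype.ext (by
        show (h : G) * ((h : G)⁻¹ * u * h) * (h : G)⁻¹ = u
        group)
      map_mul' := fun u v => Subtype.ext (by
        show (h : G) * ((u : G) * v) * (h : G)⁻¹ = (h * u * (h : G)⁻¹) * (h * v * (h : G)⁻¹)
        group) }
  map_one' := by
    ext u
    show ((1 : N) : G) * u * ((1 : N) : G)⁻¹ = u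
    rw [Subgroup.coe_one]
    group
  map_mul' := fun h h' => by
    ext u
    show ((h * h' : N) : G) * u * ((h * h' : N) : G)⁻¹ = h * (h' * u * (h' : G)⁻¹) * (h : G)⁻¹
    rw [Subgroup.coe_mul]
    group

theorem conjAut_apply (U N : Subgroup G) (hN : ∀ h ∈ N, ∀ u ∈ U, h * u * h⁻¹ ∈ U) (h : N) (u : U) :
    ((conjAut U N hN h) u : G) = h * u * (h : G)⁻¹ := rfl

end Generic

section Build

variable {G Ω : Type*} [Group G] [MulAction G Ω]

/-- The basic ZT context of a simple Zassenhaus group with a regular normal non-abelian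
subgroup `U` of a point stabiliser. -/
theorem zt0_of_zass [Finite G] [Finite Ω]
    (hZ : Cfsg.IsZassenhausGroup G Ω) [IsSimpleGroup G] {a b : Ω} (hab : a ≠ b)
    (U : Subgroup G) (hUle : U ≤ MulAction.stabilizer G a)
    (hUn : ∀ h ∈ MulAction.stabilizer G a, ∀ u ∈ U, h * u * h⁻¹ ∈ U)
    (hreg : ∀ c d : Ω, c ≠ a → d ≠ a → ∃! u : U, (u : G) • c = d)
    (hUna : ∃ u ∈ U, ∃ v ∈ U, u * v ≠ v * u) :
    ∃ C : ZT0 G Ω, C.a = a ∧ C.b = b ∧ C.U = U := by
  obtain ⟨-, t, htord, hta, htb, htinv⟩ := Cfsg.Agent.S0345.result hZ hab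
  have ht2 : t * t = 1 := by
    rw [← pow_two, ← htord, pow_orderOf_eq_one]
  have htinv' : t⁻¹ = t := by
    rw [inv_eq_iff_mul_eq_one]
    exact ht2
  have hUa : ∀ u ∈ U, u • a = a := fun u hu => MulAction.mem_stabilizer_iff.mp (hUle hu)
  have hUtr : ∀ x : Ω, x ≠ a → ∃ u ∈ U, u • b = x := by
    intro x hx
    obtain ⟨u, hu, -⟩ := hreg b x hab.symm hx
    exact ⟨u.1, u.2, hu⟩
  have hUfree : ∀ u ∈ U, ∀ x : Ω, x ≠ a → u • x = x → u = 1 := by
    intro u hu x hx hux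
    have h1 := (hreg x x hx hx).unique (y₁ := ⟨u, hu⟩) (y₂ := 1) hux (one_smul _ _)
    exact congrArg Subtype.val h1
  have h3 : ∀ (g : G) (x y z : Ω), x ≠ y → x ≠ z → y ≠ z → g • x = x → g • y = y →
      g • z = z → g = 1 :=
    fun g x y z hxy hxz hyz hx hy hz => hZ.2.2.1 g x y z hxy hyz hxz hx hy hz
  have hUn' : ∀ g : G, g • a = a → ∀ u ∈ U, g * u * g⁻¹ ∈ U :=
    fun g hg u hu => hUn g (MulAction.mem_stabilizer_iff.mpr hg) u hu
  have hEinv : ∀ h : G, h • a = a → h • b = b → h * h = 1 → h = 1 := by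
    intro h ha hb hh2
    by_contra hne
    obtain ⟨u, hu, v, hv, huv⟩ := hUna
    apply huv
    apply abelian_of_fpf_inv U hh2 (hUn' h ha) _ u hu v hv
    intro w hw hc
    by_contra hw1
    have h1 : h • (w • b) = w • b := by
      have h2 : h * w = w * h := by
        calc h * w = (h * w * h⁻¹) * h := by group
          _ = w * h := by rw [hc]
      rw [← mul_smul, h2, mul_smul, hb]
    have h4 : w • b ≠ a := by
      intro e
      have h5 : w • b = w • a := by rw [e, hUa w hw]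
      exact hab (smul_left_cancel w h5).symm
    have h5 : w • b ≠ b := fun e => hw1 (hUfree w hw b hab.symm e)
    exact hne (h3 h a b (w • b) hab h4.symm h5.symm ha hb h1)
  exact ⟨{ a := a, b := b, U := U, t := t, hab := hab, h3 := h3, hUa := hUa, hUtr := hUtr,
           hUfree := hUfree, hUn := hUn', ht2 := ht2, hta := hta, htb := htb,
           htinv := fun h ha hb => by
            have h1 := htinv h ⟨MulAction.mem_stabilizer_iff.mpr ha,
              MulAction.mem_stabilizer_iff.mpr hb⟩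
            rw [htinv'] at h1
            exact h1
           hEinv := hEinv }, rfl, rfl, rfl⟩

/-- In a ZT context with `U` a non-abelian `2`-group and cyclic non-trivial two point stabiliser,
`U` is a Suzuki `2`-group. -/
theorem suzukiTwoGroup_of_zt0 [Finite G] (C : ZT0 G Ω)
    (hcyc : IsCyclic ↥(MulAction.stabilizer G C.a ⊓ MulAction.stabilizer G C.b))
    (hU2 : IsPGroup 2 C.U) (hUna : ∃ u ∈ C.U, ∃ v ∈ C.U, u * v ≠ v * u)
    (hE : ∃ h : G, h ≠ 1 ∧ h • C.a = C.a ∧ h • C.b = C.b) : Cfsg.IsSuzukiTwoGroup C.U := by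
  obtain ⟨u, hu, v, hv, huv⟩ := hUna
  have hnt : Nontrivial C.U := by
    refine ⟨⟨u, hu⟩, 1, fun h => huv ?_⟩
    have h1 : u = 1 := congrArg Subtype.val h
    rw [h1, one_mul, mul_one]
  have h2 : Fact (Nat.Prime 2) := ⟨Nat.prime_two⟩
  obtain ⟨z, hz⟩ : ∃ z : C.U, orderOf z = 2 := by
    apply exists_prime_orderOf_dvd_card' (G := C.U) 2
    obtain ⟨n, hn0, hn⟩ := (IsPGroup.nontrivial_iff_card hU2).mp hnt
    rw [hn]
    exact dvd_pow_self 2 (by omega)
  have hz1 : z ≠ 1 := by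
    intro h
    rw [h, orderOf_one] at hz
    omega
  have hz2 : z * z = 1 := by
    rw [← pow_two, ← hz, pow_orderOf_eq_one]
  have hz1' : (z : G) ≠ 1 := fun h => hz1 (Subtype.ext h)
  have hz2' : (z : G) * (z : G) = 1 := congrArg Subtype.val hz2
  obtain ⟨h, hh1, hha, hhb⟩ := hE
  have hNorm : ∀ h ∈ MulAction.stabilizer G C.a ⊓ MulAction.stabilizer G C.b, ∀ u ∈ C.U,
      h * u * h⁻¹ ∈ C.U := fun h hh u hu => C.hUn h (MulAction.mem_stabilizer_iff.mp hh.1) u hu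
  refine ⟨inferInstance, hU2, ⟨⟨u, hu⟩, ⟨v, hv⟩, fun h => huv (congrArg Subtype.val h)⟩, ?_, ?_⟩
  · refine ⟨z, ⟨h * z * h⁻¹, C.conj_mem hha z.2⟩, ?_, hz1, hz2, ?_, ?_⟩
    · intro e
      have e1 : h * (z : G) * h⁻¹ = z := (congrArg Subtype.val e).symm
      exact hh1 (C.E_free hha hhb z.2 hz1' e1)
    · intro e
      have e1 : h * (z : G) * h⁻¹ = 1 := congrArg Subtype.val e
      exact (IsInv.conj (⟨hz1', hz2'⟩ : IsInv (z : G)) h).1 e1
    · apply Subtype.ext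
      exact (IsInv.conj (⟨hz1', hz2'⟩ : IsInv (z : G)) h).2
  · refine ⟨(conjAut C.U _ hNorm).range, ?_, ?_⟩
    · have : IsCyclic (conjAut C.U _ hNorm).range :=
        isCyclic_of_surjective (conjAut C.U _ hNorm).rangeRestrict
          (conjAut C.U _ hNorm).rangeRestrict_surjective
      exact this
    · intro x y hx1 hx2 hy1 hy2
      have hx1' : (x : G) ≠ 1 := fun h => hx1 (Subtype.ext h)
      have hx2' : (x : G) * (x : G) = 1 := congrArg Subtype.val hx2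
      have hy1' : (y : G) ≠ 1 := fun h => hy1 (Subtype.ext h)
      have hy2' : (y : G) * (y : G) = 1 := congrArg Subtype.val hy2
      obtain ⟨k, hka, hkb, hk⟩ := C.E_trans_inv x.2 hx1' hx2' y.2 hy1' hy2'
      refine ⟨⟨conjAut C.U _ hNorm ⟨k, MulAction.mem_stabilizer_iff.mpr hka,
        MulAction.mem_stabilizer_iff.mpr hkb⟩, ⟨_, rfl⟩⟩, ?_, ?_⟩
      · apply Subtype.ext
        exact hk
      · rintro ⟨_, ⟨k', rfl⟩⟩ hk'
        have e1 : (k' : G) * x * (k' : G)⁻¹ = y := congrArg Subtype.val hk'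
        have e2 : (k⁻¹ * (k' : G)) * x * (k⁻¹ * (k' : G))⁻¹ = x := by
          calc (k⁻¹ * (k' : G)) * x * (k⁻¹ * (k' : G))⁻¹
              = k⁻¹ * ((k' : G) * x * (k' : G)⁻¹) * k := by group
            _ = k⁻¹ * (k * x * k⁻¹) * k := by rw [e1, hk]
            _ = x := by group
        have hk'a : (k' : G) • C.a = C.a := MulAction.mem_stabilizer_iff.mp k'.2.1
        have hk'b : (k' : G) • C.b = C.b := MulAction.mem_stabilizer_iff.mp k'.2.2
        have e3 := C.E_free (h := k⁻¹ * (k' : G)) (by rw [mul_smul, hk'a, C.inv_smul_a hka])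
          (by rw [mul_smul, hk'b, C.inv_smul_b hkb]) x.2 hx1' e2
        have e4 : (k' : G) = k := by
          rw [inv_mul_eq_one] at e3
          exact e3.symm
        apply Subtype.ext
        show conjAut C.U _ hNorm k' = conjAut C.U _ hNorm ⟨k, _⟩
        congr 1
        exact Subtype.ext e4

/-- The full ZT context. -/
theorem zt_of_zt0 (C0 : ZT0 G Ω) (hP : Cfsg.IsSuzukiTwoGroup C0.U) :
    ∃ C : ZT G Ω, C.toZT0 = C0 := by
  obtain ⟨h37a, h37b⟩ := Cfsg.Agent.S1137.result hP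
  obtain ⟨h38a, h38b, -, -⟩ := Cfsg.Agent.S1138.result hP
  refine ⟨{ C0 with hinvc := ?_, hsq4 := ?_, hcomm2 := ?_ }, rfl⟩
  · intro z hz hz2 u hu
    by_cases hz1 : z = 1
    · rw [hz1, one_mul, mul_one]
    · have h1 := ((h37a ⟨z, hz⟩).mp ⟨fun h => hz1 (congrArg Subtype.val h), Subtype.ext hz2⟩).1
      have h2 := Subgroup.mem_center_iff.mp h1 ⟨u, hu⟩
      exact (congrArg Subtype.val h2).symm
  · intro u hu
    exact congrArg Subtype.val (h37b _ (h38a ⟨u, hu⟩))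
  · intro u hu v hv
    exact congrArg Subtype.val (h37b _ (h38b ⟨u, hu⟩ ⟨v, hv⟩))

end Build

section Numerics

variable {G Ω : Type*} [Group G] [MulAction G Ω]

theorem ZT.card_sets [Finite G] (C : ZT G Ω) (hP : Cfsg.IsSuzukiTwoGroup C.U) :
    Set.ncard {z : G | z ∈ C.U ∧ z * z = 1} = Nat.card (Subgroup.center C.U) ∧
    Set.ncard {z : G | z ∈ C.U ∧ z ≠ 1 ∧ z * z = 1} = Nat.card (Subgroup.center C.U) - 1 ∧
    Set.ncard {w : G | w ∈ C.U ∧ w * w ≠ 1} = Nat.card C.U - Nat.card (Subgroup.center C.U) ∧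
    Set.ncard {h : G | h • C.a = C.a ∧ h • C.b = C.b} =
      Nat.card ↥(MulAction.stabilizer G C.a ⊓ MulAction.stabilizer G C.b) := by
  obtain ⟨h37a, h37b⟩ := Cfsg.Agent.S1137.result hP
  have hZset : Set.ncard {z : G | z ∈ C.U ∧ z * z = 1} = Nat.card (Subgroup.center C.U) := by
    have h1 : {z : G | z ∈ C.U ∧ z * z = 1} =
        (fun x : C.U => (x : G)) '' (Subgroup.center C.U : Set C.U) := by
      ext z
      constructor
      · rintro ⟨hz, hz2⟩
        refine ⟨⟨z, hz⟩, ?_, rfl⟩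
        by_cases hz1 : z = 1
        · have h2 : (⟨z, hz⟩ : C.U) = 1 := Subtype.ext hz1
          rw [h2]
          exact Subgroup.one_mem _
        · exact ((h37a ⟨z, hz⟩).mp ⟨fun h => hz1 (congrArg Subtype.val h), Subtype.ext hz2⟩).1
      · rintro ⟨x, hx, rfl⟩
        exact ⟨x.2, congrArg Subtype.val (h37b x hx)⟩
    rw [h1, Set.InjOn.ncard_image (Subtype.val_injective.injOn)]
    exact (Nat.card_coe_set_eq _).symm
  refine ⟨hZset, ?_, ?_, ?_⟩
  · have h1 : {z : G | z ∈ C.U ∧ z ≠ 1 ∧ z * z = 1} = {z : G | z ∈ C.U ∧ z * z = 1} \ {1} := by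
      ext z
      constructor
      · rintro ⟨hz, hz1, hz2⟩
        exact ⟨⟨hz, hz2⟩, hz1⟩
      · rintro ⟨⟨hz, hz2⟩, hz1⟩
        exact ⟨hz, hz1, hz2⟩
    rw [h1, Set.ncard_sdiff_singleton_of_mem, hZset]
    exact ⟨C.U.one_mem, one_mul 1⟩
  · have h1 : {w : G | w ∈ C.U ∧ w * w ≠ 1} = (C.U : Set G) \ {z : G | z ∈ C.U ∧ z * z = 1} := by
      ext w
      constructor
      · rintro ⟨hw, hw2⟩
        exact ⟨hw, fun h => hw2 h.2⟩
      · rintro ⟨hw, hw2⟩
        exact ⟨hw, fun h => hw2 ⟨hw, h⟩⟩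
    rw [h1, Set.ncard_sdiff (fun z hz => hz.1), hZset]
    congr 1
  · have h1 : {h : G | h • C.a = C.a ∧ h • C.b = C.b} =
        ((MulAction.stabilizer G C.a ⊓ MulAction.stabilizer G C.b : Subgroup G) : Set G) := by
      ext h
      exact Iff.rfl
    rw [h1]
    exact (Nat.card_coe_set_eq _).symm

theorem ZT.card_omega [Finite G] [Finite Ω] (C : ZT0 G Ω) : Nat.card Ω = Nat.card C.U + 1 := by
  have h1 : (Set.univ : Set Ω) = insert C.a ((fun u : G => u • C.b) '' (C.U : Set G)) := by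
    ext x
    constructor
    · intro _
      by_cases hx : x = C.a
      · exact Or.inl hx
      · obtain ⟨u, hu, hub⟩ := C.hUtr x hx
        exact Or.inr ⟨u, hu, hub⟩
    · intro _
      exact Set.mem_univ x
  rw [← Set.ncard_univ, h1, Set.ncard_insert_of_notMem, Set.InjOn.ncard_image]
  · congr 1
  · intro u hu v hv e
    exact C.U_inj hu hv C.hab.symm e
  · rintro ⟨u, hu, e⟩
    exact C.smul_ne_a (C.hUa u hu) C.hab.symm e

theorem ZT.exists_fix [Finite Ω] (C : ZT0 G Ω) (hodd : Odd (Nat.card Ω)) :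
    ∃ c : Ω, C.t • c = c := by
  have h2 : Fact (Nat.Prime 2) := ⟨Nat.prime_two⟩
  have hord : orderOf C.t = 2 :=
    orderOf_eq_prime (by rw [pow_two]; exact C.ht2) C.t_ne_one
  have hP : IsPGroup 2 (Subgroup.zpowers C.t) := by
    apply IsPGroup.of_card (n := 1)
    rw [Nat.card_zpowers, hord, pow_one]
  have hmod := hP.card_modEq_card_fixedPoints Ω
  by_contra hne
  push Not at hne
  have hempty : IsEmpty (fixedPoints (Subgroup.zpowers C.t) Ω) := by
    constructor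
    rintro ⟨x, hx⟩
    exact hne x (hx ⟨C.t, Subgroup.mem_zpowers C.t⟩)
  have h0 : Nat.card (fixedPoints (Subgroup.zpowers C.t) Ω) = 0 := Nat.card_of_isEmpty
  rw [h0] at hmod
  have h1 : 2 ∣ Nat.card Ω := (Nat.modEq_zero_iff_dvd).mp hmod
  obtain ⟨k, hk⟩ := hodd
  omega

theorem ZT.numerics [Finite G] [Finite Ω] (C : ZT G Ω) (hP : Cfsg.IsSuzukiTwoGroup C.U)
    (hG : Nat.card G = Nat.card Ω * (Nat.card Ω - 1) *
      Nat.card ↥(MulAction.stabilizer G C.a ⊓ MulAction.stabilizer G C.b)) :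
    ∃ n : ℕ, Odd n ∧ 1 < n ∧ Nat.card Ω = 2 ^ (2 * n) + 1 ∧
      Nat.card ↥(MulAction.stabilizer G C.a ⊓ MulAction.stabilizer G C.b) = 2 ^ n - 1 ∧
      Nat.card (Subgroup.center C.U) = 2 ^ n ∧
      Nat.card C.U = Nat.card (Subgroup.center C.U) ^ 2 := by
  obtain ⟨hZc, hIc, hWc, hEc⟩ := C.card_sets hP
  obtain ⟨-, -, h38c, -⟩ := Cfsg.Agent.S1138.result hP
  obtain ⟨hfin, hU2, -, ⟨x, y, hxy, hx1, hx2, hy1, hy2⟩, -⟩ := hP
  have hΩ := ZT.card_omega C.toZT0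
  have hx1' : (x : G) ≠ 1 := fun h => hx1 (Subtype.ext h)
  have hx2' : (x : G) * (x : G) = 1 := congrArg Subtype.val hx2
  have hy1' : (y : G) ≠ 1 := fun h => hy1 (Subtype.ext h)
  have hy2' : (y : G) * (y : G) = 1 := congrArg Subtype.val hy2
  have hIE := (C.conj_image_eq x.2 hx1' hx2').2
  have hmain := C.main_ineq
  have hI2 : 1 < Set.ncard {z : G | z ∈ C.U ∧ z ≠ 1 ∧ z * z = 1} := by
    rw [Set.one_lt_ncard_iff]
    exact ⟨x, y, ⟨x.2, hx1', hx2'⟩, ⟨y.2, hy1', hy2'⟩, fun h => hxy (Subtype.ext h)⟩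
  have h2 : Fact (Nat.Prime 2) := ⟨Nat.prime_two⟩
  obtain ⟨n, hn⟩ := (IsPGroup.iff_card).mp (hU2.to_subgroup (Subgroup.center C.U))
  obtain ⟨q, hq⟩ : ∃ q, q = Nat.card (Subgroup.center C.U) := ⟨_, rfl⟩
  obtain ⟨N, hN⟩ : ∃ N, N = Nat.card C.U := ⟨_, rfl⟩
  obtain ⟨e, he⟩ : ∃ e, e = Nat.card ↥(MulAction.stabilizer G C.a ⊓ MulAction.stabilizer G C.b) :=
    ⟨_, rfl⟩
  rw [← hq] at hZc hIc hWc h38c hn ⊢
  rw [← hN] at hWc h38c hΩ ⊢
  rw [← he] at hEc hG ⊢
  rw [hIc, hEc] at hIE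
  rw [hIc] at hI2
  rw [hWc, hIc, hEc] at hmain
  -- now: hIE : q - 1 = e, hI2 : 1 < q - 1, hmain : N - q ≤ 6 * (q - 1) * e
  have hn2 : 2 ≤ n := by
    by_contra hlt
    have hn1 : n ≤ 1 := by omega
    have h3 : 2 ^ n ≤ 2 ^ 1 := Nat.pow_le_pow_right (by norm_num) hn1
    omega
  have hq4 : 4 ≤ q := by
    have h3 : 2 ^ 2 ≤ 2 ^ n := Nat.pow_le_pow_right (by norm_num) hn2
    omega
  obtain ⟨m, rfl⟩ := Nat.exists_eq_add_of_le hq4
  have he' : e = m + 3 := by omega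
  rw [he'] at hmain hG
  have hNq : N = (4 + m) ^ 2 := by
    rcases h38c with h | h
    · exact h
    · exfalso
      rw [h] at hmain
      have h3 : (4 + m) ^ 3 - (4 + m) = m ^ 3 + 12 * m ^ 2 + 47 * m + 60 := by
        apply Nat.sub_eq_of_eq_add
        ring
      have h4 : 4 + m - 1 = m + 3 := by omega
      rw [h3, h4] at hmain
      nlinarith [Nat.zero_le (m ^ 3), Nat.zero_le (m ^ 2)]
  have hΩ' : Nat.card Ω = (4 + m) ^ 2 + 1 := by rw [hΩ, hNq]
  have hoddΩ : Odd (Nat.card Ω) := by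
    rw [hΩ', hn, ← pow_mul]
    have h3 : 2 ^ (n * 2) = 2 * 2 ^ (n * 2 - 1) := by
      rw [← pow_succ']
      congr 1
      omega
    exact ⟨2 ^ (n * 2 - 1), by rw [h3]⟩
  obtain ⟨c, hc⟩ := ZT.exists_fix C.toZT0 hoddΩ
  have hnodd : Odd n := by
    rcases C.dichotomy hc with ⟨z₀, hz₀, hz₀1, hz₀2, hfix⟩ | h5
    · exfalso
      have hdvd := C.caseI_dvd hz₀ hz₀1 hz₀2 hfix
      rw [hZc, hG, hΩ'] at hdvd
      have h3 : (4 + m) ^ 2 + 1 - 1 = (4 + m) ^ 2 := by omega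
      rw [h3] at hdvd
      have h1 : ((m : ℤ) + 5) ∣ (((m : ℤ) + 4) ^ 2 + 1) * (((m : ℤ) + 4) ^ 2) * ((m : ℤ) + 3) := by
        have h4 : ((4 + m + 1 : ℕ) : ℤ) ∣ ((((4 + m) ^ 2 + 1) * (4 + m) ^ 2 * (m + 3) : ℕ) : ℤ) :=
          Int.natCast_dvd_natCast.mpr hdvd
        push_cast at h4
        have h5 : (4 : ℤ) + m + 1 = m + 5 := by ring
        have h6 : (4 : ℤ) + m = m + 4 := by ring
        rw [h5, h6] at h4
        exact h4
      have h3' : (((m : ℤ) + 4) ^ 2 + 1) * (((m : ℤ) + 4) ^ 2) * ((m : ℤ) + 3) =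
          ((m : ℤ) + 5) * (((m : ℤ) + 4) ^ 4 - 2 * ((m : ℤ) + 4) ^ 3 + 3 * ((m : ℤ) + 4) ^ 2
            - 4 * ((m : ℤ) + 4) + 4) - 4 := by ring
      rw [h3'] at h1
      have h4 : ((m : ℤ) + 5) ∣ 4 := by
        have h5 := dvd_sub (Dvd.intro _ rfl : ((m : ℤ) + 5) ∣ ((m : ℤ) + 5) *
          (((m : ℤ) + 4) ^ 4 - 2 * ((m : ℤ) + 4) ^ 3 + 3 * ((m : ℤ) + 4) ^ 2
            - 4 * ((m : ℤ) + 4) + 4)) h1
        have h6 : ((m : ℤ) + 5) * (((m : ℤ) + 4) ^ 4 - 2 * ((m : ℤ) + 4) ^ 3 +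
            3 * ((m : ℤ) + 4) ^ 2 - 4 * ((m : ℤ) + 4) + 4) -
            (((m : ℤ) + 5) * (((m : ℤ) + 4) ^ 4 - 2 * ((m : ℤ) + 4) ^ 3 + 3 * ((m : ℤ) + 4) ^ 2
            - 4 * ((m : ℤ) + 4) + 4) - 4) = 4 := by ring
        rw [h6] at h5
        exact h5
      have h5 := Int.le_of_dvd (by norm_num) h4
      omega
    · rcases Nat.even_or_odd n with ⟨k, rfl⟩ | hodd
      · exfalso
        rw [hΩ', hn] at h5
        have h3 : (2 ^ (k + k)) ^ 2 = 16 ^ k := by
          rw [← pow_mul, show (k + k) * 2 = 4 * k by ring, pow_mul]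
          norm_num
        rw [h3] at h5
        have h4 : (16 ^ k + 1) % 5 = 2 := by
          rw [Nat.add_mod, Nat.pow_mod]
          norm_num
        have h6 := Nat.mod_eq_zero_of_dvd h5
        omega
      · exact hodd
  refine ⟨n, hnodd, ?_, ?_, ?_, hn, hNq⟩
  · obtain ⟨k, hk⟩ := hnodd
    omega
  · rw [hΩ', hn, ← pow_mul, mul_comm]
  · rw [he', ← hn]
    omega

end Numerics

/-- **Suzuki's order theorem** for simple Zassenhaus groups whose point stabiliser has a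
non-abelian regular normal `2`-subgroup `U`: the degree is `q² + 1`, the two point stabiliser has
order `q - 1`, with `q = 2^n`, `n > 1` odd, and `U` is a Suzuki `2`-group of order `q²`. -/
theorem suz_core {G Ω : Type*} [Group G] [Finite G] [MulAction G Ω] [Finite Ω]
    (hZ : Cfsg.IsZassenhausGroup G Ω) [IsSimpleGroup G] {a b : Ω} (hab : a ≠ b)
    (U : Subgroup G) (hUle : U ≤ MulAction.stabilizer G a)
    (hUn : ∀ h ∈ MulAction.stabilizer G a, ∀ u ∈ U, h * u * h⁻¹ ∈ U)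
    (hreg : ∀ c d : Ω, c ≠ a → d ≠ a → ∃! u : U, (u : G) • c = d)
    (hU2 : IsPGroup 2 U) (hUna : ∃ u ∈ U, ∃ v ∈ U, u * v ≠ v * u) :
    ∃ n : ℕ, Odd n ∧ 1 < n ∧ Nat.card Ω = 2 ^ (2 * n) + 1 ∧
      Nat.card ↥(MulAction.stabilizer G a ⊓ MulAction.stabilizer G b) = 2 ^ n - 1 ∧
      Cfsg.IsSuzukiTwoGroup U ∧ Nat.card (Subgroup.center U) = 2 ^ n ∧
      Nat.card U = Nat.card (Subgroup.center U) ^ 2 := by
  obtain ⟨C0, rfl, rfl, rfl⟩ := zt0_of_zass hZ hab U hUle hUn hreg hUna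
  have hcyc := (Cfsg.Agent.S0345.result hZ hab).1
  have hE := Cfsg.Agent.Helper15.zass_exists_stab_inf_ne_one hZ hab
  have hP := suzukiTwoGroup_of_zt0 C0 hcyc hU2 hUna hE
  obtain ⟨C, rfl⟩ := zt_of_zt0 C0 hP
  have hG := Cfsg.Agent.Helper15.zass_card_group hZ hab
  obtain ⟨n, h1, h2, h3, h4, h5, h6⟩ := C.numerics hP hG
  exact ⟨n, h1, h2, h3, h4, hP, h5, h6⟩

end Cfsg.Agent.Helper66.SuzOrd
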