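import Cfsg.Agent.Helper66.SuzCtx

/-!
# Suzuki's order theorem: the counting lemma for elements of order four

In a ZT context, for every `w ∈ U` with `w² ≠ 1` there is exactly one `η` in the two point
stabiliser such that `(w η t)²` is an involution.
-/

set_option autoImplicit false

namespace Cfsg.Agent.Helper66.SuzOrd

open MulAction

/-- `g` is an involution. -/
def IsInv {G : Type*} [Group G] (g : G) : Prop := g ≠ 1 ∧ g * g = 1

theorem IsInv.conj {G : Type*} [Group G] {g : G} (h : IsInv g) (x : G) : IsInv (x * g * x⁻¹) := by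
  refine ⟨fun h1 => h.1 ?_, ?_⟩
  · have h2 : g = x⁻¹ * (x * g * x⁻¹) * x := by group
    rw [h2, h1]; group
  · calc (x * g * x⁻¹) * (x * g * x⁻¹) = x * (g * g) * x⁻¹ := by group
      _ = 1 := by rw [h.2]; group

namespace ZT0

variable {G : Type*} [Group G] {Ω : Type*} [MulAction G Ω] (C : ZT0 G Ω)

/-- Bruhat form of `t w t` extracted from an involution `(w η t)²`. -/
theorem bruhat_of_sq {w η : G} (hw : w ∈ C.U) (hw1 : w ≠ 1)
    (hη : η • C.a = C.a) (hηb : η • C.b = C.b)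
    (h1 : (w * η * C.t) * (w * η * C.t) * ((w * η * C.t) * (w * η * C.t)) = 1) :
    ∃ m ∈ C.U, ∃ e : G, e • C.a = C.a ∧ e • C.b = C.b ∧ ∃ u ∈ C.U,
      C.t * w * C.t = (m * e) * C.t * u ∧ m * u = η⁻¹ * w⁻¹ * η := by
  have hwa := C.hUa w hw
  have hwb : w • C.b ≠ C.b := fun h => hw1 (C.U_inter_E hw h)
  have hwb' : w • C.b ≠ C.a := C.smul_ne_a hwa C.hab.symm
  -- σ moves a
  have hσa : ((w * η * C.t) * (w * η * C.t)) • C.a ≠ C.a := by
    have e1 : ((w * η * C.t) * (w * η * C.t)) • C.a = w • η • C.t • (w • C.b) := by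
      rw [mul_smul, mul_smul, mul_smul, mul_smul, mul_smul, C.hta, hηb]
    rw [e1]
    exact C.smul_ne_a hwa (C.smul_ne_a hη (C.t_smul_ne hwb))
  obtain ⟨v, hv, η₁, hη₁a, hη₁b, hσ⟩ := C.swap_form h1 hσa
  have hva := C.hUa v hv
  have hηinv := C.inv_smul_a hη
  have hηinvb := C.inv_smul_b hηb
  refine ⟨η⁻¹ * w⁻¹ * η * (η⁻¹ * v * η), ?_, η⁻¹ * η₁ * η⁻¹, ?_, ?_, η⁻¹ * v⁻¹ * η, ?_, ?_, ?_⟩
  · exact C.U.mul_mem (C.conj_mem' hη (C.U.inv_mem hw)) (C.conj_mem' hη hv)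
  · rw [mul_smul, mul_smul, hηinv, hη₁a, hηinv]
  · rw [mul_smul, mul_smul, hηinvb, hη₁b, hηinvb]
  · exact C.conj_mem' hη (C.U.inv_mem hv)
  · have e2 : C.t * η⁻¹ = η * C.t := C.t_mul_inv hη hηb
    have e3 : η * C.t * η = C.t := by
      have := C.t_mul hη hηb
      calc η * C.t * η = η * (C.t * η) := by group
        _ = η * (η⁻¹ * C.t) := by rw [this]
        _ = C.t := by group
    have e4 : C.t * w * C.t = η⁻¹ * w⁻¹ * ((w * η * C.t) * (w * η * C.t)) * η := by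
      calc C.t * w * C.t = C.t * w * (η * C.t * η) := by rw [e3]
        _ = η⁻¹ * w⁻¹ * ((w * η * C.t) * (w * η * C.t)) * η := by group
    rw [e4, hσ]
    calc η⁻¹ * w⁻¹ * (v * η₁ * C.t * v⁻¹) * η
        = η⁻¹ * w⁻¹ * v * η₁ * η⁻¹ * (η * C.t) * (v⁻¹ * η) := by group
      _ = η⁻¹ * w⁻¹ * v * η₁ * η⁻¹ * (C.t * η⁻¹) * (v⁻¹ * η) := by rw [e2]
      _ = η⁻¹ * w⁻¹ * η * (η⁻¹ * v * η) * (η⁻¹ * η₁ * η⁻¹) * C.t * (η⁻¹ * v⁻¹ * η) := by group
  · group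

/-- At most one `η` works for a given `w`. -/
theorem eta_unique {w η η' : G} (hw : w ∈ C.U) (hw1 : w ≠ 1)
    (hη : η • C.a = C.a) (hηb : η • C.b = C.b) (hη' : η' • C.a = C.a) (hηb' : η' • C.b = C.b)
    (h1 : (w * η * C.t) * (w * η * C.t) * ((w * η * C.t) * (w * η * C.t)) = 1)
    (h2 : (w * η' * C.t) * (w * η' * C.t) * ((w * η' * C.t) * (w * η' * C.t)) = 1) : η = η' := by
  obtain ⟨m, hm, e, hea, heb, u, hu, hb1, hmu⟩ := C.bruhat_of_sq hw hw1 hη hηb h1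
  obtain ⟨m', hm', e', hea', heb', u', hu', hb2, hmu'⟩ := C.bruhat_of_sq hw hw1 hη' hηb' h2
  have hma := C.hUa m hm
  have hma' := C.hUa m' hm'
  have h3 : (m * e) * C.t * u = (m' * e') * C.t * u' := by rw [← hb1, ← hb2]
  obtain ⟨huu, hme⟩ := C.bruhat_unique (by rw [mul_smul, hea, hma]) (by rw [mul_smul, hea', hma'])
    hu hu' h3
  have h4 : m'⁻¹ * m = e' * e⁻¹ := by
    calc m'⁻¹ * m = m'⁻¹ * (m * e) * e⁻¹ := by group
      _ = m'⁻¹ * (m' * e') * e⁻¹ := by rw [hme]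
      _ = e' * e⁻¹ := by group
  have h5 : m'⁻¹ * m = 1 := by
    apply C.U_inter_E (C.U.mul_mem (C.U.inv_mem hm') hm)
    rw [h4, mul_smul, C.inv_smul_b heb, heb']
  have h6 : m = m' := by
    rw [inv_mul_eq_one] at h5
    exact h5.symm
  have h7 : η⁻¹ * w⁻¹ * η = η'⁻¹ * w⁻¹ * η' := by
    rw [← hmu, ← hmu', h6, huu]
  have h8 : (η' * η⁻¹) * w⁻¹ * (η' * η⁻¹)⁻¹ = w⁻¹ := by
    calc (η' * η⁻¹) * w⁻¹ * (η' * η⁻¹)⁻¹ = η' * (η⁻¹ * w⁻¹ * η) * η'⁻¹ := by group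
      _ = η' * (η'⁻¹ * w⁻¹ * η') * η'⁻¹ := by rw [h7]
      _ = w⁻¹ := by group
  have h9 : η' * η⁻¹ = 1 := by
    apply C.E_free _ _ (C.U.inv_mem hw) (by simpa using hw1) h8
    · rw [mul_smul, C.inv_smul_a hη, hη']
    · rw [mul_smul, C.inv_smul_b hηb, hηb']
  rw [mul_inv_eq_one] at h9
  exact h9.symm

/-- If `w² = 1` then no `η` works. -/
theorem sq_ne_one_of_eta {w η : G} (hw : w ∈ C.U)
    (hη : η • C.a = C.a) (hηb : η • C.b = C.b)
    (h1 : IsInv ((w * η * C.t) * (w * η * C.t))) : w * w ≠ 1 := by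
  intro hw2
  by_cases hw1 : w = 1
  · apply h1.1
    rw [hw1, one_mul]
    exact C.eta_t_sq hη hηb
  · obtain ⟨m, hm, e, hea, heb, u, hu, hb1, hmu⟩ := C.bruhat_of_sq hw hw1 hη hηb h1.2
    have hwa := C.hUa w hw
    have hwb : w • C.b ≠ C.b := fun h => hw1 (C.U_inter_E hw h)
    have hs2 : (C.t * w * C.t) * (C.t * w * C.t) = 1 := by
      calc (C.t * w * C.t) * (C.t * w * C.t) = C.t * w * (C.t * C.t) * w * C.t := by group
        _ = C.t * (w * w) * C.t := by rw [C.ht2]; group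
        _ = 1 := by rw [hw2, mul_one, C.ht2]
    have hsa : (C.t * w * C.t) • C.a ≠ C.a := by
      rw [mul_smul, mul_smul, C.hta]
      exact C.t_smul_ne hwb
    obtain ⟨v, hv, η₂, hη₂a, hη₂b, hσ⟩ := C.swap_form hs2 hsa
    have hma := C.hUa m hm
    have hva := C.hUa v hv
    have h3 : (m * e) * C.t * u = (v * η₂) * C.t * v⁻¹ := by
      rw [← hb1, hσ]
    obtain ⟨huu, hme⟩ := C.bruhat_unique (by rw [mul_smul, hea, hma]) (by rw [mul_smul, hη₂a, hva])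
      hu (C.U.inv_mem hv) h3
    have h4 : v⁻¹ * m = η₂ * e⁻¹ := by
      calc v⁻¹ * m = v⁻¹ * (m * e) * e⁻¹ := by group
        _ = v⁻¹ * (v * η₂) * e⁻¹ := by rw [hme]
        _ = η₂ * e⁻¹ := by group
    have h5 : v⁻¹ * m = 1 := by
      apply C.U_inter_E (C.U.mul_mem (C.U.inv_mem hv) hm)
      rw [h4, mul_smul, C.inv_smul_b heb, hη₂b]
    have h6 : m * u = 1 := by
      rw [huu]
      rw [inv_mul_eq_one] at h5
      rw [← h5, mul_inv_cancel]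
    rw [h6] at hmu
    apply hw1
    have h7 : w⁻¹ = η * (η⁻¹ * w⁻¹ * η) * η⁻¹ := by group
    rw [← hmu] at h7
    have h8 : w⁻¹ = 1 := by rw [h7]; group
    exact inv_eq_one.mp h8

/-- Counting: for every `w ∈ U` with `w² ≠ 1` some `η` works. -/
theorem exists_eta [Finite G] (hU4 : ∀ u ∈ C.U, (u * u) * (u * u) = 1)
    {w : G} (hw : w ∈ C.U) (hw2 : w * w ≠ 1) :
    ∃ η : G, η • C.a = C.a ∧ η • C.b = C.b ∧ IsInv ((w * η * C.t) * (w * η * C.t)) := by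
  classical
  letI := Fintype.ofFinite G
  choose! ρ hρU hρb using C.hUtr
  set W : Finset G := Finset.univ.filter (fun w => w ∈ C.U ∧ w * w ≠ 1) with hW
  set P : Finset G := Finset.univ.filter (fun w => w ∈ C.U ∧ w * w ≠ 1 ∧
    ∃ η : G, η • C.a = C.a ∧ η • C.b = C.b ∧ IsInv ((w * η * C.t) * (w * η * C.t))) with hP
  have hPW : P ⊆ W := by
    intro x hx
    simp only [hP, hW, Finset.mem_filter, Finset.mem_univ, true_and] at hx ⊢
    exact ⟨hx.1, hx.2.1⟩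
  let φ : G → G := fun u => ρ ((ρ (C.t • (u⁻¹ • C.b)))⁻¹ • (C.t • (u • C.b)))
  have key : ∀ u : G, u ∈ C.U → u * u ≠ 1 → ∃ v ∈ C.U, ∃ η : G, η • C.a = C.a ∧ η • C.b = C.b ∧
      φ u ∈ C.U ∧ v * C.t * u * C.t * v⁻¹ = φ u * η * C.t := by
    intro u hu hu2
    have hu1 : u ≠ 1 := by
      rintro rfl
      exact hu2 (one_mul 1)
    have hua := C.hUa u hu
    have hub : u • C.b ≠ C.b := fun h => hu1 (C.U_inter_E hu h)
    have hub' : u⁻¹ • C.b ≠ C.b := by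
      intro h
      apply hub
      rw [inv_smul_eq_iff] at h
      exact h.symm
    have hp : C.t • (u⁻¹ • C.b) ≠ C.a := C.t_smul_ne hub'
    obtain ⟨v, hvdef⟩ : ∃ v : G, v = (ρ (C.t • (u⁻¹ • C.b)))⁻¹ := ⟨_, rfl⟩
    have hvU : v ∈ C.U := by
      rw [hvdef]
      exact C.U.inv_mem (hρU _ hp)
    have hvb : v⁻¹ • C.b = C.t • (u⁻¹ • C.b) := by
      rw [hvdef, inv_inv]
      exact hρb _ hp
    have hφu : φ u = ρ (v • (C.t • (u • C.b))) := by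
      rw [hvdef]
    have hva := C.hUa v hvU
    have hp2 : v • (C.t • (u • C.b)) ≠ C.a := C.smul_ne_a hva (C.t_smul_ne hub)
    have hwU : φ u ∈ C.U := by
      rw [hφu]
      exact hρU _ hp2
    have hwb : φ u • C.b = v • (C.t • (u • C.b)) := by
      rw [hφu]
      exact hρb _ hp2
    have htt : ∀ x : Ω, C.t • (C.t • x) = x := by
      intro x
      rw [← mul_smul, C.ht2, one_smul]
    have hya : (v * C.t * u * C.t * v⁻¹) • C.a = v • (C.t • (u • C.b)) := by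
      rw [mul_smul, mul_smul, mul_smul, mul_smul, C.inv_smul_a hva, C.hta]
    have hyb : (v * C.t * u * C.t * v⁻¹) • C.b = C.a := by
      rw [mul_smul, mul_smul, mul_smul, mul_smul, hvb, htt, smul_inv_smul, C.htb, hva]
    have hwa := C.hUa _ hwU
    refine ⟨v, hvU, (φ u)⁻¹ * (v * C.t * u * C.t * v⁻¹) * C.t, ?_, ?_, hwU, ?_⟩
    · rw [mul_smul, mul_smul, C.hta, hyb, C.inv_smul_a hwa]
    · rw [mul_smul, mul_smul, C.htb, hya, inv_smul_eq_iff, hwb]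
    · calc v * C.t * u * C.t * v⁻¹ = v * C.t * u * C.t * v⁻¹ * (C.t * C.t) := by
            rw [C.ht2, mul_one]
        _ = φ u * ((φ u)⁻¹ * (v * C.t * u * C.t * v⁻¹) * C.t) * C.t := by group
  have hmaps : ∀ u ∈ W, φ u ∈ P := by
    intro u hu
    simp only [hW, Finset.mem_filter, Finset.mem_univ, true_and] at hu
    obtain ⟨v, hv, η, hηa, hηb, hφU, heq⟩ := key u hu.1 hu.2
    have hinv : IsInv ((φ u * η * C.t) * (φ u * η * C.t)) := by
      rw [← heq]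
      have h1 : (v * C.t * u * C.t * v⁻¹) * (v * C.t * u * C.t * v⁻¹)
          = (v * C.t) * (u * u) * (v * C.t)⁻¹ := by
        calc (v * C.t * u * C.t * v⁻¹) * (v * C.t * u * C.t * v⁻¹)
            = v * C.t * u * (C.t * C.t) * u * C.t * v⁻¹ := by group
          _ = v * C.t * (u * u) * (C.t⁻¹ * v⁻¹) := by rw [C.ht2, C.t_inv]; group
          _ = (v * C.t) * (u * u) * (v * C.t)⁻¹ := by group
      rw [h1]
      exact IsInv.conj ⟨hu.2, hU4 u hu.1⟩ _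
    simp only [hP, Finset.mem_filter, Finset.mem_univ, true_and]
    exact ⟨hφU, C.sq_ne_one_of_eta hφU hηa hηb hinv, η, hηa, hηb, hinv⟩
  have hinj : Set.InjOn φ (W : Set G) := by
    intro u₁ hu₁ u₂ hu₂ hφ
    have hu₁ := Finset.mem_coe.mp hu₁
    have hu₂ := Finset.mem_coe.mp hu₂
    simp only [hW, Finset.mem_filter, Finset.mem_univ, true_and] at hu₁ hu₂
    obtain ⟨v₁, hv₁, η₁, hη₁a, hη₁b, hφU₁, heq₁⟩ := key u₁ hu₁.1 hu₁.2
    obtain ⟨v₂, hv₂, η₂, hη₂a, hη₂b, hφU₂, heq₂⟩ := key u₂ hu₂.1 hu₂.2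
    have hP₁ := hmaps u₁ (by simp only [hW, Finset.mem_filter, Finset.mem_univ, true_and]; exact hu₁)
    simp only [hP, Finset.mem_filter, Finset.mem_univ, true_and] at hP₁
    have hw1 : φ u₁ ≠ 1 := by
      intro h
      apply hP₁.2.1
      rw [h, one_mul]
    have hi₁ : IsInv ((φ u₁ * η₁ * C.t) * (φ u₁ * η₁ * C.t)) := by
      rw [← heq₁]
      have h1 : (v₁ * C.t * u₁ * C.t * v₁⁻¹) * (v₁ * C.t * u₁ * C.t * v₁⁻¹)
          = (v₁ * C.t) * (u₁ * u₁) * (v₁ * C.t)⁻¹ := by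
        calc (v₁ * C.t * u₁ * C.t * v₁⁻¹) * (v₁ * C.t * u₁ * C.t * v₁⁻¹)
            = v₁ * C.t * u₁ * (C.t * C.t) * u₁ * C.t * v₁⁻¹ := by group
          _ = v₁ * C.t * (u₁ * u₁) * (C.t⁻¹ * v₁⁻¹) := by rw [C.ht2, C.t_inv]; group
          _ = (v₁ * C.t) * (u₁ * u₁) * (v₁ * C.t)⁻¹ := by group
      rw [h1]
      exact IsInv.conj ⟨hu₁.2, hU4 u₁ hu₁.1⟩ _
    have hi₂ : IsInv ((φ u₁ * η₂ * C.t) * (φ u₁ * η₂ * C.t)) := by
      rw [hφ, ← heq₂]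
      have h1 : (v₂ * C.t * u₂ * C.t * v₂⁻¹) * (v₂ * C.t * u₂ * C.t * v₂⁻¹)
          = (v₂ * C.t) * (u₂ * u₂) * (v₂ * C.t)⁻¹ := by
        calc (v₂ * C.t * u₂ * C.t * v₂⁻¹) * (v₂ * C.t * u₂ * C.t * v₂⁻¹)
            = v₂ * C.t * u₂ * (C.t * C.t) * u₂ * C.t * v₂⁻¹ := by group
          _ = v₂ * C.t * (u₂ * u₂) * (C.t⁻¹ * v₂⁻¹) := by rw [C.ht2, C.t_inv]; group
          _ = (v₂ * C.t) * (u₂ * u₂) * (v₂ * C.t)⁻¹ := by group
      rw [h1]
      exact IsInv.conj ⟨hu₂.2, hU4 u₂ hu₂.1⟩ _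
    have hηeq : η₁ = η₂ := C.eta_unique hφU₁ hw1 hη₁a hη₁b hη₂a hη₂b hi₁.2 hi₂.2
    have hyy : v₁ * C.t * u₁ * C.t * v₁⁻¹ = v₂ * C.t * u₂ * C.t * v₂⁻¹ := by
      rw [heq₁, heq₂, hφ, hηeq]
    have hu₂1 : u₂ ≠ 1 := by
      rintro rfl
      exact hu₂.2 (one_mul 1)
    -- g = t v₂⁻¹ v₁ t conjugates u₁ to u₂
    have hconj : u₂ * (C.t * v₂⁻¹ * v₁ * C.t) = (C.t * v₂⁻¹ * v₁ * C.t) * u₁ := by
      have e1 : u₂ = C.t * v₂⁻¹ * (v₂ * C.t * u₂ * C.t * v₂⁻¹) * v₂ * C.t := by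
        calc u₂ = (C.t * C.t) * u₂ * (C.t * C.t) := by rw [C.ht2, one_mul, mul_one]
          _ = C.t * v₂⁻¹ * (v₂ * C.t * u₂ * C.t * v₂⁻¹) * v₂ * C.t := by group
      rw [← hyy] at e1
      calc u₂ * (C.t * v₂⁻¹ * v₁ * C.t)
          = (C.t * v₂⁻¹ * (v₁ * C.t * u₁ * C.t * v₁⁻¹) * v₂ * C.t) * (C.t * v₂⁻¹ * v₁ * C.t) := by
            rw [← e1]
        _ = C.t * v₂⁻¹ * v₁ * C.t * u₁ * C.t * v₁⁻¹ * v₂ * (C.t * C.t) * v₂⁻¹ * v₁ * C.t := by group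
        _ = C.t * v₂⁻¹ * v₁ * C.t * u₁ * C.t * v₁⁻¹ * v₂ * 1 * v₂⁻¹ * v₁ * C.t := by rw [C.ht2]
        _ = C.t * v₂⁻¹ * v₁ * C.t * u₁ * (C.t * C.t) := by group
        _ = (C.t * v₂⁻¹ * v₁ * C.t) * u₁ := by rw [C.ht2, mul_one]
    have hga : (C.t * v₂⁻¹ * v₁ * C.t) • C.a = C.a := by
      apply C.fix_only_a hu₂.1 hu₂1
      rw [← mul_smul, hconj, mul_smul, C.hUa u₁ hu₁.1]
    have hvv : (v₂⁻¹ * v₁) • C.b = C.b := by
      have h1 : C.t • ((C.t * v₂⁻¹ * v₁ * C.t) • C.a) = C.t • C.a := by rw [hga]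
      rw [← mul_smul] at h1
      have h2 : C.t * (C.t * v₂⁻¹ * v₁ * C.t) = (C.t * C.t) * (v₂⁻¹ * v₁) * C.t := by group
      rw [h2, C.ht2, one_mul, mul_smul, C.hta] at h1
      exact h1
    have hv12 : v₂⁻¹ * v₁ = 1 := C.U_inter_E (C.U.mul_mem (C.U.inv_mem hv₂) hv₁) hvv
    have hv : v₁ = v₂ := by
      rw [inv_mul_eq_one] at hv12
      exact hv12.symm
    subst hv
    have h3 : v₁ * C.t * u₁ * C.t = v₁ * C.t * u₂ * C.t := mul_right_cancel hyy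
    have h4 : v₁ * C.t * u₁ = v₁ * C.t * u₂ := mul_right_cancel h3
    exact mul_left_cancel h4
  have hcard : W.card ≤ P.card := Finset.card_le_card_of_injOn φ hmaps hinj
  have hPWeq : P = W := Finset.eq_of_subset_of_card_le hPW hcard
  have hwW : w ∈ W := by
    simp only [hW, Finset.mem_filter, Finset.mem_univ, true_and]
    exact ⟨hw, hw2⟩
  rw [← hPWeq] at hwW
  simp only [hP, Finset.mem_filter, Finset.mem_univ, true_and] at hwW
  exact hwW.2.2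

/-- For `u ∈ U` of order four there are at least `|U|` involutions `τ` moving `a` with
`(u τ)²` an involution: one for each `v ∈ U`, mapping `a` to `v • b`. -/
theorem exists_tau [Finite G] (hU4 : ∀ u ∈ C.U, (u * u) * (u * u) = 1)
    {u : G} (hu : u ∈ C.U) (hu2 : u * u ≠ 1) :
    ∃ f : G → G, ∀ v ∈ C.U, (f v) * (f v) = 1 ∧ (f v) • C.a = v • C.b ∧
      IsInv ((u * f v) * (u * f v)) := by
  have h : ∀ v : G, ∃ τ : G, v ∈ C.U → τ * τ = 1 ∧ τ • C.a = v • C.b ∧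
      IsInv ((u * τ) * (u * τ)) := by
    intro v
    by_cases hv : v ∈ C.U
    · have hwU : v⁻¹ * u * v ∈ C.U := C.U.mul_mem (C.U.mul_mem (C.U.inv_mem hv) hu) hv
      have hw2 : (v⁻¹ * u * v) * (v⁻¹ * u * v) ≠ 1 := by
        intro h1
        apply hu2
        have h2 : u * u = v * ((v⁻¹ * u * v) * (v⁻¹ * u * v)) * v⁻¹ := by group
        rw [h2, h1]; group
      obtain ⟨η, hηa, hηb, hinv⟩ := C.exists_eta hU4 hwU hw2
      refine ⟨v * η * C.t * v⁻¹, fun _ => ⟨?_, ?_, ?_⟩⟩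
      · calc (v * η * C.t * v⁻¹) * (v * η * C.t * v⁻¹) = v * ((η * C.t) * (η * C.t)) * v⁻¹ := by
              group
          _ = 1 := by rw [C.eta_t_sq hηa hηb]; group
      · rw [mul_smul, mul_smul, mul_smul, C.inv_smul_a (C.hUa v hv), C.hta, hηb]
      · have h3 : (u * (v * η * C.t * v⁻¹)) * (u * (v * η * C.t * v⁻¹))
            = v * ((v⁻¹ * u * v * η * C.t) * (v⁻¹ * u * v * η * C.t)) * v⁻¹ := by group
        rw [h3]
        exact IsInv.conj hinv v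
    · exact ⟨1, fun h => absurd h hv⟩
  choose f hf using h
  exact ⟨f, hf⟩

end ZT0

end Cfsg.Agent.Helper66.SuzOrd
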