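import Mathlib

/-!
# Suzuki's order theorem for Zassenhaus groups: the basic context

`ZT0 G Ω` packages a doubly transitive "ZT" configuration: a point `a`, a second point `b`,
a subgroup `U` of the stabiliser of `a`, normal in it and regular on the other points, an
involution `t` interchanging `a` and `b` and inverting the two point stabiliser, which has no
involutions; and only the identity fixes three points.
-/

set_option autoImplicit false

namespace Cfsg.Agent.Helper66.SuzOrd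

open MulAction

/-- Basic ZT context. -/
structure ZT0 (G : Type*) [Group G] (Ω : Type*) [MulAction G Ω] where
  a : Ω
  b : Ω
  U : Subgroup G
  t : G
  hab : a ≠ b
  h3 : ∀ (g : G) (x y z : Ω), x ≠ y → x ≠ z → y ≠ z → g • x = x → g • y = y → g • z = z → g = 1
  hUa : ∀ u ∈ U, u • a = a
  hUtr : ∀ x : Ω, x ≠ a → ∃ u ∈ U, u • b = x
  hUfree : ∀ u ∈ U, ∀ x : Ω, x ≠ a → u • x = x → u = 1
  hUn : ∀ g : G, g • a = a → ∀ u ∈ U, g * u * g⁻¹ ∈ U
  ht2 : t * t = 1
  hta : t • a = b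
  htb : t • b = a
  htinv : ∀ h : G, h • a = a → h • b = b → t * h * t = h⁻¹
  hEinv : ∀ h : G, h • a = a → h • b = b → h * h = 1 → h = 1

namespace ZT0

variable {G : Type*} [Group G] {Ω : Type*} [MulAction G Ω] (C : ZT0 G Ω)

theorem inv_smul_a {g : G} (hg : g • C.a = C.a) : g⁻¹ • C.a = C.a := by
  rw [inv_smul_eq_iff, hg]

theorem inv_smul_b {g : G} (hg : g • C.b = C.b) : g⁻¹ • C.b = C.b := by
  rw [inv_smul_eq_iff, hg]

theorem smul_ne_a {g : G} (hg : g • C.a = C.a) {x : Ω} (hx : x ≠ C.a) : g • x ≠ C.a := by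
  intro h
  apply hx
  have h1 : g • x = g • C.a := by rw [h, hg]
  exact smul_left_cancel g h1

theorem t_inv : C.t⁻¹ = C.t := by
  rw [inv_eq_iff_mul_eq_one]
  exact C.ht2

theorem U_inj {u v : G} (hu : u ∈ C.U) (hv : v ∈ C.U) {x : Ω} (hx : x ≠ C.a)
    (h : u • x = v • x) : u = v := by
  have h1 : (v⁻¹ * u) • x = x := by rw [mul_smul, h, inv_smul_smul]
  have h2 := C.hUfree _ (C.U.mul_mem (C.U.inv_mem hv) hu) x hx h1
  rw [inv_mul_eq_one] at h2
  exact h2.symm

theorem fix_only_a {u : G} (hu : u ∈ C.U) (hu1 : u ≠ 1) {x : Ω} (hx : u • x = x) : x = C.a := by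
  by_contra h
  exact hu1 (C.hUfree u hu x h hx)

theorem commute_fix {g u : G} (hu : u ∈ C.U) (hu1 : u ≠ 1) (h : g * u = u * g) :
    g • C.a = C.a := by
  apply C.fix_only_a hu hu1
  rw [← mul_smul, ← h, mul_smul, C.hUa u hu]

theorem t_mul {h : G} (ha : h • C.a = C.a) (hb : h • C.b = C.b) : C.t * h = h⁻¹ * C.t := by
  have h1 := C.htinv h ha hb
  have h2 : C.t * h = C.t * h * C.t * C.t := by rw [mul_assoc (C.t * h), C.ht2, mul_one]
  rw [h2, h1]

theorem t_mul_inv {h : G} (ha : h • C.a = C.a) (hb : h • C.b = C.b) : C.t * h⁻¹ = h * C.t := by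
  have h1 := C.t_mul (C.inv_smul_a ha) (C.inv_smul_b hb)
  rw [inv_inv] at h1
  exact h1

theorem eta_t_sq {h : G} (ha : h • C.a = C.a) (hb : h • C.b = C.b) :
    (h * C.t) * (h * C.t) = 1 := by
  have h1 := C.htinv h ha hb
  calc (h * C.t) * (h * C.t) = h * (C.t * h * C.t) := by group
    _ = 1 := by rw [h1, mul_inv_cancel]

theorem conj_mem {g u : G} (hg : g • C.a = C.a) (hu : u ∈ C.U) : g * u * g⁻¹ ∈ C.U :=
  C.hUn g hg u hu

theorem conj_mem' {g u : G} (hg : g • C.a = C.a) (hu : u ∈ C.U) : g⁻¹ * u * g ∈ C.U := by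
  have h := C.hUn g⁻¹ (C.inv_smul_a hg) u hu
  rw [inv_inv] at h
  exact h

/-- Decomposition of the stabiliser of `a`. -/
theorem decomp {g : G} (hg : g • C.a = C.a) :
    ∃ u ∈ C.U, ∃ h : G, h • C.a = C.a ∧ h • C.b = C.b ∧ g = u * h := by
  obtain ⟨u, hu, hub⟩ := C.hUtr (g • C.b) (C.smul_ne_a hg C.hab.symm)
  refine ⟨u, hu, u⁻¹ * g, ?_, ?_, by group⟩
  · rw [mul_smul, hg, inv_smul_eq_iff, C.hUa u hu]
  · rw [mul_smul, inv_smul_eq_iff, hub]

theorem U_inter_E {u : G} (hu : u ∈ C.U) (hb : u • C.b = C.b) : u = 1 :=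
  C.hUfree u hu C.b C.hab.symm hb

/-- Involutions of the point stabiliser lie in `U`. -/
theorem inv_mem_U {g : G} (hg : g • C.a = C.a) (hg2 : g * g = 1) : g ∈ C.U := by
  obtain ⟨u, hu, h, ha, hb, rfl⟩ := C.decomp hg
  have h1 : h * h = (h * u⁻¹ * h⁻¹) * u⁻¹ := by
    have h2 : h * u * h = u⁻¹ := by
      have h3 : u * (h * u * h) = 1 := by
        calc u * (h * u * h) = (u * h) * (u * h) := by group
          _ = 1 := hg2
      exact (eq_inv_of_mul_eq_one_right h3)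
    calc h * h = (h * u⁻¹ * h⁻¹) * (h * u * h) := by group
      _ = (h * u⁻¹ * h⁻¹) * u⁻¹ := by rw [h2]
  have h4 : h * h ∈ C.U := by
    rw [h1]
    exact C.U.mul_mem (C.conj_mem ha (C.U.inv_mem hu)) (C.U.inv_mem hu)
  have h5 : h * h = 1 := by
    apply C.U_inter_E h4
    rw [mul_smul, hb, hb]
  have h6 := C.hEinv h ha hb h5
  rw [h6, mul_one]
  exact hu

/-- An involution moving `a` is a `U`-conjugate of an involution `η t`. -/
theorem swap_form {s : G} (hs2 : s * s = 1) (hsa : s • C.a ≠ C.a) :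
    ∃ v ∈ C.U, ∃ η : G, η • C.a = C.a ∧ η • C.b = C.b ∧ s = v * η * C.t * v⁻¹ := by
  obtain ⟨v, hv, hvb⟩ := C.hUtr (s • C.a) hsa
  have hva := C.hUa v hv
  have hsinv : s⁻¹ = s := by
    rw [inv_eq_iff_mul_eq_one]
    exact hs2
  have h1 : (v⁻¹ * s * v) • C.a = C.b := by
    rw [mul_smul, mul_smul, hva, inv_smul_eq_iff, hvb]
  have h2 : (v⁻¹ * s * v) • C.b = C.a := by
    have h3 : (v⁻¹ * s * v) • ((v⁻¹ * s * v) • C.a) = C.a := by
      rw [← mul_smul]
      have : (v⁻¹ * s * v) * (v⁻¹ * s * v) = 1 := by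
        calc (v⁻¹ * s * v) * (v⁻¹ * s * v) = v⁻¹ * (s * s) * v := by group
          _ = 1 := by rw [hs2]; group
      rw [this, one_smul]
    rw [h1] at h3
    exact h3
  refine ⟨v, hv, v⁻¹ * s * v * C.t, ?_, ?_, ?_⟩
  · rw [mul_smul, C.hta, h2]
  · rw [mul_smul, C.htb, h1]
  · calc s = v * (v⁻¹ * s * v * (C.t * C.t)) * v⁻¹ := by rw [C.ht2]; group
      _ = v * (v⁻¹ * s * v * C.t) * C.t * v⁻¹ := by group

/-- Uniqueness in the Bruhat decomposition. -/
theorem bruhat_unique {x x' u u' : G} (hx : x • C.a = C.a) (hx' : x' • C.a = C.a)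
    (hu : u ∈ C.U) (hu' : u' ∈ C.U) (h : x * C.t * u = x' * C.t * u') : u = u' ∧ x = x' := by
  have h1 : (x * C.t * u)⁻¹ • C.a = u⁻¹ • C.b := by
    rw [mul_inv_rev, mul_inv_rev, mul_smul, mul_smul, C.inv_smul_a hx, C.t_inv, C.hta]
  have h2 : (x' * C.t * u')⁻¹ • C.a = u'⁻¹ • C.b := by
    rw [mul_inv_rev, mul_inv_rev, mul_smul, mul_smul, C.inv_smul_a hx', C.t_inv, C.hta]
  rw [h] at h1
  rw [h1] at h2
  have h3 : u⁻¹ = u'⁻¹ := C.U_inj (C.U.inv_mem hu) (C.U.inv_mem hu') C.hab.symm h2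
  have h4 : u = u' := inv_injective h3
  refine ⟨h4, ?_⟩
  subst h4
  have h5 : x * C.t = x' * C.t := mul_right_cancel h
  exact mul_right_cancel h5

/-- The two point stabiliser acts freely on `U` by conjugation. -/
theorem E_free {h u : G} (ha : h • C.a = C.a) (hb : h • C.b = C.b) (hu : u ∈ C.U) (hu1 : u ≠ 1)
    (hc : h * u * h⁻¹ = u) : h = 1 := by
  have h1 : h • (u • C.b) = u • C.b := by
    have h2 : h * u = u * h := by
      calc h * u = (h * u * h⁻¹) * h := by group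
        _ = u * h := by rw [hc]
    rw [← mul_smul, h2, mul_smul, hb]
  have h3 : u • C.b ≠ C.a := C.smul_ne_a (C.hUa u hu) C.hab.symm
  have h4 : u • C.b ≠ C.b := fun h => hu1 (C.U_inter_E hu h)
  exact C.h3 h C.a C.b (u • C.b) C.hab h3.symm h4.symm ha hb h1

theorem t_smul_ne {x : Ω} (hx : x ≠ C.b) : C.t • x ≠ C.a := by
  intro h
  apply hx
  have h1 : C.t • x = C.t • C.b := by rw [h, C.htb]
  exact smul_left_cancel _ h1

end ZT0

end Cfsg.Agent.Helper66.SuzOrd
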