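import Cfsg.Agent.Helper66.SuzMain

/-!
# Suzuki's order theorem: involutions of `U`, the element of order five

* `ZT0.card_inv_le`, `ZT0.E_trans_inv`: the two point stabiliser is transitive on the involutions
  of `U`.
* `ZT.dichotomy`: if `t` fixes a point then either `t` fixes `z₀ • b` for an involution `z₀` of
  `U`, or `5` divides the degree.
* `ZT.caseI_dvd`: in the first case `#Ω₁(U) + 1` divides the order of the group.
-/

set_option autoImplicit false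

namespace Cfsg.Agent.Helper66.SuzOrd

open MulAction

namespace ZT0

variable {G : Type*} [Group G] {Ω : Type*} [MulAction G Ω] (C : ZT0 G Ω)

theorem t_ne_one : C.t ≠ 1 := by
  intro h
  have h1 := C.hta
  rw [h, one_smul] at h1
  exact C.hab h1

theorem t_not_fix : C.t • C.a ≠ C.a := by
  rw [C.hta]
  exact C.hab.symm

/-- An element of the stabiliser of `a` inverted by an element of `U` lies in `U`. -/
theorem mem_U_of_inverted {g z : G} (hg : g • C.a = C.a) (hz : z ∈ C.U)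
    (hinv : z * g * z⁻¹ = g⁻¹) : g ∈ C.U := by
  obtain ⟨u, hu, h, ha, hb, rfl⟩ := C.decomp hg
  have h1 : h⁻¹ * h⁻¹ = (z * u) * (h * (z⁻¹ * u) * h⁻¹) := by
    have h2 : h⁻¹ = z * (u * h) * z⁻¹ * u := by
      rw [hinv]
      group
    calc h⁻¹ * h⁻¹ = (z * (u * h) * z⁻¹ * u) * h⁻¹ := by rw [← h2]
      _ = (z * u) * (h * (z⁻¹ * u) * h⁻¹) := by group
  have h3 : h⁻¹ * h⁻¹ ∈ C.U := by
    rw [h1]
    exact C.U.mul_mem (C.U.mul_mem hz hu) (C.conj_mem ha (C.U.mul_mem (C.U.inv_mem hz) hu))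
  have h4 : h⁻¹ * h⁻¹ = 1 := by
    apply C.U_inter_E h3
    rw [mul_smul, C.inv_smul_b hb, C.inv_smul_b hb]
  have h5 : h⁻¹ = 1 := C.hEinv h⁻¹ (C.inv_smul_a ha) (C.inv_smul_b hb) h4
  rw [inv_eq_one] at h5
  rw [h5, mul_one]
  exact hu

/-- Bruhat form of `t z t` for an involution `z` of `U`. -/
theorem inv_eta {z : G} (hz : z ∈ C.U) (hz1 : z ≠ 1) (hz2 : z * z = 1) :
    ∃ v ∈ C.U, ∃ η : G, η • C.a = C.a ∧ η • C.b = C.b ∧
      C.t * z * C.t = v * η * C.t * v⁻¹ := by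
  apply C.swap_form
  · calc (C.t * z * C.t) * (C.t * z * C.t) = C.t * z * (C.t * C.t) * z * C.t := by group
      _ = C.t * (z * z) * C.t := by rw [C.ht2]; group
      _ = 1 := by rw [hz2, mul_one, C.ht2]
  · rw [mul_smul, mul_smul, C.hta]
    apply C.t_smul_ne
    intro h
    exact hz1 (C.U_inter_E hz h)

theorem inv_eta_inj {z z' v v' η : G} (hz : z ∈ C.U) (hz' : z' ∈ C.U)
    (hz1' : z' ≠ 1) (hv : v ∈ C.U) (hv' : v' ∈ C.U)
    (h : C.t * z * C.t = v * η * C.t * v⁻¹) (h' : C.t * z' * C.t = v' * η * C.t * v'⁻¹) :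
    z = z' := by
  have hx : v' * v⁻¹ ∈ C.U := C.U.mul_mem hv' (C.U.inv_mem hv)
  have ht : (C.t * (v' * v⁻¹) * C.t)⁻¹ = C.t * (v' * v⁻¹)⁻¹ * C.t := by
    rw [mul_inv_rev, mul_inv_rev, C.t_inv]
    group
  have h1 : z' = (C.t * (v' * v⁻¹) * C.t) * z * (C.t * (v' * v⁻¹) * C.t)⁻¹ := by
    have e1 : C.t * z' * C.t = (v' * v⁻¹) * (C.t * z * C.t) * (v' * v⁻¹)⁻¹ := by
      rw [h', h]
      group
    calc z' = (C.t * C.t) * z' * (C.t * C.t) := by rw [C.ht2, one_mul, mul_one]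
      _ = C.t * (C.t * z' * C.t) * C.t := by group
      _ = C.t * ((v' * v⁻¹) * (C.t * z * C.t) * (v' * v⁻¹)⁻¹) * C.t := by rw [e1]
      _ = (C.t * (v' * v⁻¹) * C.t) * z * (C.t * (v' * v⁻¹)⁻¹ * C.t) := by group
      _ = (C.t * (v' * v⁻¹) * C.t) * z * (C.t * (v' * v⁻¹) * C.t)⁻¹ := by rw [ht]
  have h2 : z' • ((C.t * (v' * v⁻¹) * C.t) • C.a) = (C.t * (v' * v⁻¹) * C.t) • C.a := by
    rw [← mul_smul]
    have e2 : z' * (C.t * (v' * v⁻¹) * C.t) = (C.t * (v' * v⁻¹) * C.t) * z := by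
      rw [h1]
      group
    rw [e2, mul_smul, C.hUa z hz]
  have h3 : (C.t * (v' * v⁻¹) * C.t) • C.a = C.a := C.fix_only_a hz' hz1' h2
  have h4 : (v' * v⁻¹) • C.b = C.b := by
    by_contra hne
    apply C.t_smul_ne hne
    rw [mul_smul, mul_smul, C.hta] at h3
    exact h3
  have h5 : v' * v⁻¹ = 1 := C.U_inter_E hx h4
  have h6 : v' = v := by
    rw [mul_inv_eq_one] at h5
    exact h5
  rw [h6, ← h] at h'
  have h7 : C.t * z' = C.t * z := mul_right_cancel h'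
  exact (mul_left_cancel h7).symm

/-- There are at most `|E|` involutions in `U`. -/
theorem card_inv_le [Finite G] :
    Set.ncard {z : G | z ∈ C.U ∧ z ≠ 1 ∧ z * z = 1} ≤
      Set.ncard {h : G | h • C.a = C.a ∧ h • C.b = C.b} := by
  classical
  have key : ∀ z : G, ∃ η : G, (z ∈ C.U ∧ z ≠ 1 ∧ z * z = 1) →
      (η • C.a = C.a ∧ η • C.b = C.b ∧ ∃ v ∈ C.U, C.t * z * C.t = v * η * C.t * v⁻¹) := by
    intro z
    by_cases hz : z ∈ C.U ∧ z ≠ 1 ∧ z * z = 1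
    · obtain ⟨v, hv, η, ha, hb, e⟩ := C.inv_eta hz.1 hz.2.1 hz.2.2
      exact ⟨η, fun _ => ⟨ha, hb, v, hv, e⟩⟩
    · exact ⟨1, fun h => absurd h hz⟩
  choose f hf using key
  apply Set.ncard_le_ncard_of_injOn f
  · intro z hz
    exact ⟨(hf z hz).1, (hf z hz).2.1⟩
  · intro z hz z' hz' e
    obtain ⟨_, _, v, hv, e1⟩ := hf z hz
    obtain ⟨_, _, v', hv', e2⟩ := hf z' hz'
    rw [← e] at e2
    exact C.inv_eta_inj hz.1 hz'.1 hz'.2.1 hv hv' e1 e2

theorem conj_image_eq [Finite G] {z : G} (hz : z ∈ C.U) (hz1 : z ≠ 1) (hz2 : z * z = 1) :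
    (fun h => h * z * h⁻¹) '' {h : G | h • C.a = C.a ∧ h • C.b = C.b} =
        {z : G | z ∈ C.U ∧ z ≠ 1 ∧ z * z = 1} ∧
      Set.ncard {z : G | z ∈ C.U ∧ z ≠ 1 ∧ z * z = 1} =
        Set.ncard {h : G | h • C.a = C.a ∧ h • C.b = C.b} := by
  have hinj : Set.InjOn (fun h => h * z * h⁻¹) {h : G | h • C.a = C.a ∧ h • C.b = C.b} := by
    intro h hh h' hh' e
    have e1 : (h'⁻¹ * h) * z * (h'⁻¹ * h)⁻¹ = z := by
      calc (h'⁻¹ * h) * z * (h'⁻¹ * h)⁻¹ = h'⁻¹ * (h * z * h⁻¹) * h' := by group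
        _ = h'⁻¹ * (h' * z * h'⁻¹) * h' := by rw [show h * z * h⁻¹ = h' * z * h'⁻¹ from e]
        _ = z := by group
    have e2 := C.E_free (h := h'⁻¹ * h) (by rw [mul_smul, hh.1, C.inv_smul_a hh'.1])
      (by rw [mul_smul, hh.2, C.inv_smul_b hh'.2]) hz hz1 e1
    exact (inv_mul_eq_one.mp e2).symm
  have hsub : (fun h => h * z * h⁻¹) '' {h : G | h • C.a = C.a ∧ h • C.b = C.b} ⊆
      {z : G | z ∈ C.U ∧ z ≠ 1 ∧ z * z = 1} := by
    rintro _ ⟨h, hh, rfl⟩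
    have := IsInv.conj (⟨hz1, hz2⟩ : IsInv z) h
    exact ⟨C.conj_mem hh.1 hz, this.1, this.2⟩
  have hcard : Set.ncard {z : G | z ∈ C.U ∧ z ≠ 1 ∧ z * z = 1} ≤
      ((fun h => h * z * h⁻¹) '' {h : G | h • C.a = C.a ∧ h • C.b = C.b}).ncard := by
    rw [Set.InjOn.ncard_image hinj]
    exact C.card_inv_le
  have heq := Set.eq_of_subset_of_ncard_le hsub hcard (Set.toFinite _)
  refine ⟨heq, ?_⟩
  rw [← heq, Set.InjOn.ncard_image hinj]

/-- The two point stabiliser is transitive on the involutions of `U`. -/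
theorem E_trans_inv [Finite G] {z z' : G} (hz : z ∈ C.U) (hz1 : z ≠ 1) (hz2 : z * z = 1)
    (hz' : z' ∈ C.U) (hz1' : z' ≠ 1) (hz2' : z' * z' = 1) :
    ∃ h : G, h • C.a = C.a ∧ h • C.b = C.b ∧ h * z * h⁻¹ = z' := by
  have h1 : z' ∈ {z : G | z ∈ C.U ∧ z ≠ 1 ∧ z * z = 1} := ⟨hz', hz1', hz2'⟩
  rw [← (C.conj_image_eq hz hz1 hz2).1] at h1
  obtain ⟨h, hh, e⟩ := h1
  exact ⟨h, hh.1, hh.2, e⟩

end ZT0

namespace ZT

variable {G : Type*} [Group G] {Ω : Type*} [MulAction G Ω] (C : ZT G Ω)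

/-- The fixed point free element of order five. -/
theorem five_dvd [Finite Ω] {r z₀ : G} (hr : r ∈ C.U) (hrr : r * r = z₀) (hz₀1 : z₀ ≠ 1)
    (hz₀2 : z₀ * z₀ = 1)
    (hts : C.t * z₀ * C.t = r * C.t * r⁻¹)
    (hg : z₀ * C.t * z₀ * C.t = C.t * z₀ * C.t * z₀ * C.t * z₀) : 5 ∣ Nat.card Ω := by
  have hz₀U : z₀ ∈ C.U := by
    rw [← hrr]
    exact C.U.mul_mem hr hr
  have hz₀a : z₀ • C.a = C.a := C.hUa z₀ hz₀U
  have hz₀inv : z₀⁻¹ = z₀ := by
    rw [inv_eq_iff_mul_eq_one]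
    exact hz₀2
  have hrz : r * z₀ * r⁻¹ = z₀ := by
    have h1 := C.hinvc z₀ hz₀U hz₀2 r hr
    calc r * z₀ * r⁻¹ = (z₀ * r) * r⁻¹ := by rw [h1]
      _ = z₀ := by group
  obtain ⟨y, hy⟩ : ∃ y, y = C.t * z₀ := ⟨_, rfl⟩
  have hyinv : y⁻¹ = z₀ * C.t := by
    rw [hy, mul_inv_rev, hz₀inv, C.t_inv]
  have hy3 : y * y * y = y⁻¹ * y⁻¹ := by
    rw [hyinv, hy]
    calc C.t * z₀ * (C.t * z₀) * (C.t * z₀) = C.t * z₀ * C.t * z₀ * C.t * z₀ := by group
      _ = z₀ * C.t * z₀ * C.t := hg.symm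
      _ = z₀ * C.t * (z₀ * C.t) := by group
  have hy5 : y ^ 5 = 1 := by
    calc y ^ 5 = y * y * (y * y * y) := by
          rw [show (5 : ℕ) = 2 + 3 from rfl, pow_add, pow_two, pow_succ, pow_two]
      _ = y * y * (y⁻¹ * y⁻¹) := by rw [hy3]
      _ = 1 := by group
  have hy1 : y ≠ 1 := by
    intro h
    rw [hy] at h
    have h2 : C.t = z₀ := by
      rw [← hz₀inv]
      exact eq_inv_of_mul_eq_one_left h
    apply C.t_not_fix
    rw [h2]
    exact hz₀a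
  have hry : r * y * r⁻¹ = y * y := by
    rw [hy]
    calc r * (C.t * z₀) * r⁻¹ = (r * C.t * r⁻¹) * (r * z₀ * r⁻¹) := by group
      _ = (C.t * z₀ * C.t) * z₀ := by rw [hrz, ← hts]
      _ = C.t * z₀ * (C.t * z₀) := by group
  have hya : y • C.a ≠ C.a := by
    rw [hy, mul_smul, hz₀a]
    exact C.t_not_fix
  have hfixr : ∀ x : Ω, y • x = x → y • (r • x) = r • x := by
    intro x hx
    have h1 : (y * y) • (r • x) = r • x := by
      rw [← hry, mul_smul, mul_smul, inv_smul_smul, hx]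
    have h2 : y = (y * y) * (y * y) * (y * y) := by
      calc y = y * 1 := by group
        _ = y * y ^ 5 := by rw [hy5]
        _ = (y * y) * (y * y) * (y * y) := by
          rw [show (5 : ℕ) = 2 + 3 from rfl, pow_add, pow_two, pow_succ, pow_two]
          simp only [mul_assoc]
    calc y • (r • x) = ((y * y) * (y * y) * (y * y)) • (r • x) := by rw [← h2]
      _ = r • x := by rw [mul_smul, mul_smul, h1, h1, h1]
  have hnofix : ∀ x : Ω, y • x ≠ x := by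
    intro x hx
    have hxa : x ≠ C.a := by
      intro h
      rw [h] at hx
      exact hya hx
    have hr1 : r ≠ 1 := by
      intro h
      rw [h, one_mul] at hrr
      exact hz₀1 hrr.symm
    have hrr1 : r * r ≠ 1 := by
      rw [hrr]
      exact hz₀1
    have hx1 : r • x ≠ x := fun h => hr1 (C.hUfree r hr x hxa h)
    have hx2 : r • (r • x) ≠ x := by
      intro h
      rw [← mul_smul] at h
      exact hrr1 (C.hUfree (r * r) (C.U.mul_mem hr hr) x hxa h)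
    have hx3 : r • (r • x) ≠ r • x := fun h => hx1 (smul_left_cancel r h)
    exact hy1 (C.h3 y x (r • x) (r • (r • x)) hx1.symm hx2.symm hx3.symm hx (hfixr x hx)
      (hfixr _ (hfixr x hx)))
  have : Fact (Nat.Prime 5) := ⟨by norm_num⟩
  have hord : orderOf y = 5 := orderOf_eq_prime hy5 hy1
  have hP : IsPGroup 5 (Subgroup.zpowers y) := by
    apply IsPGroup.of_card (n := 1)
    rw [Nat.card_zpowers, hord, pow_one]
  have hmod := hP.card_modEq_card_fixedPoints Ω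
  have hempty : IsEmpty (fixedPoints (Subgroup.zpowers y) Ω) := by
    constructor
    rintro ⟨x, hx⟩
    exact hnofix x (hx ⟨y, Subgroup.mem_zpowers y⟩)
  have h0 : Nat.card (fixedPoints (Subgroup.zpowers y) Ω) = 0 := Nat.card_of_isEmpty
  rw [h0] at hmod
  exact (Nat.modEq_zero_iff_dvd).mp hmod

/-- If `t` fixes a point, then either it fixes `z₀ • b` for an involution `z₀` of `U`, or
`5` divides the degree. -/
theorem dichotomy [Finite Ω] {c : Ω} (hc : C.t • c = c) :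
    (∃ z₀ ∈ C.U, z₀ ≠ 1 ∧ z₀ * z₀ = 1 ∧ C.t • (z₀ • C.b) = z₀ • C.b) ∨ 5 ∣ Nat.card Ω := by
  have hca : c ≠ C.a := by
    intro h
    rw [h, C.hta] at hc
    exact C.hab hc.symm
  have hcb : c ≠ C.b := by
    intro h
    rw [h, C.htb] at hc
    exact C.hab hc
  obtain ⟨r₀, hr₀, hr₀b⟩ := C.hUtr c hca
  obtain ⟨r, hrdef⟩ : ∃ r, r = r₀⁻¹ := ⟨_, rfl⟩
  have hr : r ∈ C.U := by
    rw [hrdef]
    exact C.U.inv_mem hr₀
  have hrc : r • c = C.b := by
    rw [hrdef, inv_smul_eq_iff, hr₀b]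
  have hsb : (r * C.t * r⁻¹) • C.b = C.b := by
    rw [mul_smul, mul_smul, ← hrc, inv_smul_smul, hc]
  have hs2 : (r * C.t * r⁻¹) * (r * C.t * r⁻¹) = 1 := by
    calc (r * C.t * r⁻¹) * (r * C.t * r⁻¹) = r * (C.t * C.t) * r⁻¹ := by group
      _ = 1 := by rw [C.ht2]; group
  obtain ⟨z₀, hz₀def⟩ : ∃ z₀, z₀ = C.t * (r * C.t * r⁻¹) * C.t := ⟨_, rfl⟩
  have hz₀a : z₀ • C.a = C.a := by
    rw [hz₀def, mul_smul, mul_smul, C.hta, hsb, C.htb]
  have hz₀2 : z₀ * z₀ = 1 := by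
    rw [hz₀def]
    calc C.t * (r * C.t * r⁻¹) * C.t * (C.t * (r * C.t * r⁻¹) * C.t)
        = C.t * (r * C.t * r⁻¹) * (C.t * C.t) * (r * C.t * r⁻¹) * C.t := by group
      _ = C.t * ((r * C.t * r⁻¹) * (r * C.t * r⁻¹)) * C.t := by rw [C.ht2]; group
      _ = 1 := by rw [hs2, mul_one, C.ht2]
  have hz₀U : z₀ ∈ C.U := C.inv_mem_U hz₀a hz₀2
  have hts : C.t * z₀ * C.t = r * C.t * r⁻¹ := by
    rw [hz₀def]
    calc C.t * (C.t * (r * C.t * r⁻¹) * C.t) * C.t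
        = (C.t * C.t) * (r * C.t * r⁻¹) * (C.t * C.t) := by group
      _ = r * C.t * r⁻¹ := by rw [C.ht2]; group
  have hz₀1 : z₀ ≠ 1 := by
    intro h
    rw [h, mul_one, C.ht2] at hts
    have h1 : C.t = 1 := by
      calc C.t = r⁻¹ * (r * C.t * r⁻¹) * r := by group
        _ = 1 := by rw [← hts]; group
    exact C.t_ne_one h1
  have hz₀inv : z₀⁻¹ = z₀ := by
    rw [inv_eq_iff_mul_eq_one]
    exact hz₀2
  have hrz : r * z₀ * r⁻¹ = z₀ := by
    have h1 := C.hinvc z₀ hz₀U hz₀2 r hr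
    calc r * z₀ * r⁻¹ = (z₀ * r) * r⁻¹ := by rw [h1]
      _ = z₀ := by group
  have hrr : (r * r) * C.t * (r * r)⁻¹ = C.t * z₀ * C.t * z₀ * C.t * z₀ * C.t := by
    calc (r * r) * C.t * (r * r)⁻¹ = r * (r * C.t * r⁻¹) * r⁻¹ := by group
      _ = r * (C.t * z₀ * C.t) * r⁻¹ := by rw [← hts]
      _ = (r * C.t * r⁻¹) * (r * z₀ * r⁻¹) * (r * C.t * r⁻¹) := by group
      _ = (C.t * z₀ * C.t) * z₀ * (C.t * z₀ * C.t) := by rw [hrz, ← hts]
      _ = C.t * z₀ * C.t * z₀ * C.t * z₀ * C.t := by group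
  by_cases hr2 : r * r = 1
  · left
    refine ⟨z₀, hz₀U, hz₀1, hz₀2, ?_⟩
    have e0 : C.t = C.t * z₀ * C.t * z₀ * C.t * z₀ * C.t := by
      have h1 := hrr
      rw [hr2, inv_one, mul_one, one_mul] at h1
      exact h1
    have e2 : z₀ * C.t * z₀ =
        (C.t * z₀ * C.t)⁻¹ * (C.t * z₀ * C.t * z₀ * C.t * z₀ * C.t) * C.t⁻¹ := by group
    rw [← e0] at e2
    have hinv3 : (C.t * z₀ * C.t)⁻¹ = C.t * z₀ * C.t := by
      rw [mul_inv_rev, mul_inv_rev, C.t_inv, hz₀inv]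
      group
    have e1 : C.t * z₀ * C.t = z₀ * C.t * z₀ := by
      rw [e2, hinv3]
      group
    have e3 : C.t • (z₀ • C.b) = (C.t * z₀ * C.t) • C.a := by
      rw [mul_smul, mul_smul, C.hta]
    rw [e3, e1, mul_smul, mul_smul, hz₀a, C.hta]
  · right
    obtain ⟨z₁, hz₁def⟩ : ∃ z₁, z₁ = r * r := ⟨_, rfl⟩
    rw [← hz₁def] at hrr hr2
    have hz₁U : z₁ ∈ C.U := by
      rw [hz₁def]
      exact C.U.mul_mem hr hr
    have hz₁2 : z₁ * z₁ = 1 := by
      rw [hz₁def]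
      exact C.hsq4 r hr
    have hz₁inv : z₁⁻¹ = z₁ := by
      rw [inv_eq_iff_mul_eq_one]
      exact hz₁2
    have hg : z₁ * C.t * z₁ * C.t = C.t * z₀ * C.t * z₀ * C.t * z₀ := by
      calc z₁ * C.t * z₁ * C.t = (z₁ * C.t * z₁⁻¹) * C.t := by rw [hz₁inv]
        _ = (C.t * z₀ * C.t * z₀ * C.t * z₀ * C.t) * C.t := by rw [hrr]
        _ = C.t * z₀ * C.t * z₀ * C.t * z₀ * (C.t * C.t) := by group
        _ = C.t * z₀ * C.t * z₀ * C.t * z₀ := by rw [C.ht2, mul_one]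
    have hz10 : z₁ = z₀ := by
      by_contra hne
      obtain ⟨g, hgdef⟩ : ∃ g, g = z₁ * C.t * z₁ * C.t := ⟨_, rfl⟩
      have hginv : g⁻¹ = C.t * z₁ * C.t * z₁ := by
        rw [hgdef, mul_inv_rev, mul_inv_rev, mul_inv_rev, C.t_inv, hz₁inv]
        group
      have hg1 : z₁ * g * z₁⁻¹ = g⁻¹ := by
        rw [hginv, hz₁inv, hgdef]
        calc z₁ * (z₁ * C.t * z₁ * C.t) * z₁ = (z₁ * z₁) * C.t * z₁ * C.t * z₁ := by group
          _ = C.t * z₁ * C.t * z₁ := by rw [hz₁2, one_mul]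
      have hg0 : z₀ * g * z₀⁻¹ = g⁻¹ := by
        have hginv0 : g⁻¹ = z₀ * C.t * z₀ * C.t * z₀ * C.t := by
          rw [hgdef, hg, mul_inv_rev, mul_inv_rev, mul_inv_rev, mul_inv_rev, mul_inv_rev, C.t_inv,
            hz₀inv]
          group
        rw [hginv0, hz₀inv, hgdef, hg]
        calc z₀ * (C.t * z₀ * C.t * z₀ * C.t * z₀) * z₀
            = z₀ * C.t * z₀ * C.t * z₀ * C.t * (z₀ * z₀) := by group
          _ = z₀ * C.t * z₀ * C.t * z₀ * C.t := by rw [hz₀2, mul_one]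
      have hw : z₀ * z₁ ∈ C.U := C.U.mul_mem hz₀U hz₁U
      have hw1 : z₀ * z₁ ≠ 1 := by
        intro h
        apply hne
        rw [← hz₁inv]
        exact (eq_inv_of_mul_eq_one_left h).symm ▸ rfl
      have hcomm : g * (z₀ * z₁) = (z₀ * z₁) * g := by
        have h1 : (z₀ * z₁) * g * (z₀ * z₁)⁻¹ = g := by
          calc (z₀ * z₁) * g * (z₀ * z₁)⁻¹ = z₀ * (z₁ * g * z₁⁻¹) * z₀⁻¹ := by group
            _ = z₀ * g⁻¹ * z₀⁻¹ := by rw [hg1]
            _ = (z₀ * g * z₀⁻¹)⁻¹ := by group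
            _ = g := by rw [hg0, inv_inv]
        calc g * (z₀ * z₁) = ((z₀ * z₁) * g * (z₀ * z₁)⁻¹) * (z₀ * z₁) := by rw [h1]
          _ = (z₀ * z₁) * g := by group
      have hga : g • C.a = C.a := C.commute_fix hw hw1 hcomm
      have hgU : g ∈ C.U := C.mem_U_of_inverted hga hz₀U hg0
      have hgne : g ≠ 1 := by
        intro h
        rw [hgdef] at h
        have h1 : C.t * z₁ = z₁ * C.t := by
          calc C.t * z₁ = z₁⁻¹ * (z₁ * C.t * z₁ * C.t) * C.t⁻¹ := by group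
            _ = z₁ * C.t := by rw [h, mul_one, hz₁inv, C.t_inv]
        exact C.t_not_fix (C.commute_fix hz₁U hr2 h1)
      have hg2 : g⁻¹ = g := by
        have h1 := C.hinvc z₀ hz₀U hz₀2 g hgU
        rw [← hg0, h1]
        group
      have htg : C.t * g = g * C.t := by
        have h1 : C.t * g * C.t = g⁻¹ := by
          rw [hginv, hgdef]
          calc C.t * (z₁ * C.t * z₁ * C.t) * C.t = C.t * z₁ * C.t * z₁ * (C.t * C.t) := by group
            _ = C.t * z₁ * C.t * z₁ := by rw [C.ht2, mul_one]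
        rw [hg2] at h1
        calc C.t * g = (C.t * g * C.t) * C.t⁻¹ := by group
          _ = g * C.t := by rw [h1, C.t_inv]
      exact C.t_not_fix (C.commute_fix hgU hgne htg)
    rw [hz10] at hg
    exact C.five_dvd hr (hz₁def.symm.trans hz10) hz₀1 hz₀2 hts hg

/-- In case I, `#Ω₁(U) + 1` divides the group order. -/
theorem caseI_dvd [Finite G] {z₀ : G} (hz₀ : z₀ ∈ C.U) (hz₀1 : z₀ ≠ 1) (hz₀2 : z₀ * z₀ = 1)
    (hfix : C.t • (z₀ • C.b) = z₀ • C.b) :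
    (Set.ncard {z : G | z ∈ C.U ∧ z * z = 1} + 1) ∣ Nat.card G := by
  obtain ⟨Z, hZdef⟩ : ∃ Z : Set G, Z = {z : G | z ∈ C.U ∧ z * z = 1} := ⟨_, rfl⟩
  obtain ⟨B, hBdef⟩ : ∃ B : Set Ω, B = insert C.a ((fun z : G => z • C.b) '' Z) := ⟨_, rfl⟩
  rw [← hZdef]
  have hZmem : ∀ z, z ∈ Z ↔ (z ∈ C.U ∧ z * z = 1) := by
    intro z
    rw [hZdef]
    exact Iff.rfl
  have hBmem : ∀ x, x ∈ B ↔ (x = C.a ∨ ∃ z ∈ Z, z • C.b = x) := by
    intro x
    rw [hBdef]
    exact Iff.rfl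
  have haB : C.a ∈ B := (hBmem _).mpr (Or.inl rfl)
  have hzB : ∀ z ∈ Z, z • C.b ∈ B := fun z hz => (hBmem _).mpr (Or.inr ⟨z, hz, rfl⟩)
  have hZmul : ∀ z ∈ Z, ∀ z' ∈ Z, z * z' ∈ Z := by
    intro z hz z' hz'
    rw [hZmem] at hz hz' ⊢
    refine ⟨C.U.mul_mem hz.1 hz'.1, ?_⟩
    have h1 := C.hinvc z' hz'.1 hz'.2 z hz.1
    calc (z * z') * (z * z') = z * (z' * z) * z' := by group
      _ = z * (z * z') * z' := by rw [h1]
      _ = (z * z) * (z' * z') := by group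
      _ = 1 := by rw [hz.2, hz'.2, one_mul]
  have hZB : ∀ z ∈ Z, ∀ x ∈ B, z • x ∈ B := by
    intro z hz x hx
    rcases (hBmem x).mp hx with rfl | ⟨z', hz', rfl⟩
    · rw [C.hUa z ((hZmem z).mp hz).1]
      exact haB
    · rw [← mul_smul]
      exact hzB _ (hZmul z hz z' hz')
  have htB : ∀ x ∈ B, C.t • x ∈ B := by
    intro x hx
    rcases (hBmem x).mp hx with rfl | ⟨z, hz, rfl⟩
    · rw [C.hta]
      have h0 : (1 : G) ∈ Z := (hZmem 1).mpr ⟨C.U.one_mem, one_mul 1⟩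
      have h1 := hzB 1 h0
      rw [one_smul] at h1
      exact h1
    · by_cases hz1 : z = 1
      · rw [hz1, one_smul, C.htb]
        exact haB
      · have hz' := (hZmem z).mp hz
        obtain ⟨h, ha, hb, e⟩ := C.E_trans_inv hz₀ hz₀1 hz₀2 hz'.1 hz1 hz'.2
        have h1 : C.t • (z • C.b) = (h⁻¹ * z₀ * h) • C.b := by
          rw [← e]
          calc C.t • ((h * z₀ * h⁻¹) • C.b) = (C.t * h) • (z₀ • (h⁻¹ • C.b)) := by
                simp only [mul_smul]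
            _ = (h⁻¹ * C.t) • (z₀ • C.b) := by rw [C.t_mul ha hb, C.inv_smul_b hb]
            _ = h⁻¹ • (z₀ • C.b) := by rw [mul_smul, hfix]
            _ = (h⁻¹ * z₀ * h) • C.b := by rw [mul_smul, mul_smul, hb]
        rw [h1]
        apply hzB
        rw [hZmem]
        refine ⟨C.conj_mem' ha hz₀, ?_⟩
        calc (h⁻¹ * z₀ * h) * (h⁻¹ * z₀ * h) = h⁻¹ * (z₀ * z₀) * h := by group
          _ = 1 := by rw [hz₀2]; group
  obtain ⟨K, hKdef⟩ : ∃ K : Subgroup G, K = Subgroup.closure (Z ∪ {C.t}) := ⟨_, rfl⟩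
  have hK : ∀ g ∈ K, (∀ x ∈ B, g • x ∈ B) ∧ (∀ x ∈ B, g⁻¹ • x ∈ B) := by
    intro g hg
    rw [hKdef] at hg
    induction hg using Subgroup.closure_induction with
    | mem g hg =>
      rcases hg with hg | hg
      · have hginv : g⁻¹ = g := by
          rw [inv_eq_iff_mul_eq_one]
          exact ((hZmem g).mp hg).2
        rw [hginv]
        exact ⟨hZB g hg, hZB g hg⟩
      · rw [Set.mem_singleton_iff] at hg
        rw [hg, C.t_inv]
        exact ⟨htB, htB⟩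
    | one =>
      refine ⟨fun x hx => ?_, fun x hx => ?_⟩
      · rw [one_smul]
        exact hx
      · rw [inv_one, one_smul]
        exact hx
    | mul g h _ _ ihg ihh =>
      refine ⟨fun x hx => ?_, fun x hx => ?_⟩
      · rw [mul_smul]
        exact ihg.1 _ (ihh.1 x hx)
      · rw [mul_inv_rev, mul_smul]
        exact ihh.2 _ (ihg.2 x hx)
    | inv g _ ih =>
      rw [inv_inv]
      exact ⟨ih.2, ih.1⟩
  have horb : orbit K C.a = B := by
    ext x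
    constructor
    · rintro ⟨k, rfl⟩
      exact (hK k.1 k.2).1 _ haB
    · intro hx
      rcases (hBmem x).mp hx with rfl | ⟨z, hz, rfl⟩
      · exact mem_orbit_self _
      · have hzt : z * C.t ∈ K := by
          rw [hKdef]
          exact Subgroup.mul_mem _ (Subgroup.subset_closure (Or.inl hz))
            (Subgroup.subset_closure (Or.inr rfl))
        refine ⟨⟨z * C.t, hzt⟩, ?_⟩
        show (z * C.t) • C.a = z • C.b
        rw [mul_smul, C.hta]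
  have hBcard : B.ncard = Z.ncard + 1 := by
    rw [hBdef]
    rw [Set.ncard_insert_of_notMem, Set.InjOn.ncard_image]
    · intro z hz z' hz' e
      exact C.U_inj ((hZmem z).mp hz).1 ((hZmem z').mp hz').1 C.hab.symm e
    · rintro ⟨z, hz, e⟩
      exact C.smul_ne_a (C.hUa z ((hZmem z).mp hz).1) C.hab.symm e
  rw [← hBcard, ← horb, ← MulAction.index_stabilizer]
  exact dvd_trans (Subgroup.index_dvd_card _) (Subgroup.card_subgroup_dvd_card K)

end ZT

end Cfsg.Agent.Helper66.SuzOrd
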