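import Cfsg.Agent.Helper66.SuzTorus

/-!
# Suzuki's order theorem: the main inequality

In a ZT context whose `U` is a Suzuki 2-group, the number of elements of order four of `U` is at
most `6 · (number of involutions of U) · |E|`, where `E` is the two point stabiliser.
-/

set_option autoImplicit false

namespace Cfsg.Agent.Helper66.SuzOrd

open MulAction

/-- `s` normalises the centraliser of `y` (one inclusion). -/
def Nrm {G : Type*} [Group G] (y s : G) : Prop :=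
  ∀ g : G, g * y = y * g → (s * g * s⁻¹) * y = y * (s * g * s⁻¹)

theorem Nrm.mul {G : Type*} [Group G] {y s s' : G} (h : Nrm y s) (h' : Nrm y s') :
    Nrm y (s * s') := by
  intro g hg
  have h1 := h _ (h' g hg)
  have e : s * s' * g * (s * s')⁻¹ = s * (s' * g * s'⁻¹) * s⁻¹ := by group
  rw [e]
  exact h1

namespace ZT

variable {G : Type*} [Group G] {Ω : Type*} [MulAction G Ω] (C : ZT G Ω)

/-- Two square roots of `z` in `U` normalising the centraliser of `z τ` are equal up to inversion,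
or their commutator is `z`. -/
theorem pair_rel [Finite G] {z τ : G} (hz : z ∈ C.U) (hz1 : z ≠ 1) (hz2 : z * z = 1)
    (hτ2 : τ * τ = 1) (hτa : τ • C.a ≠ C.a)
    {u₁ u₂ : G} (hu₁ : u₁ ∈ C.U) (hu₂ : u₂ ∈ C.U) (h₁ : u₁ * u₁ = z) (h₂ : u₂ * u₂ = z)
    (hn₁ : Nrm (z * τ) u₁) (hn₂ : Nrm (z * τ) u₂) :
    u₂ = u₁⁻¹ ∨ u₂ = u₁⁻¹ * z ∨ u₂ * u₁ = u₁ * u₂ * z := by
  have hcU : u₂⁻¹ * u₁⁻¹ * u₂ * u₁ ∈ C.U :=
    C.U.mul_mem (C.U.mul_mem (C.U.mul_mem (C.U.inv_mem hu₂) (C.U.inv_mem hu₁)) hu₂) hu₁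
  have hc2 := C.hcomm2 u₂ hu₂ u₁ hu₁
  have hcc := C.hinvc _ hcU hc2
  have hsq : (u₁ * u₂) * (u₁ * u₂) = u₂⁻¹ * u₁⁻¹ * u₂ * u₁ := by
    calc (u₁ * u₂) * (u₁ * u₂) = u₁ * u₁ * u₂ * ((u₂⁻¹ * u₁⁻¹ * u₂ * u₁) * u₂) := by group
      _ = u₁ * u₁ * u₂ * (u₂ * (u₂⁻¹ * u₁⁻¹ * u₂ * u₁)) := by rw [hcc u₂ hu₂]
      _ = (u₁ * u₁) * (u₂ * u₂) * (u₂⁻¹ * u₁⁻¹ * u₂ * u₁) := by group
      _ = u₂⁻¹ * u₁⁻¹ * u₂ * u₁ := by rw [h₁, h₂, hz2, one_mul]
  have hn12 : Nrm (z * τ) (u₁ * u₂) := hn₁.mul hn₂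
  have hnc : Nrm (z * τ) (u₂⁻¹ * u₁⁻¹ * u₂ * u₁) := by
    rw [← hsq]
    exact hn12.mul hn12
  by_cases hc1 : u₂⁻¹ * u₁⁻¹ * u₂ * u₁ = 1
  · rw [hc1] at hsq
    by_cases hs1 : u₁ * u₂ = 1
    · left
      exact eq_inv_of_mul_eq_one_right hs1
    · right; left
      have h3 := C.inv_norm_eq hz hz1 hz2 hτ2 hτa (C.U.mul_mem hu₁ hu₂) hs1 hsq hn12
      rw [← h3]; group
  · right; right
    have h3 := C.inv_norm_eq hz hz1 hz2 hτ2 hτa hcU hc1 hc2 hnc
    rw [← h3]; group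

/-- At most six elements `u ∈ U` have `u² = z` and `(u τ)²` an involution. -/
theorem card_roots_le [Finite G] {z τ : G} (hz : z ∈ C.U) (hz1 : z ≠ 1) (hz2 : z * z = 1)
    (hτ2 : τ * τ = 1) (hτa : τ • C.a ≠ C.a) (B : Finset G)
    (hB : ∀ u ∈ B, u ∈ C.U ∧ u * u = z ∧ IsInv ((u * τ) * (u * τ))) : B.card ≤ 6 := by
  classical
  have hn : ∀ u ∈ B, Nrm (z * τ) u := by
    intro u hu g hg
    obtain ⟨-, hu2, hinv⟩ := hB u hu
    exact C.norm_of_order_four hz hz1 hz2 hτ2 hτa hu2 hinv.2 hg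
  have hzc := C.hinvc z hz hz2
  rcases B.eq_empty_or_nonempty with rfl | ⟨u₁, hu₁B⟩
  · simp
  obtain ⟨hu₁, h₁, -⟩ := hB u₁ hu₁B
  by_cases hall : ∀ u ∈ B, u = u₁⁻¹ ∨ u = u₁⁻¹ * z
  · have hsub : B ⊆ {u₁⁻¹, u₁⁻¹ * z} := by
      intro u hu
      rw [Finset.mem_insert, Finset.mem_singleton]
      exact hall u hu
    calc B.card ≤ ({u₁⁻¹, u₁⁻¹ * z} : Finset G).card := Finset.card_le_card hsub
      _ ≤ 2 := Finset.card_le_two
      _ ≤ 6 := by norm_num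
  · push Not at hall
    obtain ⟨u₂, hu₂B, hne1, hne2⟩ := hall
    obtain ⟨hu₂, h₂, -⟩ := hB u₂ hu₂B
    have h12 : u₂ * u₁ = u₁ * u₂ * z := by
      rcases C.pair_rel hz hz1 hz2 hτ2 hτa hu₁ hu₂ h₁ h₂ (hn u₁ hu₁B) (hn u₂ hu₂B) with h | h | h
      · exact absurd h hne1
      · exact absurd h hne2
      · exact h
    have hvU : u₁ * u₂ ∈ C.U := C.U.mul_mem hu₁ hu₂
    have hvn : Nrm (z * τ) (u₁ * u₂) := (hn u₁ hu₁B).mul (hn u₂ hu₂B)
    have hv2 : (u₁ * u₂) * (u₁ * u₂) = z := by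
      calc (u₁ * u₂) * (u₁ * u₂) = u₁ * (u₂ * u₁) * u₂ := by group
        _ = u₁ * (u₁ * u₂ * z) * u₂ := by rw [h12]
        _ = u₁ * u₁ * u₂ * (z * u₂) := by group
        _ = u₁ * u₁ * u₂ * (u₂ * z) := by rw [hzc u₂ hu₂]
        _ = (u₁ * u₁) * (u₂ * u₂) * z := by group
        _ = z := by rw [h₁, h₂, hz2, one_mul]
    have hsub : B ⊆ {u₁⁻¹, u₁⁻¹ * z, u₂⁻¹, u₂⁻¹ * z, (u₁ * u₂)⁻¹, (u₁ * u₂)⁻¹ * z} := by
      intro u₃ hu₃B
      obtain ⟨hu₃, h₃, -⟩ := hB u₃ hu₃B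
      simp only [Finset.mem_insert, Finset.mem_singleton]
      rcases C.pair_rel hz hz1 hz2 hτ2 hτa hu₁ hu₃ h₁ h₃ (hn u₁ hu₁B) (hn u₃ hu₃B) with h | h | h31
      · exact Or.inl h
      · exact Or.inr (Or.inl h)
      rcases C.pair_rel hz hz1 hz2 hτ2 hτa hu₂ hu₃ h₂ h₃ (hn u₂ hu₂B) (hn u₃ hu₃B) with h | h | h32
      · exact Or.inr (Or.inr (Or.inl h))
      · exact Or.inr (Or.inr (Or.inr (Or.inl h)))
      have hcomm : u₃ * (u₁ * u₂) = (u₁ * u₂) * u₃ := by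
        calc u₃ * (u₁ * u₂) = (u₃ * u₁) * u₂ := by group
          _ = u₁ * u₃ * z * u₂ := by rw [h31]
          _ = u₁ * u₃ * (z * u₂) := by group
          _ = u₁ * u₃ * (u₂ * z) := by rw [hzc u₂ hu₂]
          _ = u₁ * (u₃ * u₂) * z := by group
          _ = u₁ * (u₂ * u₃ * z) * z := by rw [h32]
          _ = (u₁ * u₂) * u₃ * (z * z) := by group
          _ = (u₁ * u₂) * u₃ := by rw [hz2, mul_one]
      have hs2 : (u₃ * (u₁ * u₂)) * (u₃ * (u₁ * u₂)) = 1 := by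
        calc (u₃ * (u₁ * u₂)) * (u₃ * (u₁ * u₂)) = u₃ * ((u₁ * u₂) * u₃) * (u₁ * u₂) := by group
          _ = u₃ * (u₃ * (u₁ * u₂)) * (u₁ * u₂) := by rw [hcomm]
          _ = (u₃ * u₃) * ((u₁ * u₂) * (u₁ * u₂)) := by group
          _ = 1 := by rw [h₃, hv2, hz2]
      have hsU : u₃ * (u₁ * u₂) ∈ C.U := C.U.mul_mem hu₃ hvU
      have hsn : Nrm (z * τ) (u₃ * (u₁ * u₂)) := (hn u₃ hu₃B).mul hvn
      by_cases hs1 : u₃ * (u₁ * u₂) = 1
      · exact Or.inr (Or.inr (Or.inr (Or.inr (Or.inl (eq_inv_of_mul_eq_one_left hs1)))))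
      · have h3 := C.inv_norm_eq hz hz1 hz2 hτ2 hτa hsU hs1 hs2 hsn
        refine Or.inr (Or.inr (Or.inr (Or.inr (Or.inr ?_))))
        have hzv : z * (u₁ * u₂)⁻¹ = (u₁ * u₂)⁻¹ * z := hzc _ (C.U.inv_mem hvU)
        calc u₃ = (u₃ * (u₁ * u₂)) * (u₁ * u₂)⁻¹ := by group
          _ = z * (u₁ * u₂)⁻¹ := by rw [h3]
          _ = (u₁ * u₂)⁻¹ * z := hzv
    calc B.card ≤ ({u₁⁻¹, u₁⁻¹ * z, u₂⁻¹, u₂⁻¹ * z, (u₁ * u₂)⁻¹, (u₁ * u₂)⁻¹ * z} : Finset G).card :=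
          Finset.card_le_card hsub
      _ ≤ 6 := Finset.card_le_six

/-- **Main inequality**: the number of elements of order four of `U` is at most
`6 · #involutions(U) · |E|`. -/
theorem main_ineq [Finite G] :
    Set.ncard {w : G | w ∈ C.U ∧ w * w ≠ 1} ≤
      6 * Set.ncard {z : G | z ∈ C.U ∧ z ≠ 1 ∧ z * z = 1} *
        Set.ncard {h : G | h • C.a = C.a ∧ h • C.b = C.b} := by
  classical
  letI := Fintype.ofFinite G
  rw [Set.ncard_eq_toFinset_card', Set.ncard_eq_toFinset_card', Set.ncard_eq_toFinset_card']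
  simp only [Set.toFinset_ofPred]
  set W := Finset.univ.filter (fun w : G => w ∈ C.U ∧ w * w ≠ 1) with hW
  set Z₁ := Finset.univ.filter (fun z : G => z ∈ C.U ∧ z ≠ 1 ∧ z * z = 1) with hZ₁
  set E := Finset.univ.filter (fun h : G => h • C.a = C.a ∧ h • C.b = C.b) with hE
  set Uf := Finset.univ.filter (fun u : G => u ∈ C.U) with hUf
  set I := Finset.univ.filter (fun τ : G => τ * τ = 1 ∧ τ • C.a ≠ C.a) with hI
  set S := (W ×ˢ I).filter (fun p : G × G => IsInv ((p.1 * p.2) * (p.1 * p.2))) with hS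
  -- (1) many pairs
  have h1 : W.card * Uf.card ≤ S.card := by
    have hex : ∀ u : G, ∃ f : G → G, u ∈ C.U → u * u ≠ 1 → ∀ v ∈ C.U,
        (f v) * (f v) = 1 ∧ (f v) • C.a = v • C.b ∧ IsInv ((u * f v) * (u * f v)) := by
      intro u
      by_cases hu : u ∈ C.U ∧ u * u ≠ 1
      · obtain ⟨f, hf⟩ := C.toZT0.exists_tau C.hsq4 hu.1 hu.2
        exact ⟨f, fun _ _ => hf⟩
      · exact ⟨fun _ => 1, fun h1 h2 => absurd ⟨h1, h2⟩ hu⟩
    choose F hF using hex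
    rw [← Finset.card_product]
    apply Finset.card_le_card_of_injOn (fun p : G × G => (p.1, F p.1 p.2))
    · intro p hp
      have hp := Finset.mem_coe.mp hp
      rw [Finset.mem_product] at hp
      obtain ⟨hpW, hpU⟩ := hp
      simp only [hW, hUf, Finset.mem_filter, Finset.mem_univ, true_and] at hpW hpU
      obtain ⟨hf1, hf2, hf3⟩ := hF p.1 hpW.1 hpW.2 p.2 hpU
      apply Finset.mem_coe.mpr
      simp only [hS, hW, hI, Finset.mem_filter, Finset.mem_product, Finset.mem_univ, true_and]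
      refine ⟨⟨hpW, hf1, ?_⟩, hf3⟩
      rw [hf2]
      exact C.smul_ne_a (C.hUa _ hpU) C.hab.symm
    · intro p hp p' hp' hpp
      have hp := Finset.mem_coe.mp hp
      have hp' := Finset.mem_coe.mp hp'
      rw [Finset.mem_product] at hp hp'
      obtain ⟨hpW, hpU⟩ := hp
      obtain ⟨hpW', hpU'⟩ := hp'
      simp only [hW, hUf, Finset.mem_filter, Finset.mem_univ, true_and] at hpW hpU hpW' hpU'
      have e1 : p.1 = p'.1 := (Prod.ext_iff.mp hpp).1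
      have e2 : F p.1 p.2 = F p'.1 p'.2 := (Prod.ext_iff.mp hpp).2
      have hf := (hF p.1 hpW.1 hpW.2 p.2 hpU).2.1
      have hf' := (hF p'.1 hpW'.1 hpW'.2 p'.2 hpU').2.1
      rw [e2, hf'] at hf
      have e3 : p'.2 = p.2 := C.U_inj hpU' hpU C.hab.symm hf
      exact Prod.ext e1 e3.symm
  -- (2) few pairs
  have h2 : S.card ≤ 6 * (Z₁ ×ˢ I).card := by
    apply Finset.card_le_mul_card_image_of_maps_to (f := fun p : G × G => (p.1 * p.1, p.2))
    · intro p hp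
      simp only [hS, hW, hI, Finset.mem_filter, Finset.mem_product, Finset.mem_univ, true_and]
        at hp
      simp only [hZ₁, hI, Finset.mem_filter, Finset.mem_product, Finset.mem_univ, true_and]
      exact ⟨⟨C.U.mul_mem hp.1.1.1 hp.1.1.1, hp.1.1.2, C.hsq4 _ hp.1.1.1⟩, hp.1.2⟩
    · intro b hb
      simp only [hZ₁, hI, Finset.mem_filter, Finset.mem_product, Finset.mem_univ, true_and] at hb
      obtain ⟨⟨hzU, hz1, hz2⟩, hτ2, hτa⟩ := hb
      set Fb := S.filter (fun p : G × G => (p.1 * p.1, p.2) = b) with hFb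
      have hinj : Set.InjOn Prod.fst (Fb : Set (G × G)) := by
        intro p hp p' hp' hpp
        have hp := Finset.mem_coe.mp hp
        have hp' := Finset.mem_coe.mp hp'
        simp only [hFb, Finset.mem_filter] at hp hp'
        have e1 : p.2 = b.2 := (Prod.ext_iff.mp hp.2).2
        have e2 : p'.2 = b.2 := (Prod.ext_iff.mp hp'.2).2
        exact Prod.ext hpp (e1.trans e2.symm)
      rw [← Finset.card_image_of_injOn hinj]
      apply C.card_roots_le hzU hz1 hz2 hτ2 hτa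
      intro u hu
      rw [Finset.mem_image] at hu
      obtain ⟨p, hp, rfl⟩ := hu
      simp only [hFb, hS, hW, hI, Finset.mem_filter, Finset.mem_product, Finset.mem_univ,
        true_and] at hp
      have e1 : p.1 * p.1 = b.1 := (Prod.ext_iff.mp hp.2).1
      have e2 : p.2 = b.2 := (Prod.ext_iff.mp hp.2).2
      rw [← e2]
      exact ⟨hp.1.1.1.1, e1, hp.1.2⟩
  -- (3) few involutions
  have h3 : I.card ≤ Uf.card * E.card := by
    rw [← Finset.card_product]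
    apply Finset.card_le_card_of_surjOn (fun p : G × G => p.1 * p.2 * C.t * p.1⁻¹)
    intro τ hτ
    have hτ := Finset.mem_coe.mp hτ
    simp only [hI, Finset.mem_filter, Finset.mem_univ, true_and] at hτ
    obtain ⟨v, hv, η, hηa, hηb, hτeq⟩ := C.swap_form hτ.1 hτ.2
    refine ⟨(v, η), ?_, hτeq.symm⟩
    rw [Finset.mem_coe, Finset.mem_product]
    simp only [hUf, hE, Finset.mem_filter, Finset.mem_univ, true_and]
    exact ⟨hv, hηa, hηb⟩
  have hUpos : 0 < Uf.card := by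
    apply Finset.card_pos.mpr
    refine ⟨1, ?_⟩
    simp only [hUf, Finset.mem_filter, Finset.mem_univ, true_and]
    exact C.U.one_mem
  have h4 : W.card * Uf.card ≤ (6 * Z₁.card * E.card) * Uf.card := by
    calc W.card * Uf.card ≤ S.card := h1
      _ ≤ 6 * (Z₁ ×ˢ I).card := h2
      _ = 6 * (Z₁.card * I.card) := by rw [Finset.card_product]
      _ ≤ 6 * (Z₁.card * (Uf.card * E.card)) :=
          Nat.mul_le_mul_left _ (Nat.mul_le_mul_left _ h3)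
      _ = (6 * Z₁.card * E.card) * Uf.card := by ring
  exact Nat.le_of_mul_le_mul_right h4 hUpos

end ZT

end Cfsg.Agent.Helper66.SuzOrd
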