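import Cfsg.Agent.Helper66.SuzCount

/-!
# Suzuki's order theorem: the centraliser of a product of two involutions

For an involution `z ∈ U` and an involution `τ` moving `a`, the centraliser `T` of `y = z τ`
is abelian, inverted by `z`, meets the stabiliser of `a` trivially, and is normalised by every
`u ∈ U` with `u² = z` for which `(u τ)²` is an involution.  At most six such `u` exist.
-/

set_option autoImplicit false

namespace Cfsg.Agent.Helper66.SuzOrd

open MulAction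

section Generic

variable {G : Type*} [Group G]

/-- If `z` inverts `y`, then `z` normalises the centraliser of `y`. -/
theorem cent_norm {z y k : G} (hzy : z * y * z⁻¹ = y⁻¹) (hzy' : z⁻¹ * y * z = y⁻¹)
    (hk : k * y = y * k) : (z * k * z⁻¹) * y = y * (z * k * z⁻¹) := by
  have hk' : k * y⁻¹ = y⁻¹ * k := by
    calc k * y⁻¹ = y⁻¹ * (y * k) * y⁻¹ := by group
      _ = y⁻¹ * (k * y) * y⁻¹ := by rw [hk]
      _ = y⁻¹ * k := by group
  calc (z * k * z⁻¹) * y = z * k * (z⁻¹ * y * z) * z⁻¹ := by group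
    _ = z * (k * y⁻¹) * z⁻¹ := by rw [hzy']; group
    _ = z * (y⁻¹ * k) * z⁻¹ := by rw [hk']
    _ = (z * y * z⁻¹)⁻¹ * (z * k * z⁻¹) := by group
    _ = y * (z * k * z⁻¹) := by rw [hzy, inv_inv]

/-- An involution `z` inverting `y` and commuting with no non-trivial element of the centraliser
of `y` inverts that centraliser. -/
theorem cent_inv_gen [Finite G] {z y : G} (hz2 : z * z = 1) (hzy : z * y * z⁻¹ = y⁻¹)
    (hfree : ∀ k : G, k * y = y * k → k * z = z * k → k = 1) {g : G} (hg : g * y = y * g) :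
    z * g * z⁻¹ = g⁻¹ := by
  classical
  have hzinv : z⁻¹ = z := by
    rw [inv_eq_iff_mul_eq_one]; exact hz2
  have hzy' : z⁻¹ * y * z = y⁻¹ := by
    have h := hzy
    rw [hzinv] at h ⊢
    exact h
  let T : Subgroup G := Subgroup.centralizer {y}
  have hT : ∀ k : G, k ∈ T ↔ k * y = y * k := by
    intro k
    rw [Subgroup.mem_centralizer_iff]
    constructor
    · intro h
      exact (h _ rfl).symm
    · intro h x hx
      rw [Set.mem_singleton_iff] at hx
      rw [hx]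
      exact h.symm
  let ψ : T → T := fun k => ⟨(k : G)⁻¹ * (z * k * z⁻¹), T.mul_mem (T.inv_mem k.2)
    ((hT _).mpr (cent_norm hzy hzy' ((hT _).mp k.2)))⟩
  have hψinj : Function.Injective ψ := by
    intro k k' hkk
    have h1 : (k : G)⁻¹ * (z * k * z⁻¹) = (k' : G)⁻¹ * (z * k' * z⁻¹) := congrArg Subtype.val hkk
    have h2 : ((k' : G) * (k : G)⁻¹) * z = z * ((k' : G) * (k : G)⁻¹) := by
      calc ((k' : G) * (k : G)⁻¹) * z = (k' : G) * ((k : G)⁻¹ * (z * k * z⁻¹)) * z * (k : G)⁻¹ := by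
            group
        _ = (k' : G) * ((k' : G)⁻¹ * (z * k' * z⁻¹)) * z * (k : G)⁻¹ := by rw [h1]
        _ = z * ((k' : G) * (k : G)⁻¹) := by group
    have h3 : ((k' : G) * (k : G)⁻¹) * y = y * ((k' : G) * (k : G)⁻¹) :=
      (hT _).mp (T.mul_mem k'.2 (T.inv_mem k.2))
    have h4 := hfree _ h3 h2
    rw [mul_inv_eq_one] at h4
    exact Subtype.ext h4.symm
  have hψsurj : Function.Surjective ψ := Finite.surjective_of_injective hψinj
  obtain ⟨k, hk⟩ := hψsurj ⟨g, (hT g).mpr hg⟩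
  have hk' : (k : G)⁻¹ * (z * k * z⁻¹) = g := congrArg Subtype.val hk
  rw [← hk']
  calc z * ((k : G)⁻¹ * (z * k * z⁻¹)) * z⁻¹ = z * (k : G)⁻¹ * z * k * (z * z)⁻¹ := by group
    _ = z * (k : G)⁻¹ * z * k := by rw [hz2, inv_one, mul_one]
    _ = z * (k : G)⁻¹ * z⁻¹ * k := by rw [hzinv]
    _ = ((k : G)⁻¹ * (z * k * z⁻¹))⁻¹ := by group

/-- A centraliser inverted by an element is commutative. -/
theorem cent_comm_gen {z y : G}
    (hinv : ∀ g : G, g * y = y * g → z * g * z⁻¹ = g⁻¹) {g g' : G}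
    (hg : g * y = y * g) (hg' : g' * y = y * g') : g * g' = g' * g := by
  have hgg : (g * g') * y = y * (g * g') := by
    calc (g * g') * y = g * (g' * y) := by group
      _ = g * (y * g') := by rw [hg']
      _ = (g * y) * g' := by group
      _ = (y * g) * g' := by rw [hg]
      _ = y * (g * g') := by group
  have h1 := hinv _ hgg
  have h2 := hinv _ hg
  have h3 := hinv _ hg'
  have h4 : (g * g')⁻¹ = g⁻¹ * g'⁻¹ := by
    rw [← h1, ← h2, ← h3]; group
  calc g * g' = ((g * g')⁻¹)⁻¹ := by rw [inv_inv]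
    _ = (g⁻¹ * g'⁻¹)⁻¹ := by rw [h4]
    _ = g' * g := by group

/-- Conjugation by `x` preserves a commutative centraliser of `y` when `x⁻¹ y x` lies in it. -/
theorem conj_cent {y x g : G}
    (hcomm : ∀ g g' : G, g * y = y * g → g' * y = y * g' → g * g' = g' * g)
    (hx : (x⁻¹ * y * x) * y = y * (x⁻¹ * y * x)) (hg : g * y = y * g) :
    (x * g * x⁻¹) * y = y * (x * g * x⁻¹) := by
  have h := hcomm g (x⁻¹ * y * x) hg hx
  calc (x * g * x⁻¹) * y = x * (g * (x⁻¹ * y * x)) * x⁻¹ := by group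
    _ = x * ((x⁻¹ * y * x) * g) * x⁻¹ := by rw [h]
    _ = y * (x * g * x⁻¹) := by group

/-- The key commutation: if `u² = z`, `z² = τ² = 1` and `(u τ)⁴ = 1`, then `y = z τ` commutes
with its conjugate by `u`. -/
theorem comm_conj_of_order_four {u z τ : G} (hu : u * u = z) (hz2 : z * z = 1) (hτ2 : τ * τ = 1)
    (hσ : (u * τ) * (u * τ) * ((u * τ) * (u * τ)) = 1) :
    (u * (z * τ) * u⁻¹) * (z * τ) = (z * τ) * (u * (z * τ) * u⁻¹) := by
  subst hu
  have hτinv : τ⁻¹ = τ := by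
    rw [inv_eq_iff_mul_eq_one]; exact hτ2
  have hu3 : u⁻¹ = u * u * u := by
    rw [inv_eq_iff_mul_eq_one]
    calc u * (u * u * u) = (u * u) * (u * u) := by group
      _ = 1 := hz2
  have hσinv : ((u * τ) * (u * τ))⁻¹ = (u * τ) * (u * τ) := by
    rw [inv_eq_iff_mul_eq_one]; exact hσ
  have h1 : τ * (u * u * u) * τ * u⁻¹ = (u * τ) * (u * τ) := by
    calc τ * (u * u * u) * τ * u⁻¹ = τ * u⁻¹ * τ * u⁻¹ := by rw [← hu3]
      _ = τ⁻¹ * u⁻¹ * τ⁻¹ * u⁻¹ := by rw [hτinv]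
      _ = ((u * τ) * (u * τ))⁻¹ := by group
      _ = (u * τ) * (u * τ) := hσinv
  calc (u * (u * u * τ) * u⁻¹) * (u * u * τ) = u * u * ((u * τ) * (u * τ)) := by group
    _ = u * u * (τ * (u * u * u) * τ * u⁻¹) := by rw [h1]
    _ = (u * u * τ) * (u * (u * u * τ) * u⁻¹) := by group

end Generic

/-- ZT context with the structure of a Suzuki 2-group on `U`: involutions are central,
squares and commutators are involutions or trivial. -/
structure ZT (G : Type*) [Group G] (Ω : Type*) [MulAction G Ω] extends ZT0 G Ω where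
  hinvc : ∀ z ∈ U, z * z = 1 → ∀ u ∈ U, z * u = u * z
  hsq4 : ∀ u ∈ U, (u * u) * (u * u) = 1
  hcomm2 : ∀ u ∈ U, ∀ v ∈ U, (u⁻¹ * v⁻¹ * u * v) * (u⁻¹ * v⁻¹ * u * v) = 1

namespace ZT0

variable {G : Type*} [Group G] {Ω : Type*} [MulAction G Ω] (C : ZT0 G Ω)

/-- An element of the centraliser of `y = z τ` fixing `a` is trivial. -/
theorem cent_fix {z τ g : G} (hz : z ∈ C.U) (hz1 : z ≠ 1) (hτ2 : τ * τ = 1)
    (hτa : τ • C.a ≠ C.a)
    (hg : g * (z * τ) = (z * τ) * g) (hga : g • C.a = C.a) : g = 1 := by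
  have hza := C.hUa z hz
  have h1 : (z * τ) • C.a ≠ C.a := by
    rw [mul_smul]
    exact C.smul_ne_a hza hτa
  have h2 : (z * τ) • ((z * τ) • C.a) ≠ C.a := by
    intro h
    simp only [mul_smul] at h
    have h3 : τ • z • τ • C.a = C.a := by
      have h4 : z • (τ • z • τ • C.a) = z • C.a := by rw [h, hza]
      exact smul_left_cancel z h4
    have h5 : z • (τ • C.a) = τ • C.a := by
      have h6 : τ • (z • τ • C.a) = τ • (τ • C.a) := by
        rw [h3, ← mul_smul, hτ2, one_smul]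
      exact smul_left_cancel τ h6
    exact hτa (C.fix_only_a hz hz1 h5)
  have h3 : (z * τ) • ((z * τ) • C.a) ≠ (z * τ) • C.a := by
    intro h
    exact h1 (smul_left_cancel _ h)
  have h4 : g • ((z * τ) • C.a) = (z * τ) • C.a := by
    rw [← mul_smul, hg, mul_smul, hga]
  have h5 : g • ((z * τ) • ((z * τ) • C.a)) = (z * τ) • ((z * τ) • C.a) := by
    rw [← mul_smul, hg, mul_smul, h4]
  exact C.h3 g C.a _ _ h1.symm h2.symm h3.symm hga h4 h5

theorem z_inv_y {z τ : G} (hz2 : z * z = 1) (hτ2 : τ * τ = 1) :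
    z * (z * τ) * z⁻¹ = (z * τ)⁻¹ := by
  have hzinv : z⁻¹ = z := by
    rw [inv_eq_iff_mul_eq_one]; exact hz2
  have hτinv : τ⁻¹ = τ := by
    rw [inv_eq_iff_mul_eq_one]; exact hτ2
  rw [mul_inv_rev, hzinv, hτinv]
  calc z * (z * τ) * z = (z * z) * τ * z := by group
    _ = τ * z := by rw [hz2, one_mul]

/-- `z` inverts the centraliser of `y = z τ`. -/
theorem cent_inv [Finite G] {z τ : G} (hz : z ∈ C.U) (hz1 : z ≠ 1) (hz2 : z * z = 1)
    (hτ2 : τ * τ = 1) (hτa : τ • C.a ≠ C.a) {g : G}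
    (hg : g * (z * τ) = (z * τ) * g) : z * g * z⁻¹ = g⁻¹ :=
  cent_inv_gen hz2 (z_inv_y hz2 hτ2)
    (fun k hk hkz => C.cent_fix hz hz1 hτ2 hτa hk (C.commute_fix hz hz1 hkz)) hg

/-- The centraliser of `y = z τ` is commutative. -/
theorem cent_comm [Finite G] {z τ : G} (hz : z ∈ C.U) (hz1 : z ≠ 1) (hz2 : z * z = 1)
    (hτ2 : τ * τ = 1) (hτa : τ • C.a ≠ C.a) {g g' : G}
    (hg : g * (z * τ) = (z * τ) * g) (hg' : g' * (z * τ) = (z * τ) * g') : g * g' = g' * g :=
  cent_comm_gen (fun _ h => C.cent_inv hz hz1 hz2 hτ2 hτa h) hg hg'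

/-- An element `u ∈ U` with `u² = z` and `(u τ)⁴ = 1` normalises the centraliser of `z τ`. -/
theorem norm_of_order_four [Finite G] {z τ u : G} (hz : z ∈ C.U) (hz1 : z ≠ 1) (hz2 : z * z = 1)
    (hτ2 : τ * τ = 1) (hτa : τ • C.a ≠ C.a) (hu : u * u = z)
    (hσ : (u * τ) * (u * τ) * ((u * τ) * (u * τ)) = 1) {g : G}
    (hg : g * (z * τ) = (z * τ) * g) : (u * g * u⁻¹) * (z * τ) = (z * τ) * (u * g * u⁻¹) := by
  have E1 := comm_conj_of_order_four hu hz2 hτ2 hσ
  have E2 : (u⁻¹ * (z * τ) * u) * (z * τ) = (z * τ) * (u⁻¹ * (z * τ) * u) := by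
    calc (u⁻¹ * (z * τ) * u) * (z * τ) = u⁻¹ * ((z * τ) * (u * (z * τ) * u⁻¹)) * u := by group
      _ = u⁻¹ * ((u * (z * τ) * u⁻¹) * (z * τ)) * u := by rw [E1]
      _ = (z * τ) * (u⁻¹ * (z * τ) * u) := by group
  exact conj_cent (fun g g' h h' => C.cent_comm hz hz1 hz2 hτ2 hτa h h') E2 hg

/-- An involution of `U` normalising the centraliser of `z τ` equals `z`. -/
theorem inv_norm_eq [Finite G] {z τ s : G} (hz : z ∈ C.U) (hz1 : z ≠ 1) (hz2 : z * z = 1)
    (hτ2 : τ * τ = 1) (hτa : τ • C.a ≠ C.a) (hs : s ∈ C.U) (hs1 : s ≠ 1) (hs2 : s * s = 1)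
    (hn : ∀ g : G, g * (z * τ) = (z * τ) * g → (s * g * s⁻¹) * (z * τ) = (z * τ) * (s * g * s⁻¹)) :
    s = z := by
  have hsinv : s⁻¹ = s := by
    rw [inv_eq_iff_mul_eq_one]; exact hs2
  have hzinv : z⁻¹ = z := by
    rw [inv_eq_iff_mul_eq_one]; exact hz2
  have h1 := hn (z * τ) rfl
  -- g = y * (s y s⁻¹) commutes with y and with s
  have hgy : ((z * τ) * (s * (z * τ) * s⁻¹)) * (z * τ) = (z * τ) * ((z * τ) * (s * (z * τ) * s⁻¹)) := by
    calc ((z * τ) * (s * (z * τ) * s⁻¹)) * (z * τ) = (z * τ) * ((s * (z * τ) * s⁻¹) * (z * τ)) := by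
          group
      _ = (z * τ) * ((z * τ) * (s * (z * τ) * s⁻¹)) := by rw [h1]
  have hgs : ((z * τ) * (s * (z * τ) * s⁻¹)) * s = s * ((z * τ) * (s * (z * τ) * s⁻¹)) := by
    calc ((z * τ) * (s * (z * τ) * s⁻¹)) * s = (z * τ) * s * (z * τ) := by group
      _ = (z * τ) * s * (z * τ) * (s * s) := by rw [hs2, mul_one]
      _ = ((z * τ) * (s * (z * τ) * s)) * s := by group
      _ = ((z * τ) * (s * (z * τ) * s⁻¹)) * s := by rw [hsinv]
      _ = ((s * (z * τ) * s⁻¹) * (z * τ)) * s := by rw [h1]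
      _ = s * (z * τ) * s⁻¹ * (z * τ) * s := by group
      _ = s * (z * τ) * s * (z * τ) * s := by rw [hsinv]
      _ = s * ((z * τ) * (s * (z * τ) * s)) := by group
      _ = s * ((z * τ) * (s * (z * τ) * s⁻¹)) := by rw [hsinv]
  have hg1 : (z * τ) * (s * (z * τ) * s⁻¹) = 1 :=
    C.cent_fix hz hz1 hτ2 hτa hgy (C.commute_fix hs hs1 hgs)
  have hsy : s * (z * τ) * s⁻¹ = (z * τ)⁻¹ := by
    rw [eq_inv_iff_mul_eq_one]
    calc s * (z * τ) * s⁻¹ * (z * τ) = (z * τ) * (s * (z * τ) * s⁻¹) := h1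
      _ = 1 := hg1
  have hk : (s * z) * (z * τ) = (z * τ) * (s * z) := by
    have e1 : (s * z) * (z * τ) * (s * z)⁻¹ = z * τ := by
      calc (s * z) * (z * τ) * (s * z)⁻¹ = s * (z * (z * τ) * z⁻¹) * s⁻¹ := by group
        _ = s * (z * τ)⁻¹ * s⁻¹ := by rw [z_inv_y hz2 hτ2]
        _ = (s * (z * τ) * s⁻¹)⁻¹ := by group
        _ = z * τ := by rw [hsy, inv_inv]
    calc (s * z) * (z * τ) = ((s * z) * (z * τ) * (s * z)⁻¹) * (s * z) := by group
      _ = (z * τ) * (s * z) := by rw [e1]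
  have hka : (s * z) • C.a = C.a := by
    rw [mul_smul, C.hUa z hz, C.hUa s hs]
  have hsz := C.cent_fix hz hz1 hτ2 hτa hk hka
  calc s = (s * z) * z⁻¹ := by group
    _ = z := by rw [hsz, one_mul, hzinv]

end ZT0

end Cfsg.Agent.Helper66.SuzOrd
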