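/-
Helper library of seat helper66: TI Hall subgroups, part 3.
`π`-separable groups with a TI Hall subgroup `H` (`π = π(H)`): `G = O_{π'}(G) N_G(H)` without
solvability assumptions, `O_{π'}(G) H` is normal, `C_G(H) ≤ O_{π'}(G) H`, and the solvability
criterion (modulo Zassenhaus' theorem on perfect fixed-point-free groups, hypothesis `ZassHyp`).
-/
import Mathlib
import Cfsg.Agent.Helper66.TIHall
import Cfsg.Agent.Helper66.TIHall2
import Cfsg.Agent.Helper66.FrobOrderType
import Cfsg.Agent.Helper35.Burnside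

set_option autoImplicit false

namespace Cfsg.Agent.Helper66

open Subgroup
open scoped Pointwise commutatorElement

universe u

section part1

variable {G : Type u} [Group G] [Finite G]

/-- Frattini argument without solvability: `G = O · N_G(H)`. -/
theorem tiH3_sup_normalizer_eq_top {H : Subgroup G} (hTI : Cfsg.IsTISubset (H : Set G))
    {O L : Subgroup G} (hOn : O.Normal) (hOc : (Nat.card O).Coprime (Nat.card H))
    (hL : L.Normal) (hOL : O ⊔ (H ⊓ L) = L) (hH1 : H ⊓ L ≠ ⊥) :
    O ⊔ normalizer (H : Set G) = ⊤ := by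
  rw [eq_top_iff]
  intro g _
  have hcard1 : 1 < Nat.card (H ⊓ L : Subgroup G) := (Subgroup.one_lt_card_iff_ne_bot _).mpr hH1
  obtain ⟨p, hp, hpd⟩ := Nat.exists_prime_and_dvd (ne_of_gt hcard1)
  have : Fact p.Prime := ⟨hp⟩
  obtain ⟨⟨x, hx⟩, hxo⟩ := exists_prime_orderOf_dvd_card' (G := (H ⊓ L : Subgroup G)) p hpd
  have hxo' : orderOf x = p := by rw [← hxo, Subgroup.orderOf_mk]
  have hx1 : x ≠ 1 := by
    rintro rfl
    rw [orderOf_one] at hxo'
    exact hp.one_lt.ne hxo'
  have hyL : g * x * g⁻¹ ∈ L := hL.conj_mem x hx.2 g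
  have hyo : orderOf (⟨g * x * g⁻¹, hyL⟩ : ↥L) = p := by
    rw [Subgroup.orderOf_mk, ← hxo']
    have := MulEquiv.orderOf_eq (MulAut.conj g) x
    simpa using this
  have hPG : IsPGroup p (zpowers (⟨g * x * g⁻¹, hyL⟩ : ↥L)) := by
    apply IsPGroup.of_card (n := 1)
    rw [Nat.card_zpowers, hyo, pow_one]
  have hidx : ¬ p ∣ Nat.card (↥L ⧸ H.subgroupOf L) := by
    intro hdvd
    have h1 : Nat.card (↥L ⧸ H.subgroupOf L) = H.relIndex L := by
      rw [Subgroup.relIndex, Subgroup.index_eq_card]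
    have h2 : Nat.card (H ⊓ L : Subgroup G) * H.relIndex L = Nat.card L := by
      rw [← Subgroup.inf_relIndex_right H L]
      exact Helper35.card_mul_relIndex_of_le inf_le_right
    have h3 : Nat.card (H ⊓ L ⊔ O : Subgroup G) =
        Nat.card (H ⊓ L : Subgroup G) * (H ⊓ L).relIndex O :=
      card_sup_eq_card_mul_relIndex (H ⊓ L) O
    rw [sup_comm, hOL, ← h2] at h3
    have h4 : H.relIndex L = (H ⊓ L).relIndex O :=
      Nat.eq_of_mul_eq_mul_left (Nat.card_pos (α := (H ⊓ L : Subgroup G))) h3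
    have h5 : p ∣ Nat.card O := by
      rw [h1, h4] at hdvd
      exact hdvd.trans (Subgroup.relIndex_dvd_card _ _)
    have h6 : p ∣ Nat.card H := hpd.trans (Subgroup.card_dvd_of_le inf_le_left)
    exact hp.one_lt.ne' (Nat.eq_one_of_dvd_coprimes hOc h5 h6)
  obtain ⟨q, hq⟩ := hPG.nonempty_fixed_point_of_prime_not_dvd_card (↥L ⧸ H.subgroupOf L) hidx
  obtain ⟨l, rfl⟩ := QuotientGroup.mk_surjective q
  have h1 := hq ⟨_, mem_zpowers (⟨g * x * g⁻¹, hyL⟩ : ↥L)⟩
  have h2 : l⁻¹ * ((⟨g * x * g⁻¹, hyL⟩ : ↥L) * l) ∈ H.subgroupOf L := by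
    rw [← QuotientGroup.eq]; exact h1.symm
  rw [Subgroup.mem_subgroupOf] at h2
  have h3 : ((l : G)⁻¹ * g) * x * ((l : G)⁻¹ * g)⁻¹ ∈ H := by
    have e : ((l : G)⁻¹ * g) * x * ((l : G)⁻¹ * g)⁻¹ = (l : G)⁻¹ * ((g * x * g⁻¹) * l) := by group
    rw [e]; exact h2
  have h4 := tiH_mem_normalizer hTI hx.1 hx1 h3
  have hlO : (l : G) ∈ O ⊔ normalizer (H : Set G) := by
    have h5 : (l : G) ∈ O ⊔ (H ⊓ L) := by rw [hOL]; exact l.2
    exact (sup_le_sup_left (inf_le_left.trans le_normalizer) O) h5
  have e : g = (l : G) * ((l : G)⁻¹ * g) := by group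
  rw [e]
  exact Subgroup.mul_mem _ hlO (Subgroup.mem_sup_right h4)

omit [Finite G] in
/-- `O H` is normal when `G = O N_G(H)`. -/
theorem tiH3_sup_normal {H O : Subgroup G} (hOn : O.Normal)
    (htop : O ⊔ normalizer (H : Set G) = ⊤) : (O ⊔ H).Normal := by
  rw [← Subgroup.normalizer_eq_top_iff, eq_top_iff, ← htop]
  refine sup_le (le_sup_left.trans le_normalizer) ?_
  intro g hg
  rw [Helper35.mem_normalizer_iff_conj_smul_eq, Subgroup.smul_sup, Helper35.conj_smul_normal,
    Helper35.conj_smul_eq_self_of_mem_normalizer hg]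

/-- `C_G(H) ≤ O H`. -/
theorem tiH3_centralizer_le {H O : Subgroup G}
    (hHall : (Nat.card H).Coprime (H.subgroupOf (normalizer (H : Set G))).index)
    (hOn : O.Normal) (hOc : (Nat.card O).Coprime (Nat.card H))
    (hOmax : ∀ K : Subgroup G, K.Normal → (Nat.card K).Coprime (Nat.card H) → K ≤ O)
    (htop : O ⊔ normalizer (H : Set G) = ⊤) :
    centralizer (H : Set G) ≤ O ⊔ H := by
  have hCM : centralizer (H : Set G) ≤ normalizer (H : Set G) :=
    Subgroup.centralizer_le_normalizer _
  have hcomm : ∀ (n : ↥(centralizer (H : Set G))), n ∈ H.subgroupOf (centralizer (H : Set G)) →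
      ∀ c : ↥(centralizer (H : Set G)), n * c = c * n := by
    intro n hn c
    apply Subtype.ext
    exact Subgroup.mem_centralizer_iff.mp c.2 (n : G) (Subgroup.mem_subgroupOf.mp hn)
  have hNn : (H.subgroupOf (centralizer (H : Set G))).Normal := by
    constructor
    intro n hn c
    have e : c * n * c⁻¹ = n := by rw [← hcomm n hn c]; group
    rw [e]; exact hn
  have hidx : (H.subgroupOf (centralizer (H : Set G))).index ∣
      (H.subgroupOf (normalizer (H : Set G))).index := by
    have h1 := Subgroup.relIndex_dvd_index_of_normal (H.subgroupOf (normalizer (H : Set G)))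
      ((centralizer (H : Set G)).subgroupOf (normalizer (H : Set G)))
    rwa [Subgroup.relIndex_subgroupOf hCM] at h1
  have hcardN : Nat.card (H.subgroupOf (centralizer (H : Set G))) ∣ Nat.card H := by
    rw [← Subgroup.inf_subgroupOf_right, Helper35.card_subgroupOf_of_le inf_le_right]
    exact Subgroup.card_dvd_of_le inf_le_left
  have hcop1 : (Nat.card H).Coprime (H.subgroupOf (centralizer (H : Set G))).index :=
    Nat.Coprime.coprime_dvd_right hidx hHall
  obtain ⟨C₀, hC₀⟩ := Subgroup.exists_right_complement'_of_coprime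
    (Nat.Coprime.coprime_dvd_left hcardN hcop1)
  have hm : (H.subgroupOf (centralizer (H : Set G))).index = Nat.card C₀ :=
    Helper35.index_eq_card_of_isComplement' hC₀
  rw [hm] at hcop1
  -- `C₀` is the set of elements of `C` killed by `|C₀|`
  have hchar : ∀ c : ↥(centralizer (H : Set G)), c ^ Nat.card C₀ = 1 → c ∈ C₀ := by
    intro c hc
    obtain ⟨n, hn, c₀, hc₀, rfl⟩ := Helper35.exists_mul_of_isComplement' hC₀ c
    have h1 : (n * c₀) ^ Nat.card C₀ = n ^ Nat.card C₀ * c₀ ^ Nat.card C₀ :=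
      (show Commute n c₀ from hcomm n hn c₀).mul_pow _
    rw [h1, pow_card_eq_one_of_mem hc₀, mul_one] at hc
    have h2 : n = 1 := eq_one_of_pow_eq_one_of_coprime
      (Nat.Coprime.coprime_dvd_left hcardN hcop1) (pow_card_eq_one_of_mem hn) hc
    rw [h2, one_mul]; exact hc₀
  have hcardD : Nat.card (C₀.map (centralizer (H : Set G)).subtype) = Nat.card C₀ :=
    Subgroup.card_map_of_injective (Subgroup.subtype_injective _)
  -- `N_G(H)` normalises the image `D` of `C₀`
  have hMD : normalizer (H : Set G) ≤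
      normalizer ((C₀.map (centralizer (H : Set G)).subtype : Subgroup G) : Set G) := by
    apply Helper35.le_normalizer_of_forall_conj_mem
    rintro g hg _ ⟨d, hd, rfl⟩
    have hgd : g * (d : G) * g⁻¹ ∈ centralizer (H : Set G) := by
      rw [Subgroup.mem_centralizer_iff]
      intro h hh
      have h1 : g⁻¹ * h * g ∈ H := by
        have := (Subgroup.mem_normalizer_iff.mp ((normalizer (H : Set G)).inv_mem hg) h).mp hh
        simpa using this
      have h2 := Subgroup.mem_centralizer_iff.mp d.2 _ h1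
      calc h * (g * (d : G) * g⁻¹) = g * ((g⁻¹ * h * g) * (d : G)) * g⁻¹ := by group
        _ = g * ((d : G) * (g⁻¹ * h * g)) * g⁻¹ := by rw [h2]
        _ = g * (d : G) * g⁻¹ * h := by group
    have h3 : (⟨g * (d : G) * g⁻¹, hgd⟩ : ↥(centralizer (H : Set G))) ∈ C₀ := by
      apply hchar
      apply Subtype.ext
      have h4 : (d : G) ^ Nat.card C₀ = 1 := by
        have := congrArg Subtype.val (pow_card_eq_one_of_mem hd)
        simpa using this
      show (g * (d : G) * g⁻¹) ^ Nat.card C₀ = 1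
      rw [conj_pow, h4]; group
    exact ⟨_, h3, rfl⟩
  -- `O D` is a normal subgroup of order prime to `|H|`, hence inside `O`
  have hODn : (O ⊔ C₀.map (centralizer (H : Set G)).subtype).Normal := by
    rw [← Subgroup.normalizer_eq_top_iff, eq_top_iff, ← htop]
    refine sup_le (le_sup_left.trans le_normalizer) ?_
    intro g hg
    rw [Helper35.mem_normalizer_iff_conj_smul_eq, Subgroup.smul_sup, Helper35.conj_smul_normal,
      Helper35.conj_smul_eq_self_of_mem_normalizer (hMD hg)]
  have hODc : (Nat.card (O ⊔ C₀.map (centralizer (H : Set G)).subtype : Subgroup G)).Coprime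
      (Nat.card H) := by
    have h1 := card_sup_eq_card_mul_relIndex (C₀.map (centralizer (H : Set G)).subtype) O
    rw [sup_comm, h1, hcardD]
    exact Nat.Coprime.mul_left hcop1.symm
      (Nat.Coprime.coprime_dvd_left (Subgroup.relIndex_dvd_card _ _) hOc)
  have hDO : C₀.map (centralizer (H : Set G)).subtype ≤ O :=
    le_sup_right.trans (hOmax _ hODn hODc)
  intro c hc
  obtain ⟨n, hn, c₀, hc₀, hcn⟩ := Helper35.exists_mul_of_isComplement' hC₀ ⟨c, hc⟩
  have e : c = (n : G) * (c₀ : G) := by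
    have := congrArg Subtype.val hcn
    simpa using this
  rw [e]
  exact Subgroup.mul_mem _ (Subgroup.mem_sup_right (Subgroup.mem_subgroupOf.mp hn))
    (Subgroup.mem_sup_left (hDO ⟨c₀, hc₀, rfl⟩))

end part1

section lemmaQ

/-- The action of `X` on `D ⧸ Φ(D)` for a normal subgroup `D`. -/
noncomputable def tiFrattiniAct {X : Type*} [Group X] (D : Subgroup X) [D.Normal] :
    X →* MulAut (D ⧸ frattini D) where
  toFun g := QuotientGroup.congr (frattini D) (frattini D) (MulAut.conjNormal g)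
    (Subgroup.characteristic_iff_map_eq.mp frattini_characteristic (MulAut.conjNormal g))
  map_one' := by
    ext x
    induction x using QuotientGroup.induction_on with
    | H x => simp
  map_mul' := fun g h => by
    ext x
    induction x using QuotientGroup.induction_on with
    | H x =>
      simp only [map_mul]
      rfl

theorem tiFrattiniAct_mk {X : Type*} [Group X] (D : Subgroup X) [D.Normal] (g : X) (d : D) :
    tiFrattiniAct D g (QuotientGroup.mk d) = QuotientGroup.mk (MulAut.conjNormal g d) := rfl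

theorem comm_mem_of_mem_ker_tiFrattiniAct {X : Type*} [Group X] (D : Subgroup X) [D.Normal]
    (g : X) (hg : g ∈ (tiFrattiniAct D).ker) (y : X) (hy : y ∈ D) :
    g * y * g⁻¹ * y⁻¹ ∈ (frattini D).map D.subtype := by
  have h1 : tiFrattiniAct D g (QuotientGroup.mk (⟨y, hy⟩ : D)) = QuotientGroup.mk ⟨y, hy⟩ := by
    rw [MonoidHom.mem_ker.mp hg]
    rfl
  rw [tiFrattiniAct_mk, QuotientGroup.eq_iff_div_mem] at h1
  refine ⟨_, h1, ?_⟩
  simp [div_eq_mul_inv]

/-- A group of order at most `4` has at most `6` automorphisms. -/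
theorem card_mulAut_le_six {V : Type*} [Group V] [Finite V] (hV : Nat.card V ≤ 4) :
    Nat.card (MulAut V) ≤ 6 := by
  classical
  let f : MulAut V → Equiv.Perm {v : V // v ≠ 1} := fun α =>
    { toFun := fun v => ⟨α v.1, fun h => v.2 ((map_eq_one_iff α α.injective).mp h)⟩
      invFun := fun v => ⟨α.symm v.1, fun h => v.2 ((map_eq_one_iff α.symm α.symm.injective).mp h)⟩
      left_inv := fun v => Subtype.ext (α.symm_apply_apply v.1)
      right_inv := fun v => Subtype.ext (α.apply_symm_apply v.1) }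
  have hf : Function.Injective f := by
    intro α β h
    ext v
    by_cases hv : v = 1
    · rw [hv, map_one, map_one]
    · have := congrArg (fun σ => ((σ ⟨v, hv⟩ : {v : V // v ≠ 1}) : V)) h
      exact this
  have h1 := Nat.card_le_card_of_injective f hf
  have h2 : Nat.card (Equiv.Perm {v : V // v ≠ 1}) = (Nat.card {v : V // v ≠ 1}).factorial :=
    Nat.card_perm
  have h3 : Nat.card {v : V // v ≠ 1} < Nat.card V :=
    Finite.card_subtype_lt (x := (1 : V)) (by simp)
  have h4 : Nat.card {v : V // v ≠ 1} ≤ 3 := by omega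
  calc Nat.card (MulAut V) ≤ (Nat.card {v : V // v ≠ 1}).factorial := h2 ▸ h1
    _ ≤ (3).factorial := Nat.factorial_le h4
    _ = 6 := rfl

/-- A subgroup of odd order of a group with at most `6` elements is commutative. -/
theorem comm_of_odd_card_le_six {A : Type*} [Group A] [Finite A] (B : Subgroup A)
    (hodd : Odd (Nat.card B)) (hle : Nat.card B ≤ 6) : ∀ x ∈ B, ∀ y ∈ B, x * y = y * x := by
  have hcases : Nat.card B = 1 ∨ Nat.card B = 3 ∨ Nat.card B = 5 := by
    obtain ⟨k, hk⟩ := hodd; omega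
  have hcyc : IsCyclic B := by
    rcases hcases with h | h | h
    · have : Subsingleton B := (Nat.card_eq_one_iff_unique.mp h).1
      exact isCyclic_of_subsingleton
    · have : Fact (Nat.Prime 3) := ⟨by norm_num⟩
      exact isCyclic_of_prime_card h
    · have : Fact (Nat.Prime 5) := ⟨by norm_num⟩
      exact isCyclic_of_prime_card h
  intro x hx y hy
  have h1 := (IsCyclic.commGroup (α := B)).mul_comm ⟨x, hx⟩ ⟨y, hy⟩
  exact congrArg Subtype.val h1

/-- A group `K` of odd order normalising... (normal form): `⁅K, K⁆` centralises a normal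
`2`-subgroup generated by two elements. -/
theorem commutator_le_centralizer_two_gen_normal {X : Type*} [Group X] [Finite X]
    (D : Subgroup X) [D.Normal] (hD : IsPGroup 2 D) {a b : X} (ha : a ∈ D) (hb : b ∈ D)
    (hab : D ≤ zpowers a ⊔ zpowers b) (K : Subgroup X) (hK : Odd (Nat.card K)) :
    ⁅K, K⁆ ≤ centralizer (D : Set X) := by
  have : Fact (Nat.Prime 2) := ⟨Nat.prime_two⟩
  have htop : zpowers (⟨a, ha⟩ : ↥D) ⊔ zpowers (⟨b, hb⟩ : ↥D) = ⊤ := by
    rw [eq_top_iff]
    intro y _
    have h1 : (zpowers (⟨a, ha⟩ : ↥D) ⊔ zpowers (⟨b, hb⟩ : ↥D)).map D.subtype =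
        zpowers a ⊔ zpowers b := by
      rw [Subgroup.map_sup, MonoidHom.map_zpowers, MonoidHom.map_zpowers]
      rfl
    have h2 : (y : X) ∈ (zpowers (⟨a, ha⟩ : ↥D) ⊔ zpowers (⟨b, hb⟩ : ↥D)).map D.subtype := by
      rw [h1]; exact hab y.2
    obtain ⟨z, hz, hzy⟩ := h2
    have : z = y := Subtype.ext hzy
    rwa [this] at hz
  have hcard := Helper35.card_quotient_frattini_le (p := 2) hD ⟨a, ha⟩ ⟨b, hb⟩ htop
  have hAut : Nat.card (MulAut (↥D ⧸ frattini ↥D)) ≤ 6 :=
    card_mulAut_le_six (by norm_num at hcard; exact hcard)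
  have hBodd : Odd (Nat.card (K.map (tiFrattiniAct D))) :=
    Odd.of_dvd_nat hK (Subgroup.card_map_dvd _ _)
  have hBle : Nat.card (K.map (tiFrattiniAct D)) ≤ 6 := (Subgroup.card_le_card_group _).trans hAut
  have hBcomm := comm_of_odd_card_le_six _ hBodd hBle
  have hker : ⁅K, K⁆ ≤ (tiFrattiniAct D).ker := by
    rw [Subgroup.commutator_le]
    intro x hx y hy
    rw [MonoidHom.mem_ker, map_commutatorElement, commutatorElement_eq_one_iff_commute]
    exact hBcomm _ (Subgroup.mem_map_of_mem _ hx) _ (Subgroup.mem_map_of_mem _ hy)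
  have hKK : ⁅K, K⁆ ≤ K := by
    rw [Subgroup.commutator_le]
    intro x hx y hy
    rw [commutatorElement_def]
    exact K.mul_mem (K.mul_mem (K.mul_mem hx hy) (K.inv_mem hx)) (K.inv_mem hy)
  intro h hh
  rw [Subgroup.mem_centralizer_iff]
  intro y hy
  have hcop : (orderOf h).Coprime 2 := by
    have h1 : orderOf h ∣ Nat.card K :=
      orderOf_dvd_of_pow_eq_one (pow_card_eq_one_of_mem (hKK hh))
    exact Nat.Coprime.coprime_dvd_left h1 (Nat.coprime_two_right.mpr hK)
  have h2 := Helper35.centralizes_of_coprime_of_frattini hD (h := h)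
    (by rw [Subgroup.normalizer_eq_top]; exact Subgroup.mem_top _) hcop
    (fun y hy => comm_mem_of_mem_ker_tiFrattiniAct D h (hker hh) y hy) y hy
  exact h2.symm

/-- `⁅K, K⁆` centralises a `2`-subgroup `P` generated by two elements, for `K ≤ N_G(P)` of odd
order. -/
theorem commutator_le_centralizer_two_gen {G : Type*} [Group G] [Finite G] {P K : Subgroup G}
    (hP : IsPGroup 2 P) {a b : G} (ha : a ∈ P) (hb : b ∈ P) (hab : P ≤ zpowers a ⊔ zpowers b)
    (hKP : K ≤ normalizer (P : Set G)) (hK : Odd (Nat.card K)) :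
    ⁅K, K⁆ ≤ centralizer (P : Set G) := by
  have hD : IsPGroup 2 (P.subgroupOf (normalizer (P : Set G))) := hP.comap_subtype
  have haN : a ∈ normalizer (P : Set G) := le_normalizer ha
  have hbN : b ∈ normalizer (P : Set G) := le_normalizer hb
  have hab' : P.subgroupOf (normalizer (P : Set G)) ≤
      zpowers (⟨a, haN⟩ : ↥(normalizer (P : Set G))) ⊔
        zpowers (⟨b, hbN⟩ : ↥(normalizer (P : Set G))) := by
    intro y hy
    have h1 : (zpowers (⟨a, haN⟩ : ↥(normalizer (P : Set G))) ⊔
        zpowers (⟨b, hbN⟩ : ↥(normalizer (P : Set G)))).map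
        (normalizer (P : Set G)).subtype = zpowers a ⊔ zpowers b := by
      rw [Subgroup.map_sup, MonoidHom.map_zpowers, MonoidHom.map_zpowers]
      rfl
    have h2 : (y : G) ∈ (zpowers (⟨a, haN⟩ : ↥(normalizer (P : Set G))) ⊔
        zpowers (⟨b, hbN⟩ : ↥(normalizer (P : Set G)))).map
        (normalizer (P : Set G)).subtype := by
      rw [h1]; exact hab (Subgroup.mem_subgroupOf.mp hy)
    obtain ⟨z, hz, hzy⟩ := h2
    have : z = y := Subtype.ext hzy
    rwa [this] at hz
  have hK' : Odd (Nat.card (K.subgroupOf (normalizer (P : Set G)))) := by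
    rw [Helper35.card_subgroupOf_of_le hKP]; exact hK
  have key := commutator_le_centralizer_two_gen_normal (P.subgroupOf (normalizer (P : Set G))) hD
    (a := ⟨a, haN⟩) (b := ⟨b, hbN⟩) (Subgroup.mem_subgroupOf.mpr ha)
    (Subgroup.mem_subgroupOf.mpr hb) hab' (K.subgroupOf _) hK'
  rw [Subgroup.commutator_le]
  intro x hx y hy
  have h1 : ⁅(⟨x, hKP hx⟩ : ↥(normalizer (P : Set G))),
      (⟨y, hKP hy⟩ : ↥(normalizer (P : Set G)))⁆ ∈
      centralizer ((P.subgroupOf (normalizer (P : Set G)) : Subgroup _) : Set _) :=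
    key (Subgroup.commutator_mem_commutator (Subgroup.mem_subgroupOf.mpr hx)
      (Subgroup.mem_subgroupOf.mpr hy))
  rw [Subgroup.mem_centralizer_iff] at h1 ⊢
  intro p hp
  have h2 := h1 ⟨p, le_normalizer hp⟩ (Subgroup.mem_subgroupOf.mpr hp)
  exact congrArg Subtype.val h2

end lemmaQ

section claim2

variable {G : Type u} [Group G] [Finite G]

/-- If all Sylow subgroups of the solvable group `H` are cyclic or (for `p = 2`) generated by two
elements, and `K` acts coprimely on `H`, then `⁅K, K⁆` centralises `H`. -/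
theorem tiH3_commutator_le_centralizer {H K : Subgroup G} (hK : K ≤ normalizer (H : Set G))
    (hcop : (Nat.card K).Coprime (Nat.card H)) (hsolv : Group.IsSolvable H)
    (hSyl : ∀ (p : ℕ) [Fact p.Prime], ∀ P ∈ Helper35.sylowSet p H,
      IsCyclic P ∨ (p = 2 ∧ ∃ a ∈ P, ∃ b ∈ P, P ≤ zpowers a ⊔ zpowers b)) :
    ⁅K, K⁆ ≤ centralizer (H : Set G) := by
  rw [← Subgroup.le_centralizer_iff]
  have hT : H ⊓ centralizer ((⁅K, K⁆ : Subgroup G) : Set G) = H := by
    apply Subgroup.eq_of_le_of_card_ge inf_le_left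
    apply Nat.le_of_dvd Nat.card_pos
    rw [← Nat.factorization_prime_le_iff_dvd Nat.card_pos.ne' Nat.card_pos.ne']
    intro p hp
    have : Fact p.Prime := ⟨hp⟩
    obtain ⟨P, hP, hKP⟩ := Helper35.exists_invariant_sylow hK hcop (Or.inr hsolv) p
    have hPle : P ≤ H ⊓ centralizer ((⁅K, K⁆ : Subgroup G) : Set G) := by
      refine le_inf hP.1 ?_
      rw [Subgroup.le_centralizer_iff]
      rcases hSyl p P hP with hc | ⟨rfl, a, ha, b, hb, hab⟩
      · exact (Subgroup.commutator_mono hKP hKP).trans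
          (commutator_normalizer_le_centralizer_of_isCyclic P)
      · by_cases hP1 : P = ⊥
        · rw [hP1]
          intro x _
          rw [Subgroup.mem_centralizer_iff]
          intro y hy
          rw [Subgroup.mem_bot.mp hy]; simp
        · have hodd : Odd (Nat.card K) := by
            have h2P : 2 ∣ Nat.card P := by
              obtain ⟨k, hk⟩ := IsPGroup.iff_card.mp (Helper35.isPGroup_of_mem_sylowSet hP)
              have hk0 : k ≠ 0 := by
                rintro rfl
                rw [pow_zero] at hk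
                exact hP1 (Subgroup.card_eq_one.mp hk)
              rw [hk]; exact dvd_pow_self 2 hk0
            have h2H : 2 ∣ Nat.card H := h2P.trans (Subgroup.card_dvd_of_le hP.1)
            rw [← Nat.coprime_two_right]
            exact Nat.Coprime.coprime_dvd_right h2H hcop
          exact commutator_le_centralizer_two_gen (Helper35.isPGroup_of_mem_sylowSet hP) ha hb hab
            hKP hodd
    have hdvd : p ^ (Nat.card H).factorization p ∣
        Nat.card (H ⊓ centralizer ((⁅K, K⁆ : Subgroup G) : Set G) : Subgroup G) := by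
      rw [← hP.2]; exact Subgroup.card_dvd_of_le hPle
    exact (hp.pow_dvd_iff_le_factorization Nat.card_pos.ne').mp hdvd
  rw [← hT]; exact inf_le_right

end claim2

section solv

/-- `O H` is solvable for `O` normal and `O`, `H` solvable. -/
theorem isSolvable_sup_of_normal {G : Type*} [Group G] {O H : Subgroup G} [hOn : O.Normal]
    (hO : Group.IsSolvable O) (hH : Group.IsSolvable H) : Group.IsSolvable ↥(O ⊔ H) := by
  have h1 : Group.IsSolvable (O.subgroupOf (O ⊔ H)) :=
    Helper35.isSolvable_subgroupOf_of_le le_sup_left hO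
  have hq : Group.IsSolvable (↥(O ⊔ H) ⧸ O.subgroupOf (O ⊔ H)) := by
    apply Group.isSolvable_of_surjective (f := (QuotientGroup.mk' (O.subgroupOf (O ⊔ H))).comp
      (Subgroup.inclusion (le_sup_right : H ≤ O ⊔ H)))
    intro q
    obtain ⟨⟨x, hx⟩, rfl⟩ := QuotientGroup.mk'_surjective _ q
    obtain ⟨n, hn, h, hh, rfl⟩ := Helper35.exists_mul_of_mem_sup_of_le_normalizer (N := O) (A := H)
      (by rw [Subgroup.normalizer_eq_top]; exact le_top) hx
    refine ⟨⟨h, hh⟩, ?_⟩
    rw [MonoidHom.comp_apply, QuotientGroup.mk'_apply, QuotientGroup.mk'_apply, QuotientGroup.eq,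
      Subgroup.mem_subgroupOf]
    show h⁻¹ * (n * h) ∈ O
    have e : h⁻¹ * (n * h) = h⁻¹ * n * h⁻¹⁻¹ := by group
    rw [e]; exact hOn.conj_mem n hn h⁻¹
  exact Group.isSolvable_of_ker_le_range (O.subgroupOf (O ⊔ H)).subtype
    (QuotientGroup.mk' (O.subgroupOf (O ⊔ H)))
    (by rw [QuotientGroup.ker_mk', Subgroup.range_subtype])

/-- `G = B K` with `B` normal solvable and `⁅K, K⁆ ≤ B`: `G` is solvable. -/
theorem isSolvable_of_sup_of_commutator_le {G : Type*} [Group G] {B K : Subgroup G}
    [hBn : B.Normal] (hB : Group.IsSolvable B) (hsup : B ⊔ K = ⊤) (hKK : ⁅K, K⁆ ≤ B) :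
    Group.IsSolvable G := by
  have hK : ∀ x : G, ∃ k ∈ K, (QuotientGroup.mk x : G ⧸ B) = QuotientGroup.mk k := by
    intro x
    have hx : x ∈ B ⊔ K := by rw [hsup]; exact Subgroup.mem_top x
    obtain ⟨n, hn, k, hk, rfl⟩ := Helper35.exists_mul_of_mem_sup_of_le_normalizer (N := B) (A := K)
      (by rw [Subgroup.normalizer_eq_top]; exact le_top) hx
    refine ⟨k, hk, ?_⟩
    rw [QuotientGroup.eq]
    have e : (n * k)⁻¹ * k = k⁻¹ * n⁻¹ * k⁻¹⁻¹ := by group
    rw [e]; exact hBn.conj_mem _ (B.inv_mem hn) _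
  have hcomm : ∀ a b : G ⧸ B, a * b = b * a := by
    intro a b
    obtain ⟨x, rfl⟩ := QuotientGroup.mk_surjective a
    obtain ⟨y, rfl⟩ := QuotientGroup.mk_surjective b
    obtain ⟨k₁, hk₁, e₁⟩ := hK x
    obtain ⟨k₂, hk₂, e₂⟩ := hK y
    rw [e₁, e₂, ← QuotientGroup.mk_mul, ← QuotientGroup.mk_mul, QuotientGroup.eq]
    have e : (k₁ * k₂)⁻¹ * (k₂ * k₁) = ⁅k₂⁻¹, k₁⁻¹⁆ := by rw [commutatorElement_def]; group
    rw [e]
    exact hKK (Subgroup.commutator_mem_commutator (K.inv_mem hk₂) (K.inv_mem hk₁))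
  have hq : Group.IsSolvable (G ⧸ B) := Group.isSolvable_of_comm hcomm
  exact Group.isSolvable_of_ker_le_range B.subtype (QuotientGroup.mk' B)
    (by rw [QuotientGroup.ker_mk', Subgroup.range_subtype])

end solv

section frobStructure

/-- Generalized quaternion groups are generated by two elements. -/
theorem quaternion_two_gen (n : ℕ) [NeZero n] (x : QuaternionGroup n) :
    x ∈ zpowers (QuaternionGroup.a 1 : QuaternionGroup n) ⊔ zpowers (QuaternionGroup.xa 0) := by
  have : NeZero (2 * n) := ⟨by have := NeZero.ne n; omega⟩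
  have ha : ∀ i : ZMod (2 * n), (QuaternionGroup.a i : QuaternionGroup n) ∈
      zpowers (QuaternionGroup.a 1 : QuaternionGroup n) := by
    intro i
    have h1 : (QuaternionGroup.a 1 : QuaternionGroup n) ^ i.val = QuaternionGroup.a i := by
      rw [QuaternionGroup.a_one_pow, ZMod.natCast_zmod_val]
    rw [← h1]; exact Subgroup.pow_mem _ (mem_zpowers _) _
  cases x with
  | a i => exact Subgroup.mem_sup_left (ha i)
  | xa i =>
    have h1 : (QuaternionGroup.xa i : QuaternionGroup n) =
        QuaternionGroup.xa 0 * QuaternionGroup.a i := by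
      rw [QuaternionGroup.xa_mul_a, zero_add]
    rw [h1]
    exact Subgroup.mul_mem _ (Subgroup.mem_sup_right (mem_zpowers _)) (Subgroup.mem_sup_left (ha i))

variable {X : Type u} [Group X] [Finite X] {C N : Subgroup X}

/-- Sylow subgroups of a Frobenius complement are cyclic or (for `p = 2`) generated by two
elements. -/
theorem frobT_sylow_structure (hC : Cfsg.IsFrobeniusComplement C)
    (hN : (N : Set X) = Cfsg.frobeniusKernel C) (p : ℕ) [hp : Fact p.Prime] (P : Sylow p C) :
    IsCyclic P ∨ (p = 2 ∧ ∃ a ∈ (P : Subgroup C), ∃ b ∈ (P : Subgroup C),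
      (P : Subgroup C) ≤ zpowers a ⊔ zpowers b) := by
  by_cases hp2 : p = 2
  · subst hp2
    obtain ⟨hNn, hNC⟩ := frobT_compl hC hN
    have hfpf : ∀ h ∈ C, h ≠ 1 → N ⊓ Subgroup.centralizer {h} = ⊥ := by
      intro h hh hh1
      rw [eq_bot_iff]
      rintro x ⟨hxN, hxc⟩
      rw [Subgroup.mem_bot]
      by_contra hx1
      have hcomm : h * x = x * h := Subgroup.mem_centralizer_iff.mp hxc h (Set.mem_singleton h)
      exact hh1 (frobT_disj hC hN (frobT_cent hC hN hxN hx1 hcomm) hh)
    rcases Cfsg.Agent.S0040.result N C hNC (frobT_ne_bot hC hN) hfpf 2 P with h | ⟨n, ⟨e⟩⟩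
    · exact Or.inl h
    · right
      refine ⟨rfl, ((e.symm (QuaternionGroup.a 1) : ↥(P : Subgroup C)) : C), (e.symm _).2,
        ((e.symm (QuaternionGroup.xa 0) : ↥(P : Subgroup C)) : C), (e.symm _).2, ?_⟩
      intro y hy
      have h1 := quaternion_two_gen (2 ^ n) (e ⟨y, hy⟩)
      have h3 : ((P : Subgroup C).subtype.comp e.symm.toMonoidHom) (e ⟨y, hy⟩) ∈
          (zpowers (QuaternionGroup.a 1 : QuaternionGroup (2 ^ n)) ⊔
            zpowers (QuaternionGroup.xa 0)).map
            ((P : Subgroup C).subtype.comp e.symm.toMonoidHom) :=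
        Subgroup.mem_map_of_mem _ h1
      rw [Subgroup.map_sup, MonoidHom.map_zpowers, MonoidHom.map_zpowers] at h3
      simpa using h3
  · exact Or.inl (frobT_sylow_cyclic hC hN p hp2 P)

end frobStructure

section transport

/-- `SL(2,5)` is not solvable. -/
theorem sl25_not_isSolvable :
    ¬ Group.IsSolvable (Matrix.SpecialLinearGroup (Fin 2) (ZMod 5)) := by
  intro h
  have h2 : (2 : ZMod 5) ≠ 0 := by decide
  have h4 : (2 : ZMod 5) ^ 2 ≠ 1 := by decide
  have : Fact (Nat.Prime 5) := ⟨by norm_num⟩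
  have hperf : commutator (Matrix.SpecialLinearGroup (Fin 2) (ZMod 5)) = ⊤ :=
    Matrix.SL2.commutator_eq_top (F := ZMod 5) (a := 2) h2 h4
  have hnt : Nontrivial (Matrix.SpecialLinearGroup (Fin 2) (ZMod 5)) := by
    refine ⟨⟨⟨!![1, 1; 0, 1], by simp [Matrix.det_fin_two]⟩, 1, ?_⟩⟩
    intro h
    have h1 := congrArg (fun M : Matrix.SpecialLinearGroup (Fin 2) (ZMod 5) => M.1 0 1) h
    revert h1
    simp
  exact (Group.IsSolvable.commutator_lt_top_of_nontrivial
    (Matrix.SpecialLinearGroup (Fin 2) (ZMod 5))).ne hperf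

/-- Transport of the Sylow structure of a Frobenius complement to an isomorphic subgroup. -/
theorem sylow_structure_transport {G : Type*} [Group G] [Finite G] {H : Subgroup G}
    {F : Type*} [Group F] [Finite F] {C' : Subgroup F} (e : H ≃* C')
    (hS : ∀ (p : ℕ) [Fact p.Prime] (P : Sylow p C'), IsCyclic P ∨ (p = 2 ∧
      ∃ a ∈ (P : Subgroup C'), ∃ b ∈ (P : Subgroup C'),
        (P : Subgroup C') ≤ zpowers a ⊔ zpowers b)) :
    ∀ (p : ℕ) [Fact p.Prime], ∀ P ∈ Helper35.sylowSet p H,
      IsCyclic P ∨ (p = 2 ∧ ∃ a ∈ P, ∃ b ∈ P, P ≤ zpowers a ⊔ zpowers b) := by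
  intro p _ P hP
  have hc1 : Nat.card (P.subgroupOf H) = p ^ (Nat.card H).factorization p := by
    rw [Helper35.card_subgroupOf_of_le hP.1]; exact hP.2
  have hc2 : Nat.card ((P.subgroupOf H).map e.toMonoidHom) =
      p ^ (Nat.card C').factorization p := by
    rw [Subgroup.card_map_of_injective e.injective, hc1, Nat.card_congr e.toEquiv]
  have hmem : ∀ c : C', c ∈ (P.subgroupOf H).map e.toMonoidHom ↔ ((e.symm c : H) : G) ∈ P := by
    intro c
    constructor
    · rintro ⟨x, hx, rfl⟩
      simpa using Subgroup.mem_subgroupOf.mp hx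
    · intro h
      exact ⟨e.symm c, Subgroup.mem_subgroupOf.mpr h, by simp⟩
  rcases hS p (Sylow.ofCard _ hc2) with hcyc | ⟨rfl, a, ha, b, hb, hab⟩
  · left
    have hcyc' : IsCyclic ↥((P.subgroupOf H).map e.toMonoidHom) := hcyc
    let eP : ↥P ≃* ↥((P.subgroupOf H).map e.toMonoidHom) :=
      (Subgroup.subgroupOfEquivOfLe hP.1).symm.trans
        (Subgroup.equivMapOfInjective (P.subgroupOf H) e.toMonoidHom e.injective)
    exact isCyclic_of_surjective eP.symm.toMonoidHom eP.symm.surjective
  · right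
    refine ⟨rfl, ((e.symm a : H) : G), (hmem a).mp ha, ((e.symm b : H) : G), (hmem b).mp hb, ?_⟩
    intro y hy
    have h1 : e ⟨y, hP.1 hy⟩ ∈ (P.subgroupOf H).map e.toMonoidHom :=
      (hmem _).mpr (by simpa using hy)
    have h2 : e ⟨y, hP.1 hy⟩ ∈ zpowers a ⊔ zpowers b := hab h1
    have h3 : (H.subtype.comp e.symm.toMonoidHom) (e ⟨y, hP.1 hy⟩) ∈
        (zpowers a ⊔ zpowers b).map (H.subtype.comp e.symm.toMonoidHom) :=
      Subgroup.mem_map_of_mem _ h2
    rw [Subgroup.map_sup, MonoidHom.map_zpowers, MonoidHom.map_zpowers] at h3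
    simpa using h3

/-- A group isomorphic to a Frobenius complement and without subgroups `SL(2,5)` is solvable
(modulo Zassenhaus). -/
theorem tiH3_solvable_of_frob (hZ : ZassHyp.{u}) {G : Type*} [Group G] {H : Subgroup G}
    {F : Type u} [Group F] [Finite F] {C' N' : Subgroup F} (hC' : Cfsg.IsFrobeniusComplement C')
    (hN' : (N' : Set F) = Cfsg.frobeniusKernel C') (e : H ≃* C')
    (hno : ∀ K : Subgroup G, K ≤ H →
      ¬ Nonempty (K ≃* Matrix.SpecialLinearGroup (Fin 2) (ZMod 5))) : Group.IsSolvable H := by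
  by_contra hns
  have hns' : ¬ Group.IsSolvable C' := fun h =>
    hns (Group.isSolvable_of_isSolvable_injective (f := e.toMonoidHom) e.injective)
  obtain ⟨P, -, hP1, hPP⟩ := exists_perfect_of_not_solvable hns'
  obtain ⟨e₁⟩ := frobT_perfect_sl25 hZ hC' hN' P hP1 hPP
  apply hno ((P.map e.symm.toMonoidHom).map H.subtype) (Subgroup.map_subtype_le _)
  have e₂ : ↥(P.map e.symm.toMonoidHom) ≃* ↥((P.map e.symm.toMonoidHom).map H.subtype) :=
    Subgroup.equivMapOfInjective _ H.subtype H.subtype_injective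
  have e₃ : ↥P ≃* ↥(P.map e.symm.toMonoidHom) :=
    Subgroup.equivMapOfInjective P e.symm.toMonoidHom e.symm.injective
  exact ⟨e₂.symm.trans (e₃.symm.trans e₁)⟩

end transport

section main

variable {G : Type u} [Group G] [Finite G]

/-- The solvability criterion, direction `⇐` (modulo Zassenhaus). -/
theorem tiH3_isSolvable (hZ : ZassHyp.{u}) {H O : Subgroup G}
    (hTI : Cfsg.IsTISubset (H : Set G)) (hH1 : H ≠ ⊥)
    (hHall : (Nat.card H).Coprime (H.subgroupOf (normalizer (H : Set G))).index)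
    (hOn : O.Normal) (hOc : (Nat.card O).Coprime (Nat.card H))
    (hOmax : ∀ K : Subgroup G, K.Normal → (Nat.card K).Coprime (Nat.card H) → K ≤ O)
    (hnc : ¬ O ≤ centralizer (H : Set G)) (htop : O ⊔ normalizer (H : Set G) = ⊤)
    (hOsolv : Group.IsSolvable O)
    (hno : ∀ K : Subgroup G, K ≤ H →
      ¬ Nonempty (K ≃* Matrix.SpecialLinearGroup (Fin 2) (ZMod 5))) :
    Group.IsSolvable G := by
  classical
  have hHO : H ⊓ O = ⊥ := (Subgroup.disjoint_of_coprime_natCard hOc.symm).eq_bot
  have hHOn : H ≤ normalizer (O : Set G) := by rw [Subgroup.normalizer_eq_top]; exact le_top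
  have hOM : O ⊓ normalizer (H : Set G) ≤ centralizer (H : Set G) := fun c hc =>
    Helper35.mem_centralizer_of_mem_normalizer hHOn hHO hc.1 hc.2
  have hnM : ¬ O ≤ O ⊓ normalizer (H : Set G) := fun h => hnc (h.trans hOM)
  have hrel : (O ⊓ normalizer (H : Set G)).relIndex O ≠ 1 := fun h =>
    hnM (Subgroup.relIndex_eq_one.mp h)
  obtain ⟨q, hq, hqd⟩ := Nat.exists_prime_and_dvd hrel
  have : Fact q.Prime := ⟨hq⟩
  obtain ⟨Q, hQ, hHQ⟩ := Helper35.exists_invariant_sylow hHOn hOc.symm (Or.inr hOsolv) q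
  have hQM : ¬ Q ≤ Q ⊓ normalizer (H : Set G) := by
    intro h
    have h1 : Q ≤ O ⊓ normalizer (H : Set G) := le_inf hQ.1 (h.trans inf_le_right)
    have h2 : Nat.card Q ∣ Nat.card (O ⊓ normalizer (H : Set G) : Subgroup G) :=
      Subgroup.card_dvd_of_le h1
    have h3 : Nat.card (O ⊓ normalizer (H : Set G) : Subgroup G) *
        (O ⊓ normalizer (H : Set G)).relIndex O = Nat.card O :=
      Helper35.card_mul_relIndex_of_le inf_le_left
    have h4 : q ^ ((Nat.card O).factorization q + 1) ∣ Nat.card O := by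
      have h5 : q ^ (Nat.card O).factorization q * q ∣
          Nat.card (O ⊓ normalizer (H : Set G) : Subgroup G) *
            (O ⊓ normalizer (H : Set G)).relIndex O :=
        Nat.mul_dvd_mul (by rw [← hQ.2]; exact h2) hqd
      rw [h3] at h5
      rw [pow_succ]; exact h5
    exact Nat.pow_succ_factorization_not_dvd Nat.card_pos.ne' hq h4
  obtain ⟨F, _, _, C', hC', ⟨e⟩⟩ := exists_frobenius_of_fpf_section (A := H) (Q := Q)
    (C := Q ⊓ normalizer (H : Set G)) (Helper35.isPGroup_of_mem_sylowSet hQ) hHQ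
    (Nat.Coprime.coprime_dvd_right (Subgroup.card_dvd_of_le hQ.1) hOc.symm) hH1 inf_le_left hQM
    (fun c hc a ha => Subgroup.mem_centralizer_iff.mp (hOM ⟨hQ.1 hc.1, hc.2⟩) a ha)
    (fun a ha ha1 y hy hya => ⟨hy, tiH_mem_normalizer hTI ha ha1 (by
      rw [hya, mul_assoc, mul_inv_cancel, mul_one]; exact ha)⟩)
  obtain ⟨N', hN', -, -⟩ := Cfsg.Agent.Helper11.frobenius_kernel_subgroup C' hC'
  have hHsolv : Group.IsSolvable H := tiH3_solvable_of_frob hZ hC' hN' e hno
  have hSyl := sylow_structure_transport e (fun p _ P => frobT_sylow_structure hC' hN' p P)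
  -- a complement `K` of `H` in `N_G(H)`
  have hcopM : (Nat.card (H.subgroupOf (normalizer (H : Set G)))).Coprime
      (H.subgroupOf (normalizer (H : Set G))).index := by
    rw [Helper35.card_subgroupOf_of_le le_normalizer]; exact hHall
  obtain ⟨K', hK'⟩ := Subgroup.exists_right_complement'_of_coprime hcopM
  have hKM : K'.map (normalizer (H : Set G)).subtype ≤ normalizer (H : Set G) :=
    Subgroup.map_subtype_le _
  have hcardK : Nat.card (K'.map (normalizer (H : Set G)).subtype) =
      (H.subgroupOf (normalizer (H : Set G))).index := by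
    rw [Subgroup.card_map_of_injective (Subgroup.subtype_injective _)]
    exact (Helper35.index_eq_card_of_isComplement' hK').symm
  have hKcop : (Nat.card (K'.map (normalizer (H : Set G)).subtype)).Coprime (Nat.card H) := by
    rw [hcardK]; exact hHall.symm
  have hMle : normalizer (H : Set G) ≤ H ⊔ K'.map (normalizer (H : Set G)).subtype := by
    intro m hm
    obtain ⟨n, hn, k, hk, hmk⟩ := Helper35.exists_mul_of_isComplement' hK' ⟨m, hm⟩
    have e' : m = (n : G) * (k : G) := by
      have := congrArg Subtype.val hmk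
      simpa using this
    rw [e']
    exact Subgroup.mul_mem _ (Subgroup.mem_sup_left (Subgroup.mem_subgroupOf.mp hn))
      (Subgroup.mem_sup_right ⟨k, hk, rfl⟩)
  have hKK := tiH3_commutator_le_centralizer hKM hKcop hHsolv hSyl
  have hCle := tiH3_centralizer_le hHall hOn hOc hOmax htop
  have hBn := tiH3_sup_normal hOn htop
  have hBsolv : Group.IsSolvable ↥(O ⊔ H) := isSolvable_sup_of_normal hOsolv hHsolv
  have hsup : (O ⊔ H) ⊔ K'.map (normalizer (H : Set G)).subtype = ⊤ := by
    rw [eq_top_iff, ← htop]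
    refine sup_le (le_sup_left.trans le_sup_left) ?_
    exact hMle.trans (sup_le_sup_right le_sup_right _)
  exact isSolvable_of_sup_of_commutator_le hBsolv hsup (hKK.trans hCle)

/-- **`π`-separable groups with a TI Hall subgroup** (modulo Zassenhaus' theorem). -/
theorem tiH3_main (hZ : ZassHyp.{u}) (H : Subgroup G)
    (hTI : Cfsg.IsTISubset (H : Set G)) (hnn : ¬ H.Normal)
    (hHall : (Nat.card H).Coprime (H.subgroupOf (Subgroup.normalizer (H : Set G))).index)
    (hsep : ∃ (n : ℕ) (M : Fin (n + 1) → Subgroup G), M 0 = ⊥ ∧ M (Fin.last n) = ⊤ ∧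
      Monotone M ∧ (∀ i, (M i).Normal) ∧
      ∀ i : Fin n, (∀ q : ℕ, q.Prime → q ∣ (M i.castSucc).relIndex (M i.succ) → q ∣ Nat.card H) ∨
        ((M i.castSucc).relIndex (M i.succ)).Coprime (Nat.card H))
    (O : Subgroup G)
    (hO : O = sSup {K : Subgroup G | K.Normal ∧ (Nat.card K).Coprime (Nat.card H)}) :
    O ⊔ Subgroup.normalizer (H : Set G) = ⊤ ∧ (O ⊔ H).Normal ∧
    (Group.IsSolvable G ↔ Group.IsSolvable O ∧
      ∀ K : Subgroup G, K ≤ H →
        ¬ Nonempty (K ≃* Matrix.SpecialLinearGroup (Fin 2) (ZMod 5))) := by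
  classical
  have hHcop := tiH_coprime_index hTI hHall
  obtain ⟨hOn, hOc⟩ := sSup_normal_coprime (G := G) (Nat.card H)
  have hOmax : ∀ K : Subgroup G, K.Normal → (Nat.card K).Coprime (Nat.card H) →
      K ≤ sSup {K : Subgroup G | K.Normal ∧ (Nat.card K).Coprime (Nat.card H)} :=
    fun K h1 h2 => le_sSup ⟨h1, h2⟩
  rw [← hO] at hOn hOc hOmax
  have hH1 : H ≠ ⊥ := by
    rintro rfl; exact hnn Subgroup.normal_bot
  obtain ⟨L, hL, hOL, hHL⟩ := tiH_sep_structure hHcop hsep hH1 hOn hOc hOmax
  have hnc := tiH_not_le_centralizer hTI hnn hOn hOc hL hOL hHL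
  have htop := tiH3_sup_normalizer_eq_top hTI hOn hOc hL hOL hHL
  refine ⟨htop, tiH3_sup_normal hOn htop, ?_, ?_⟩
  · intro hsolv
    refine ⟨Group.isSolvable_of_isSolvable_injective (f := O.subtype) O.subtype_injective, ?_⟩
    rintro K - ⟨e⟩
    have hK : Group.IsSolvable K :=
      Group.isSolvable_of_isSolvable_injective (f := K.subtype) K.subtype_injective
    exact sl25_not_isSolvable (Group.isSolvable_of_surjective (f := e.toMonoidHom) e.surjective)
  · rintro ⟨hOsolv, hno⟩
    exact tiH3_isSolvable hZ hTI hH1 hHall hOn hOc hOmax hnc htop hOsolv hno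

end main

end Cfsg.Agent.Helper66
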